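import Mathlib
import Cfsg.Agent.H675.Nd.Base
import Cfsg.Agent.H706.Canon
import Cfsg.Agent.S0886
import Cfsg.Agent.H348.FPF
import Cfsg.Agent.H864.FrobOrder
set_option linter.all false

/-!
# Tools: extensions with cyclic quotients, degrees over invariant characters, duality
-/

set_option autoImplicit false
set_option linter.style.haveILetI false
set_option linter.unusedSectionVars false
open Cfsg

namespace Cfsg.Agent.H675.Nd

open Cfsg.Agent.Characters.Core Cfsg.Agent.Characters.Clifford Cfsg.Agent.H672 Cfsg.Agent.H672.RM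
open Cfsg.Agent.H597.FrobA
open scoped commutatorElement

universe u v w

section top

variable {G : Type u} [Group G] [Finite G] {K T : Subgroup G} [hK : K.Normal]

theorem inertTop {θ : K → ℂ} (hθ : IsIrrCharacter K θ) : Inert K (stab θ) ⊤ θ :=
  ⟨le_top, le_nrm K ⊤, hθ, (top_inf_eq _).symm⟩

theorem over_top_iff {A : Subgroup G} (ψ : (⊤ : Subgroup G) → ℂ) (θ : A → ℂ) :
    Over A.subtype (ψ ∘ (Subgroup.topEquiv (G := G)).symm) θ ↔
      Over (Subgroup.inclusion (le_top : A ≤ ⊤)) ψ θ :=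
  over_congr (Subgroup.topEquiv (G := G)).symm (MulEquiv.refl A) A.subtype _ (fun _ => rfl) ψ θ

theorem isIrr_top {ψ : (⊤ : Subgroup G) → ℂ} (hψ : IsIrrCharacter _ ψ) :
    IsIrrCharacter G (ψ ∘ (Subgroup.topEquiv (G := G)).symm) :=
  isIrr_comp (Subgroup.topEquiv (G := G)).symm.toMonoidHom
    (Subgroup.topEquiv (G := G)).symm.surjective hψ

theorem isIrr_top' {ψ : G → ℂ} (hψ : IsIrrCharacter G ψ) :
    IsIrrCharacter (⊤ : Subgroup G) (ψ ∘ (Subgroup.topEquiv (G := G))) :=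
  isIrr_comp (Subgroup.topEquiv (G := G)).toMonoidHom
    (Subgroup.topEquiv (G := G)).surjective hψ

theorem charDegree_top (ψ : (⊤ : Subgroup G) → ℂ) :
    charDegree (ψ ∘ (Subgroup.topEquiv (G := G)).symm) = charDegree ψ :=
  charDegree_comp_one (Subgroup.topEquiv (G := G)).symm.toMonoidHom ψ

theorem le_stab' {θ : K → ℂ} (hθ : IsIrrCharacter K θ) : K ≤ stab θ :=
  le_stab (isIrr_isClassFunction hθ)

theorem lift_top {θ : K → ℂ} (hθ : IsIrrCharacter K θ) {η : stab θ → ℂ}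
    (hη : IsIrrCharacter (stab θ) η) (ho : Over (Subgroup.inclusion (le_stab' hθ)) η θ) :
    ∃ ψ : G → ℂ, IsIrrCharacter G ψ ∧ Over (stab θ).subtype ψ η ∧ Over K.subtype ψ θ ∧
      charDegree ψ = (stab θ).index * charDegree η := by
  obtain ⟨ψ, h1, h2, h3, h4⟩ := (inertTop hθ).lift hη ho
  refine ⟨_, isIrr_top h1, (over_top_iff ψ η).2 h2, (over_top_iff ψ θ).2 h3, ?_⟩
  rw [charDegree_top, h4, Subgroup.relIndex_top_right]

theorem eta_top {θ : K → ℂ} (hθ : IsIrrCharacter K θ) {ψ : G → ℂ} (hψ : IsIrrCharacter G ψ)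
    (ho : Over K.subtype ψ θ) : ∃ η : stab θ → ℂ, IsIrrCharacter (stab θ) η ∧
      Over (Subgroup.inclusion (le_stab' hθ)) η θ ∧ Over (stab θ).subtype ψ η ∧
      charDegree ψ = (stab θ).index * charDegree η := by
  have e : (ψ ∘ (Subgroup.topEquiv (G := G))) ∘ (Subgroup.topEquiv (G := G)).symm = ψ := by
    funext x; simp
  have h0 : Over (Subgroup.inclusion (le_top : K ≤ ⊤)) (ψ ∘ (Subgroup.topEquiv (G := G))) θ := by
    rw [← over_top_iff]
    change Over K.subtype ((ψ ∘ (Subgroup.topEquiv (G := G))) ∘ (Subgroup.topEquiv (G := G)).symm) θ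
    rw [e]
    exact ho
  obtain ⟨η, h1, h2, h3, h4⟩ := (inertTop hθ).exists_eta (isIrr_top' hψ) h0
  refine ⟨η, h1, h2, ?_, ?_⟩
  · have := (over_top_iff (ψ ∘ (Subgroup.topEquiv (G := G))) η).2 h3
    change Over (stab θ).subtype
      ((ψ ∘ (Subgroup.topEquiv (G := G))) ∘ (Subgroup.topEquiv (G := G)).symm) η at this
    rwa [e] at this
  · have h5 : charDegree (ψ ∘ (Subgroup.topEquiv (G := G))) = charDegree ψ :=
      charDegree_comp_one (Subgroup.topEquiv (G := G)).toMonoidHom ψ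
    rw [← h5, h4, Subgroup.relIndex_top_right]

theorem over_of_ext {A B : Subgroup G} (hAB : A ≤ B) {θ : A → ℂ} (hθ : IsIrrCharacter A θ)
    {χ : B → ℂ} (hext : ∀ k : A, χ (Subgroup.inclusion hAB k) = θ k) :
    Over (Subgroup.inclusion hAB) χ θ := by
  classical
  letI := Fintype.ofFinite A
  rw [over_iff]
  have e : χ ∘ Subgroup.inclusion hAB = θ := funext hext
  rw [e, classInner_irr_self hθ]
  exact one_ne_zero

theorem charDegree_ext {A B : Subgroup G} (hAB : A ≤ B) {θ : A → ℂ} {χ : B → ℂ}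
    (hext : ∀ k : A, χ (Subgroup.inclusion hAB k) = θ k) : charDegree χ = charDegree θ := by
  have e : χ ∘ Subgroup.inclusion hAB = θ := funext hext
  rw [← e]
  exact (charDegree_comp_one (Subgroup.inclusion hAB) χ).symm

/-- **Degrees over an extendible character**, under the antichain condition. -/
theorem GT (ha : Anti G) {θ : K → ℂ} (hθ : IsIrrCharacter K θ) {χ : stab θ → ℂ}
    (hχ : IsIrrCharacter (stab θ) χ) (hext : ∀ k : K, χ (Subgroup.inclusion (le_stab' hθ) k) = θ k)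
    (h1 : (stab θ).index * charDegree θ ≠ 1) :
    (∃ ψ : G → ℂ, IsIrrCharacter G ψ ∧ Over K.subtype ψ θ ∧
      charDegree ψ = (stab θ).index * charDegree θ) ∧
    (∀ ψ : G → ℂ, IsIrrCharacter G ψ → Over K.subtype ψ θ →
      charDegree ψ = (stab θ).index * charDegree θ) ∧ ⁅stab θ, stab θ⁆ ≤ K := by
  have hd := charDegree_ext (le_stab' hθ) hext
  obtain ⟨ψ₀, hψ₀, -, ho₀, hd₀⟩ := lift_top hθ hχ (over_of_ext (le_stab' hθ) hθ hext)
  rw [hd] at hd₀
  have hg := gal (le_stab' hθ) (le_nrm K _) hθ hχ hext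
  refine ⟨⟨ψ₀, hψ₀, ho₀, hd₀⟩, ?_, ?_⟩
  · intro ψ hψ ho
    obtain ⟨η, hη, hηθ, -, hdψ⟩ := eta_top hθ hψ ho
    obtain ⟨β, ⟨hβ, hβK⟩, hβη⟩ := hg.surjOn ⟨hη, hηθ⟩
    have hβη' : β * χ = η := hβη
    have h2 : charDegree ψ = charDegree ψ₀ * charDegree β := by
      rw [hdψ, hd₀, ← hβη', H597.FrobC.charDegree_mul hχ hβ, hd]
      ring
    rw [← hd₀]
    exact (ha ψ₀ ψ hψ₀ hψ (by rw [hd₀]; exact h1) (by rw [h2]; exact dvd_mul_right _ _)).symm
  · by_contra hna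
    obtain ⟨β, hβ, hβK, hβ1⟩ := exists_nonlin (le_stab' hθ) (le_nrm K _) hna
    have hg2 : IsIrrCharacter (stab θ) (β * χ) ∧
        Over (Subgroup.inclusion (le_stab' hθ)) (β * χ) θ := hg.mapsTo ⟨hβ, hβK⟩
    obtain ⟨ψ, hψ, -, ho, hdψ⟩ := lift_top hθ hg2.1 hg2.2
    rw [H597.FrobC.charDegree_mul hχ hβ, hd] at hdψ
    have h2 : charDegree ψ = charDegree ψ₀ * charDegree β := by
      rw [hdψ, hd₀]; ring
    have h3 := ha ψ₀ ψ hψ₀ hψ (by rw [hd₀]; exact h1) (by rw [h2]; exact dvd_mul_right _ _)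
    rw [h2] at h3
    apply hβ1
    exact Nat.eq_of_mul_eq_mul_left (charDegree_pos hψ₀) (by rw [← h3, mul_one])

end top

section ext

variable {G : Type u} [Group G] [Finite G] {K M T N : Subgroup G}

/-- The canonical extension. -/
theorem exists_canon (hKM : K ≤ M) {θ : K → ℂ} (hθ : IsIrrCharacter K θ) (hM : M ≤ stab θ)
    (hcop : (Nat.card K).Coprime (K.relIndex M)) :
    ∃ χ : M → ℂ, IsIrrCharacter M χ ∧ (∀ k : K, χ (Subgroup.inclusion hKM k) = θ k) ∧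
      ∀ t ∈ stab θ, t ∈ Subgroup.normalizer (M : Set G) → tw M t χ = χ := by
  classical
  haveI hn := normal_subgroupOf (hM.trans (stab_le θ))
  let e := Subgroup.subgroupOfEquivOfLe hKM
  have hθ' : IsIrrCharacter (K.subgroupOf M) (θ ∘ e) := isIrr_sub hKM hθ
  have hcard : Nat.card (K.subgroupOf M) = Nat.card K := Nat.card_congr e.toEquiv
  have hdeg : (θ ∘ e) 1 = charDegree θ := by
    rw [coe_charDegree hθ]
    simp [e]
  have hd1 : charDegree θ ∣ Nat.card K := degree_dvd_card hθ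
  have hd2 : detOrder (θ ∘ e) ∣ Nat.card K := by
    rw [← hcard]
    exact H706.Canon.detOrder_dvd hθ'
  have hcop1 : Nat.Coprime (K.subgroupOf M).index (detOrder (θ ∘ e)) :=
    hcop.symm.coprime_dvd_right hd2
  obtain ⟨χ, ⟨hχ, hχ', hdet⟩, huniq⟩ := Cfsg.Agent.S0867.result (K.subgroupOf M) (θ ∘ e) hθ'
    (fun g n => by
      have h1 := tw_apply' (hM g.2).1 θ (e n)
        (e ⟨g * n * g⁻¹, hn.conj_mem (n : M) n.2 g⟩) (by simp [e])
      rw [(hM g.2).2] at h1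
      exact h1.symm) (charDegree θ) hdeg (by
      have h1 : (K.subgroupOf M).index = K.relIndex M := rfl
      rw [h1]
      exact Nat.Coprime.mul_right hcop1 (hcop.symm.coprime_dvd_right hd1))
  have hres : ∀ k : K, χ (Subgroup.inclusion hKM k) = θ k := by
    intro k
    have h1 := hχ' (e.symm k)
    have h2 : ((e.symm k : K.subgroupOf M) : M) = Subgroup.inclusion hKM k := rfl
    rw [h2] at h1
    rw [h1]
    simp
  refine ⟨χ, hχ, hres, fun t ht htM => ?_⟩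
  apply huniq
  · exact isIrr_tw htM hχ
  · intro n
    rw [tw_apply htM]
    have hm : t * (n : M) * t⁻¹ ∈ K := conj_mem_of_mem ht.1 ⟨_, n.2⟩
    have h1 := hres ⟨t * (n : M) * t⁻¹, hm⟩
    have h2 := congrFun ht.2 (e n)
    rw [tw_apply ht.1] at h2
    refine Eq.trans ?_ h2
    exact h1
  · rw [tw_eq_comp htM]
    have h3 : detOrder (χ ∘ cj htM) = detOrder χ := H706.Canon.detOrder_comp hχ (cj htM)
    rw [h3, hdet]
    exact hcop1

theorem cyc_sub [hN : N.Normal] (hc : IsCyclic (G ⧸ N)) {M T : Subgroup G}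
    [hM : (M.subgroupOf T).Normal] (h : ∀ t ∈ T, t ∈ M ↔ t ∈ N) :
    IsCyclic (T ⧸ M.subgroupOf T) := by
  let f : T ⧸ M.subgroupOf T →* G ⧸ N := QuotientGroup.lift _ ((QuotientGroup.mk' N).comp T.subtype)
    (by
      intro t ht
      rw [Subgroup.mem_subgroupOf] at ht
      exact (QuotientGroup.eq_one_iff (t : G)).2 ((h t t.2).1 ht))
  refine isCyclic_of_injective f ?_
  rw [injective_iff_map_eq_one]
  intro q hq
  obtain ⟨t, rfl⟩ := QuotientGroup.mk_surjective q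
  have h1 : QuotientGroup.mk' N (t : G) = 1 := hq
  rw [QuotientGroup.mk'_apply, QuotientGroup.eq_one_iff] at h1
  rw [QuotientGroup.eq_one_iff, Subgroup.mem_subgroupOf]
  exact (h t t.2).2 h1

/-- Extension of an invariant character, cyclic quotient. -/
theorem ext_cyc (hMT : M ≤ T)
    [hN : N.Normal] (hc : IsCyclic (G ⧸ N)) (h : ∀ t ∈ T, t ∈ M ↔ t ∈ N) {χ : M → ℂ}
    (hχ : IsIrrCharacter M χ) (hT : T ≤ stab χ) :
    ∃ ψ : T → ℂ, IsIrrCharacter T ψ ∧ ∀ k : M, ψ (Subgroup.inclusion hMT k) = χ k := by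
  classical
  haveI hn := normal_subgroupOf (hT.trans (stab_le χ))
  let e := Subgroup.subgroupOfEquivOfLe hMT
  obtain ⟨ψ, hψ, hψ'⟩ := Cfsg.Agent.S0886.result (M.subgroupOf T) (cyc_sub hc h) (χ ∘ e)
    (isIrr_sub hMT hχ) (fun g n => by
      have h1 := tw_apply' (hT g.2).1 χ (e n)
        (e ⟨g * n * g⁻¹, hn.conj_mem (n : T) n.2 g⟩) (by simp [e])
      rw [(hT g.2).2] at h1
      exact h1.symm)
  refine ⟨ψ, hψ, fun k => ?_⟩
  have h1 := hψ' (e.symm k)
  have h2 : ((e.symm k : M.subgroupOf T) : T) = Subgroup.inclusion hMT k := rfl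
  rw [h2] at h1
  rw [h1]
  simp

/-- Extension of an invariant character of `K` to `T`, `K ≤ N`, `|K|` prime to `|N ∩ T : K|`,
`G / N` cyclic. -/
theorem exists_ext_cyc [hN : N.Normal] (hc : IsCyclic (G ⧸ N)) (hKN : K ≤ N) (hKT : K ≤ T)
    {θ : K → ℂ} (hθ : IsIrrCharacter K θ) (hT : T ≤ stab θ)
    (hcop : (Nat.card K).Coprime (K.relIndex (N ⊓ T))) :
    ∃ χ : T → ℂ, IsIrrCharacter T χ ∧ ∀ k : K, χ (Subgroup.inclusion hKT k) = θ k := by
  obtain ⟨χ, hχ, hχθ, hinv⟩ := exists_canon (le_inf hKN hKT) hθ (inf_le_right.trans hT) hcop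
  have hst : T ≤ stab χ := by
    intro t ht
    have hn : t ∈ Subgroup.normalizer ((N ⊓ T : Subgroup G) : Set G) := by
      rw [Subgroup.mem_normalizer_iff]
      intro s
      constructor
      · rintro ⟨h1, h2⟩
        exact ⟨hN.conj_mem s h1 t, T.mul_mem (T.mul_mem ht h2) (T.inv_mem ht)⟩
      · rintro ⟨h1, h2⟩
        have h3 := hN.conj_mem _ h1 t⁻¹
        have h4 := T.mul_mem (T.mul_mem (T.inv_mem ht) h2) ht
        have e : t⁻¹ * (t * s * t⁻¹) * t = s := by group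
        rw [e] at h4
        have e' : t⁻¹ * (t * s * t⁻¹) * t⁻¹⁻¹ = s := by group
        rw [e'] at h3
        exact ⟨h3, h4⟩
    exact ⟨hn, hinv t (hT ht) hn⟩
  obtain ⟨ψ, hψ, hψχ⟩ := ext_cyc (inf_le_right : N ⊓ T ≤ T) hc
    (fun t ht => ⟨fun h => h.1, fun h => ⟨h, ht⟩⟩) hχ hst
  refine ⟨ψ, hψ, fun k => ?_⟩
  rw [← hχθ k, ← hψχ]
  rfl

end ext

section TR

variable {G : Type u} [Group G] {K : Subgroup G} [hK : K.Normal]

theorem lin_inv_inv (l : K →* ℂˣ) : (l⁻¹)⁻¹ = l := by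
  apply MonoidHom.ext
  intro j
  exact inv_inv (l j)

theorem lin_mul_inv_eq_one {l m : K →* ℂˣ} (h : l * m⁻¹ = 1) : l = m := by
  apply MonoidHom.ext
  intro j
  have := DFunLike.congr_fun h j
  change l j * (m j)⁻¹ = 1 at this
  exact mul_inv_eq_one.1 this

/-- **Stabilizers of linear characters and commuting elements.** -/
theorem stab_of_comm (Λ : Subgroup (K →* ℂˣ)) (hΛ : ∀ g : G, ∀ l ∈ Λ, cl g l ∈ Λ)
    (hle : ∀ l ∈ Λ, ∀ m ∈ Λ, l ≠ 1 → m ≠ 1 → stab (lf l : K → ℂ) ≤ stab (lf m : K → ℂ) →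
      stab (lf l : K → ℂ) = stab (lf m : K → ℂ))
    {l m : K →* ℂˣ} (hl : l ∈ Λ) (hm : m ∈ Λ) (hl1 : l ≠ 1) (hm1 : m ≠ 1) {t : G}
    (ht : t ∈ stab (lf l : K → ℂ)) (hc : ∀ g : G, ∀ κ ∈ Λ, cl (t * g) κ = cl (g * t) κ) :
    t ∈ stab (lf m : K → ℂ) := by
  by_contra htm
  have ht' := mem_stab_iff.1 ht
  have hκ1 : cl t m * m⁻¹ ≠ 1 := fun e => htm (mem_stab_iff.2 (lin_mul_inv_eq_one e))
  have hdiff : ∀ m' ∈ Λ, stab (lf m' : K → ℂ) ≤ stab (lf (cl t m' * m'⁻¹) : K → ℂ) := by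
    intro m' hm' g hg
    rw [mem_stab_iff] at hg ⊢
    rw [cl_hmul, cl_hinv, hg, ← cl_mul, hc g m' hm', cl_mul, hg]
  have hκ : cl t m * m⁻¹ ∈ Λ := Λ.mul_mem (hΛ t m hm) (Λ.inv_mem hm)
  have h2 := hle _ hm _ hκ hm1 hκ1 (hdiff m hm)
  by_cases hν : l * m = 1
  · apply htm
    have e : m = l⁻¹ := by
      apply MonoidHom.ext
      intro j
      have := DFunLike.congr_fun hν j
      rw [MonoidHom.mul_apply, MonoidHom.one_apply] at this
      exact eq_inv_of_mul_eq_one_right this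
    rw [e, mem_stab_iff, cl_hinv, ht']
  · have hνΛ : l * m ∈ Λ := Λ.mul_mem hl hm
    have h3 := hdiff (l * m) hνΛ
    have e : cl t (l * m) * (l * m)⁻¹ = cl t m * m⁻¹ := by
      apply MonoidHom.ext
      intro j
      have e1 := DFunLike.congr_fun ht' j
      change cl t l j * cl t m j * (l j * m j)⁻¹ = cl t m j * (m j)⁻¹
      rw [e1, mul_inv, mul_mul_mul_comm, mul_inv_cancel, one_mul]
    rw [e] at h3
    have h4 := hle _ hνΛ _ hκ hν hκ1 h3
    have h5 : stab (lf m : K → ℂ) ≤ stab (lf l : K → ℂ) := by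
      intro n hn
      have h6 := mem_stab_iff.1 hn
      rw [h2, ← h4] at hn
      have h7 := mem_stab_iff.1 hn
      rw [mem_stab_iff]
      rw [cl_hmul, h6] at h7
      exact mul_right_cancel h7
    have h6 := hle _ hm _ hl hm1 hl1 h5
    exact htm (h6 ▸ ht)

end TR

section cyc

variable {G : Type u} [Group G] {N : Subgroup G} [hN : N.Normal]

/-- A generator of `G` modulo `N`. -/
theorem exists_gen (hc : IsCyclic (G ⧸ N)) : ∃ y : G, (∀ g : G, ∃ (k : ℤ) (n : G), n ∈ N ∧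
    g = y ^ k * n) := by
  obtain ⟨q, hq⟩ := hc.exists_generator
  obtain ⟨y, rfl⟩ := QuotientGroup.mk_surjective q
  refine ⟨y, fun g => ?_⟩
  obtain ⟨k, hk⟩ := Subgroup.mem_zpowers_iff.1 (hq (g : G ⧸ N))
  rw [← QuotientGroup.mk_zpow, QuotientGroup.eq] at hk
  exact ⟨k, (y ^ k)⁻¹ * g, hk, by group⟩

theorem gen_top {y : G} (hy : ∀ g : G, ∃ (k : ℤ) (n : G), n ∈ N ∧ g = y ^ k * n)
    {S : Subgroup G} (hNS : N ≤ S) (hyS : y ∈ S) (g : G) : g ∈ S := by
  obtain ⟨k, n, hn, rfl⟩ := hy g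
  exact S.mul_mem (S.zpow_mem hyS k) (hNS hn)

theorem cyc_comm (hc : IsCyclic (G ⧸ N)) (a b : G) : ⁅a, b⁆ ∈ N := by
  rw [← QuotientGroup.eq_one_iff]
  change QuotientGroup.mk' N ⁅a, b⁆ = 1
  rw [map_commutatorElement, commutatorElement_eq_one_iff_mul_comm]
  letI := hc.commGroup
  exact mul_comm _ _

end cyc

section zlem

variable {G : Type u} [Group G] [Finite G] {N K : Subgroup G} [hN : N.Normal] [hK : K.Normal]

/-- linear characters trivial on `K` -/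
def LK (N K : Subgroup G) : Subgroup (N →* ℂˣ) where
  carrier := {l | ∀ (k : G) (hN : k ∈ N), k ∈ K → l ⟨k, hN⟩ = 1}
  one_mem' := fun _ _ _ => rfl
  mul_mem' := fun {a b} ha hb k hk hk' => by
    rw [MonoidHom.mul_apply, ha k hk hk', hb k hk hk', one_mul]
  inv_mem' := fun {a} ha k hk hk' => by
    change (a ⟨k, hk⟩)⁻¹ = 1
    rw [ha k hk hk', inv_one]

theorem mem_LK {l : N →* ℂˣ} : l ∈ LK N K ↔ ∀ (k : G) (hN : k ∈ N), k ∈ K → l ⟨k, hN⟩ = 1 :=
  Iff.rfl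

theorem cl_mem_LK (g : G) {l : N →* ℂˣ} (hl : l ∈ LK N K) : cl g l ∈ LK N K := by
  intro k hk hkK
  rw [cl_apply]
  exact hl _ _ (hK.conj_mem k hkK g)

/-- the difference map -/
def Df (g : G) : (N →* ℂˣ) →* (N →* ℂˣ) where
  toFun l := cl g l * l⁻¹
  map_one' := by
    apply MonoidHom.ext
    intro j
    change (1 : ℂˣ) * (1 : ℂˣ)⁻¹ = 1
    rw [inv_one, one_mul]
  map_mul' := fun l m => by
    apply MonoidHom.ext
    intro j
    change cl g l j * cl g m j * (l j * m j)⁻¹ = cl g l j * (l j)⁻¹ * (cl g m j * (m j)⁻¹)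
    rw [mul_inv, mul_mul_mul_comm]

theorem Df_apply (g : G) (l : N →* ℂˣ) : Df g l = cl g l * l⁻¹ := rfl

theorem Df_eq_one {g : G} {l : N →* ℂˣ} : Df g l = 1 ↔ cl g l = l := by
  constructor
  · exact lin_mul_inv_eq_one
  · intro h
    rw [Df_apply, h]
    apply MonoidHom.ext
    intro j
    change l j * (l j)⁻¹ = 1
    rw [mul_inv_cancel]

theorem Df_val {g : G} {l : N →* ℂˣ} {n : G} (hn : n ∈ N) :
    Df g l ⟨n, hn⟩ = l ⟨g * n * g⁻¹ * n⁻¹, N.mul_mem (hN.conj_mem n hn g) (N.inv_mem hn)⟩ := by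
  change cl g l ⟨n, hn⟩ * (l ⟨n, hn⟩)⁻¹ = _
  rw [cl_apply, ← map_inv, ← map_mul]
  rfl

/-- The group of elements `g` with `l ^ g l⁻¹` in a given invariant subgroup. -/
def DfGrp (Λ I : Subgroup (N →* ℂˣ)) (hΛ : ∀ g : G, ∀ l ∈ Λ, cl g l ∈ Λ) : Subgroup G where
  carrier := {g | ∀ l ∈ Λ, Df g l ∈ I}
  one_mem' := fun l _ => by
    rw [Df_eq_one.2 (cl_one l)]
    exact I.one_mem
  mul_mem' := fun {a b} ha hb l hl => by
    have e : Df (a * b) l = Df b (cl a l) * Df a l := by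
      apply MonoidHom.ext
      intro j
      change cl (a * b) l j * (l j)⁻¹ = cl b (cl a l) j * (cl a l j)⁻¹ * (cl a l j * (l j)⁻¹)
      rw [cl_mul, mul_assoc, inv_mul_cancel_left]
    rw [e]
    exact I.mul_mem (hb _ (hΛ a l hl)) (ha l hl)
  inv_mem' := fun {a} ha l hl => by
    have e : Df a⁻¹ l = (Df a (cl a⁻¹ l))⁻¹ := by
      apply MonoidHom.ext
      intro j
      change cl a⁻¹ l j * (l j)⁻¹ = (cl a (cl a⁻¹ l) j * (cl a⁻¹ l j)⁻¹)⁻¹
      rw [← cl_mul, inv_mul_cancel, cl_one, mul_inv, inv_inv, mul_comm]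
    rw [e]
    exact I.inv_mem (ha _ (hΛ a⁻¹ l hl))

theorem exists_LK_ne (hKN : K ≤ N) (hab : ⁅N, N⁆ ≤ K) {x : G} (hx : x ∈ N) (hxK : x ∉ K) :
    ∃ l ∈ LK N K, l ⟨x, hx⟩ ≠ 1 := by
  obtain ⟨β, hβ, hβ'⟩ := exists_lin_ne (x := (⟨x, hx⟩ : N)) hKN hab hxK
  exact ⟨β, fun k hk hkK => hβ ⟨k, hkK⟩, hβ'⟩

/-- **Centrality from one element.** -/
theorem zlem (hKN : K ≤ N) (hab : ⁅N, N⁆ ≤ K) (hcyc : IsCyclic (G ⧸ N))
    (hfix : ∀ l ∈ LK N K, ∀ g ∉ N, cl g l = l → ∀ g' : G, cl g' l = l)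
    {n g : G} (hn : n ∈ N) (hg : g ∉ N) (h : n * g * n⁻¹ * g⁻¹ ∈ K) :
    ∀ g' : G, n * g' * n⁻¹ * g'⁻¹ ∈ K := by
  classical
  haveI := finite_lin N
  obtain ⟨y, hy⟩ := exists_gen hcyc
  have hyN : y ∉ N := fun h' => hg (gen_top hy le_rfl h' g)
  let D : G → (LK N K) →* (N →* ℂˣ) := fun g => (Df g).comp (LK N K).subtype
  have hD : ∀ (g : G) (l : LK N K), D g l = Df g (l : N →* ℂˣ) := fun _ _ => rfl
  have hker : ∀ g ∉ N, (D g).ker = (D y).ker := by
    intro g hg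
    ext l
    rw [MonoidHom.mem_ker, MonoidHom.mem_ker, hD, hD, Df_eq_one, Df_eq_one]
    exact ⟨fun h => hfix l l.2 g hg h y, fun h => hfix l l.2 y hyN h g⟩
  have hle : (D g).range ≤ (D y).range := by
    have h1 : g ∈ DfGrp (LK N K) (D y).range (fun g l hl => cl_mem_LK g hl) := by
      refine gen_top hy ?_ ?_ g
      · intro n hn l hl
        have e : Df n l = 1 := by
          rw [Df_eq_one]
          apply MonoidHom.ext
          intro j
          rw [cl_apply]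
          have e : (⟨n * j * n⁻¹, hN.conj_mem j j.2 n⟩ : N) = ⟨n, hn⟩ * j * ⟨n, hn⟩⁻¹ := rfl
          rw [e, map_mul, map_mul, map_inv, mul_right_comm, mul_inv_cancel, one_mul]
        rw [e]
        exact Subgroup.one_mem _
      · intro l hl
        exact ⟨⟨l, hl⟩, rfl⟩
    rintro _ ⟨l, rfl⟩
    exact h1 l l.2
  have heq : (D g).range = (D y).range := by
    refine Subgroup.eq_of_le_of_card_ge hle ?_
    rw [← Subgroup.index_ker, ← Subgroup.index_ker, hker g hg]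
  have h1 : ∀ l ∈ LK N K, Df y l ⟨n, hn⟩ = 1 := by
    intro l hl
    have h2 : Df y l ∈ (D g).range := by rw [heq]; exact ⟨⟨l, hl⟩, rfl⟩
    obtain ⟨m, hm⟩ := h2
    rw [← hm, hD, Df_val hn]
    refine m.2 _ _ ?_
    have h3 := K.inv_mem h
    have e : (n * g * n⁻¹ * g⁻¹)⁻¹ = g * n * g⁻¹ * n⁻¹ := by group
    rwa [e] at h3
  let S : Subgroup G :=
    { carrier := {g' | n * g' * n⁻¹ * g'⁻¹ ∈ K}
      one_mem' := by
        change n * 1 * n⁻¹ * 1⁻¹ ∈ K
        simp [K.one_mem]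
      mul_mem' := fun {a b} ha hb => by
        change n * a * n⁻¹ * a⁻¹ ∈ K at ha
        change n * b * n⁻¹ * b⁻¹ ∈ K at hb
        change n * (a * b) * n⁻¹ * (a * b)⁻¹ ∈ K
        have e : n * (a * b) * n⁻¹ * (a * b)⁻¹ =
            (n * a * n⁻¹ * a⁻¹) * (a * (n * b * n⁻¹ * b⁻¹) * a⁻¹) := by group
        rw [e]
        exact K.mul_mem ha (hK.conj_mem _ hb a)
      inv_mem' := fun {a} ha => by
        change n * a * n⁻¹ * a⁻¹ ∈ K at ha
        change n * a⁻¹ * n⁻¹ * a⁻¹⁻¹ ∈ K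
        have e : n * a⁻¹ * n⁻¹ * a⁻¹⁻¹ = a⁻¹ * (n * a * n⁻¹ * a⁻¹)⁻¹ * a⁻¹⁻¹ := by group
        rw [e]
        exact hK.conj_mem _ (K.inv_mem ha) a⁻¹ }
  intro g'
  have hS : g' ∈ S := by
    refine gen_top hy ?_ ?_ g'
    · intro m hm
      have h2 := hab (Subgroup.commutator_mem_commutator hn hm)
      rwa [commutatorElement_def] at h2
    · change n * y * n⁻¹ * y⁻¹ ∈ K
      by_contra hcon
      have hmem : y * n * y⁻¹ * n⁻¹ ∈ N := N.mul_mem (hN.conj_mem n hn y) (N.inv_mem hn)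
      obtain ⟨l, hl, hl'⟩ := exists_LK_ne hKN hab hmem (fun h2 => hcon (by
        have h3 := K.inv_mem h2
        have e : (y * n * y⁻¹ * n⁻¹)⁻¹ = n * y * n⁻¹ * y⁻¹ := by group
        rwa [e] at h3))
      apply hl'
      rw [← Df_val hn]
      exact h1 l hl
  exact hS

end zlem

end Cfsg.Agent.H675.Nd
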