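import Mathlib
import Cfsg.Agent.H675.Nd.Tools
import Cfsg.Agent.H566.Glaub
import Cfsg.Agent.H594.GlauUp
import Cfsg.Agent.OddOrderCharacters.PF9.GaloisClifford
set_option linter.all false

-- part: H675/Nd/Tools2
section
/-!
# Tools: fixed-point-free actions, duality, a fixed point lemma
-/

set_option autoImplicit false
set_option linter.style.haveILetI false
set_option linter.unusedSectionVars false
open Cfsg

namespace Cfsg.Agent.H675.Nd

open Cfsg.Agent.Characters.Core Cfsg.Agent.Characters.Clifford Cfsg.Agent.H672 Cfsg.Agent.H672.RM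
open Cfsg.Agent.H597.FrobA
open scoped commutatorElement

universe u v w

theorem hasFPF_of {A : Type v} [Group A] (V : Type u) [CommGroup V] [Finite V] [Nontrivial V]
    (φ : A →* MulAut V) (h : ∀ a : A, a ≠ 1 → ∀ v : V, φ a v = v → v = 1) : H348.HasFPF A := by
  haveI : Small.{0} V := Countable.toSmall V
  let E : Shrink.{0} V ≃* V := Shrink.mulEquiv
  haveI : Nontrivial (Shrink.{0} V) := E.toEquiv.nontrivial
  haveI : Finite (Shrink.{0} V) := Finite.of_equiv V E.toEquiv.symm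
  refine ⟨Shrink.{0} V, inferInstance, inferInstance, inferInstance,
    (MulAut.congr E.symm).toMonoidHom.comp φ, fun a ha v hv => ?_⟩
  have h1 : E.symm (φ a (E v)) = v := hv
  have h2 := h a ha (E v) (by rw [← E.symm_apply_eq]; exact h1)
  exact E.injective (h2.trans (map_one E).symm)

section frobq

variable {G : Type u} [Group G] [Finite G] {K N : Subgroup G} [hK : K.Normal] [hN : N.Normal]
  {r : ℕ}

/-- `G / N` is cyclic. -/
theorem cyc_of_frobQ (hF : FrobQ K N r) : IsCyclic (G ⧸ N) := by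
  let π := QuotientGroup.mk' K
  have hπ : Function.Surjective π := QuotientGroup.mk'_surjective K
  let V : Subgroup (G ⧸ K) := N.map π
  haveI hV : V.Normal := Subgroup.Normal.map hN π hπ
  have hcV : ∀ a b : V, a * b = b * a := by
    rintro ⟨_, a, ha, rfl⟩ ⟨_, b, hb, rfl⟩
    apply Subtype.ext
    change π a * π b = π b * π a
    have h1 := hF.comm (Subgroup.commutator_mem_commutator ha hb)
    rw [← QuotientGroup.eq_one_iff] at h1
    change π ⁅a, b⁆ = 1 at h1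
    rw [map_commutatorElement, commutatorElement_eq_one_iff_mul_comm] at h1
    exact h1
  letI : CommGroup V := { (inferInstance : Group V) with mul_comm := hcV }
  haveI : Nontrivial V := by
    rw [Subgroup.nontrivial_iff_ne_bot]
    intro h
    rw [Subgroup.map_eq_bot_iff, QuotientGroup.ker_mk'] at h
    exact hF.lt.not_ge h
  let φ0 : G →* MulAut V := (MulAut.conjNormal (H := V)).comp π
  have hφ0 : ∀ (g : G) (v : V), ((φ0 g v : V) : G ⧸ K) = π g * v * (π g)⁻¹ := fun g v => rfl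
  let φ : G ⧸ N →* MulAut V := QuotientGroup.lift N φ0 (by
    intro n hn
    apply MulEquiv.ext
    intro v
    apply Subtype.ext
    rw [hφ0]
    have h1 : (⟨π n, n, hn, rfl⟩ : V) * v = v * ⟨π n, n, hn, rfl⟩ := hcV _ _
    have h2 : π n * v = v * π n := congrArg Subtype.val h1
    rw [h2, mul_inv_cancel_right]
    rfl)
  have hF' : H348.HasFPF (G ⧸ N) := by
    refine hasFPF_of V φ ?_
    intro a ha v hv
    obtain ⟨g, rfl⟩ := QuotientGroup.mk_surjective a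
    have hg : g ∉ N := fun h => ha ((QuotientGroup.eq_one_iff g).2 h)
    obtain ⟨_, n, hn, rfl⟩ := v
    have h1 : π g * π n * (π g)⁻¹ = π n := congrArg Subtype.val hv
    have h2 : g * n * g⁻¹ * n⁻¹ ∈ K := by
      rw [← QuotientGroup.eq_one_iff]
      change π (g * n * g⁻¹ * n⁻¹) = 1
      rw [map_mul, map_mul, map_mul, map_inv, map_inv, h1, mul_inv_cancel]
    have h3 := hF.fpf g hg n hn h2
    exact Subtype.ext ((QuotientGroup.eq_one_iff n).2 h3)
  refine hF'.isCyclic ?_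
  intro a b
  obtain ⟨a, rfl⟩ := QuotientGroup.mk_surjective a
  obtain ⟨b, rfl⟩ := QuotientGroup.mk_surjective b
  have h1 : ⁅a, b⁆ ∈ N := hF.le (by
    rw [_root_.commutator_def]
    exact Subgroup.commutator_mem_commutator (Subgroup.mem_top a) (Subgroup.mem_top b))
  rw [← QuotientGroup.eq_one_iff] at h1
  change QuotientGroup.mk' N ⁅a, b⁆ = 1 at h1
  rw [map_commutatorElement, commutatorElement_eq_one_iff_mul_comm] at h1
  exact h1

end frobq

section dual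

theorem card_hom_eq (Q : Type u) [CommGroup Q] [Finite Q] : Nat.card (Q →* ℂˣ) = Nat.card Q :=
  CommGroup.card_monoidHom_of_hasEnoughRootsOfUnity Q ℂ

theorem index_ker_le {A : Type u} {B : Type v} [Group A] [Group B] [Finite A] [Finite B]
    (φ : A →* (B →* ℂˣ)) : φ.ker.index ≤ φ.flip.ker.index := by
  haveI := finite_lin A
  haveI := finite_lin B
  let E : A →* (φ.flip.range →* ℂˣ) :=
    { toFun := fun a =>
        { toFun := fun q => (q : A →* ℂˣ) a
          map_one' := rfl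
          map_mul' := fun _ _ => rfl }
      map_one' := by
        apply MonoidHom.ext
        intro q
        exact map_one (q : A →* ℂˣ)
      map_mul' := fun a a' => by
        apply MonoidHom.ext
        intro q
        exact map_mul (q : A →* ℂˣ) a a' }
  have hE : E.ker = φ.ker := by
    ext a
    rw [MonoidHom.mem_ker, MonoidHom.mem_ker]
    constructor
    · intro h
      apply MonoidHom.ext
      intro b
      exact DFunLike.congr_fun h ⟨φ.flip b, b, rfl⟩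
    · intro h
      apply MonoidHom.ext
      rintro ⟨_, b, rfl⟩
      exact DFunLike.congr_fun h b
  haveI := finite_lin (φ.flip.range)
  rw [← hE, Subgroup.index_ker, Subgroup.index_ker, ← card_hom_eq (φ.flip.range)]
  exact Subgroup.card_le_card_group _

/-- **Duality**: the two kernels of a bimultiplicative map have the same index. -/
theorem card_pair {A : Type u} {B : Type v} [Group A] [Group B] [Finite A] [Finite B]
    (φ : A →* (B →* ℂˣ)) : φ.ker.index = φ.flip.ker.index := by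
  refine le_antisymm (index_ker_le φ) ?_
  have h := index_ker_le φ.flip
  have e : φ.flip.flip = φ := rfl
  rwa [e] at h

end dual

section frobfix

open Cfsg.Agent.H522 Cfsg.Agent.H864.FrobOrder

/-- Fixed points of a Frobenius group of automorphisms. -/
theorem frob_abs {G : Type u} {V : Type v} [Group G] [CommGroup V] [Finite V]
    [MulDistribMulAction G V] {x t : G} {p M : ℕ} (hp : p.Prime)
    (hx : ∀ v : V, x ^ p • v = v) (hxf : ∀ v : V, x • v = v → v = 1)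
    (ht : ∀ v : V, t ^ M • v = v) (hn : ∃ k : ℕ, ∀ v : V, (t * x) • v = (x ^ k * t) • v)
    (hc : ∀ i j : ℕ, ¬ M ∣ i → (∀ v : V, (t ^ i * x ^ j) • v = (x ^ j * t ^ i) • v) → p ∣ j) :
    Nat.card V = Nat.card {v : V // t • v = v} ^ M := by
  classical
  haveI := Fact.mk hp
  let ρ := MulDistribMulAction.toMulAut G V
  have hρ : ∀ (g : G) (v : V), ρ g v = g • v := fun _ _ => rfl
  haveI : Finite (MulAut V) := inferInstance
  set α := ρ x with hα
  set τ := ρ t with hτ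
  have hαp : α ^ p = 1 := by
    rw [hα, ← map_pow]
    exact MulEquiv.ext fun v => hx v
  have hτM : τ ^ M = 1 := by
    rw [hτ, ← map_pow]
    exact MulEquiv.ext fun v => ht v
  obtain ⟨k, hk⟩ := hn
  have hconj : τ * α = α ^ k * τ := by
    rw [hα, hτ, ← map_pow, ← map_mul, ← map_mul]
    exact MulEquiv.ext fun v => hk v
  have hcc : ∀ i j : ℕ, ¬ M ∣ i → τ ^ i * α ^ j = α ^ j * τ ^ i → p ∣ j := by
    intro i j hi h
    refine hc i j hi fun v => ?_
    rw [hα, hτ, ← map_pow, ← map_pow, ← map_mul, ← map_mul] at h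
    exact DFunLike.congr_fun h v
  have hord : orderOf τ = M := by
    apply Nat.dvd_antisymm (orderOf_dvd_of_pow_eq_one hτM)
    by_contra hcon
    have h1 := hcc _ 1 hcon (by rw [pow_orderOf_eq_one, one_mul, mul_one])
    exact hp.one_lt.ne' (Nat.dvd_one.1 h1)
  let F := Subgroup.zpowers α
  let H := Subgroup.zpowers τ
  have hpow : ∀ (a b : MulAut V), b ∈ Subgroup.zpowers a → ∃ n : ℕ, a ^ n = b := by
    intro a b hb
    exact mem_powers_iff_mem_zpowers.2 hb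
  have hτF : τ ∈ Subgroup.normalizer (F : Set (MulAut V)) := by
    apply mem_normalizer_of_map_conj
    rw [MonoidHom.map_zpowers]
    have h1 : Subgroup.zpowers ((MulAut.conj τ).toMonoidHom α) ≤ F := by
      rw [Subgroup.zpowers_le]
      change τ * α * τ⁻¹ ∈ F
      rw [hconj, mul_inv_cancel_right]
      exact F.pow_mem (Subgroup.mem_zpowers α) k
    refine Subgroup.eq_of_le_of_card_ge h1 ?_
    rw [Nat.card_zpowers, Nat.card_zpowers, orderOf_injective (MulAut.conj τ).toMonoidHom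
      (MulAut.conj τ).injective]
  have hpair : FrobPair F H := by
    constructor
    · intro h hh f hf
      have h1 : h ∈ Subgroup.normalizer (F : Set (MulAut V)) := by
        have h2 : H ≤ Subgroup.normalizer (F : Set (MulAut V)) :=
          Subgroup.zpowers_le.2 hτF
        exact h2 hh
      exact (Subgroup.mem_normalizer_iff.1 h1 f).1 hf
    · intro h hh h1 f hf hcom
      obtain ⟨i, rfl⟩ := hpow τ h hh
      obtain ⟨j, rfl⟩ := hpow α f hf
      have hi : ¬ M ∣ i := by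
        rintro ⟨c, rfl⟩
        apply h1
        rw [pow_mul, hτM, one_pow]
      obtain ⟨c, rfl⟩ := hcc i j hi hcom
      rw [pow_mul, hαp, one_pow]
  have hFn : Group.IsNilpotent F := by
    have : IsPGroup p F := by
      rw [IsPGroup.iff_card]
      have h1 : Nat.card F ∣ p := by
        rw [Nat.card_zpowers]
        exact orderOf_dvd_of_pow_eq_one hαp
      rcases (Nat.dvd_prime hp).1 h1 with h2 | h2
      · exact ⟨0, by rw [h2, pow_zero]⟩
      · exact ⟨1, by rw [h2, pow_one]⟩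
    exact this.isNilpotent
  have key : Nat.card V = Nat.card (fixedBy H V) ^ Nat.card H :=
    card_eq hpair hFn (Nat.card V) V le_rfl inferInstance (by
      intro l hl
      exact hxf l (hl α (Subgroup.mem_zpowers α)))
  rw [key]
  have hH : Nat.card H = M := by rw [Nat.card_zpowers, hord]
  rw [hH]
  congr 1
  refine Nat.card_congr
    { toFun := fun l => ⟨l.1, l.2 τ (Subgroup.mem_zpowers τ)⟩
      invFun := fun l => ⟨l.1, ?_⟩
      left_inv := fun _ => rfl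
      right_inv := fun _ => rfl }
  intro h hh
  have h1 : τ • l.1 = l.1 := l.2
  obtain ⟨i, rfl⟩ := hpow τ h hh
  clear hh
  induction i with
  | zero => exact one_smul _ _
  | succ i ih => rw [pow_succ, mul_smul, h1, ih]

variable {G : Type u} [Group G] {J : Subgroup G} [hJ : J.Normal]

/-- The action of `G` on the linear characters of `J`. -/
@[reducible] def clDist (J : Subgroup G) [hJ : J.Normal] : MulDistribMulAction G (J →* ℂˣ) where
  smul g l := cl g⁻¹ l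
  one_smul l := by
    change cl (1 : G)⁻¹ l = l
    rw [inv_one, cl_one]
  mul_smul a b l := by
    change cl (a * b)⁻¹ l = cl a⁻¹ (cl b⁻¹ l)
    rw [mul_inv_rev, cl_mul]
  smul_mul _ _ _ := rfl
  smul_one _ := rfl

theorem cl_inv_eq_iff {a b : G} : (∀ l : J →* ℂˣ, cl a⁻¹ l = cl b⁻¹ l) ↔
    ∀ l : J →* ℂˣ, cl a l = cl b l := by
  constructor
  · intro h l
    have h1 := h (cl a l)
    rw [← cl_mul, mul_inv_cancel, cl_one] at h1
    conv_rhs => rw [h1]
    rw [← cl_mul, inv_mul_cancel, cl_one]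
  · intro h l
    have h1 := h (cl b⁻¹ l)
    rw [← cl_mul b⁻¹ b, inv_mul_cancel, cl_one] at h1
    conv_lhs => rw [← h1]
    rw [← cl_mul, mul_inv_cancel, cl_one]

theorem fix_inv_iff {a : G} {l : J →* ℂˣ} : cl a⁻¹ l = l ↔ cl a l = l := by
  constructor
  · intro h
    conv_lhs => rw [← h]
    rw [← cl_mul, inv_mul_cancel, cl_one]
  · intro h
    conv_lhs => rw [← h]
    rw [← cl_mul, mul_inv_cancel, cl_one]

/-- **Fixed points of a Frobenius group of automorphisms of `Lin J`.** -/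
theorem frob_fix [Finite J] {x t : G} {p M : ℕ} (hp : p.Prime)
    (hx : ∀ l : J →* ℂˣ, cl (x ^ p) l = l) (hxf : ∀ l : J →* ℂˣ, cl x l = l → l = 1)
    (ht : ∀ l : J →* ℂˣ, cl (t ^ M) l = l)
    (hn : ∃ k : ℕ, ∀ l : J →* ℂˣ, cl (t * x) l = cl (x ^ k * t) l)
    (hc : ∀ i j : ℕ, ¬ M ∣ i →
      (∀ l : J →* ℂˣ, cl (t ^ i * x ^ j) l = cl (x ^ j * t ^ i) l) → p ∣ j) :
    Nat.card (J →* ℂˣ) = Nat.card {l : J →* ℂˣ // cl t l = l} ^ M := by
  haveI := finite_lin J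
  letI := clDist J
  have h := frob_abs (G := G) (V := J →* ℂˣ) (x := x) (t := t) (M := M) hp
    (fun l => fix_inv_iff.2 (hx l)) (fun l hl => hxf l (fix_inv_iff.1 hl))
    (fun l => fix_inv_iff.2 (ht l)) (by
      obtain ⟨k, hk⟩ := hn
      exact ⟨k, cl_inv_eq_iff.2 hk⟩) (fun i j hi hij => hc i j hi (cl_inv_eq_iff.1 hij))
  rw [h]
  congr 1
  exact Nat.card_congr (Equiv.subtypeEquivRight fun l => fix_inv_iff)

end frobfix

section rad

/-- **A fixed point lemma.** -/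
theorem subsingleton_of_fix {D : Type u} {X : Type v} [Group D] [MulAction D X] (Q : Subgroup D)
    (hQ : ∀ g ∈ Q, ∀ x : X, g • x = x) (hab : ∀ a b : D, ⁅a, b⁆ ∈ Q)
    (hex : ∀ x : X, ∃ g, g ∉ Q ∧ g • x = x)
    (huniq : ∀ g, g ∉ Q → ∀ x y : X, g • x = x → g • y = y → x = y) : Subsingleton X := by
  constructor
  intro x y
  obtain ⟨g, hg, hgx⟩ := hex x
  obtain ⟨g', hg', hgy⟩ := hex y
  have h1 : g • (g' • x) = g' • x := by
    have e : g * g' = ⁅g, g'⁆ * (g' * g) := by rw [commutatorElement_def]; group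
    rw [← mul_smul, e, mul_smul, hQ _ (hab g g'), mul_smul, hgx]
  have h2 := huniq g hg _ _ h1 hgx
  exact huniq g' hg' _ _ h2 hgy

variable {G : Type u} [Group G] [Finite G] {B Z Q D : Subgroup G}

theorem nrm_of_comm (hZZ : ⁅Z, Z⁆ ≤ B) (hBZ : B ≤ Z) : Z ≤ Subgroup.normalizer (B : Set G) := by
  intro z hz
  rw [Subgroup.mem_normalizer_iff]
  intro b
  constructor
  · intro hb
    have h1 := hZZ (Subgroup.commutator_mem_commutator hz (hBZ hb))
    rw [commutatorElement_def] at h1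
    have := B.mul_mem h1 hb
    rwa [inv_mul_cancel_right] at this
  · intro hb
    have hb' : b ∈ Z := by
      have := Z.mul_mem (Z.mul_mem (Z.inv_mem hz) (hBZ hb)) hz
      have e : z⁻¹ * (z * b * z⁻¹) * z = b := by group
      rwa [e] at this
    have h1 := hZZ (Subgroup.commutator_mem_commutator hz hb')
    rw [commutatorElement_def] at h1
    have := B.mul_mem (B.inv_mem h1) hb
    have e : (z * b * z⁻¹ * b⁻¹)⁻¹ * (z * b * z⁻¹) = b := by group
    rwa [e] at this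

/-- Extension of a linear character trivial on the derived subgroup. -/
theorem exists_lin_ext (hBZ : B ≤ Z) (l0 : B →* ℂˣ) (hZZ : ⁅Z, Z⁆ ≤ B)
    (hl0 : ∀ (z : G) (hz : z ∈ ⁅Z, Z⁆), l0 ⟨z, hZZ hz⟩ = 1) :
    ∃ l : Z →* ℂˣ, ∀ b : B, l (Subgroup.inclusion hBZ b) = l0 b := by
  have hn := nrm_of_comm hZZ hBZ
  have hst : Z ≤ stab (lf l0 : B → ℂ) := by
    intro z hz
    refine ⟨hn hz, ?_⟩
    funext b
    rw [tw_apply (hn hz)]
    have h1 := hl0 _ (Subgroup.commutator_mem_commutator hz (hBZ b.2))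
    have e : (⟨z * b * z⁻¹, conj_mem_of_mem (hn hz) b⟩ : B) =
        ⟨⁅z, (b : G)⁆, hZZ (Subgroup.commutator_mem_commutator hz (hBZ b.2))⟩ * b := by
      apply Subtype.ext
      change z * b * z⁻¹ = ⁅z, (b : G)⁆ * b
      rw [commutatorElement_def]; group
    rw [e, lf_apply, map_mul, h1, one_mul]
    rfl
  obtain ⟨χ, hχ, ho⟩ := exists_over_incl hBZ (isIrr_lf l0)
  obtain ⟨c, hc, hc'⟩ := res_of_inv hBZ (isIrr_lf l0) hst hχ ho
  have h1 := hc' 1
  rw [map_one, lf_apply, map_one, Units.val_one, mul_one] at h1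
  have hd : charDegree χ = 1 := by
    refine lin_of_comm (H := ⁅Z, Z⁆) (hZZ.trans hBZ) le_rfl hχ ?_
    intro k
    have h2 := hc' ⟨k, hZZ k.2⟩
    rw [lf_apply, hl0 k k.2, Units.val_one, mul_one, ← h1] at h2
    exact h2
  obtain ⟨l, rfl⟩ := exists_hom_of_degree_one hχ hd
  refine ⟨l, fun b => ?_⟩
  have h2 := hc' b
  rw [← h1, lf_apply, lf_apply, lf_apply, map_one, Units.val_one, one_mul] at h2
  exact Units.ext h2

/-- **The radical is trivial.** -/
theorem rad_le [hB : B.Normal] (hBZ : B ≤ Z) (l0 : B →* ℂˣ)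
    (hDl : D ≤ stab (lf l0 : B → ℂ)) (hDZ : D ≤ Subgroup.normalizer (Z : Set G))
    (hab : ∀ a ∈ D, ∀ b ∈ D, ⁅a, b⁆ ∈ Q) (hZZ : ⁅Z, Z⁆ ≤ B)
    (hl0 : ∀ (z : G) (hz : z ∈ ⁅Z, Z⁆), l0 ⟨z, hZZ hz⟩ = 1)
    (hQ : ∀ l : Z →* ℂˣ, (∀ b : B, l (Subgroup.inclusion hBZ b) = l0 b) →
      ∀ g ∈ Q, g ∈ stab (lf l : Z → ℂ))
    (hex : ∀ l : Z →* ℂˣ, (∀ b : B, l (Subgroup.inclusion hBZ b) = l0 b) →
      ∃ g ∈ D, g ∉ Q ∧ g ∈ stab (lf l : Z → ℂ))
    (hfp : ∀ g ∈ D, g ∉ Q → ∀ z ∈ Z, g * z * g⁻¹ * z⁻¹ ∈ B → z ∈ B) : Z ≤ B := by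
  classical
  let X := {l : Z →* ℂˣ // ∀ b : B, l (Subgroup.inclusion hBZ b) = l0 b}
  have hcl : ∀ (g : G) (hg : g ∈ D) (l : Z →* ℂˣ),
      (∀ b : B, l (Subgroup.inclusion hBZ b) = l0 b) →
      ∀ b : B, (l.comp (cj (hDZ hg)).toMonoidHom) (Subgroup.inclusion hBZ b) = l0 b := by
    intro g hg l hl b
    have h1 := mem_stab_iff.1 (hDl hg)
    have h2 := DFunLike.congr_fun h1 b
    rw [cl_apply] at h2
    rw [← h2, ← hl]
    rfl
  letI : MulAction D X :=
    { smul := fun g l => ⟨l.1.comp (cj (hDZ (D.inv_mem g.2))).toMonoidHom,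
        hcl _ (D.inv_mem g.2) l.1 l.2⟩
      one_smul := fun l => by
        apply Subtype.ext
        apply MonoidHom.ext
        intro z
        change l.1 (cj _ z) = l.1 z
        congr 1
        apply Subtype.ext
        change ((1 : D) : G)⁻¹ * z * ((1 : D) : G)⁻¹⁻¹ = z
        simp
      mul_smul := fun a b l => by
        apply Subtype.ext
        apply MonoidHom.ext
        intro z
        change l.1 (cj _ z) = l.1 (cj _ (cj _ z))
        congr 1
        apply Subtype.ext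
        change ((a * b : D) : G)⁻¹ * z * ((a * b : D) : G)⁻¹⁻¹ =
          (b : G)⁻¹ * ((a : G)⁻¹ * z * (a : G)⁻¹⁻¹) * (b : G)⁻¹⁻¹
        push_cast
        group }
  have hsm : ∀ (g : D) (l : X), g • l = l ↔ (g : G) ∈ stab (lf l.1 : Z → ℂ) := by
    intro g l
    have h0 : g • l = l ↔ (g : G)⁻¹ ∈ stab (lf l.1 : Z → ℂ) := by
      constructor
      · intro h
        refine ⟨hDZ (D.inv_mem g.2), ?_⟩
        rw [tw_eq_comp (hDZ (D.inv_mem g.2))]
        funext z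
        have h1 := DFunLike.congr_fun (congrArg Subtype.val h) z
        exact congrArg Units.val h1
      · rintro ⟨-, h⟩
        rw [tw_eq_comp (hDZ (D.inv_mem g.2))] at h
        apply Subtype.ext
        apply MonoidHom.ext
        intro z
        exact Units.ext (congrFun h z)
    rw [h0, inv_mem_iff]
  have hsub : Subsingleton X := by
    refine subsingleton_of_fix (Q.subgroupOf D) ?_ ?_ ?_ ?_
    · intro g hg l
      rw [hsm]
      exact hQ l.1 l.2 g hg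
    · intro a b
      exact hab a a.2 b b.2
    · intro l
      obtain ⟨g, hgD, hgQ, hg⟩ := hex l.1 l.2
      exact ⟨⟨g, hgD⟩, hgQ, (hsm _ _).2 hg⟩
    · intro g hg l l' hl hl'
      rw [hsm] at hl hl'
      -- every element of `Z` is a commutator with `g`, modulo `B`
      haveI hBn : (B.subgroupOf Z).Normal := inferInstance
      have hcomm : ∀ a b : Z ⧸ B.subgroupOf Z, a * b = b * a := by
        intro a b
        obtain ⟨a, rfl⟩ := QuotientGroup.mk_surjective a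
        obtain ⟨b, rfl⟩ := QuotientGroup.mk_surjective b
        have h1 : QuotientGroup.mk' (B.subgroupOf Z) ⁅a, b⁆ = 1 := by
          rw [QuotientGroup.mk'_apply, QuotientGroup.eq_one_iff, Subgroup.mem_subgroupOf]
          exact hZZ (Subgroup.commutator_mem_commutator a.2 b.2)
        rw [map_commutatorElement, commutatorElement_eq_one_iff_mul_comm] at h1
        exact h1
      letI : CommGroup (Z ⧸ B.subgroupOf Z) :=
        { (inferInstance : Group (Z ⧸ B.subgroupOf Z)) with mul_comm := hcomm }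
      let γ : Z ≃* Z := cj (hDZ g.2)
      have hγ : ∀ z : Z, ((γ z : Z) : G) = g * z * (g : G)⁻¹ := fun _ => rfl
      let f : Z →* Z ⧸ B.subgroupOf Z :=
        { toFun := fun z => (γ z : Z ⧸ B.subgroupOf Z) * (z : Z ⧸ B.subgroupOf Z)⁻¹
          map_one' := by rw [map_one, QuotientGroup.mk_one, inv_one, one_mul]
          map_mul' := fun a b => by
            rw [map_mul, QuotientGroup.mk_mul, QuotientGroup.mk_mul, mul_inv, mul_mul_mul_comm] }
      have hf : ∀ z : Z, f z = ((γ z * z⁻¹ : Z) : Z ⧸ B.subgroupOf Z) := fun z => rfl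
      have hker : f.ker = B.subgroupOf Z := by
        ext z
        rw [MonoidHom.mem_ker, hf, QuotientGroup.eq_one_iff, Subgroup.mem_subgroupOf,
          Subgroup.mem_subgroupOf]
        constructor
        · intro h
          exact hfp g g.2 hg z z.2 h
        · intro h
          exact B.mul_mem (hB.conj_mem _ h g) (B.inv_mem h)
      have hrange : f.range = ⊤ := by
        apply Subgroup.eq_top_of_card_eq
        rw [← Subgroup.index_ker, hker]
        rfl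
      apply Subtype.ext
      apply MonoidHom.ext
      intro z
      have hz : (z : Z ⧸ B.subgroupOf Z) ∈ f.range := by rw [hrange]; exact Subgroup.mem_top _
      obtain ⟨z', hz'⟩ := hz
      rw [hf, QuotientGroup.eq, Subgroup.mem_subgroupOf] at hz'
      have e1 : z = (γ z' * z'⁻¹) * ((γ z' * z'⁻¹)⁻¹ * z) := by group
      have e2 : ∀ m : X, (g : G) ∈ stab (lf m.1 : Z → ℂ) → m.1 z =
          l0 ⟨(((γ z' * z'⁻¹)⁻¹ * z : Z) : G), hz'⟩ := by
        intro m hm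
        conv_lhs => rw [e1]
        rw [map_mul, map_mul, map_inv]
        have h3 : m.1 (γ z') = m.1 z' := by
          have h4 := congrFun hm.2 z'
          rw [tw_eq_comp (hDZ g.2)] at h4
          exact Units.ext h4
        rw [h3, mul_inv_cancel, one_mul, ← m.2]
        rfl
      rw [e2 l hl, e2 l' hl']
  obtain ⟨l, hl⟩ := exists_lin_ext hBZ l0 hZZ hl0
  intro z hz
  by_contra hzB
  obtain ⟨β, hβ, hβ'⟩ := exists_lin_ne (x := (⟨z, hz⟩ : Z)) hBZ hZZ hzB
  have hm : ∀ b : B, (l * β) (Subgroup.inclusion hBZ b) = l0 b := by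
    intro b
    rw [MonoidHom.mul_apply, hl, hβ, mul_one]
  have h1 := congrArg Subtype.val (hsub.elim (⟨l * β, hm⟩ : X) ⟨l, hl⟩)
  apply hβ'
  have h2 := DFunLike.congr_fun h1 ⟨z, hz⟩
  change l ⟨z, hz⟩ * β ⟨z, hz⟩ = l ⟨z, hz⟩ at h2
  exact mul_eq_left.1 h2

end rad

end Cfsg.Agent.H675.Nd
end

-- part: H675/Nd/HB1
section
/-!
# The case of an abelian Sylow subgroup: the hypothesis `HB`
-/

set_option autoImplicit false
set_option linter.style.haveILetI false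
set_option linter.unusedSectionVars false
open Cfsg

namespace Cfsg.Agent.H675.Nd

open Cfsg.Agent.Characters.Core Cfsg.Agent.Characters.Clifford Cfsg.Agent.H672 Cfsg.Agent.H672.RM
open Cfsg.Agent.H597.FrobA
open scoped commutatorElement

universe u v w

section general

variable {G : Type u} [Group G] [Finite G] {N K : Subgroup G} [hN : N.Normal] [hK : K.Normal]

theorem ne_top_index {T : Subgroup G} (hT : T ≠ ⊤) : T.index ≠ 1 :=
  fun h => hT (Subgroup.index_eq_one.1 h)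

theorem index_pos (T : Subgroup G) : 0 < T.index := Nat.pos_of_ne_zero Subgroup.index_ne_zero_of_finite

/-- The degree of a character over a linear character of `N`. -/
theorem lin_deg (hc : IsCyclic (G ⧸ N)) (l : N →* ℂˣ) : ∃ ψ : G → ℂ, IsIrrCharacter G ψ ∧
    Over N.subtype ψ (lf l) ∧ charDegree ψ = (stab (lf l : N → ℂ)).index := by
  obtain ⟨χ, hχ, hext⟩ := ext_cyc (N := N) (M := N) (T := stab (lf l : N → ℂ))
    (le_stab' (isIrr_lf l)) hc (fun t ht => Iff.rfl) (isIrr_lf l) le_rfl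
  obtain ⟨ψ, hψ, -, ho, hd⟩ := lift_top (isIrr_lf l) hχ
    (over_of_ext (le_stab' (isIrr_lf l)) (isIrr_lf l) hext)
  refine ⟨ψ, hψ, ho, ?_⟩
  rw [hd, charDegree_ext (le_stab' (isIrr_lf l)) hext, charDegree_lf, mul_one]

/-- A linear character of `N` fixed by some `g ∉ N` is `G`-invariant. -/
theorem hfix_of (ha : Anti G) (hc : IsCyclic (G ⧸ N))
    (hf : ∃ χ : G → ℂ, IsIrrCharacter G χ ∧ charDegree χ = N.index) (l : N →* ℂˣ) {g : G}
    (hg : g ∉ N) (hl : cl g l = l) (g' : G) : cl g' l = l := by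
  by_contra hcon
  obtain ⟨ψ, hψ, -, hd⟩ := lin_deg hc l
  obtain ⟨χ, hχ, hf⟩ := hf
  have hne : stab (lf l : N → ℂ) ≠ ⊤ := by
    intro h
    apply hcon
    apply mem_stab_iff.1
    rw [h]
    exact Subgroup.mem_top g'
  have hle : N ≤ stab (lf l : N → ℂ) := le_stab' (isIrr_lf l)
  have h1 := ha ψ χ hψ hχ (by rw [hd]; exact ne_top_index hne)
    (by rw [hd, hf]; exact Subgroup.index_dvd_of_le hle)
  rw [hd, hf] at h1
  have h2 := Subgroup.relIndex_mul_index hle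
  rw [h1] at h2
  have h3 : N.relIndex (stab (lf l : N → ℂ)) = 1 :=
    Nat.eq_of_mul_eq_mul_right (index_pos N) (by rw [h2, one_mul])
  have h4 : stab (lf l : N → ℂ) ≤ N := Subgroup.relIndex_eq_one.1 h3
  exact hg (h4 (mem_stab_iff.2 hl))

/-- Multiplicativity of the index with the image in `G / N`. -/
theorem index_mul (T : Subgroup G) : T.index * N.relIndex T = N.index * T.relIndex N := by
  have h1 := Subgroup.relIndex_mul_index (inf_le_left : N ⊓ T ≤ N)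
  have h2 := Subgroup.relIndex_mul_index (inf_le_right : N ⊓ T ≤ T)
  rw [Subgroup.inf_relIndex_right] at h2
  rw [inf_comm, Subgroup.inf_relIndex_right] at h1
  rw [mul_comm, h2, mul_comm, h1, inf_comm]

end general

structure HB {G : Type u} [Group G] [Finite G] (N J : Subgroup G) [N.Normal] [J.Normal] (x : G)
    (p : ℕ) : Prop where
  eJ : J = ⁅N, N⁆
  cyc : IsCyclic (G ⧸ N)
  pr : p.Prime
  xN : x ∈ N
  xp : x ^ p = 1
  pJ : ¬ p ∣ Nat.card J
  pf : ¬ p ∣ N.index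
  hx : ∀ μ : J → ℂ, IsIrrCharacter J μ → x ∈ stab μ → μ = 1
  anti : Anti G
  hfix : ∀ l : N →* ℂˣ, ∀ g : G, g ∉ N → cl g l = l → ∀ g' : G, cl g' l = l
  nc : ∃ g : G, x * g * x⁻¹ * g⁻¹ ∉ J
  xn : ∀ g : G, ∃ k : ℕ, ∃ j ∈ J, g * x * g⁻¹ = x ^ k * j

section basic

variable {G : Type u} [Group G] [Finite G] {N J : Subgroup G} [hN : N.Normal] [hJ : J.Normal]
  {x : G} {p : ℕ}

theorem HB.JN (h : HB N J x p) : J ≤ N := by
  rw [h.eJ]; exact Subgroup.commutator_le_left N N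

theorem HB.ab (h : HB N J x p) : ⁅N, N⁆ ≤ J := h.eJ.ge

theorem HB.zl (h : HB N J x p) {n g : G} (hn : n ∈ N) (hg : g ∉ N)
    (hc : n * g * n⁻¹ * g⁻¹ ∈ J) : ∀ g' : G, n * g' * n⁻¹ * g'⁻¹ ∈ J :=
  zlem h.JN h.ab h.cyc (fun l _ g hg hl => h.hfix l g hg hl) hn hg hc

theorem HB.fpf (h : HB N J x p) {g : G} (hg : g ∉ N) : x * g * x⁻¹ * g⁻¹ ∉ J := by
  intro hc
  obtain ⟨g', hg'⟩ := h.nc
  exact hg' (h.zl h.xN hg hc g')

theorem HB.ne_top (h : HB N J x p) : N ≠ ⊤ := by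
  rintro rfl
  obtain ⟨g, hg⟩ := h.nc
  apply hg
  have := h.ab (Subgroup.commutator_mem_commutator (Subgroup.mem_top x) (Subgroup.mem_top g))
  rwa [commutatorElement_def] at this

/-- `|G : N|` is a character degree. -/
theorem HB.fdeg (h : HB N J x p) : ∃ χ : G → ℂ, IsIrrCharacter G χ ∧ charDegree χ = N.index := by
  obtain ⟨g, hg⟩ := h.nc
  have hm : x * g * x⁻¹ * g⁻¹ ∈ N := by
    have h1 := hN.conj_mem _ (N.inv_mem h.xN) g
    have e : x * g * x⁻¹ * g⁻¹ = x * (g * x⁻¹ * g⁻¹) := by group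
    rw [e]
    exact N.mul_mem h.xN h1
  obtain ⟨l, -, hl⟩ := exists_LK_ne h.JN h.ab hm hg
  have hle : stab (lf l : N → ℂ) = N := by
    refine le_antisymm ?_ (le_stab' (isIrr_lf l))
    intro s hs
    by_contra hsN
    have h1 := h.hfix l s hsN (mem_stab_iff.1 hs) g
    apply hl
    have e : (⟨x * g * x⁻¹ * g⁻¹, hm⟩ : N) =
        ⟨x, h.xN⟩ * ⟨g * x * g⁻¹, hN.conj_mem x h.xN g⟩⁻¹ := by
      apply Subtype.ext
      change x * g * x⁻¹ * g⁻¹ = x * (g * x * g⁻¹)⁻¹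
      group
    rw [e, map_mul, map_inv]
    have h2 := DFunLike.congr_fun h1 ⟨x, h.xN⟩
    rw [cl_apply] at h2
    rw [h2, mul_inv_cancel]
  obtain ⟨ψ, hψ, -, hd⟩ := lin_deg h.cyc l
  rw [hle] at hd
  exact ⟨ψ, hψ, hd⟩

/-- `C_J(x) = 1`. -/
theorem HB.fix (h : HB N J x p) {j : G} (hj : j ∈ J) (hc : x * j = j * x) : j = 1 := by
  classical
  let α : J ≃* J := cj (mem_nrm J x)
  have hα : ∀ k : J, ((α k : J) : G) = x * k * x⁻¹ := fun _ => rfl
  have h1 := S0173.result α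
  have h2 : Nat.card {χ : IrrCharacter J // (χ : J → ℂ) ∘ α = (χ : J → ℂ)} = 1 := by
    rw [Nat.card_eq_one_iff_unique]
    refine ⟨⟨fun a b => ?_⟩, ⟨⟨⟨1, isIrr_one⟩, rfl⟩⟩⟩
    have key : ∀ a : {χ : IrrCharacter J // (χ : J → ℂ) ∘ α = (χ : J → ℂ)},
        ((a : IrrCharacter J) : J → ℂ) = 1 := by
      intro a
      refine h.hx _ a.1.2 ⟨mem_nrm J x, ?_⟩
      rw [tw_eq_comp (mem_nrm J x)]
      exact a.2
    exact Subtype.ext (Subtype.ext ((key a).trans (key b).symm))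
  rw [h2, Nat.card_eq_one_iff_unique] at h1
  obtain ⟨h3, -⟩ := h1
  have h4 : ConjClasses.map α.toMonoidHom (ConjClasses.mk (⟨j, hj⟩ : J)) =
      ConjClasses.mk (⟨j, hj⟩ : J) := by
    change ConjClasses.mk (α ⟨j, hj⟩) = _
    congr 1
    apply Subtype.ext
    rw [hα]
    change x * j * x⁻¹ = j
    rw [hc, mul_inv_cancel_right]
  have h5 : ConjClasses.map α.toMonoidHom (ConjClasses.mk (1 : J)) =
      ConjClasses.mk (1 : J) := by
    change ConjClasses.mk (α 1) = _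
    rw [map_one]
  have h6 := h3.elim (⟨_, h4⟩ : {C : ConjClasses J // ConjClasses.map α.toMonoidHom C = C}) ⟨_, h5⟩
  have h7 : ConjClasses.mk (⟨j, hj⟩ : J) = ConjClasses.mk 1 := congrArg Subtype.val h6
  rw [ConjClasses.mk_eq_mk_iff_isConj, isConj_comm, isConj_iff] at h7
  obtain ⟨c, hc'⟩ := h7
  have h8 : (⟨j, hj⟩ : J) = 1 := by rw [← hc']; group
  exact congrArg Subtype.val h8

theorem HB.pow_mem (h : HB N J x p) {k : ℤ} (hk : x ^ k ∈ J) : x ^ k = 1 := by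
  have h1 : (x ^ k) ^ p = 1 := by
    rw [← zpow_natCast, ← zpow_mul, mul_comm, zpow_mul, zpow_natCast, h.xp, one_zpow]
  have h2 : (x ^ k) ^ Nat.card J = 1 := by
    have := pow_card_eq_one' (x := (⟨x ^ k, hk⟩ : J))
    exact congrArg Subtype.val this
  have h3 := pow_gcd_eq_one.2 ⟨h1, h2⟩
  rwa [((Nat.Prime.coprime_iff_not_dvd h.pr).2 h.pJ).gcd_eq_one, pow_one] at h3

/-- `C_J(x ^ k) = 1` if `p ∤ k`. -/
theorem HB.fix_pow (h : HB N J x p) {k : ℕ} (hk : ¬ p ∣ k) {j : G} (hj : j ∈ J)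
    (hc : x ^ k * j = j * x ^ k) : j = 1 := by
  refine h.fix hj ?_
  have hcop : Nat.Coprime k p := ((Nat.Prime.coprime_iff_not_dvd h.pr).2 hk).symm
  obtain ⟨t, ht⟩ := Nat.exists_mul_mod_eq_one_of_coprime hcop h.pr.one_lt
  have h1 : (x ^ k) ^ t = x := by
    rw [← pow_mul]
    have h3 : k * t ≡ 1 [MOD p] := by rw [Nat.ModEq, ht.2, Nat.mod_eq_of_lt h.pr.one_lt]
    have h4 : k * t ≡ 1 [MOD orderOf x] := h3.of_dvd (orderOf_dvd_of_pow_eq_one h.xp)
    rw [pow_eq_pow_iff_modEq.2 h4, pow_one]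
  have h2 : Commute (x ^ k) j := hc
  have h3 := h2.pow_left t
  rw [h1] at h3
  exact h3

/-- Conjugates of powers of `x` in `J ⟨x⟩`. -/
theorem HB.exists_conj (h : HB N J x p) {k : ℕ} (hk : ¬ p ∣ k) {z : G} (hz : z ∈ J) :
    ∃ j ∈ J, x ^ k * z = j⁻¹ * x ^ k * j := by
  let f : J → J := fun j => ⟨(x ^ k)⁻¹ * (j : G)⁻¹ * x ^ k * j, by
    have h1 := hJ.conj_mem (j : G)⁻¹ (J.inv_mem j.2) (x ^ k)⁻¹
    rw [inv_inv] at h1
    exact J.mul_mem h1 j.2⟩
  have hf : Function.Injective f := by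
    intro a b hab
    have h1 : (x ^ k)⁻¹ * (a : G)⁻¹ * x ^ k * a = (x ^ k)⁻¹ * (b : G)⁻¹ * x ^ k * b :=
      congrArg Subtype.val hab
    have h2 : x ^ k * ((b : G) * (a : G)⁻¹) = ((b : G) * (a : G)⁻¹) * x ^ k := by
      have h3 : (a : G)⁻¹ * x ^ k * a = (b : G)⁻¹ * x ^ k * b := by
        have := congrArg (fun y => x ^ k * y) h1
        simpa [mul_assoc] using this
      have h4 : (b : G) * ((a : G)⁻¹ * x ^ k * a) * (a : G)⁻¹ =
          (b : G) * ((b : G)⁻¹ * x ^ k * b) * (a : G)⁻¹ := by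
        rw [h3]
      have h5 : (b : G) * ((a : G)⁻¹ * x ^ k * a) * (a : G)⁻¹ = (b : G) * (a : G)⁻¹ * x ^ k := by
        group
      have h6 : (b : G) * ((b : G)⁻¹ * x ^ k * b) * (a : G)⁻¹ = x ^ k * ((b : G) * (a : G)⁻¹) := by
        group
      rw [h5, h6] at h4
      exact h4.symm
    have h3 := h.fix_pow hk (J.mul_mem b.2 (J.inv_mem a.2)) h2
    exact Subtype.ext (mul_inv_eq_one.1 h3).symm
  obtain ⟨j, hj⟩ := (Finite.surjective_of_injective hf) ⟨z, hz⟩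
  have h2 : (x ^ k)⁻¹ * (j : G)⁻¹ * x ^ k * j = z := congrArg Subtype.val hj
  refine ⟨j, j.2, ?_⟩
  rw [← h2]
  group

/-- The complement `Y = N_G(⟨x⟩)`. -/
def YY (x : G) : Subgroup G := Subgroup.normalizer (Subgroup.zpowers x : Set G)

theorem HB.frat (h : HB N J x p) (g : G) : ∃ j ∈ J, ∃ y ∈ YY x, g = y * j := by
  obtain ⟨k, z, hz, e⟩ := h.xn g⁻¹
  rw [inv_inv] at e
  have hk : ¬ p ∣ k := by
    rintro ⟨c, rfl⟩
    rw [pow_mul, h.xp, one_pow, one_mul] at e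
    have h1 : x ∈ J := by
      have h2 := hJ.conj_mem z hz g
      rw [← e] at h2
      have e2 : g * (g⁻¹ * x * g) * g⁻¹ = x := by group
      rwa [e2] at h2
    have h2 := h.pow_mem (k := 1) (by rwa [zpow_one])
    rw [zpow_one] at h2
    obtain ⟨g', hg'⟩ := h.nc
    apply hg'
    rw [h2]
    simp [J.one_mem]
  obtain ⟨j, hj, e2⟩ := h.exists_conj hk hz
  refine ⟨j, hj, g * j⁻¹, ?_, by group⟩
  have e3 : (g * j⁻¹)⁻¹ * x * (g * j⁻¹) = x ^ k := by
    have : g⁻¹ * x * g = j⁻¹ * x ^ k * j := e.trans e2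
    calc (g * j⁻¹)⁻¹ * x * (g * j⁻¹) = j * (g⁻¹ * x * g) * j⁻¹ := by group
      _ = x ^ k := by rw [this]; group
  have h3 : (g * j⁻¹)⁻¹ ∈ YY x := by
    apply mem_normalizer_of_map_conj
    rw [MonoidHom.map_zpowers]
    have h1 : Subgroup.zpowers ((MulAut.conj (g * j⁻¹)⁻¹).toMonoidHom x) ≤
        Subgroup.zpowers x := by
      rw [Subgroup.zpowers_le]
      change (g * j⁻¹)⁻¹ * x * ((g * j⁻¹)⁻¹)⁻¹ ∈ Subgroup.zpowers x
      rw [inv_inv, e3]
      exact Subgroup.pow_mem _ (Subgroup.mem_zpowers x) k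
    refine Subgroup.eq_of_le_of_card_ge h1 ?_
    rw [Nat.card_zpowers, Nat.card_zpowers, orderOf_injective (MulAut.conj (g * j⁻¹)⁻¹).toMonoidHom
      (MulAut.conj (g * j⁻¹)⁻¹).injective]
  have h4 := (YY x).inv_mem h3
  rwa [inv_inv] at h4

theorem HB.Y_cap (h : HB N J x p) {y : G} (hy : y ∈ YY x) (hyJ : y ∈ J) : y = 1 := by
  obtain ⟨k, hk⟩ := Subgroup.mem_zpowers_iff.1
    ((Subgroup.mem_normalizer_iff.1 hy x).1 (Subgroup.mem_zpowers x))
  have h1 : x ^ (k - 1) ∈ J := by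
    rw [zpow_sub_one, hk]
    have h2 := hJ.conj_mem _ (J.inv_mem hyJ) x
    have e : y * x * y⁻¹ * x⁻¹ = y * (x * y⁻¹ * x⁻¹) := by group
    rw [e]
    exact J.mul_mem hyJ h2
  have h2 := h.pow_mem h1
  rw [zpow_sub_one, mul_inv_eq_one, hk] at h2
  exact h.fix hyJ (mul_inv_eq_iff_eq_mul.1 h2).symm

/-- Every element of `N` is the product of an element of `J` and an element centralizing `x`. -/
theorem HB.exists_mul (h : HB N J x p) {n : G} (hn : n ∈ N) :
    ∃ j ∈ J, ∃ c ∈ N, x * c = c * x ∧ n = c * j := by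
  have h1 : x⁻¹ * (n⁻¹ * x * n) ∈ J := by
    have h2 : ⁅x⁻¹, n⁻¹⁆ ∈ J := h.ab (Subgroup.commutator_mem_commutator (N.inv_mem h.xN)
      (N.inv_mem hn))
    rw [commutatorElement_def, inv_inv, inv_inv] at h2
    simpa [mul_assoc] using h2
  obtain ⟨j, hj, e⟩ := h.exists_conj (k := 1) (fun hd => h.pr.one_lt.ne' (Nat.dvd_one.1 hd)) h1
  rw [pow_one, mul_inv_cancel_left] at e
  refine ⟨j, hj, n * j⁻¹, N.mul_mem hn (N.inv_mem (h.JN hj)), ?_, by group⟩
  have h4 : n * (n⁻¹ * x * n) * j⁻¹ = n * (j⁻¹ * x * j) * j⁻¹ := by rw [e]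
  have h5 : n * (n⁻¹ * x * n) * j⁻¹ = x * (n * j⁻¹) := by group
  have h6 : n * (j⁻¹ * x * j) * j⁻¹ = n * j⁻¹ * x := by group
  rw [h5, h6] at h4
  exact h4

/-- Elements of `N` centralizing `x` commute. -/
theorem HB.comm_cent (h : HB N J x p) {a b : G} (ha : a ∈ N) (hb : b ∈ N) (hxa : x * a = a * x)
    (hxb : x * b = b * x) : a * b = b * a := by
  have h1 : ⁅a, b⁆ ∈ J := h.ab (Subgroup.commutator_mem_commutator ha hb)
  have h2 := h.fix h1 (by
    have e1 : Commute x a := hxa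
    have e2 : Commute x b := hxb
    rw [commutatorElement_def]
    exact ((e1.mul_right e2).mul_right e1.inv_right).mul_right e2.inv_right)
  exact commutatorElement_eq_one_iff_mul_comm.1 h2

/-- An invariant linear character of `J` extends. -/
theorem HB.lin_ext (h : HB N J x p) {T : Subgroup G} (hJT : J ≤ T)
    (l : J →* ℂˣ) (hT : T ≤ stab (lf l : J → ℂ)) :
    ∃ m : T →* ℂˣ, ∀ j : J, m (Subgroup.inclusion hJT j) = l j := by
  let W : Subgroup T := (YY x).subgroupOf T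
  have h1 : J.subgroupOf T ⊓ W = ⊥ := by
    rw [eq_bot_iff]
    rintro t ⟨h1, h2⟩
    exact Subtype.ext (h.Y_cap h2 h1)
  have h2 : J.subgroupOf T ⊔ W = ⊤ := by
    rw [eq_top_iff]
    intro t _
    obtain ⟨j, hj, c, hc, e⟩ := h.frat (t : G)
    have hcT : c ∈ T := by
      have : c = t * j⁻¹ := by rw [e]; group
      rw [this]
      exact T.mul_mem t.2 (T.inv_mem (hJT hj))
    have e' : t = (⟨c, hcT⟩ : T) * ⟨j, hJT hj⟩ := Subtype.ext e
    rw [e']
    refine Subgroup.mul_mem _ (Subgroup.mem_sup_right hc) (Subgroup.mem_sup_left ?_)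
    exact hj
  obtain ⟨F, hF, -⟩ := OddOrderCharacters.SplitExtension.exists_hom_of_complement
    (J.subgroupOf T) W h1 h2 (l.comp (Subgroup.subgroupOfEquivOfLe hJT).toMonoidHom) 1 (by
      intro w n
      rw [MonoidHom.one_apply, one_mul, inv_one, mul_one]
      exact (mem_stab_lf.1 (hT w.1.2)) ⟨n, n.2⟩)
  exact ⟨F, fun j => hF ⟨⟨j, hJT j.2⟩, j.2⟩⟩

end basic

section deg

variable {G : Type u} [Group G] [Finite G] {N J : Subgroup G} [hN : N.Normal] [hJ : J.Normal]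
  {x : G} {p : ℕ}

theorem HB.x_not (h : HB N J x p) {μ : J → ℂ} (hμ : IsIrrCharacter J μ) (hμ1 : μ ≠ 1) :
    x ∉ stab μ := fun hx => hμ1 (h.hx μ hμ hx)

theorem HB.stab_ne (h : HB N J x p) {μ : J → ℂ} (hμ : IsIrrCharacter J μ) (hμ1 : μ ≠ 1) :
    (stab μ).index * charDegree μ ≠ 1 := by
  intro e
  have h1 := Nat.eq_one_of_mul_eq_one_right e
  rw [Subgroup.index_eq_one] at h1
  exact h.x_not hμ hμ1 (h1 ▸ Subgroup.mem_top x)

/-- The stabilizer of an extendible nontrivial character is not contained in `N`. -/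
theorem HB.exists_out (h : HB N J x p) {μ : J → ℂ} (hμ : IsIrrCharacter J μ) (hμ1 : μ ≠ 1)
    {χ : stab μ → ℂ} (hχ : IsIrrCharacter (stab μ) χ)
    (hext : ∀ k : J, χ (Subgroup.inclusion (le_stab' hμ) k) = μ k) : ∃ g ∈ stab μ, g ∉ N := by
  by_contra hcon
  push Not at hcon
  have hle : stab μ ≤ N := hcon
  obtain ⟨⟨ψ, hψ, -, hd⟩, -, -⟩ := GT h.anti hμ hχ hext (h.stab_ne hμ hμ1)
  obtain ⟨χf, hχf, hf⟩ := h.fdeg
  have h1 := h.anti χf ψ hχf hψ (by rw [hf]; exact ne_top_index h.ne_top)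
    (by rw [hf, hd]; exact (Subgroup.index_dvd_of_le hle).mul_right _)
  rw [hf, hd, ← Subgroup.relIndex_mul_index hle] at h1
  have h2 : (stab μ).relIndex N * charDegree μ = 1 := by
    have h3 := index_pos N
    refine Nat.eq_of_mul_eq_mul_right h3 ?_
    rw [one_mul]
    conv_rhs => rw [h1]
    ring
  have h3 : N ≤ stab μ := Subgroup.relIndex_eq_one.1 (Nat.eq_one_of_mul_eq_one_right h2)
  exact h.x_not hμ hμ1 (h3 h.xN)

theorem HB.central (h : HB N J x p) {μ : J → ℂ} (hμ : IsIrrCharacter J μ) (hμ1 : μ ≠ 1)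
    {χ : stab μ → ℂ} (hχ : IsIrrCharacter (stab μ) χ)
    (hext : ∀ k : J, χ (Subgroup.inclusion (le_stab' hμ) k) = μ k) :
    ∀ t ∈ N ⊓ stab μ, ∀ g : G, t * g * t⁻¹ * g⁻¹ ∈ J := by
  intro t ht
  obtain ⟨s, hs, hsN⟩ := h.exists_out hμ hμ1 hχ hext
  obtain ⟨-, -, hab⟩ := GT h.anti hμ hχ hext (h.stab_ne hμ hμ1)
  refine h.zl ht.1 hsN ?_
  have := hab (Subgroup.commutator_mem_commutator ht.2 hs)
  rwa [commutatorElement_def] at this

theorem HB.extL (h : HB N J x p) (l : J →* ℂˣ) : ∃ χ : stab (lf l : J → ℂ) → ℂ,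
    IsIrrCharacter (stab (lf l : J → ℂ)) χ ∧
    ∀ k : J, χ (Subgroup.inclusion (le_stab' (isIrr_lf l)) k) = (lf l : J → ℂ) k := by
  obtain ⟨m, hm⟩ := h.lin_ext (le_stab' (isIrr_lf l)) l le_rfl
  exact ⟨lf m, isIrr_lf m, fun j => congrArg Units.val (hm j)⟩

theorem HB.GTL (h : HB N J x p) {l : J →* ℂˣ} (hl : l ≠ 1) :
    (∃ ψ : G → ℂ, IsIrrCharacter G ψ ∧ Over J.subtype ψ (lf l) ∧
      charDegree ψ = (stab (lf l : J → ℂ)).index) ∧
    (∀ ψ : G → ℂ, IsIrrCharacter G ψ → Over J.subtype ψ (lf l) →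
      charDegree ψ = (stab (lf l : J → ℂ)).index) ∧
    ⁅stab (lf l : J → ℂ), stab (lf l : J → ℂ)⁆ ≤ J := by
  obtain ⟨χ, hχ, hext⟩ := h.extL l
  have h1 := GT h.anti (isIrr_lf l) hχ hext (h.stab_ne (isIrr_lf l) (lf_ne_one hl))
  rwa [charDegree_lf, mul_one] at h1

theorem HB.outL (h : HB N J x p) {l : J →* ℂˣ} (hl : l ≠ 1) :
    ∃ g ∈ stab (lf l : J → ℂ), g ∉ N := by
  obtain ⟨χ, hχ, hext⟩ := h.extL l
  exact h.exists_out (isIrr_lf l) (lf_ne_one hl) hχ hext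

theorem HB.centralL (h : HB N J x p) {l : J →* ℂˣ} (hl : l ≠ 1) :
    ∀ t ∈ N ⊓ stab (lf l : J → ℂ), ∀ g : G, t * g * t⁻¹ * g⁻¹ ∈ J := by
  obtain ⟨χ, hχ, hext⟩ := h.extL l
  exact h.central (isIrr_lf l) (lf_ne_one hl) hχ hext

theorem HB.index_ne (h : HB N J x p) {l : J →* ℂˣ} (hl : l ≠ 1) :
    (stab (lf l : J → ℂ)).index ≠ 1 := by
  have := h.stab_ne (isIrr_lf l) (lf_ne_one hl)
  rwa [charDegree_lf, mul_one] at this

/-- Divisibility of the indices of the stabilizers implies equality. -/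
theorem HB.index_eq_of_dvd (h : HB N J x p) {l m : J →* ℂˣ} (hl : l ≠ 1) (hm : m ≠ 1)
    (hd : (stab (lf l : J → ℂ)).index ∣ (stab (lf m : J → ℂ)).index) :
    (stab (lf l : J → ℂ)).index = (stab (lf m : J → ℂ)).index := by
  obtain ⟨ψ, hψ, -, e⟩ := (h.GTL hl).1
  obtain ⟨ψ', hψ', -, e'⟩ := (h.GTL hm).1
  rw [← e, ← e'] at hd ⊢
  exact h.anti ψ ψ' hψ hψ' (by rw [e]; exact h.index_ne hl) hd

theorem eq_of_le_of_index_eq {A B : Subgroup G} (hle : A ≤ B) (he : A.index = B.index) : A = B := by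
  have h1 := Subgroup.relIndex_mul_index hle
  rw [he] at h1
  have h2 : A.relIndex B = 1 :=
    Nat.eq_of_mul_eq_mul_right (index_pos B) (by rw [h1, one_mul])
  exact le_antisymm hle (Subgroup.relIndex_eq_one.1 h2)

theorem HB.stab_of_le (h : HB N J x p) {l m : J →* ℂˣ} (hl : l ≠ 1) (hm : m ≠ 1)
    (hle : stab (lf l : J → ℂ) ≤ stab (lf m : J → ℂ)) :
    stab (lf l : J → ℂ) = stab (lf m : J → ℂ) :=
  eq_of_le_of_index_eq hle (h.index_eq_of_dvd hm hl (Subgroup.index_dvd_of_le hle)).symm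

/-- Elements of `N` central modulo `J` commute with everything in the action. -/
theorem cl_comm_of {t g : G} (h : t * g * t⁻¹ * g⁻¹ ∈ J) (l : J →* ℂˣ) :
    cl (t * g) l = cl (g * t) l := by
  have e : t * g = (t * g * t⁻¹ * g⁻¹) * (g * t) := by group
  rw [e, cl_mul, cl_of_mem h]

theorem HB.TL_le (h : HB N J x p) {l m : J →* ℂˣ} (hl : l ≠ 1) (hm : m ≠ 1) :
    N ⊓ stab (lf l : J → ℂ) ≤ N ⊓ stab (lf m : J → ℂ) := by
  intro t ht
  refine ⟨ht.1, ?_⟩
  exact stab_of_comm ⊤ (fun _ _ _ => Subgroup.mem_top _)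
    (fun a _ b _ ha hb hab => h.stab_of_le ha hb hab) (Subgroup.mem_top l) (Subgroup.mem_top m)
    hl hm ht.2 (fun g κ _ => cl_comm_of (h.centralL hl t ht g) κ)

theorem HB.TL_eq (h : HB N J x p) {l m : J →* ℂˣ} (hl : l ≠ 1) (hm : m ≠ 1) :
    N ⊓ stab (lf l : J → ℂ) = N ⊓ stab (lf m : J → ℂ) :=
  le_antisymm (h.TL_le hl hm) (h.TL_le hm hl)

theorem HB.fix_all (h : HB N J x p) {l : J →* ℂˣ} (hl : l ≠ 1) {t : G}
    (ht : t ∈ N ⊓ stab (lf l : J → ℂ)) (m : J →* ℂˣ) : cl t m = m := by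
  by_cases hm : m = 1
  · rw [hm, cl_hone]
  · exact mem_stab_iff.1 (h.TL_le hl hm ht).2

end deg

end Cfsg.Agent.H675.Nd
end

-- part: H675/Nd/HB2
section
/-!
# The degrees over the linear characters of `J` coincide
-/

set_option autoImplicit false
set_option linter.style.haveILetI false
set_option linter.unusedSectionVars false
open Cfsg

namespace Cfsg.Agent.H675.Nd

open Cfsg.Agent.Characters.Core Cfsg.Agent.Characters.Clifford Cfsg.Agent.H672 Cfsg.Agent.H672.RM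
open Cfsg.Agent.H597.FrobA
open scoped commutatorElement

universe u v w

section norm

variable {A : Type u} [CommGroup A] (σ : A →* A)

/-- the norm of `a` with respect to `σ` -/
def Nm (k : ℕ) : A →* A where
  toFun a := ∏ i ∈ Finset.range k, (σ^[i]) a
  map_one' := by
    refine Finset.prod_eq_one fun i _ => ?_
    exact iterate_map_one σ i
  map_mul' a b := by
    rw [← Finset.prod_mul_distrib]
    refine Finset.prod_congr rfl fun i _ => ?_
    exact iterate_map_mul σ i a b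

theorem Nm_apply (k : ℕ) (a : A) : Nm σ k a = ∏ i ∈ Finset.range k, (σ^[i]) a := rfl

theorem Nm_succ (k : ℕ) (a : A) : Nm σ (k + 1) a = σ (Nm σ k a) * a := by
  rw [Nm_apply, Nm_apply, Finset.prod_range_succ', map_prod]
  congr 1
  refine Finset.prod_congr rfl fun i _ => ?_
  exact Function.iterate_succ_apply' _ _ _

theorem Nm_iter (k j : ℕ) (a : A) : Nm σ k (σ^[j] a) = σ^[j] (Nm σ k a) := by
  induction j with
  | zero => rfl
  | succ j ih =>
    rw [Function.iterate_succ_apply', Function.iterate_succ_apply', ← ih, Nm_apply, Nm_apply, map_prod]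
    refine Finset.prod_congr rfl fun i _ => ?_
    rw [← Function.iterate_succ_apply, ← Function.iterate_succ_apply' σ]

theorem Nm_add (i j : ℕ) (a : A) : Nm σ (i + j) a = σ^[j] (Nm σ i a) * Nm σ j a := by
  induction i with
  | zero =>
    rw [zero_add]
    have : Nm σ 0 a = 1 := by rw [Nm_apply]; simp
    rw [this, iterate_map_one, one_mul]
  | succ i ih =>
    rw [show i + 1 + j = (i + j) + 1 by ring, Nm_succ, ih, Nm_succ, map_mul, iterate_map_mul,
      ← Function.iterate_succ_apply' σ, Function.iterate_succ_apply]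
    have e : σ (Nm σ j a) * a = σ^[j] a * Nm σ j a := by
      rw [← Nm_succ, Nm_apply, Finset.prod_range_succ, mul_comm]
      rfl
    rw [mul_assoc, e, mul_assoc]

theorem Nm_fixed {b : A} (h : σ b = b) (k : ℕ) : Nm σ k b = b ^ k := by
  rw [Nm_apply, Finset.prod_congr rfl (fun i _ => Function.iterate_fixed h i), Finset.prod_const,
    Finset.card_range]

theorem Nm_comp {τ : A →* A} {k : ℕ} (hτ : ∀ a, τ a = σ^[k] a) (m : ℕ) (a : A) :
    Nm σ k (Nm τ m a) = Nm σ (k * m) a := by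
  induction m with
  | zero =>
    rw [mul_zero]
    have h1 : Nm τ 0 a = 1 := by rw [Nm_apply]; simp
    have h2 : Nm σ 0 a = 1 := by rw [Nm_apply]; simp
    rw [h1, h2, map_one]
  | succ m ih =>
    rw [Nm_succ, map_mul, hτ, Nm_iter, ih, mul_add, mul_one, Nm_add]

end norm

section normgrp

variable {Q : Type u} [Group Q] (A : Subgroup Q) [hAn : A.Normal]

/-- conjugation -/
def sg (h : Q) : A →* A := (MulAut.conjNormal h⁻¹ : MulAut A).toMonoidHom

theorem coe_sg (h : Q) (a : A) : (sg A h a : Q) = h⁻¹ * a * h := by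
  change h⁻¹ * (a : Q) * (h⁻¹)⁻¹ = _
  rw [inv_inv]

theorem coe_sg_iter (h : Q) (i : ℕ) (a : A) : (((sg A h)^[i] a : A) : Q) = (h ^ i)⁻¹ * a * h ^ i := by
  induction i with
  | zero => simp
  | succ i ih =>
    rw [Function.iterate_succ_apply', coe_sg, ih, pow_succ]
    group

theorem norm_main (hA : ∀ a ∈ A, ∀ b ∈ A, a * b = b * a) (h : Q) {M k m k' m' : ℕ} (hM : M = k * m)
    (hM' : M = k' * m') (hcop : k.Coprime k') {n n' : Q} (hnA : n ∈ A) (hnA' : n' ∈ A)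
    (hn : (h ^ k * n) ^ m = 1) (hn' : (h ^ k' * n') ^ m' = 1) (hb : h ^ M ∈ A) :
    ∃ c ∈ A, (h * c) ^ M = 1 := by
  letI : CommGroup A :=
    { (inferInstance : Group A) with mul_comm := fun a b => Subtype.ext (hA a a.2 b b.2) }
  have hpow : ∀ (g : Q) (a : A) (i : ℕ), (g * (a : Q)) ^ i = g ^ i * (Nm (sg A g) i a : A) := by
    intro g a i
    induction i with
    | zero =>
      rw [pow_zero, pow_zero, one_mul, Nm_apply]
      simp
    | succ i ih =>
      rw [pow_succ, ih, Nm_succ, Subgroup.coe_mul, coe_sg, pow_succ]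
      group
  set b : A := ⟨h ^ M, hb⟩ with hbdef
  have hσb : sg A h b = b := by
    apply Subtype.ext
    rw [coe_sg, hbdef]
    change h⁻¹ * h ^ M * h = h ^ M
    rw [mul_assoc, ← pow_succ, pow_succ', inv_mul_cancel_left]
  have key : ∀ (k m : ℕ) (n : Q) (hnA : n ∈ A), M = k * m → (h ^ k * n) ^ m = 1 →
      Nm (sg A h) M ⟨n, hnA⟩ = (b⁻¹) ^ k := by
    intro k m n hnA hM hn
    have h1 := hpow (h ^ k) ⟨n, hnA⟩ m
    change (h ^ k * n) ^ m = _ at h1
    rw [hn, ← pow_mul, ← hM] at h1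
    have h2 : Nm (sg A (h ^ k)) m ⟨n, hnA⟩ = b⁻¹ := by
      apply Subtype.ext
      rw [Subgroup.coe_inv, hbdef]
      exact eq_inv_of_mul_eq_one_right h1.symm
    have h3 := Nm_comp (sg A h) (τ := sg A (h ^ k)) (k := k) (fun a => by
      apply Subtype.ext
      rw [coe_sg, coe_sg_iter]) m ⟨n, hnA⟩
    rw [h2, ← hM] at h3
    rw [← h3]
    exact Nm_fixed _ (by rw [map_inv, hσb]) k
  have h1 := key k m n hnA hM hn
  have h2 := key k' m' n' hnA' hM' hn'
  let c : A := ⟨n, hnA⟩ ^ (Nat.gcdA k k') * ⟨n', hnA'⟩ ^ (Nat.gcdB k k')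
  have h3 : Nm (sg A h) M c = b⁻¹ := by
    rw [map_mul, map_zpow, map_zpow, h1, h2, ← zpow_natCast, ← zpow_natCast, ← zpow_mul,
      ← zpow_mul, ← zpow_add, ← Nat.gcd_eq_gcd_ab, hcop.gcd_eq_one]
    simp
  refine ⟨c, c.2, ?_⟩
  rw [hpow, h3, hbdef, Subgroup.coe_inv]
  exact mul_inv_cancel _

end normgrp

section cyclic

variable {G : Type u} [Group G] [Finite G] {N : Subgroup G} [hN : N.Normal]

/-- A generator `y`, with the orders in `G / N`. -/
theorem exists_gen' (hc : IsCyclic (G ⧸ N)) : ∃ y : G,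
    orderOf (y : G ⧸ N) = N.index ∧ (∀ T : Subgroup G, N.relIndex T ∣ N.index ∧
      ∃ g ∈ T, ∃ n ∈ N, g = y ^ (N.index / N.relIndex T) * n) := by
  obtain ⟨q, hq⟩ := hc.exists_generator
  obtain ⟨y, rfl⟩ := QuotientGroup.mk_surjective q
  have hord : orderOf (y : G ⧸ N) = N.index := by
    rw [Subgroup.index_eq_card, ← Nat.card_zpowers]
    exact (Subgroup.card_eq_iff_eq_top _).2 (eq_top_iff.2 fun z _ => hq z)
  refine ⟨y, hord, fun T => ?_⟩
  have hcard : Nat.card (T.map (QuotientGroup.mk' N)) = N.relIndex T := by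
    rw [← Subgroup.relIndex_ker, QuotientGroup.ker_mk']
  have hdvd : N.relIndex T ∣ N.index := by
    rw [← hcard, Subgroup.index_eq_card]
    exact Subgroup.card_subgroup_dvd_card _
  refine ⟨hdvd, ?_⟩
  have hpos := index_pos N
  have hrpos : 0 < N.relIndex T := Nat.pos_of_dvd_of_pos hdvd hpos
  have hz : Nat.card (Subgroup.zpowers ((y : G ⧸ N) ^ (N.index / N.relIndex T))) =
      N.relIndex T := by
    rw [Nat.card_zpowers, orderOf_pow_of_dvd, hord]
    · exact Nat.div_div_self hdvd hpos.ne'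
    · exact (Nat.div_pos (Nat.le_of_dvd hpos hdvd) hrpos).ne'
    · rw [hord]
      exact Nat.div_dvd_of_dvd hdvd
  have heq := H348.eq_of_card_eq_of_isCyclic hc (hcard.trans hz.symm)
  have hmem : (y : G ⧸ N) ^ (N.index / N.relIndex T) ∈ T.map (QuotientGroup.mk' N) := by
    rw [heq]
    exact Subgroup.mem_zpowers _
  obtain ⟨g, hg, hgy⟩ := hmem
  have h1 : ((y ^ (N.index / N.relIndex T) : G) : G ⧸ N) = (g : G ⧸ N) := by
    rw [QuotientGroup.mk_pow]
    exact hgy.symm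
  rw [QuotientGroup.eq] at h1
  exact ⟨g, hg, _, h1, by group⟩

theorem dvd_relIndex {T : Subgroup G} {t : G} (ht : t ∈ T) :
    orderOf (t : G ⧸ N) ∣ N.relIndex T := by
  have hcard : Nat.card (T.map (QuotientGroup.mk' N)) = N.relIndex T := by
    rw [← Subgroup.relIndex_ker, QuotientGroup.ker_mk']
  rw [← hcard]
  have h1 : (t : G ⧸ N) ∈ T.map (QuotientGroup.mk' N) := ⟨t, ht, rfl⟩
  have h2 := orderOf_dvd_natCard (⟨_, h1⟩ : T.map (QuotientGroup.mk' N))
  rwa [Subgroup.orderOf_mk] at h2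

end cyclic

section main

variable {G : Type u} [Group G] [Finite G] {N J : Subgroup G} [hN : N.Normal] [hJ : J.Normal]
  {x : G} {p : ℕ}

theorem rel_inf (T : Subgroup G) : (N ⊓ T).relIndex N = T.relIndex N := by
  rw [inf_comm, Subgroup.inf_relIndex_right]

theorem HB.conj_pow (h : HB N J x p) (g : G) (j : ℕ) : ∃ k : ℕ, ∃ z ∈ J,
    g * x ^ j * g⁻¹ = x ^ k * z := by
  obtain ⟨k, z, hz, e⟩ := h.xn g
  refine ⟨k * j, ?_⟩
  have h1 : ((g * x ^ j * g⁻¹ : G) : G ⧸ J) = ((x ^ (k * j) : G) : G ⧸ J) := by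
    rw [← _root_.conj_pow, e, QuotientGroup.mk_pow, QuotientGroup.mk_mul,
      (QuotientGroup.eq_one_iff z).2 hz, mul_one, pow_mul, QuotientGroup.mk_pow,
      QuotientGroup.mk_pow, QuotientGroup.mk_pow]
  have h2 := h1.symm
  rw [QuotientGroup.eq] at h2
  exact ⟨_, h2, by group⟩

/-- Powers of `t ∉ N` do not commute with powers of `x` in the action on the characters of a
normal subgroup `K` on which `x` acts without fixed points. -/
theorem HB.noncomm (h : HB N J x p) {K : Subgroup G} [hK : K.Normal]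
    (hJK : ∀ j ∈ J, ∀ l : K →* ℂˣ, cl j l = l) (hxK : ∃ l : K →* ℂˣ, cl x l ≠ l) {g : G}
    (hg : g ∉ N) {j : ℕ} (hc : ∀ l : K →* ℂˣ, cl (g * x ^ j) l = cl (x ^ j * g) l) : p ∣ j := by
  by_contra hj
  obtain ⟨k, z, hz, e⟩ := h.conj_pow g j
  -- `x ^ k` and `x ^ j` act in the same way
  have h1 : ∀ l : K →* ℂˣ, cl (x ^ k) l = cl (x ^ j) l := by
    intro l
    have h2 : cl (g * x ^ j * g⁻¹) l = cl (x ^ j) l := by
      rw [cl_mul, hc, ← cl_mul, mul_inv_cancel_right]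
    rw [← h2, e, cl_mul, hJK z hz]
  -- so `p ∣ k - j`
  have h3 : x ^ k = x ^ j := by
    by_contra hne
    obtain ⟨l, hl⟩ := hxK
    apply hl
    -- `x ^ (k - j)` acts trivially and generates
    have h4 : ∀ l : K →* ℂˣ, cl (x ^ ((k : ℤ) - j)) l = l := by
      intro l
      rw [zpow_sub, zpow_natCast, zpow_natCast, cl_mul, h1, ← cl_mul, mul_inv_cancel, cl_one]
    have h5 : ¬ (p : ℤ) ∣ (k : ℤ) - j := by
      rintro ⟨c, hc⟩
      apply hne
      have h6 : x ^ ((k : ℤ) - j) = 1 := by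
        rw [hc, zpow_mul, zpow_natCast, h.xp, one_zpow]
      rw [zpow_sub, zpow_natCast, zpow_natCast, mul_inv_eq_one] at h6
      exact h6
    have h6 : IsCoprime (p : ℤ) ((k : ℤ) - j) :=
      (Int.isCoprime_iff_gcd_eq_one).2 (by
        have := (Nat.Prime.coprime_iff_not_dvd h.pr).2
          (fun hd : p ∣ ((k : ℤ) - j).natAbs => h5 (Int.natCast_dvd.2 hd))
        exact this)
    obtain ⟨a, b, hab⟩ := h6
    have h7 : x = (x ^ ((k : ℤ) - j)) ^ b := by
      rw [← zpow_mul, mul_comm]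
      have h8 : x ^ (a * (p : ℤ)) = 1 := by
        rw [mul_comm, zpow_mul, zpow_natCast, h.xp, one_zpow]
      calc x = x ^ (a * (p : ℤ) + b * ((k : ℤ) - j)) := by rw [hab, zpow_one]
        _ = x ^ (b * ((k : ℤ) - j)) := by rw [zpow_add, h8, one_mul]
    have h8 : ∀ (w : G), (∀ l : K →* ℂˣ, cl w l = l) → ∀ (i : ℤ) (l : K →* ℂˣ), cl (w ^ i) l = l := by
      intro w hw i l
      let S : Subgroup G :=
        { carrier := {s | ∀ l : K →* ℂˣ, cl s l = l}
          one_mem' := fun l => cl_one l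
          mul_mem' := fun {a b} ha hb l => by rw [cl_mul, ha, hb]
          inv_mem' := fun {a} ha l => fix_inv_iff.2 (ha l) }
      exact S.zpow_mem (x := w) hw i l
    rw [h7]
    exact h8 _ h4 b l
  have h4 : x ^ j * g * (x ^ j)⁻¹ * g⁻¹ ∈ J := by
    have h5 : g * x ^ j * g⁻¹ = x ^ j * z := by rw [e, h3]
    have h6 : x ^ j * g * (x ^ j)⁻¹ * g⁻¹ = x ^ j * (x ^ j * z)⁻¹ := by
      rw [← h5]; group
    rw [h6, mul_inv_rev]
    have h7 := hJ.conj_mem _ (J.inv_mem hz) (x ^ j)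
    rwa [← mul_assoc]
  have h5 := h.zl (N.pow_mem h.xN j) hg h4
  obtain ⟨g', hg'⟩ := h.nc
  apply hg'
  obtain ⟨t, ht⟩ := Nat.exists_mul_mod_eq_one_of_coprime
    ((Nat.Prime.coprime_iff_not_dvd h.pr).2 hj).symm h.pr.one_lt
  have h6 : x = (x ^ j) ^ t := by
    rw [← pow_mul]
    have h7 : j * t ≡ 1 [MOD p] := by rw [Nat.ModEq, ht.2, Nat.mod_eq_of_lt h.pr.one_lt]
    have h8 : j * t ≡ 1 [MOD orderOf x] := h7.of_dvd (orderOf_dvd_of_pow_eq_one h.xp)
    rw [pow_eq_pow_iff_modEq.2 h8, pow_one]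
  have h7 : Commute ((x ^ j : G) : G ⧸ J) (g' : G ⧸ J) := by
    have h8 := h5 g'
    rw [← QuotientGroup.eq_one_iff] at h8
    simp only [QuotientGroup.mk_mul, QuotientGroup.mk_inv] at h8
    rw [mul_inv_eq_one, mul_inv_eq_iff_eq_mul] at h8
    exact h8
  have h8 := h7.pow_left t
  rw [← QuotientGroup.mk_pow, ← h6] at h8
  rw [← QuotientGroup.eq_one_iff]
  simp only [QuotientGroup.mk_mul, QuotientGroup.mk_inv]
  rw [h8.eq]
  group

/-- **Frobenius fixed points**, for `t` with `t ^ M` acting trivially on `Lin K`, `M` the order of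
`t N`. -/
theorem HB.frob (h : HB N J x p) {K : Subgroup G} [hK : K.Normal]
    (hJK : ∀ j ∈ J, ∀ l : K →* ℂˣ, cl j l = l) (hxK : ∀ l : K →* ℂˣ, cl x l = l → l = 1)
    (hK1 : ∃ l : K →* ℂˣ, l ≠ 1) {t : G} {M : ℕ} (hM : orderOf (t : G ⧸ N) = M)
    (ht : ∀ l : K →* ℂˣ, cl (t ^ M) l = l) :
    Nat.card (K →* ℂˣ) = Nat.card {l : K →* ℂˣ // cl t l = l} ^ M := by
  refine frob_fix h.pr (fun l => by rw [h.xp, cl_one]) hxK ht ?_ ?_
  · obtain ⟨k, z, hz, e⟩ := h.xn t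
    refine ⟨k, fun l => ?_⟩
    have e1 : t * x = x ^ k * t * (t⁻¹ * z * t) := by
      calc t * x = (t * x * t⁻¹) * t := by group
        _ = x ^ k * z * t := by rw [e]
        _ = _ := by group
    have hz' : t⁻¹ * z * t ∈ J := by
      have := hJ.conj_mem z hz t⁻¹
      rwa [inv_inv] at this
    rw [e1, cl_mul, hJK _ hz']
  · intro i j hi hc
    obtain ⟨l, hl⟩ := hK1
    refine h.noncomm hJK ⟨l, fun e => hl (hxK l e)⟩ (g := t ^ i) ?_ hc
    intro hmem
    apply hi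
    rw [← hM]
    apply orderOf_dvd_of_pow_eq_one
    rw [← QuotientGroup.mk_pow]
    exact (QuotientGroup.eq_one_iff _).2 hmem

theorem exists_fixed_of_card {K : Subgroup G} [K.Normal] {t : G} {M : ℕ}
    (hK1 : ∃ l : K →* ℂˣ, l ≠ 1)
    (hc : Nat.card (K →* ℂˣ) = Nat.card {l : K →* ℂˣ // cl t l = l} ^ M) :
    ∃ κ : K →* ℂˣ, κ ≠ 1 ∧ cl t κ = κ := by
  by_contra hcon
  push Not at hcon
  haveI := finite_lin K
  have h1 : Nat.card {l : K →* ℂˣ // cl t l = l} = 1 := by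
    rw [Nat.card_eq_one_iff_unique]
    refine ⟨⟨fun a b => ?_⟩, ⟨⟨1, cl_hone t⟩⟩⟩
    have key : ∀ a : {l : K →* ℂˣ // cl t l = l}, a.1 = 1 := by
      intro a
      by_contra ha
      exact hcon a.1 ha a.2
    exact Subtype.ext ((key a).trans (key b).symm)
  rw [h1, one_pow, Nat.card_eq_one_iff_unique] at hc
  obtain ⟨l, hl⟩ := hK1
  exact hl (hc.1.elim l 1)

theorem HB.act_triv (_h : HB N J x p) : ∀ j ∈ J, ∀ l : J →* ℂˣ, cl j l = l :=
  fun j hj l => cl_of_mem hj l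

theorem HB.x_fix (h : HB N J x p) : ∀ l : J →* ℂˣ, cl x l = l → l = 1 := by
  intro l hl
  by_contra hne
  exact h.x_not (isIrr_lf l) (lf_ne_one hne) (mem_stab_iff.2 hl)

theorem HB.fixed (h : HB N J x p) {l : J →* ℂˣ} (hl : l ≠ 1) {t : G} {M : ℕ}
    (hM : orderOf (t : G ⧸ N) = M) (ht : t ^ M ∈ N ⊓ stab (lf l : J → ℂ)) :
    ∃ κ : J →* ℂˣ, κ ≠ 1 ∧ cl t κ = κ :=
  exists_fixed_of_card ⟨l, hl⟩ (h.frob h.act_triv h.x_fix ⟨l, hl⟩ hM (h.fix_all hl ht))

theorem HB.N1_normal (h : HB N J x p) {l : J →* ℂˣ} (hl : l ≠ 1) :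
    (N ⊓ stab (lf l : J → ℂ)).Normal :=
  normal_of_central' (le_inf h.JN (le_stab' (isIrr_lf l))) (h.centralL hl)

theorem HB.exists_common (h : HB N J x p) {l l' : J →* ℂˣ} (hl : l ≠ 1) (hl' : l' ≠ 1) :
    ∃ κ : J →* ℂˣ, κ ≠ 1 ∧ N.relIndex (stab (lf l : J → ℂ)) ∣ N.relIndex (stab (lf κ : J → ℂ)) ∧
      N.relIndex (stab (lf l' : J → ℂ)) ∣ N.relIndex (stab (lf κ : J → ℂ)) := by
  obtain ⟨y, hy, hgen⟩ := exists_gen' h.cyc
  obtain ⟨hmf, g, hg, n, hn, e⟩ := hgen (stab (lf l : J → ℂ))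
  obtain ⟨hmf', g', hg', n', hn', e'⟩ := hgen (stab (lf l' : J → ℂ))
  set m := N.relIndex (stab (lf l : J → ℂ)) with hm
  set m' := N.relIndex (stab (lf l' : J → ℂ)) with hm'
  have hfpos := index_pos N
  have hmpos : 0 < m := Nat.pos_of_dvd_of_pos hmf hfpos
  have hmpos' : 0 < m' := Nat.pos_of_dvd_of_pos hmf' hfpos
  set N1 : Subgroup G := N ⊓ stab (lf l : J → ℂ) with hN1
  haveI : N1.Normal := h.N1_normal hl
  have hJN1 : J ≤ N1 := le_inf h.JN (le_stab' (isIrr_lf l))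
  obtain ⟨k, hk⟩ := Nat.gcd_dvd_left m m'
  obtain ⟨k', hk'⟩ := Nat.gcd_dvd_right m m'
  have hdpos : 0 < m.gcd m' := Nat.gcd_pos_of_pos_left _ hmpos
  have hcop : k'.Coprime k := by
    have := Nat.coprime_div_gcd_div_gcd hdpos
    have e1 : m / m.gcd m' = k := Nat.div_eq_of_eq_mul_right hdpos hk
    have e2 : m' / m.gcd m' = k' := Nat.div_eq_of_eq_mul_right hdpos hk'
    rw [e1, e2] at this
    exact this.symm
  set M := m * k' with hMdef
  have hM1 : M = k' * m := by rw [hMdef]; ring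
  have hM2 : M = k * m' := by
    have e1 : m * k' = (m.gcd m' * k) * k' := congrArg (· * k') hk
    have e2 : k * m' = k * (m.gcd m' * k') := congrArg (k * ·) hk'
    rw [hMdef, e1, e2]
    ring
  have hMf : M ∣ N.index := by
    have h1 : Nat.lcm m m' ∣ N.index := Nat.lcm_dvd hmf hmf'
    have h2 : Nat.lcm m m' = M := by
      have h3 := Nat.gcd_mul_lcm m m'
      have h4 : m.gcd m' * M = m * m' := by
        rw [hMdef]
        conv_rhs => rw [hk']
        ring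
      exact Nat.eq_of_mul_eq_mul_left hdpos (h3.trans h4.symm)
    rwa [h2] at h1
  obtain ⟨e0, he0⟩ := hMf
  have hMpos : 0 < M := Nat.pos_of_dvd_of_pos ⟨e0, he0⟩ hfpos
  have he0pos : 0 < e0 := Nat.pos_of_mul_pos_left (a := M) (by rw [← he0]; exact hfpos)
  have hd1 : N.index / m = e0 * k' := by
    rw [he0, hM1]
    rw [show k' * m * e0 = (e0 * k') * m by ring]
    exact Nat.mul_div_cancel _ hmpos
  have hd2 : N.index / m' = e0 * k := by
    rw [he0, hM2]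
    rw [show k * m' * e0 = (e0 * k) * m' by ring]
    exact Nat.mul_div_cancel _ hmpos'
  let ρ := QuotientGroup.mk' N1
  have hρ : Function.Surjective ρ := QuotientGroup.mk'_surjective N1
  haveI : (N.map ρ).Normal := Subgroup.Normal.map hN ρ hρ
  have hyf : y ^ N.index ∈ N := Subgroup.pow_index_mem N y
  have hpowN : ∀ (s n₀ : G) (a b : ℕ), n₀ ∈ N → s = y ^ a * n₀ → N.index ∣ a * b → s ^ b ∈ N := by
    intro s n₀ a b hn₀ hs hab
    rw [← QuotientGroup.eq_one_iff, QuotientGroup.mk_pow, hs, QuotientGroup.mk_mul,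
      (QuotientGroup.eq_one_iff n₀).2 hn₀, mul_one, QuotientGroup.mk_pow, ← pow_mul]
    apply orderOf_dvd_iff_pow_eq_one.1
    rw [hy]
    exact hab
  obtain ⟨_, ⟨c, hc, rfl⟩, hcM⟩ := norm_main (N.map ρ) (by
      rintro _ ⟨a, ha, rfl⟩ _ ⟨b, hb, rfl⟩
      have h1 := hJN1 (h.ab (Subgroup.commutator_mem_commutator ha hb))
      rw [← QuotientGroup.eq_one_iff] at h1
      change ρ ⁅a, b⁆ = 1 at h1
      rw [map_commutatorElement, commutatorElement_eq_one_iff_mul_comm] at h1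
      exact h1) (ρ (y ^ e0)) hM1 hM2 hcop (n := ρ n) (n' := ρ n') ⟨n, hn, rfl⟩ ⟨n', hn', rfl⟩ (by
      rw [← map_pow, ← map_mul, ← pow_mul, ← hd1, ← e, ← map_pow]
      refine (QuotientGroup.eq_one_iff _).2 ⟨?_, (stab (lf l : J → ℂ)).pow_mem hg m⟩
      exact hpowN g n _ m hn e (by rw [Nat.div_mul_cancel hmf])) (by
      rw [← map_pow, ← map_mul, ← pow_mul, ← hd2, ← e', ← map_pow]
      refine (QuotientGroup.eq_one_iff _).2 (h.TL_le hl' hl ⟨?_, (stab (lf l' : J → ℂ)).pow_mem hg' m'⟩)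
      exact hpowN g' n' _ m' hn' e' (by rw [Nat.div_mul_cancel hmf'])) (by
      refine ⟨y ^ N.index, hyf, ?_⟩
      rw [he0, mul_comm M e0, pow_mul, map_pow])
  rw [← map_mul, ← map_pow] at hcM
  have ht : (y ^ e0 * c) ^ M ∈ N1 := (QuotientGroup.eq_one_iff _).1 hcM
  have hord : orderOf ((y ^ e0 * c : G) : G ⧸ N) = M := by
    rw [QuotientGroup.mk_mul, (QuotientGroup.eq_one_iff c).2 hc, mul_one, QuotientGroup.mk_pow,
      orderOf_pow_of_dvd he0pos.ne' (by rw [hy]; exact ⟨M, by rw [he0]; ring⟩), hy, he0]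
    exact Nat.mul_div_cancel _ he0pos
  obtain ⟨κ, hκ, hκ'⟩ := h.fixed hl hord ht
  have h1 := dvd_relIndex (N := N) (mem_stab_iff.2 hκ')
  rw [hord] at h1
  exact ⟨κ, hκ, (Dvd.intro_left _ hM1.symm).trans h1, (Dvd.intro_left _ hM2.symm).trans h1⟩

/-- **All degrees over nontrivial linear characters of `J` coincide.** -/
theorem HB.index_eq (h : HB N J x p) {l l' : J →* ℂˣ} (hl : l ≠ 1) (hl' : l' ≠ 1) :
    (stab (lf l : J → ℂ)).index = (stab (lf l' : J → ℂ)).index := by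
  obtain ⟨κ, hκ, h1, h2⟩ := h.exists_common hl hl'
  have key : ∀ m : J →* ℂˣ, m ≠ 1 → N.relIndex (stab (lf m : J → ℂ)) ∣
      N.relIndex (stab (lf κ : J → ℂ)) →
      (stab (lf κ : J → ℂ)).index = (stab (lf m : J → ℂ)).index := by
    intro m hm hd
    refine h.index_eq_of_dvd hκ hm ?_
    have e1 := index_mul (N := N) (stab (lf m : J → ℂ))
    have e2 := index_mul (N := N) (stab (lf κ : J → ℂ))
    have e3 : (stab (lf m : J → ℂ)).relIndex N = (stab (lf κ : J → ℂ)).relIndex N := by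
      rw [← rel_inf, ← rel_inf (stab (lf κ : J → ℂ)), h.TL_eq hm hκ]
    rw [e3, ← e2] at e1
    obtain ⟨c, hc⟩ := hd
    rw [hc] at e1
    have hpos : 0 < N.relIndex (stab (lf m : J → ℂ)) :=
      Nat.pos_of_ne_zero Subgroup.index_ne_zero_of_finite
    refine ⟨c, ?_⟩
    refine Nat.eq_of_mul_eq_mul_right hpos ?_
    rw [e1]
    ring
  rw [← key l hl h1, ← key l' hl' h2]

/-- The index of `stab l` relative to `N` (the order of its image). -/
theorem HB.rel_eq (h : HB N J x p) {l l' : J →* ℂˣ} (hl : l ≠ 1) (hl' : l' ≠ 1) :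
    N.relIndex (stab (lf l : J → ℂ)) = N.relIndex (stab (lf l' : J → ℂ)) := by
  have e1 := index_mul (N := N) (stab (lf l : J → ℂ))
  have e2 := index_mul (N := N) (stab (lf l' : J → ℂ))
  have e3 : (stab (lf l : J → ℂ)).relIndex N = (stab (lf l' : J → ℂ)).relIndex N := by
    rw [← rel_inf, ← rel_inf (stab (lf l' : J → ℂ)), h.TL_eq hl hl']
  rw [e3, ← e2, h.index_eq hl hl'] at e1
  exact Nat.eq_of_mul_eq_mul_left (index_pos _) e1

end main

end Cfsg.Agent.H675.Nd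
end

-- part: H675/Nd/HB3
section
/-!
# A minimal counterexample to the commutativity of `J`: structure of `J`
-/

set_option autoImplicit false
set_option linter.style.haveILetI false
set_option linter.unusedSectionVars false
open Cfsg

namespace Cfsg.Agent.H675.Nd

open Cfsg.Agent.Characters.Core Cfsg.Agent.Characters.Clifford Cfsg.Agent.H672 Cfsg.Agent.H672.RM
open Cfsg.Agent.H597.FrobA
open scoped commutatorElement

universe u v w

structure MB {G : Type u} [Group G] [Finite G] (N J : Subgroup G) [N.Normal] [J.Normal] (x : G)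
    (p : ℕ) : Prop where
  hyp : HB N J x p
  hne : ⁅J, J⁆ ≠ ⊥
  hmin : ∀ M : Subgroup G, M.Normal → M ≠ ⊥ → M ≤ J → ⁅J, J⁆ ≤ M
  hcen : ∀ u ∈ N, u ∈ Subgroup.center G → ∀ r : ℕ, r.Prime → r ≠ p → u ^ r = 1 → u = 1

section c2

variable {G : Type u} [Group G] [Finite G] {J : Subgroup G} [hJn : J.Normal]

theorem c2_J_le_stab (hC : ∀ z ∈ ⁅J, J⁆, ∀ j ∈ J, z * j = j * z)
    (γ : (⁅J, J⁆ : Subgroup G) →* ℂˣ) : J ≤ stab (lf γ : (⁅J, J⁆ : Subgroup G) → ℂ) := by
  intro j hj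
  rw [mem_stab_iff]
  exact cl_of_comm (fun z hz => (hC z hz j hj).symm) γ

theorem c2_res (hC : ∀ z ∈ ⁅J, J⁆, ∀ j ∈ J, z * j = j * z) (γ : (⁅J, J⁆ : Subgroup G) →* ℂˣ)
    {μ : J → ℂ} (hμ : IsIrrCharacter J μ)
    (ho : Over (Subgroup.inclusion (comm_le J)) μ (lf γ)) :
    ∀ z : (⁅J, J⁆ : Subgroup G), μ ⟨z, comm_le J z.2⟩ = μ 1 * γ z := by
  obtain ⟨c, hc, hc'⟩ := res_of_inv (comm_le J) (isIrr_lf γ) (c2_J_le_stab hC γ) hμ ho
  have h1 := hc' 1
  rw [map_one, lf_apply, map_one, Units.val_one, mul_one] at h1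
  intro z
  have h2 := hc' z
  rw [← h1] at h2
  exact h2

theorem c2_over (γ : (⁅J, J⁆ : Subgroup G) →* ℂˣ) {μ : J → ℂ} (hμ : IsIrrCharacter J μ)
    (hres : ∀ z : (⁅J, J⁆ : Subgroup G), μ ⟨z, comm_le J z.2⟩ = μ 1 * γ z) :
    Over (Subgroup.inclusion (comm_le J)) μ (lf γ) := by
  classical
  letI := Fintype.ofFinite (⁅J, J⁆ : Subgroup G)
  rw [over_iff]
  have e : μ ∘ Subgroup.inclusion (comm_le J) = μ 1 • lf γ := funext fun z => hres z
  rw [e, classInner_smul_left, classInner_irr_self (isIrr_lf γ), mul_one]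
  exact isIrr_apply_one_ne_zero hμ

theorem c2_ne_one {γ : (⁅J, J⁆ : Subgroup G) →* ℂˣ} (hγ : γ ≠ 1) {μ : J → ℂ}
    (hμ : IsIrrCharacter J μ) (ho : Over (Subgroup.inclusion (comm_le J)) μ (lf γ)) :
    charDegree μ ≠ 1 := nonlin_of_over (comm_le J) le_rfl hμ (isIrr_lf γ) (lf_ne_one hγ) ho

/-- The stabilizer of `μ` fixes `γ`. -/
theorem c2_stab_le (hC : ∀ z ∈ ⁅J, J⁆, ∀ j ∈ J, z * j = j * z) (γ : (⁅J, J⁆ : Subgroup G) →* ℂˣ)
    {μ : J → ℂ} (hμ : IsIrrCharacter J μ)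
    (ho : Over (Subgroup.inclusion (comm_le J)) μ (lf γ)) :
    stab μ ≤ stab (lf γ : (⁅J, J⁆ : Subgroup G) → ℂ) := by
  intro g hg
  rw [mem_stab_iff]
  apply MonoidHom.ext
  intro z
  rw [cl_apply]
  have hres := c2_res hC γ hμ ho
  have h1 := congrFun hg.2 ⟨z, comm_le J z.2⟩
  rw [tw_apply (mem_nrm J g)] at h1
  have hz : g * (z : G) * g⁻¹ ∈ ⁅J, J⁆ := Subgroup.Normal.conj_mem inferInstance _ z.2 g
  have h2 := hres ⟨g * (z : G) * g⁻¹, hz⟩
  have h3 := hres z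
  have h4 : μ 1 * (γ ⟨g * (z : G) * g⁻¹, hz⟩ : ℂ) = μ 1 * (γ z : ℂ) := by
    rw [← h2, ← h3]
    exact h1
  exact Units.ext (mul_left_cancel₀ (isIrr_apply_one_ne_zero hμ) h4)

/-- Transitivity of the linear characters of `J` on the characters over `γ`. -/
theorem c2_trans (γ : (⁅J, J⁆ : Subgroup G) →* ℂˣ) {μ μ' : J → ℂ}
    (hμ : IsIrrCharacter J μ) (ho : Over (Subgroup.inclusion (comm_le J)) μ (lf γ))
    (hμ' : IsIrrCharacter J μ') (ho' : Over (Subgroup.inclusion (comm_le J)) μ' (lf γ)) :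
    ∃ l : J →* ℂˣ, μ' = lf l * μ := by
  classical
  letI := Fintype.ofFinite J
  letI := Fintype.ofFinite ((⁅J, J⁆ : Subgroup G).subgroupOf J)
  obtain ⟨l, -, hl⟩ := Cfsg.Agent.H594.Glau.exists_linear_mul ((⁅J, J⁆ : Subgroup G).subgroupOf J)
    (fun a b => by
      rw [Subgroup.mem_subgroupOf]
      have := Subgroup.commutator_mem_commutator a.2 b.2
      rwa [commutatorElement_def] at this) hμ hμ' (isIrr_sub (comm_le J) (isIrr_lf γ))
    ((over_subtype_iff _ _ _).1 ((over_iff_sub (comm_le J) μ (lf γ)).1 ho))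
    ((over_subtype_iff _ _ _).1 ((over_iff_sub (comm_le J) μ' (lf γ)).1 ho'))
  exact ⟨l, hl⟩

theorem c2_over_mul (hC : ∀ z ∈ ⁅J, J⁆, ∀ j ∈ J, z * j = j * z)
    (γ : (⁅J, J⁆ : Subgroup G) →* ℂˣ) {μ : J → ℂ}
    (hμ : IsIrrCharacter J μ) (ho : Over (Subgroup.inclusion (comm_le J)) μ (lf γ))
    (l : J →* ℂˣ) : Over (Subgroup.inclusion (comm_le J)) (lf l * μ) (lf γ) := by
  have hi : IsIrrCharacter J (lf l * μ) := isIrr_mul_lf l hμ
  refine c2_over γ hi fun z => ?_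
  have h1 := c2_res hC γ hμ ho z
  have h2 : l ⟨z, comm_le J z.2⟩ = 1 := hom_commutator l z.2 _
  simp only [Pi.mul_apply, lf_apply, map_one, Units.val_one, one_mul]
  rw [h2, h1, Units.val_one, one_mul]

/-- Elements acting trivially on `Lin J` centralize `J'`. -/
theorem c2_comm (hC : ∀ z ∈ ⁅J, J⁆, ∀ j ∈ J, z * j = j * z) {n : G}
    (hn : ∀ l : J →* ℂˣ, cl n l = l) : ∀ z ∈ ⁅J, J⁆, n * z = z * n := by
  have h1 : ⁅J, J⁆ ≤ Subgroup.centralizer ({n} : Set G) := by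
    rw [Subgroup.commutator_le]
    intro a ha b hb
    rw [Subgroup.mem_centralizer_singleton_iff]
    have ha' := diff_mem hn ha
    have hb' := diff_mem hn hb
    set z := n * a * n⁻¹ * a⁻¹ with hz
    set w := n * b * n⁻¹ * b⁻¹ with hw
    have e1 : n * a * n⁻¹ = z * a := by rw [hz]; group
    have e2 : n * b * n⁻¹ = w * b := by rw [hw]; group
    have hzC : ∀ j ∈ J, z * j = j * z := hC z ha'
    have hwC : ∀ j ∈ J, w * j = j * w := hC w hb'
    have hwJ : w ∈ J := comm_le J hb'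
    have e3 : n * ⁅a, b⁆ * n⁻¹ = ⁅a, b⁆ := by
      have e4 : n * ⁅a, b⁆ * n⁻¹ = ⁅n * a * n⁻¹, n * b * n⁻¹⁆ := by
        rw [commutatorElement_def, commutatorElement_def]; group
      rw [e4, e1, e2, commutatorElement_def, commutatorElement_def]
      have c1 : Commute z a := hzC a ha
      have c2 : Commute z b := hzC b hb
      have c3 : Commute z w := hzC w hwJ
      have c4 : Commute w a := hwC a ha
      have c5 : Commute w b := hwC b hb
      calc z * a * (w * b) * (z * a)⁻¹ * (w * b)⁻¹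
          = z * (a * w) * b * a⁻¹ * z⁻¹ * b⁻¹ * w⁻¹ := by group
        _ = z * (w * a) * b * a⁻¹ * z⁻¹ * b⁻¹ * w⁻¹ := by rw [c4.eq]
        _ = z * w * (a * b * a⁻¹) * (z⁻¹ * b⁻¹) * w⁻¹ := by group
        _ = z * w * (a * b * a⁻¹) * (b⁻¹ * z⁻¹) * w⁻¹ := by rw [c2.inv_left.inv_right.eq]
        _ = z * w * ((a * b * a⁻¹ * b⁻¹) * (z⁻¹ * w⁻¹)) := by group
        _ = z * w * ((z⁻¹ * w⁻¹) * (a * b * a⁻¹ * b⁻¹)) := by
            have c6 : Commute (a * b * a⁻¹ * b⁻¹) (z⁻¹ * w⁻¹) := by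
              refine Commute.mul_right ?_ ?_
              · exact (((c1.symm.mul_left c2.symm).mul_left c1.symm.inv_left).mul_left
                  c2.symm.inv_left).inv_right
              · exact (((c4.symm.mul_left c5.symm).mul_left c4.symm.inv_left).mul_left
                  c5.symm.inv_left).inv_right
            rw [c6.eq]
        _ = z * (w * z⁻¹) * w⁻¹ * (a * b * a⁻¹ * b⁻¹) := by group
        _ = z * (z⁻¹ * w) * w⁻¹ * (a * b * a⁻¹ * b⁻¹) := by rw [c3.symm.inv_right.eq]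
        _ = a * b * a⁻¹ * b⁻¹ := by group
    exact (mul_inv_eq_iff_eq_mul.1 e3).symm
  intro z hz
  exact (Subgroup.mem_centralizer_singleton_iff.1 (h1 hz)).symm

end c2

variable {G : Type u} [Group G] [Finite G] {N J : Subgroup G} {x : G} {p : ℕ} [hN : N.Normal]
  [hJn : J.Normal]

theorem HB.nil (h : HB N J x p) : Group.IsNilpotent J := by
  classical
  by_cases hJ : J = ⊥
  · subst hJ
    haveI : Subsingleton (⊥ : Subgroup G) := inferInstance
    exact Group.isNilpotent_of_subsingleton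
  let φ : J ≃* J := cj (mem_nrm J x)
  have hφ : ∀ j : J, ((φ j : J) : G) = x * j * x⁻¹ := fun _ => rfl
  have hfix : ∀ j : J, φ j = j → j = 1 := by
    intro j hj
    have h1 := congrArg Subtype.val hj
    rw [hφ] at h1
    exact Subtype.ext (h.fix j.2 (mul_inv_eq_iff_eq_mul.1 h1))
  have hpow : ∀ (k : ℕ) (j : J), (((φ ^ k : MulAut J) j : J) : G) = x ^ k * j * (x ^ k)⁻¹ := by
    intro k
    induction k with
    | zero => intro j; simp
    | succ k ih =>
      intro j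
      rw [pow_succ, MulAut.mul_apply, ih]
      change x ^ k * (x * j * x⁻¹) * (x ^ k)⁻¹ = _
      rw [pow_succ]
      group
  refine S0033.result φ (fun j hj => hfix j hj) p h.pr ?_
  haveI := Fact.mk h.pr
  refine orderOf_eq_prime ?_ ?_
  · apply MulEquiv.ext
    intro j
    apply Subtype.ext
    refine (hpow p j).trans ?_
    rw [h.xp]
    simp
  · intro e
    apply hJ
    rw [eq_bot_iff]
    intro j hj
    have h1 : φ ⟨j, hj⟩ = ⟨j, hj⟩ := by
      rw [show (φ : MulAut J) = 1 from e]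
      rfl
    exact Subgroup.mem_bot.2 (congrArg Subtype.val (hfix _ h1))

theorem MB.isPGroup (h : MB N J x p) : ∃ r : ℕ, r.Prime ∧ IsPGroup r J := by
  classical
  have hcard : Nat.card (⁅J, J⁆ : Subgroup G) ≠ 1 := fun e => h.hne (Subgroup.card_eq_one.1 e)
  obtain ⟨r, hr, hrd⟩ := Nat.exists_prime_and_dvd hcard
  refine ⟨r, hr, ?_⟩
  haveI := Fact.mk hr
  have hnil := h.hyp.nil
  rw [IsPGroup.iff_card]
  refine ⟨_, Nat.eq_prime_pow_of_unique_prime_dvd Nat.card_pos.ne' ?_⟩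
  intro q hq hqd
  by_contra hqr
  haveI := Fact.mk hq
  let Q : Sylow q J := default
  have htf := (Group.isNilpotent_of_finite_tfae (G := J)).out 0 3
  have hQn : (Q : Subgroup J).Normal := htf.1 hnil q inferInstance Q
  have hQc : (Q : Subgroup J).Characteristic := Q.characteristic_of_normal hQn
  have hM : ((Q : Subgroup J).map J.subtype).Normal := inferInstance
  have hM1 : (Q : Subgroup J).map J.subtype ≠ ⊥ := by
    intro e
    rw [Subgroup.map_eq_bot_iff_of_injective _ J.subtype_injective] at e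
    have h1 := Q.dvd_card_of_dvd_card hqd
    rw [e, Subgroup.card_bot] at h1
    exact hq.one_lt.ne' (Nat.dvd_one.1 h1)
  have h1 := h.hmin _ hM hM1 (Subgroup.map_subtype_le _)
  have h2 : Nat.card (⁅J, J⁆ : Subgroup G) ∣ Nat.card ((Q : Subgroup J).map J.subtype) :=
    Subgroup.card_dvd_of_le h1
  rw [Subgroup.card_map_of_injective J.subtype_injective] at h2
  obtain ⟨k, hk⟩ := IsPGroup.iff_card.1 Q.isPGroup'
  have h3 : r ∣ q ^ k := by rw [← hk]; exact hrd.trans h2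
  exact hqr ((Nat.prime_dvd_prime_iff_eq hr hq).1 (hr.dvd_of_dvd_pow h3)).symm

/-- The derived subgroup of `J` is central in `J`. -/
theorem MB.central' (h : MB N J x p) : ∀ z ∈ ⁅J, J⁆, ∀ j ∈ J, z * j = j * z := by
  obtain ⟨r, hr, hJr⟩ := h.isPGroup
  haveI := Fact.mk hr
  have hJ : Nontrivial J := by
    rw [Subgroup.nontrivial_iff_ne_bot]
    intro e
    apply h.hne
    rw [e, Subgroup.commutator_bot_left]
  have hc := hJr.center_nontrivial
  have hM1 : (Subgroup.center J).map J.subtype ≠ ⊥ := by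
    intro e
    rw [Subgroup.map_eq_bot_iff_of_injective _ J.subtype_injective] at e
    rw [Subgroup.nontrivial_iff_ne_bot] at hc
    exact hc e
  have h1 := h.hmin ((Subgroup.center J).map J.subtype) inferInstance hM1
    (Subgroup.map_subtype_le _)
  intro z hz j hj
  obtain ⟨w, hw, rfl⟩ := h1 hz
  have h2 := Subgroup.mem_center_iff.1 hw ⟨j, hj⟩
  exact (congrArg Subtype.val h2).symm

theorem MB.exists_not_mem (h : MB N J x p) : ∃ j ∈ J, j ∉ ⁅J, J⁆ := by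
  by_contra hcon
  push Not at hcon
  apply h.hne
  rw [eq_bot_iff, Subgroup.commutator_le]
  intro a ha b hb
  rw [Subgroup.mem_bot, commutatorElement_eq_one_iff_mul_comm]
  exact h.central' a (hcon a ha) b hb

theorem MB.exists_lin (h : MB N J x p) : ∃ l : J →* ℂˣ, l ≠ 1 := by
  obtain ⟨j, hj, hj'⟩ := h.exists_not_mem
  obtain ⟨β, -, hβ⟩ := exists_lin_ne (x := (⟨j, hj⟩ : J)) (comm_le J) le_rfl hj'
  exact ⟨β, fun e => hβ (by rw [e]; rfl)⟩

theorem MB.GG (h : MB N J x p) : ⁅(⁅J, J⁆ : Subgroup G), ⁅J, J⁆⁆ ≤ ⊥ := by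
  rw [Subgroup.commutator_le]
  intro a ha b hb
  rw [Subgroup.mem_bot, commutatorElement_eq_one_iff_mul_comm]
  exact h.central' a ha b (comm_le J hb)

/-- `Y = N_G(⟨x⟩)` centralizes the elements of `C_N(x)` lying in `N₁`. -/
theorem HB.Y_comm (h : HB N J x p) {l : J →* ℂˣ} (hl : l ≠ 1) {u : G}
    (hu : u ∈ N ⊓ stab (lf l : J → ℂ)) (hxu : x * u = u * x) {y : G} (hy : y ∈ YY x) :
    y * u = u * y := by
  have h1 : u * y * u⁻¹ * y⁻¹ ∈ J := h.centralL hl u hu y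
  -- `y u y⁻¹` centralizes `x`
  have h2 : Commute (y * u * y⁻¹) x := by
    obtain ⟨k, hk⟩ := Subgroup.mem_zpowers_iff.1
      ((Subgroup.mem_normalizer_iff.1 ((YY x).inv_mem hy) x).1 (Subgroup.mem_zpowers x))
    rw [inv_inv] at hk
    have h3 : Commute u (y⁻¹ * x * y) := by
      rw [← hk]
      exact (show Commute u x from hxu.symm).zpow_right k
    have h4 := h3.map (MulAut.conj y).toMonoidHom
    have e3 : (MulAut.conj y).toMonoidHom (y⁻¹ * x * y) = x := by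
      change y * (y⁻¹ * x * y) * y⁻¹ = x
      group
    rw [e3] at h4
    exact h4
  have h3 : x * (u * y * u⁻¹ * y⁻¹) = (u * y * u⁻¹ * y⁻¹) * x := by
    have e4 : u * y * u⁻¹ * y⁻¹ = u * (y * u * y⁻¹)⁻¹ := by group
    rw [e4]
    exact (show Commute x u from hxu).mul_right h2.symm.inv_right
  have h4 := h.fix h1 h3
  have h5 := mul_inv_eq_one.1 h4
  exact (mul_inv_eq_iff_eq_mul.1 h5).symm

theorem HB.mem_of_pow (h : HB N J x p) {r : ℕ} (hr : r.Prime) (hJr : IsPGroup r J) {u : G}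
    (hu : u ∈ N) {k : ℕ} (huk : u ^ r ^ k = 1) {l : J →* ℂˣ} (hl : l ≠ 1) :
    u ∈ N ⊓ stab (lf l : J → ℂ) := by
  obtain ⟨m, hm, hm'⟩ := exists_fixed_lin hr hJr huk hl
  exact h.TL_le hm hl ⟨hu, mem_stab_iff.2 hm'⟩

/-- The index of the stabilizer of a nonlinear `μ` is not divisible by the linear degree. -/
theorem HB.no_dvd (h : HB N J x p) {μ : J → ℂ} (hμ : IsIrrCharacter J μ)
    (hμ1 : charDegree μ ≠ 1) {l : J →* ℂˣ} (hl : l ≠ 1)
    (hd : (stab (lf l : J → ℂ)).index ∣ (stab μ).index) : False := by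
  obtain ⟨ψ, hψ, hψo⟩ := exists_over_subtype J hμ
  obtain ⟨η, hη, ho, -, hdψ⟩ := eta_top hμ hψ hψo
  obtain ⟨⟨ψ', hψ', -, hd'⟩, -, -⟩ := h.GTL hl
  have h1 := h.anti ψ' ψ hψ' hψ (by rw [hd']; exact h.index_ne hl)
    (by rw [hd', hdψ]; exact hd.mul_right _)
  rw [hd', hdψ] at h1
  have h2 : charDegree η = 1 := by
    have h3 : (stab (lf l : J → ℂ)).index ≤ (stab μ).index := Nat.le_of_dvd (index_pos _) hd
    have h4 := charDegree_pos hη
    have h5 := index_pos (stab μ)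
    by_contra hne
    have h6 : 2 ≤ charDegree η := by omega
    nlinarith
  apply hμ1
  have h3 := (div_dvd_of_over (le_stab' hμ) (le_nrm J _) hη hμ ho).1
  rw [h2] at h3
  exact Nat.dvd_one.1 h3

/-- `r`-elements of `N` centralizing `x` centralize `J`. -/
theorem MB.comm_of_pow (h : MB N J x p) {r : ℕ} (hr : r.Prime) (hJr : IsPGroup r J) {u : G}
    (hu : u ∈ N) (hxu : x * u = u * x) {k : ℕ} (huk : u ^ r ^ k = 1) : ∀ j ∈ J, u * j = j * u := by
  classical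
  have hC := h.central'
  have hyp := h.hyp
  have hut : ∀ l : J →* ℂˣ, cl u l = l := by
    intro l
    by_cases hl : l = 1
    · rw [hl, cl_hone]
    · exact mem_stab_iff.1 (hyp.mem_of_pow hr hJr hu huk hl).2
  let δ : J →* (⁅J, J⁆ : Subgroup G) := MonoidHom.mk'
    (fun j => ⟨u * j * u⁻¹ * (j : G)⁻¹, diff_mem hut j.2⟩) (by
      intro a b
      apply Subtype.ext
      change u * (a * b) * u⁻¹ * ((a : G) * b)⁻¹ = u * a * u⁻¹ * (a : G)⁻¹ * (u * b * u⁻¹ * (b : G)⁻¹)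
      have h1 := hC _ (diff_mem hut b.2) (a : G)⁻¹ (J.inv_mem a.2)
      calc u * (a * b) * u⁻¹ * ((a : G) * b)⁻¹
          = u * a * u⁻¹ * ((u * b * u⁻¹ * (b : G)⁻¹) * (a : G)⁻¹) := by group
        _ = u * a * u⁻¹ * ((a : G)⁻¹ * (u * b * u⁻¹ * (b : G)⁻¹)) := by rw [h1]
        _ = _ := by group)
  have hδ : ∀ j : J, ((δ j : (⁅J, J⁆ : Subgroup G)) : G) = u * j * u⁻¹ * (j : G)⁻¹ := fun _ => rfl
  intro j₀ hj₀
  by_contra hcon
  have hδ0 : ((δ ⟨j₀, hj₀⟩ : (⁅J, J⁆ : Subgroup G)) : G) ∉ (⊥ : Subgroup G) := by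
    rw [hδ, Subgroup.mem_bot]
    intro e
    apply hcon
    have := mul_inv_eq_one.1 e
    exact mul_inv_eq_iff_eq_mul.1 this
  obtain ⟨γ, -, hγ⟩ := exists_lin_ne (x := δ ⟨j₀, hj₀⟩) bot_le h.GG hδ0
  have hγ1 : γ ≠ 1 := fun e => hγ (by rw [e]; rfl)
  have hl1 : γ.comp δ ≠ 1 := fun e => hγ (DFunLike.congr_fun e ⟨j₀, hj₀⟩)
  have hst : stab (lf γ : (⁅J, J⁆ : Subgroup G) → ℂ) ≤ stab (lf (γ.comp δ) : J → ℂ) := by
    intro n hn'
    rw [mem_stab_iff] at hn'
    obtain ⟨j, hj, c, hc, rfl⟩ := hyp.frat n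
    have h1 : ∀ ξ : (⁅J, J⁆ : Subgroup G) →* ℂˣ, cl j ξ = ξ := fun ξ =>
      cl_of_comm (fun z hz => (hC z hz j hj).symm) ξ
    rw [cl_mul, h1] at hn'
    rw [mem_stab_iff, cl_mul, cl_of_mem hj]
    apply MonoidHom.ext
    intro k
    rw [cl_apply]
    have huc := hyp.Y_comm hl1 (hyp.mem_of_pow hr hJr hu huk hl1) hxu hc
    have e : (δ ⟨c * k * c⁻¹, hJn.conj_mem k k.2 c⟩ : (⁅J, J⁆ : Subgroup G)) =
        ⟨c * (δ k : G) * c⁻¹, Subgroup.Normal.conj_mem inferInstance _ (δ k).2 c⟩ := by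
      apply Subtype.ext
      rw [hδ]
      change u * (c * k * c⁻¹) * u⁻¹ * (c * k * c⁻¹)⁻¹ = c * (u * k * u⁻¹ * (k : G)⁻¹) * c⁻¹
      have huc' : c⁻¹ * u⁻¹ = u⁻¹ * c⁻¹ := by
        rw [← mul_inv_rev, ← mul_inv_rev, huc]
      calc u * (c * k * c⁻¹) * u⁻¹ * (c * k * c⁻¹)⁻¹
          = (u * c) * k * (c⁻¹ * u⁻¹) * c * (k : G)⁻¹ * c⁻¹ := by group
        _ = (c * u) * k * (u⁻¹ * c⁻¹) * c * (k : G)⁻¹ * c⁻¹ := by rw [huc', ← huc]
        _ = _ := by group
    rw [MonoidHom.comp_apply, e]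
    exact DFunLike.congr_fun hn' (δ k)
  -- characters over `γ`
  obtain ⟨μ, hμ, hμo⟩ := exists_over_incl (comm_le J) (isIrr_lf γ)
  exact hyp.no_dvd hμ (c2_ne_one hγ1 hμ hμo) hl1
    (Subgroup.index_dvd_of_le ((c2_stab_le hC γ hμ hμo).trans hst))

theorem MB.ne_p (h : MB N J x p) {r : ℕ} (hr : r.Prime) (hJr : IsPGroup r J) : r ≠ p := by
  rintro rfl
  haveI := Fact.mk hr
  obtain ⟨a, ha⟩ := IsPGroup.iff_card.1 hJr
  apply h.hyp.pJ
  rw [ha]
  refine dvd_pow_self r ?_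
  rintro rfl
  rw [pow_zero] at ha
  apply h.hne
  rw [Subgroup.card_eq_one.1 ha, Subgroup.commutator_bot_left]

theorem MB.eq_one_of_pow (h : MB N J x p) {r : ℕ} (hr : r.Prime) (hJr : IsPGroup r J) {u : G}
    (hu : u ∈ N) (hxu : x * u = u * x) (hur : u ^ r = 1) : u = 1 := by
  have hcJ := h.comm_of_pow hr hJr hu hxu (k := 1) (by rwa [pow_one])
  obtain ⟨l, hl⟩ := h.exists_lin
  have huT := h.hyp.mem_of_pow hr hJr hu (k := 1) (by rwa [pow_one]) hl
  have hcen : u ∈ Subgroup.center G := by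
    rw [Subgroup.mem_center_iff]
    intro g
    obtain ⟨j, hj, y, hy, rfl⟩ := h.hyp.frat g
    have h1 := h.hyp.Y_comm hl huT hxu hy
    rw [mul_assoc, ← hcJ j hj, ← mul_assoc, h1, mul_assoc]
  exact h.hcen u hu hcen r hr (h.ne_p hr hJr) hur

theorem MB.not_dvd (h : MB N J x p) {r : ℕ} (hr : r.Prime) (hJr : IsPGroup r J) :
    ¬ r ∣ J.relIndex N := by
  haveI := Fact.mk hr
  intro hd
  have hd' : r ∣ Nat.card (N ⧸ J.subgroupOf N) := hd
  obtain ⟨q, hq⟩ := exists_prime_orderOf_dvd_card' r hd'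
  obtain ⟨n, rfl⟩ := QuotientGroup.mk_surjective q
  obtain ⟨j, hj, c, hc, hxc, e⟩ := h.hyp.exists_mul n.2
  have h1 : (n : G) ^ r ∈ J := by
    have h2 := pow_orderOf_eq_one (n : N ⧸ J.subgroupOf N)
    rw [hq, ← QuotientGroup.mk_pow, QuotientGroup.eq_one_iff, Subgroup.mem_subgroupOf] at h2
    exact h2
  have h2 : c ^ r ∈ J := by
    rw [← QuotientGroup.eq_one_iff] at h1 ⊢
    have h3 : ((n : G) : G ⧸ J) = (c : G ⧸ J) := by
      rw [e, QuotientGroup.mk_mul, (QuotientGroup.eq_one_iff j).2 hj, mul_one]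
    rw [QuotientGroup.mk_pow] at h1 ⊢
    rw [← h3, h1]
  have h3 : c ^ r = 1 := h.hyp.fix h2 ((show Commute x c from hxc).pow_right r)
  have h4 := h.eq_one_of_pow hr hJr hc hxc h3
  rw [h4, one_mul] at e
  have h5 : (n : N ⧸ J.subgroupOf N) = 1 := by
    rw [QuotientGroup.eq_one_iff, Subgroup.mem_subgroupOf, e]
    exact hj
  rw [h5, orderOf_one] at hq
  exact hr.one_lt.ne hq

/-- Every irreducible character of `J` extends to its stabilizer. -/
theorem MB.exists_extn (h : MB N J x p) (μ : J → ℂ) (hμ : IsIrrCharacter J μ) :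
    ∃ χ : stab μ → ℂ, IsIrrCharacter (stab μ) χ ∧
      ∀ j : J, χ (Subgroup.inclusion (le_stab' hμ) j) = μ j := by
  obtain ⟨r, hr, hJr⟩ := h.isPGroup
  haveI := Fact.mk hr
  obtain ⟨a, ha⟩ := IsPGroup.iff_card.1 hJr
  refine exists_ext_cyc h.hyp.cyc h.hyp.JN (le_stab' hμ) hμ le_rfl ?_
  rw [ha]
  refine Nat.Coprime.pow_left a ((Nat.Prime.coprime_iff_not_dvd hr).2 fun hd => ?_)
  exact h.not_dvd hr hJr (hd.trans (Dvd.intro _ (Subgroup.relIndex_mul_relIndex J _ N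
    (le_inf h.hyp.JN (le_stab' hμ)) inf_le_left)))

theorem MB.central (h : MB N J x p) {μ : J → ℂ} (hμ : IsIrrCharacter J μ) (hμ1 : μ ≠ 1) :
    ∀ t ∈ N ⊓ stab μ, ∀ g : G, t * g * t⁻¹ * g⁻¹ ∈ J := by
  obtain ⟨χ, hχ, hext⟩ := h.exists_extn μ hμ
  exact h.hyp.central hμ hμ1 hχ hext

/-- The stabilizer in `N` of a nonlinear `μ` is not contained in `N₁`. -/
theorem MB.exists_outside (h : MB N J x p) {μ : J → ℂ} (hμ : IsIrrCharacter J μ)
    (hμ1 : charDegree μ ≠ 1) {l : J →* ℂˣ} (hl : l ≠ 1) :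
    ∃ t ∈ N ⊓ stab μ, t ∉ N ⊓ stab (lf l : J → ℂ) := by
  by_contra hcon
  push Not at hcon
  have hle : N ⊓ stab μ ≤ N ⊓ stab (lf l : J → ℂ) := hcon
  obtain ⟨y, hy, hgen⟩ := exists_gen' h.hyp.cyc
  obtain ⟨hmf, g, hg, n, hn, e⟩ := hgen (stab μ)
  have hfpos := index_pos N
  set m := N.relIndex (stab μ) with hm
  have hmpos : 0 < m := Nat.pos_of_dvd_of_pos hmf hfpos
  have hq : 0 < N.index / m := Nat.div_pos (Nat.le_of_dvd hfpos hmf) hmpos
  have hord : orderOf ((g : G) : G ⧸ N) = m := by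
    rw [e, QuotientGroup.mk_mul, (QuotientGroup.eq_one_iff n).2 hn, mul_one,
      QuotientGroup.mk_pow, orderOf_pow_of_dvd hq.ne' (by rw [hy]; exact Nat.div_dvd_of_dvd hmf), hy]
    exact Nat.div_div_self hmf hfpos.ne'
  have hgm : g ^ m ∈ N := by
    rw [← QuotientGroup.eq_one_iff, QuotientGroup.mk_pow, ← hord]
    exact pow_orderOf_eq_one _
  obtain ⟨κ, hκ, hκ'⟩ := h.hyp.fixed hl hord (hle ⟨hgm, (stab μ).pow_mem hg m⟩)
  have h1 := dvd_relIndex (N := N) (mem_stab_iff.2 hκ')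
  rw [hord] at h1
  refine h.hyp.no_dvd hμ hμ1 hκ ?_
  have e1 := index_mul (N := N) (stab μ)
  have e2 := index_mul (N := N) (stab (lf κ : J → ℂ))
  have e3 : (stab (lf κ : J → ℂ)).relIndex N ∣ (stab μ).relIndex N := by
    rw [← rel_inf, ← rel_inf (stab μ), h.hyp.TL_eq hκ hl]
    exact Subgroup.relIndex_dvd_of_le_left N hle
  obtain ⟨c, hc⟩ := e3
  obtain ⟨d, hd⟩ := h1
  rw [hc, ← mul_assoc, ← e2, hd, ← hm] at e1
  refine ⟨d * c, Nat.eq_of_mul_eq_mul_right hmpos ?_⟩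
  rw [e1]
  ring

/-- **An invariant character over `γ`** (Glauberman's lemma). -/
theorem MB.exists_inv (h : MB N J x p) (γ : (⁅J, J⁆ : Subgroup G) →* ℂˣ) :
    ∃ μ : J → ℂ, IsIrrCharacter J μ ∧ Over (Subgroup.inclusion (comm_le J)) μ (lf γ) ∧
      N ⊓ stab (lf γ : (⁅J, J⁆ : Subgroup G) → ℂ) ≤ stab μ := by
  classical
  obtain ⟨r, hr, hJr⟩ := h.isPGroup
  haveI := Fact.mk hr
  haveI := finite_lin J
  have hC := h.central'
  let T : Subgroup G := N ⊓ stab (lf γ : (⁅J, J⁆ : Subgroup G) → ℂ)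
  let A : Subgroup G := T ⊓ Subgroup.centralizer ({x} : Set G)
  have hAx : ∀ a ∈ A, x * a = a * x := fun a ha =>
    (Subgroup.mem_centralizer_singleton_iff.1 ha.2).symm
  let φ : A →* MulAut (J →* ℂˣ) :=
    { toFun := fun a =>
        { toFun := fun l => cl (a : G)⁻¹ l
          invFun := fun l => cl (a : G) l
          left_inv := fun l => by
            change cl (a : G) (cl (a : G)⁻¹ l) = l
            rw [← cl_mul, inv_mul_cancel, cl_one]
          right_inv := fun l => by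
            change cl (a : G)⁻¹ (cl (a : G) l) = l
            rw [← cl_mul, mul_inv_cancel, cl_one]
          map_mul' := fun l m => rfl }
      map_one' := by
        apply MulEquiv.ext
        intro l
        change cl ((1 : A) : G)⁻¹ l = l
        rw [Subgroup.coe_one, inv_one, cl_one]
      map_mul' := by
        intro a b
        apply MulEquiv.ext
        intro l
        change cl ((a * b : A) : G)⁻¹ l = cl (a : G)⁻¹ (cl (b : G)⁻¹ l)
        rw [Subgroup.coe_mul, mul_inv_rev, cl_mul] }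
  let ρ : A →* Equiv.Perm (IrrCharacter J) :=
    { toFun := fun a =>
        { toFun := fun μ => ⟨tw J (a : G)⁻¹ (μ : J → ℂ), isIrr_tw (mem_nrm J _) μ.2⟩
          invFun := fun μ => ⟨tw J (a : G) (μ : J → ℂ), isIrr_tw (mem_nrm J _) μ.2⟩
          left_inv := fun μ => Subtype.ext (by
            change tw J (a : G) (tw J (a : G)⁻¹ (μ : J → ℂ)) = μ
            rw [← tw_mul (mem_nrm J _) (mem_nrm J _), inv_mul_cancel, tw_one])
          right_inv := fun μ => Subtype.ext (by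
            change tw J (a : G)⁻¹ (tw J (a : G) (μ : J → ℂ)) = μ
            rw [← tw_mul (mem_nrm J _) (mem_nrm J _), mul_inv_cancel, tw_one]) }
      map_one' := by
        apply Equiv.ext
        intro μ
        apply Subtype.ext
        change tw J ((1 : A) : G)⁻¹ (μ : J → ℂ) = μ
        rw [Subgroup.coe_one, inv_one, tw_one]
      map_mul' := by
        intro a b
        apply Equiv.ext
        intro μ
        apply Subtype.ext
        change tw J ((a * b : A) : G)⁻¹ (μ : J → ℂ) = tw J (a : G)⁻¹ (tw J (b : G)⁻¹ (μ : J → ℂ))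
        rw [Subgroup.coe_mul, mul_inv_rev, tw_mul (mem_nrm J _) (mem_nrm J _)] }
  let σ : (J →* ℂˣ) →* Equiv.Perm (IrrCharacter J) :=
    { toFun := fun l =>
        { toFun := fun μ => ⟨lf l * (μ : J → ℂ), isIrr_mul_lf l μ.2⟩
          invFun := fun μ => ⟨lf l⁻¹ * (μ : J → ℂ), isIrr_mul_lf l⁻¹ μ.2⟩
          left_inv := fun μ => Subtype.ext (by
            funext j
            change ((l⁻¹ j : ℂˣ) : ℂ) * ((l j : ℂ) * (μ : J → ℂ) j) = (μ : J → ℂ) j
            rw [← mul_assoc, ← Units.val_mul, MonoidHom.inv_apply, inv_mul_cancel, Units.val_one,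
              one_mul])
          right_inv := fun μ => Subtype.ext (by
            funext j
            change ((l j : ℂˣ) : ℂ) * ((l⁻¹ j : ℂˣ) * (μ : J → ℂ) j) = (μ : J → ℂ) j
            rw [← mul_assoc, ← Units.val_mul, MonoidHom.inv_apply, mul_inv_cancel, Units.val_one,
              one_mul]) }
      map_one' := by
        apply Equiv.ext
        intro μ
        apply Subtype.ext
        funext j
        change (((1 : J →* ℂˣ) j : ℂˣ) : ℂ) * (μ : J → ℂ) j = (μ : J → ℂ) j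
        rw [MonoidHom.one_apply, Units.val_one, one_mul]
      map_mul' := by
        intro l m
        apply Equiv.ext
        intro μ
        apply Subtype.ext
        funext j
        change (((l * m) j : ℂˣ) : ℂ) * (μ : J → ℂ) j = (l j : ℂ) * ((m j : ℂ) * (μ : J → ℂ) j)
        rw [MonoidHom.mul_apply, Units.val_mul, mul_assoc] }
  have hφ : ∀ (a : A) (l : J →* ℂˣ), φ a l = cl (a : G)⁻¹ l := fun _ _ => rfl
  have hρ : ∀ (a : A) (μ : IrrCharacter J), ((ρ a μ : IrrCharacter J) : J → ℂ) =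
      tw J (a : G)⁻¹ (μ : J → ℂ) := fun _ _ => rfl
  have hσ : ∀ (l : J →* ℂˣ) (μ : IrrCharacter J), ((σ l μ : IrrCharacter J) : J → ℂ) =
      lf l * (μ : J → ℂ) := fun _ _ => rfl
  have hcop : (Nat.card A).Coprime (Nat.card (J →* ℂˣ)) := by
    obtain ⟨a, ha⟩ := IsPGroup.iff_card.1 hJr
    have hΛ : IsPGroup r (J →* ℂˣ) := by
      intro m
      refine ⟨a, MonoidHom.ext fun j => ?_⟩
      rw [MonoidHom.pow_apply, ← map_pow, ← ha, pow_card_eq_one', map_one]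
      rfl
    obtain ⟨b, hb⟩ := IsPGroup.iff_card.1 hΛ
    rw [hb]
    refine Nat.Coprime.pow_right b ((Nat.Prime.coprime_iff_not_dvd hr).2 fun hd => ?_).symm
    obtain ⟨a, ha⟩ := exists_prime_orderOf_dvd_card' r hd
    have h1 : (a : G) ^ r = 1 := by
      have h2 := pow_orderOf_eq_one a
      rw [ha] at h2
      have := congrArg Subtype.val h2
      simpa using this
    have h2 := h.eq_one_of_pow hr hJr a.2.1.1 (hAx a a.2) h1
    have h3 : a = 1 := Subtype.ext h2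
    rw [h3, orderOf_one] at ha
    exact hr.one_lt.ne ha
  obtain ⟨μ₀, hμ₀, hμ₀o⟩ := exists_over_incl (comm_le J) (isIrr_lf γ)
  obtain ⟨⟨μ, hμS, hμ⟩, -⟩ := H566.glaub hcop (Or.inr inferInstance) φ ρ σ (by
      intro a l μ
      apply Subtype.ext
      rw [hρ, hσ, hσ, hρ, hφ]
      exact tw_lf_mul _ _ _)
    {μ : IrrCharacter J | Over (Subgroup.inclusion (comm_le J)) (μ : J → ℂ) (lf γ)}
    ⟨⟨μ₀, hμ₀⟩, hμ₀o⟩ (by
      intro a μ hμ
      change Over _ _ _
      rw [hρ]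
      have h1 : tw (⁅J, J⁆ : Subgroup G) (a : G)⁻¹ (lf γ) = lf γ :=
        (Subgroup.inv_mem (stab (lf γ : (⁅J, J⁆ : Subgroup G) → ℂ)) a.2.1.2).2
      rw [← h1]
      exact (over_tw_tw (comm_le J) (mem_nrm _ _) (mem_nrm _ _) _ _).2 hμ) (by
      intro l μ hμ
      exact c2_over_mul hC γ μ.2 hμ l) (by
      intro μ hμ μ' hμ'
      obtain ⟨l, hl⟩ := c2_trans γ μ.2 hμ μ'.2 hμ'
      exact ⟨l, Subtype.ext hl.symm⟩)
  refine ⟨μ, μ.2, hμS, ?_⟩
  intro t ht
  obtain ⟨j, hj, c, hc, hxc, rfl⟩ := h.hyp.exists_mul ht.1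
  have hjs : j ∈ stab (μ : J → ℂ) := le_stab (isIrr_isClassFunction μ.2) hj
  have hcT : c ∈ T := by
    have e : c = (c * j) * j⁻¹ := by group
    rw [e]
    exact T.mul_mem ht (T.inv_mem ⟨h.hyp.JN hj, c2_J_le_stab hC γ hj⟩)
  have hcA : c ∈ A := ⟨hcT, Subgroup.mem_centralizer_singleton_iff.2 hxc.symm⟩
  refine (stab (μ : J → ℂ)).mul_mem ⟨mem_nrm J c, ?_⟩ hjs
  have h1 := congrArg (Subtype.val : IrrCharacter J → (J → ℂ)) (hμ (⟨c, hcA⟩⁻¹ : A))
  rw [hρ] at h1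
  simpa using h1

/-- A character `μ` over `γ ≠ 1`, fixed by `N ∩ stab γ` and by all linear twists. -/
theorem MB.exists_full (h : MB N J x p) {γ : (⁅J, J⁆ : Subgroup G) →* ℂˣ} (hγ : γ ≠ 1) :
    ∃ μ : J → ℂ, IsIrrCharacter J μ ∧ Over (Subgroup.inclusion (comm_le J)) μ (lf γ) ∧
      N ⊓ stab μ = N ⊓ stab (lf γ : (⁅J, J⁆ : Subgroup G) → ℂ) ∧
      ∀ κ : J →* ℂˣ, lf κ * μ = μ := by
  obtain ⟨μ, hμ, ho, hT⟩ := h.exists_inv γ
  have hC := h.central'
  have e0 : N ⊓ stab μ = N ⊓ stab (lf γ : (⁅J, J⁆ : Subgroup G) → ℂ) :=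
    le_antisymm (inf_le_inf_left N (c2_stab_le hC γ hμ ho)) (le_inf inf_le_left hT)
  refine ⟨μ, hμ, ho, e0, ?_⟩
  obtain ⟨l₀, hl₀⟩ := h.exists_lin
  haveI := finite_lin J
  let S : Subgroup (J →* ℂˣ) :=
    { carrier := {κ | lf κ * μ = μ}
      one_mem' := by
        funext j
        change (((1 : J →* ℂˣ) j : ℂˣ) : ℂ) * μ j = μ j
        rw [MonoidHom.one_apply, Units.val_one, one_mul]
      mul_mem' := fun {a b} ha hb => by
        funext j
        change (((a * b) j : ℂˣ) : ℂ) * μ j = μ j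
        have h1 := congrFun ha j
        have h2 := congrFun hb j
        change ((a j : ℂˣ) : ℂ) * μ j = μ j at h1
        change ((b j : ℂˣ) : ℂ) * μ j = μ j at h2
        rw [MonoidHom.mul_apply, Units.val_mul, mul_assoc, h2, h1]
      inv_mem' := fun {a} ha => by
        funext j
        change ((a⁻¹ j : ℂˣ) : ℂ) * μ j = μ j
        have h1 := congrFun ha j
        change ((a j : ℂˣ) : ℂ) * μ j = μ j at h1
        rw [MonoidHom.inv_apply]
        conv_lhs => rw [← h1]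
        rw [← mul_assoc, ← Units.val_mul, inv_mul_cancel, Units.val_one, one_mul] }
  have hS : ∀ κ, κ ∈ S ↔ lf κ * μ = μ := fun κ => Iff.rfl
  intro κ
  rw [← hS]
  have hκo := c2_over_mul hC γ hμ ho κ
  have hκi : IsIrrCharacter J (lf κ * μ) := isIrr_mul_lf κ hμ
  obtain ⟨t, ht, ht'⟩ := h.exists_outside hκi (c2_ne_one hγ hκi hκo) hl₀
  have htγ : t ∈ N ⊓ stab (lf γ : (⁅J, J⁆ : Subgroup G) → ℂ) :=
    ⟨ht.1, c2_stab_le hC γ hκi hκo ht.2⟩
  have htμ : tw J t μ = μ := by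
    rw [← e0] at htγ
    exact htγ.2.2
  have htκ : tw J t (lf κ * μ) = lf κ * μ := ht.2.2
  have hinj : Function.Injective (Df (N := J) t) := by
    rw [injective_iff_map_eq_one]
    intro l hl
    by_contra hl1
    apply ht'
    rw [h.hyp.TL_eq hl₀ hl1]
    exact ⟨ht.1, mem_stab_iff.2 (Df_eq_one.1 hl)⟩
  -- `Df t κ ∈ S`
  have hDκ : Df (N := J) t κ ∈ S := by
    rw [tw_lf_mul, htμ] at htκ
    have h1 : (cl t κ)⁻¹ * κ ∈ S := by
      rw [hS]
      funext j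
      have h2 := congrFun htκ j
      change ((cl t κ j : ℂˣ) : ℂ) * μ j = ((κ j : ℂˣ) : ℂ) * μ j at h2
      change ((((cl t κ)⁻¹ * κ) j : ℂˣ) : ℂ) * μ j = μ j
      rw [MonoidHom.mul_apply, MonoidHom.inv_apply, Units.val_mul, mul_assoc, ← h2, ← mul_assoc,
        ← Units.val_mul, inv_mul_cancel, Units.val_one, one_mul]
    have h2 := S.inv_mem h1
    have e : ((cl t κ)⁻¹ * κ)⁻¹ = Df (N := J) t κ := by
      apply MonoidHom.ext
      intro j
      change ((cl t κ j)⁻¹ * κ j)⁻¹ = cl t κ j * (κ j)⁻¹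
      rw [mul_inv, inv_inv]
    rwa [e] at h2
  have hDS : ∀ l ∈ S, Df (N := J) t l ∈ S := by
    intro l hl
    refine S.mul_mem ?_ (S.inv_mem hl)
    rw [hS] at hl ⊢
    have h1 := congrArg (tw J t) hl
    rw [tw_lf_mul, htμ] at h1
    exact h1
  have hsurj : Function.Surjective (fun l : S => (⟨Df (N := J) t l, hDS l l.2⟩ : S)) :=
    Finite.surjective_of_injective (fun a b hab =>
      Subtype.ext (hinj (congrArg Subtype.val hab)))
  obtain ⟨l, hl⟩ := hsurj ⟨_, hDκ⟩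
  have h1 : Df (N := J) t l = Df (N := J) t κ := congrArg Subtype.val hl
  rw [← hinj h1]
  exact l.2

theorem MB.centralG (h : MB N J x p) {γ : (⁅J, J⁆ : Subgroup G) →* ℂˣ} (hγ : γ ≠ 1) :
    ∀ t ∈ N ⊓ stab (lf γ : (⁅J, J⁆ : Subgroup G) → ℂ), ∀ g : G, t * g * t⁻¹ * g⁻¹ ∈ J := by
  obtain ⟨μ, hμ, ho, e0, -⟩ := h.exists_full hγ
  rw [← e0]
  exact h.central hμ (ne_one_of_deg (c2_ne_one hγ hμ ho))

/-- `N ∩ stab γ` centralizes `J'`. -/
theorem MB.TG_comm (h : MB N J x p) {γ : (⁅J, J⁆ : Subgroup G) →* ℂˣ} (hγ : γ ≠ 1) {t : G}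
    (ht : t ∈ N ⊓ stab (lf γ : (⁅J, J⁆ : Subgroup G) → ℂ)) :
    ∀ z ∈ ⁅J, J⁆, t * z = z * t := by
  set T : Subgroup G := N ⊓ stab (lf γ : (⁅J, J⁆ : Subgroup G) → ℂ) with hT
  have hJT : J ≤ T := le_inf h.hyp.JN (c2_J_le_stab h.central' γ)
  have hTn : T.Normal := normal_of_central' hJT (h.centralG hγ)
  by_contra hcon
  have hM : ⁅T, (⁅J, J⁆ : Subgroup G)⁆ ≠ ⊥ := by
    intro e
    apply hcon
    intro z hz
    have h1 := Subgroup.commutator_mem_commutator ht hz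
    rw [e, Subgroup.mem_bot, commutatorElement_eq_one_iff_mul_comm] at h1
    exact h1
  have hle : ⁅T, (⁅J, J⁆ : Subgroup G)⁆ ≤ ⁅J, J⁆ := Subgroup.commutator_le_right T _
  have h1 := h.hmin _ inferInstance hM (hle.trans (comm_le J))
  apply hγ
  have h2 : ⁅T, (⁅J, J⁆ : Subgroup G)⁆ ≤ (γ.ker).map (⁅J, J⁆ : Subgroup G).subtype := by
    rw [Subgroup.commutator_le]
    intro t ht z hz
    have hz' : t * z * t⁻¹ ∈ ⁅J, J⁆ := Subgroup.Normal.conj_mem inferInstance z hz t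
    refine ⟨⟨t * z * t⁻¹, hz'⟩ * ⟨z, hz⟩⁻¹, ?_, by
      rw [commutatorElement_def]; rfl⟩
    rw [SetLike.mem_coe, MonoidHom.mem_ker, map_mul, map_inv]
    have h3 := DFunLike.congr_fun (mem_stab_iff.1 ht.2) ⟨z, hz⟩
    rw [cl_apply] at h3
    rw [h3, mul_inv_cancel]
  apply MonoidHom.ext
  intro z
  obtain ⟨w, hw, hw'⟩ := h2 (h1 z.2)
  have e : w = z := Subtype.ext hw'
  rw [← e]
  exact hw

theorem MB.TG_le (h : MB N J x p) {γ γ' : (⁅J, J⁆ : Subgroup G) →* ℂˣ} (hγ : γ ≠ 1) :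
    N ⊓ stab (lf γ : (⁅J, J⁆ : Subgroup G) → ℂ) ≤
      N ⊓ stab (lf γ' : (⁅J, J⁆ : Subgroup G) → ℂ) :=
  fun _ ht => ⟨ht.1, mem_stab_iff.2 (cl_of_comm (h.TG_comm hγ ht) γ')⟩

theorem MB.TG_eq (h : MB N J x p) {γ γ' : (⁅J, J⁆ : Subgroup G) →* ℂˣ} (hγ : γ ≠ 1)
    (hγ' : γ' ≠ 1) : N ⊓ stab (lf γ : (⁅J, J⁆ : Subgroup G) → ℂ) =
      N ⊓ stab (lf γ' : (⁅J, J⁆ : Subgroup G) → ℂ) :=
  le_antisymm (h.TG_le hγ) (h.TG_le hγ')

theorem MB.N1_le (h : MB N J x p) {l : J →* ℂˣ} (hl : l ≠ 1)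
    (γ : (⁅J, J⁆ : Subgroup G) →* ℂˣ) :
    N ⊓ stab (lf l : J → ℂ) ≤ N ⊓ stab (lf γ : (⁅J, J⁆ : Subgroup G) → ℂ) :=
  fun t ht => ⟨ht.1, mem_stab_iff.2 (cl_of_comm (c2_comm h.central'
    (fun m => h.hyp.fix_all hl ht m)) γ)⟩

/-- Characters over `γ ≠ 1` vanish on `J ∖ J'`. -/
theorem MB.vanish (h : MB N J x p) {γ : (⁅J, J⁆ : Subgroup G) →* ℂˣ} (hγ : γ ≠ 1) :
    ∃ μ : J → ℂ, IsIrrCharacter J μ ∧ Over (Subgroup.inclusion (comm_le J)) μ (lf γ) ∧
      ∀ j : J, (j : G) ∉ ⁅J, J⁆ → μ j = 0 := by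
  obtain ⟨μ, hμ, ho, -, hf⟩ := h.exists_full hγ
  refine ⟨μ, hμ, ho, fun j hj => ?_⟩
  obtain ⟨κ, -, hκ⟩ := exists_lin_ne (x := j) (comm_le J) le_rfl hj
  by_contra hne
  apply hκ
  have h1 := congrFun (hf κ) j
  change ((κ j : ℂˣ) : ℂ) * μ j = μ j at h1
  apply Units.ext
  rw [Units.val_one]
  exact mul_right_cancel₀ hne (by rw [h1, one_mul])

/-- For `g ∈ J ∖ J'` and `γ ≠ 1` there is `k` with `γ ⁅g, k⁆ ≠ 1`. -/
theorem MB.exists_comm_ne (h : MB N J x p) {γ : (⁅J, J⁆ : Subgroup G) →* ℂˣ} (hγ : γ ≠ 1) {g : G}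
    (hg : g ∈ J) (hg' : g ∉ ⁅J, J⁆) :
    ∃ (k : G) (hk : k ∈ J), γ ⟨⁅g, k⁆, Subgroup.commutator_mem_commutator hg hk⟩ ≠ 1 := by
  by_contra hcon
  push Not at hcon
  obtain ⟨μ, hμ, ho, hv⟩ := h.vanish hγ
  have h1 := hv ⟨g, hg⟩ hg'
  have h2 := Cfsg.Agent.H597.Norm.normSq_eq_of_central hμ (z := (⟨g, hg⟩ : J)) (by
    intro k
    have hm : (k : G) * g * (k : G)⁻¹ * g⁻¹ ∈ ⁅J, J⁆ := by
      have := Subgroup.commutator_mem_commutator k.2 hg
      rwa [commutatorElement_def] at this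
    have h3 := c2_res h.central' γ hμ ho ⟨_, hm⟩
    have h4 := hcon k k.2
    have e : (⟨(k : G) * g * (k : G)⁻¹ * g⁻¹, hm⟩ : (⁅J, J⁆ : Subgroup G)) =
        (⟨⁅g, (k : G)⁆, Subgroup.commutator_mem_commutator hg k.2⟩ : (⁅J, J⁆ : Subgroup G))⁻¹ := by
      apply Subtype.ext
      change _ = ⁅g, (k : G)⁆⁻¹
      rw [commutatorElement_def]
      group
    rw [e, map_inv, h4, inv_one, Units.val_one, mul_one, ← e] at h3
    exact h3)
  rw [h1, map_zero] at h2
  have h3 : (charDegree μ : ℝ) = 0 := by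
    have := h2.symm
    exact pow_eq_zero_iff (two_ne_zero) |>.1 this
  exact (charDegree_pos hμ).ne' (by exact_mod_cast h3)

/-- `|J'| < |J : J'|`, in terms of linear characters. -/
theorem MB.card_lt (h : MB N J x p) :
    Nat.card ((⁅J, J⁆ : Subgroup G) →* ℂˣ) < Nat.card (J →* ℂˣ) := by
  classical
  haveI := finite_lin J
  haveI := finite_lin (⁅J, J⁆ : Subgroup G)
  obtain ⟨g, hg, hg'⟩ := h.exists_not_mem
  have hc := h.central'
  let D : J →* (⁅J, J⁆ : Subgroup G) := MonoidHom.mk'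
    (fun k => ⟨⁅g, (k : G)⁆, Subgroup.commutator_mem_commutator hg k.2⟩) (by
      intro a b
      apply Subtype.ext
      change ⁅g, (a : G) * b⁆ = ⁅g, (a : G)⁆ * ⁅g, (b : G)⁆
      have h1 := hc _ (Subgroup.commutator_mem_commutator hg b.2) (a : G)⁻¹ (J.inv_mem a.2)
      calc ⁅g, (a : G) * b⁆ = g * a * g⁻¹ * (⁅g, (b : G)⁆ * (a : G)⁻¹) := by
            rw [commutatorElement_def, commutatorElement_def]; group
        _ = g * a * g⁻¹ * ((a : G)⁻¹ * ⁅g, (b : G)⁆) := by rw [h1]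
        _ = _ := by rw [commutatorElement_def, commutatorElement_def]; group)
  let F : ((⁅J, J⁆ : Subgroup G) →* ℂˣ) → (J →* ℂˣ) := fun γ => γ.comp D
  have hF : Function.Injective F := by
    intro γ γ' hγ
    by_contra hne
    have h1 : γ * γ'⁻¹ ≠ 1 := by
      intro e
      apply hne
      apply MonoidHom.ext
      intro z
      have h2 := DFunLike.congr_fun e z
      change γ z * (γ' z)⁻¹ = 1 at h2
      exact mul_inv_eq_one.1 h2
    obtain ⟨k, hk, h2⟩ := h.exists_comm_ne h1 hg hg'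
    apply h2
    have h3 := DFunLike.congr_fun hγ ⟨k, hk⟩
    change γ (D ⟨k, hk⟩) = γ' (D ⟨k, hk⟩) at h3
    change γ (D ⟨k, hk⟩) * (γ' (D ⟨k, hk⟩))⁻¹ = 1
    rw [h3, mul_inv_cancel]
  obtain ⟨κ, -, hκ⟩ := exists_lin_ne (x := (⟨g, hg⟩ : J)) (comm_le J) le_rfl hg'
  have hns : κ ∉ Set.range F := by
    rintro ⟨γ, rfl⟩
    apply hκ
    change γ (D ⟨g, hg⟩) = 1
    have e : D ⟨g, hg⟩ = 1 := by
      apply Subtype.ext
      change ⁅g, g⁆ = 1
      exact commutatorElement_self g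
    rw [e, map_one]
  have h1 : Nat.card ((⁅J, J⁆ : Subgroup G) →* ℂˣ) = (Set.range F).ncard :=
    (Set.ncard_range_of_injective hF).symm
  rw [h1, ← Set.ncard_univ]
  refine Set.ncard_lt_ncard ?_ (Set.toFinite _)
  rw [Set.ssubset_univ_iff]
  intro e
  exact hns (e ▸ Set.mem_univ κ)

end Cfsg.Agent.H675.Nd
end

-- part: H675/Nd/HB4
section
/-!
# `J` is abelian: the count
-/

set_option autoImplicit false
set_option linter.style.haveILetI false
set_option linter.unusedSectionVars false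
open Cfsg

namespace Cfsg.Agent.H675.Nd

open Cfsg.Agent.Characters.Core Cfsg.Agent.Characters.Clifford Cfsg.Agent.H672 Cfsg.Agent.H672.RM
open Cfsg.Agent.H597.FrobA
open scoped commutatorElement

universe u v w

/-- The arithmetic of the count. -/
theorem arith {r m g a b : ℕ} (hr : r.Prime) (hb : b ≠ 0) (hab : b < a) (hg : g ∣ m)
    (hgm : g < m) (hle : ((r ^ a) ^ m - 1) * (r ^ b - 1) ≤ g * (r ^ a - 1) * ((r ^ b) ^ m - 1)) :
    False := by
  set L : ℤ := (r : ℤ) ^ a with hL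
  set K : ℤ := (r : ℤ) ^ b with hK
  have hr2 : (2 : ℤ) ≤ r := by exact_mod_cast hr.two_le
  have hK2 : 2 ≤ K := by
    have h1 : (r : ℤ) ^ 1 ≤ (r : ℤ) ^ b := pow_le_pow_right₀ (by omega) (by omega)
    rw [pow_one] at h1
    omega
  have hLK : 2 * K ≤ L := by
    have h1 : (r : ℤ) ^ (b + 1) ≤ (r : ℤ) ^ a := pow_le_pow_right₀ (by omega) (by omega)
    have h2 : (r : ℤ) ^ (b + 1) = r * K := by rw [pow_succ, hK]; ring
    rw [h2] at h1
    nlinarith
  have hm2 : 2 * g ≤ m := by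
    obtain ⟨c, rfl⟩ := hg
    have hc : c ≠ 0 := by rintro rfl; omega
    have hc1 : c ≠ 1 := by rintro rfl; omega
    have : 2 ≤ c := by omega
    nlinarith
  have hle' : (L ^ m - 1) * (K - 1) ≤ g * (L - 1) * (K ^ m - 1) := by
    have h1 : 1 ≤ (r ^ a) ^ m := Nat.one_le_pow _ _ (pow_pos hr.pos a)
    have h2 : 1 ≤ r ^ b := Nat.one_le_pow _ _ hr.pos
    have h3 : 1 ≤ r ^ a := Nat.one_le_pow _ _ hr.pos
    have h4 : 1 ≤ (r ^ b) ^ m := Nat.one_le_pow _ _ (pow_pos hr.pos b)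
    have h5 : ((((r ^ a) ^ m - 1) * (r ^ b - 1) : ℕ) : ℤ) ≤
        ((g * (r ^ a - 1) * ((r ^ b) ^ m - 1) : ℕ) : ℤ) := by exact_mod_cast hle
    rw [Nat.cast_mul, Nat.cast_mul, Nat.cast_mul, Nat.cast_sub h1, Nat.cast_sub h2,
      Nat.cast_sub h3, Nat.cast_sub h4] at h5
    push_cast at h5
    exact h5
  have hSL := geom_sum_mul L m
  have hSK := geom_sum_mul K m
  set SL : ℤ := ∑ i ∈ Finset.range m, L ^ i with hSLd
  set SK : ℤ := ∑ i ∈ Finset.range m, K ^ i with hSKd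
  have h1 : SL ≤ g * SK := by
    have h2 : SL * ((L - 1) * (K - 1)) ≤ (g * SK) * ((L - 1) * (K - 1)) := by
      calc SL * ((L - 1) * (K - 1)) = (SL * (L - 1)) * (K - 1) := by ring
        _ = (L ^ m - 1) * (K - 1) := by rw [hSL]
        _ ≤ g * (L - 1) * (K ^ m - 1) := hle'
        _ = g * (L - 1) * (SK * (K - 1)) := by rw [hSK]
        _ = (g * SK) * ((L - 1) * (K - 1)) := by ring
    have h3 : 0 < (L - 1) * (K - 1) := mul_pos (by omega) (by omega)
    exact le_of_mul_le_mul_right h2 h3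
  have hm1 : m ≠ 0 := by omega
  obtain ⟨m', rfl⟩ := Nat.exists_eq_succ_of_ne_zero hm1
  have h2 : L ^ m' ≤ SL := by
    rw [hSLd, Finset.sum_range_succ]
    have : 0 ≤ ∑ i ∈ Finset.range m', L ^ i := Finset.sum_nonneg fun i _ => by positivity
    omega
  have h3 : SK < 2 * K ^ m' := by
    have h4 : SK * (K - 1) = K ^ (m' + 1) - 1 := hSK
    have h5 : K ^ (m' + 1) = K ^ m' * K := pow_succ K m'
    have h6 : 0 < K ^ m' := by positivity
    rw [h5] at h4
    by_contra hcon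
    push Not at hcon
    have h7 : 2 * K ^ m' * (K - 1) ≤ SK * (K - 1) :=
      mul_le_mul_of_nonneg_right hcon (by omega)
    nlinarith
  have h4 : (2 * K) ^ m' ≤ L ^ m' := pow_le_pow_left₀ (by omega) hLK m'
  rw [mul_pow] at h4
  have h5 : ((m' + 1 : ℕ) : ℤ) ≤ 2 ^ m' := by
    have : m' + 1 ≤ 2 ^ m' := Nat.lt_two_pow_self
    exact_mod_cast this
  have h6 : 0 < K ^ m' := by positivity
  have h7 : (2 * g : ℤ) ≤ ((m' + 1 : ℕ) : ℤ) := by exact_mod_cast hm2
  have hg0 : (0 : ℤ) ≤ g := by positivity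
  have h8 : (g : ℤ) * SK ≤ g * (2 * K ^ m') := mul_le_mul_of_nonneg_left h3.le hg0
  have h9 : (g : ℤ) * (2 * K ^ m') ≤ ((m' + 1 : ℕ) : ℤ) * K ^ m' := by nlinarith
  have h10 : ((m' + 1 : ℕ) : ℤ) * K ^ m' ≤ 2 ^ m' * K ^ m' :=
    mul_le_mul_of_nonneg_right h5 h6.le
  have hgpos : 0 < g := by
    rcases Nat.eq_zero_or_pos g with h0 | h0
    · rw [h0] at hg
      exact absurd (Nat.eq_zero_of_zero_dvd hg) (Nat.succ_ne_zero m')
    · exact h0
  have h11 : (g : ℤ) * SK < g * (2 * K ^ m') := by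
    have : (0 : ℤ) < g := by exact_mod_cast hgpos
    nlinarith
  omega

theorem card_pow_le {R : Type u} [Group R] [Fintype R] [DecidableEq R] (hc : IsCyclic R) (m : ℕ) :
    (Finset.univ.filter fun a : R => a ^ m = 1).card ≤ Nat.gcd m (Nat.card R) := by
  have hpos : 0 < Nat.gcd m (Nat.card R) := Nat.gcd_pos_of_pos_right _ Nat.card_pos
  refine le_trans (Finset.card_le_card ?_) (IsCyclic.card_pow_eq_one_le (α := R) hpos)
  intro a ha
  rw [Finset.mem_filter] at ha ⊢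
  exact ⟨Finset.mem_univ _, pow_gcd_eq_one.2 ⟨ha.2, pow_card_eq_one'⟩⟩

/-- Roots in `N₂ / N₁`, acting semiregularly. -/
theorem count_abs {G : Type u} {V : Type v} [Group G] [Finite G] [CommGroup V] [Finite V]
    [Nontrivial V] [MulDistribMulAction G V] {N1 N2 : Subgroup G} (_hle : N1 ≤ N2)
    (h1 : ∀ g ∈ N2, g ∉ N1 → ∀ v : V, g • v = v → v = 1)
    (h2 : ∀ g ∈ N1, ∀ v : V, g • v = v)
    (h3 : ∀ a ∈ N2, ∀ b ∈ N2, ∀ v : V, (a * b) • v = (b * a) • v) (m : ℕ) :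
    Nat.card {w : G // w ∈ N2 ∧ w ^ m ∈ N1} ≤ Nat.gcd m (N1.relIndex N2) * Nat.card N1 := by
  classical
  letI := Fintype.ofFinite G
  let ρ := MulDistribMulAction.toMulAut G V
  have hρ : ∀ (g : G) (v : V), ρ g v = g • v := fun _ _ => rfl
  have hρ1 : ∀ g ∈ N2, ρ g = 1 ↔ g ∈ N1 := by
    intro g hg
    constructor
    · intro e
      by_contra hg1
      obtain ⟨v, hv⟩ := exists_ne (1 : V)
      exact hv (h1 g hg hg1 v (DFunLike.congr_fun e v))
    · intro hg1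
      apply MulEquiv.ext
      intro v
      exact h2 g hg1 v
  haveI : Finite (MulAut V) := inferInstance
  let R : Subgroup (MulAut V) := N2.map ρ
  have hcomm : ∀ a b : R, a * b = b * a := by
    rintro ⟨_, a, ha, rfl⟩ ⟨_, b, hb, rfl⟩
    apply Subtype.ext
    change ρ a * ρ b = ρ b * ρ a
    rw [← map_mul, ← map_mul]
    apply MulEquiv.ext
    intro v
    exact h3 a ha b hb v
  have hR : H348.HasFPF R := by
    refine hasFPF_of V R.subtype ?_
    rintro ⟨_, a, ha, rfl⟩ hne v hv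
    by_contra hv1
    apply hne
    apply Subtype.ext
    change ρ a = 1
    rw [hρ1 a ha]
    by_contra ha1
    exact hv1 (h1 a ha ha1 v hv)
  have hcyc : IsCyclic R := hR.isCyclic hcomm
  have hcardR : Nat.card R = N1.relIndex N2 := by
    have h1 : ρ.ker.relIndex N2 = N1.relIndex N2 := by
      rw [← Subgroup.inf_relIndex_right ρ.ker N2, ← Subgroup.inf_relIndex_right N1 N2]
      have e : ρ.ker ⊓ N2 = N1 ⊓ N2 := by
        ext g
        rw [Subgroup.mem_inf, Subgroup.mem_inf, MonoidHom.mem_ker]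
        exact and_congr_left fun hg => hρ1 g hg
      rw [e]
    rw [← h1, Subgroup.relIndex_ker]
  letI := Fintype.ofFinite R
  have key := card_pow_le hcyc m
  rw [hcardR] at key
  have e1 : Nat.card {w : G // w ∈ N2 ∧ w ^ m ∈ N1} =
      (Finset.univ.filter fun w : G => w ∈ N2 ∧ w ^ m ∈ N1).card := by
    rw [Nat.card_eq_fintype_card, Fintype.card_subtype]
  have e2 : Nat.card N1 = (Finset.univ.filter fun w : G => w ∈ N1).card := by
    rw [Nat.card_eq_fintype_card, ← Fintype.card_subtype]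
  rw [e1, mul_comm]
  refine le_trans ?_ (Nat.mul_le_mul_left (Nat.card N1) key)
  let f : G → R := fun w => if hw : w ∈ N2 then ⟨ρ w, w, hw, rfl⟩ else 1
  have hf : ∀ w (hw : w ∈ N2), f w = ⟨ρ w, w, hw, rfl⟩ := fun w hw => dif_pos hw
  refine Finset.card_le_mul_card_image_of_maps_to (f := f) ?_ _ ?_
  · intro w hw
    rw [Finset.mem_filter] at hw ⊢
    refine ⟨Finset.mem_univ _, ?_⟩
    rw [hf w hw.2.1]
    apply Subtype.ext
    change (ρ w) ^ m = 1
    rw [← map_pow, hρ1 _ (N2.pow_mem hw.2.1 m)]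
    exact hw.2.2
  · intro b _
    by_cases hne : ((Finset.univ.filter fun w : G => w ∈ N2 ∧ w ^ m ∈ N1).filter
        fun a => f a = b).Nonempty
    · obtain ⟨w₀, hw₀⟩ := hne
      rw [Finset.mem_filter, Finset.mem_filter] at hw₀
      obtain ⟨⟨-, hw₀2, -⟩, hw₀b⟩ := hw₀
      rw [e2]
      refine Finset.card_le_card_of_injOn (fun w => w₀⁻¹ * w) ?_ ?_
      · intro w hw
        rw [Finset.mem_coe, Finset.mem_filter, Finset.mem_filter] at hw
        obtain ⟨⟨-, hw2, -⟩, hwb⟩ := hw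
        rw [Finset.mem_coe, Finset.mem_filter]
        refine ⟨Finset.mem_univ _, ?_⟩
        have h2 : w₀⁻¹ * w ∈ N2 := N2.mul_mem (N2.inv_mem hw₀2) hw2
        rw [← hρ1 _ h2, map_mul, map_inv]
        rw [hf w hw2, ← hw₀b, hf w₀ hw₀2] at hwb
        have h3 : ρ w = ρ w₀ := congrArg Subtype.val hwb
        rw [h3, inv_mul_cancel]
      · intro a _ b _ hab
        exact mul_left_cancel hab
    · rw [Finset.not_nonempty_iff_eq_empty] at hne
      rw [hne, Finset.card_empty]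
      exact Nat.zero_le _

variable {G : Type u} [Group G] [Finite G] {N J : Subgroup G} {x : G} {p : ℕ} [hN : N.Normal]
  [hJn : J.Normal]

theorem HB.count_le (h : HB N J x p) {l : J →* ℂˣ} (hl : l ≠ 1) {N2 : Subgroup G} (hN2 : N2 ≤ N)
    (hle : N ⊓ stab (lf l : J → ℂ) ≤ N2) (m : ℕ) :
    Nat.card {w : G // w ∈ N2 ∧ w ^ m ∈ N ⊓ stab (lf l : J → ℂ)} ≤
      Nat.gcd m ((N ⊓ stab (lf l : J → ℂ)).relIndex N2) *
        Nat.card (N ⊓ stab (lf l : J → ℂ) : Subgroup G) := by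
  haveI := finite_lin J
  letI := clDist J
  haveI : Nontrivial (J →* ℂˣ) := ⟨⟨l, 1, hl⟩⟩
  refine count_abs (V := J →* ℂˣ) hle ?_ ?_ ?_ m
  · intro g hg hg1 v hv
    by_contra hv1
    apply hg1
    rw [h.TL_eq hl hv1]
    exact ⟨hN2 hg, mem_stab_iff.2 (fix_inv_iff.1 hv)⟩
  · intro g hg v
    exact fix_inv_iff.2 (h.fix_all hl hg v)
  · intro a ha b hb v
    change cl (a * b)⁻¹ v = cl (b * a)⁻¹ v
    rw [mul_inv_rev, mul_inv_rev]
    have h1 : ⁅b⁻¹, a⁻¹⁆ ∈ J := h.ab (Subgroup.commutator_mem_commutator (N.inv_mem (hN2 hb))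
      (N.inv_mem (hN2 ha)))
    rw [commutatorElement_def] at h1
    exact cl_comm_of h1 v

/-- Double counting. -/
theorem dcount {A B : Type*} [Fintype A] [Fintype B] [DecidableEq A] [DecidableEq B]
    (s : Finset A) (t : Finset B) (R : A → B → Prop) [∀ a b, Decidable (R a b)] :
    ∑ a ∈ s, (t.filter fun b => R a b).card = ∑ b ∈ t, (s.filter fun a => R a b).card :=
  Finset.sum_card_bipartiteAbove_eq_sum_card_bipartiteBelow R

theorem card_ne_one (K : Type u) [Group K] [Finite K] [Fintype (K →* ℂˣ)]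
    [DecidableEq (K →* ℂˣ)] :
    (Finset.univ.filter fun l : K →* ℂˣ => l ≠ 1).card = Nat.card (K →* ℂˣ) - 1 := by
  rw [Finset.filter_ne' Finset.univ (1 : K →* ℂˣ), Finset.card_erase_of_mem (Finset.mem_univ _),
    Finset.card_univ, Nat.card_eq_fintype_card]

theorem card_fixed_ne_one {K : Subgroup G} [K.Normal] [Fintype (K →* ℂˣ)]
    [DecidableEq (K →* ℂˣ)] (t : G) [DecidablePred fun l : K →* ℂˣ => cl t l = l] :
    ((Finset.univ.filter fun l : K →* ℂˣ => l ≠ 1).filter fun l => cl t l = l).card =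
      Nat.card {l : K →* ℂˣ // cl t l = l} - 1 := by
  have e : (Finset.univ.filter fun l : K →* ℂˣ => l ≠ 1).filter (fun l => cl t l = l) =
      (Finset.univ.filter fun l : K →* ℂˣ => cl t l = l).erase 1 := by
    ext l
    simp only [Finset.mem_filter, Finset.mem_erase, Finset.mem_univ, true_and]
  rw [e, Finset.card_erase_of_mem (by simp [cl_hone]), Nat.card_eq_fintype_card,
    Fintype.card_subtype]

theorem MB.false (h : MB N J x p) : False := by
  classical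
  obtain ⟨r, hr, hJr⟩ := h.isPGroup
  haveI := Fact.mk hr
  obtain ⟨l₀, hl₀⟩ := h.exists_lin
  obtain ⟨z, hz, hz1⟩ : ∃ z ∈ ⁅J, J⁆, z ≠ 1 := by
    by_contra hcon
    push Not at hcon
    exact h.hne (by rw [eq_bot_iff]; exact fun z hz => Subgroup.mem_bot.2 (hcon z hz))
  obtain ⟨γ₀, -, hγ₀'⟩ := exists_lin_ne (x := (⟨z, hz⟩ : (⁅J, J⁆ : Subgroup G))) bot_le h.GG
    (by rw [Subgroup.mem_bot]; exact hz1)
  have hγ₀ : γ₀ ≠ 1 := fun e => hγ₀' (by rw [e]; rfl)
  haveI := finite_lin J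
  haveI := finite_lin (⁅J, J⁆ : Subgroup G)
  letI := Fintype.ofFinite G
  letI := Fintype.ofFinite (J →* ℂˣ)
  letI := Fintype.ofFinite ((⁅J, J⁆ : Subgroup G) →* ℂˣ)
  set N1 : Subgroup G := N ⊓ stab (lf l₀ : J → ℂ) with hN1
  set N2 : Subgroup G := N ⊓ stab (lf γ₀ : (⁅J, J⁆ : Subgroup G) → ℂ) with hN2
  have hN12 : N1 ≤ N2 := h.N1_le hl₀ γ₀
  set m := N.relIndex (stab (lf l₀ : J → ℂ)) with hm
  have hmall : ∀ l : J →* ℂˣ, l ≠ 1 → N.relIndex (stab (lf l : J → ℂ)) = m :=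
    fun l hl => h.hyp.rel_eq hl hl₀
  obtain ⟨y, hy, hgen⟩ := exists_gen' h.hyp.cyc
  have hfpos := index_pos N
  have hmf : m ∣ N.index := (hgen _).1
  have hmpos : 0 < m := Nat.pos_of_dvd_of_pos hmf hfpos
  have hqpos : 0 < N.index / m := Nat.div_pos (Nat.le_of_dvd hfpos hmf) hmpos
  set h0 : G := y ^ (N.index / m) with hh0
  have hord0 : orderOf ((h0 : G) : G ⧸ N) = m := by
    rw [hh0, QuotientGroup.mk_pow, orderOf_pow_of_dvd hqpos.ne'
      (by rw [hy]; exact Nat.div_dvd_of_dvd hmf), hy]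
    exact Nat.div_div_self hmf hfpos.ne'
  have hJJ : ∀ j ∈ J, ∀ γ : (⁅J, J⁆ : Subgroup G) →* ℂˣ, cl j γ = γ := fun j hj γ =>
    mem_stab_iff.1 (c2_J_le_stab h.central' γ hj)
  have hxJ : ∀ γ : (⁅J, J⁆ : Subgroup G) →* ℂˣ, cl x γ = γ → γ = 1 := by
    intro γ hγ
    by_contra hne
    obtain ⟨g, hg⟩ := h.hyp.nc
    exact hg (h.centralG hne x ⟨h.hyp.xN, mem_stab_iff.2 hγ⟩ g)
  -- the two sets
  let A1 : Finset G := Finset.univ.filter fun t => (t : G ⧸ N) = (h0 : G ⧸ N) ∧ t ^ m ∈ N1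
  let A2 : Finset G := Finset.univ.filter fun t => (t : G ⧸ N) = (h0 : G ⧸ N) ∧ t ^ m ∈ N2
  have hA1 : ∀ t, t ∈ A1 ↔ (t : G ⧸ N) = (h0 : G ⧸ N) ∧ t ^ m ∈ N1 := fun t => by
    simp [A1]
  have hA2 : ∀ t, t ∈ A2 ↔ (t : G ⧸ N) = (h0 : G ⧸ N) ∧ t ^ m ∈ N2 := fun t => by
    simp [A2]
  have e1 : Nat.card N1 = (Finset.univ.filter fun w : G => w ∈ N1).card := by
    rw [Nat.card_eq_fintype_card, ← Fintype.card_subtype]
  have e2 : Nat.card N2 = (Finset.univ.filter fun w : G => w ∈ N2).card := by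
    rw [Nat.card_eq_fintype_card, ← Fintype.card_subtype]
  obtain ⟨⟨a, ha0, ha⟩, hsub⟩ := card_lin_pow hr hJr ⟨l₀, hl₀⟩
  have hΓr : IsPGroup r (⁅J, J⁆ : Subgroup G) := hJr.to_le (comm_le J)
  obtain ⟨⟨a', ha0', ha'⟩, hsub'⟩ := card_lin_pow hr hΓr ⟨γ₀, hγ₀⟩
  -- fixed points of `t ∈ A1` on `Lin J`
  have hL : ∀ t ∈ A1, Nat.card (J →* ℂˣ) = Nat.card {l : J →* ℂˣ // cl t l = l} ^ m := by
    intro t ht
    obtain ⟨ht1, ht2⟩ := (hA1 t).1 ht
    exact h.hyp.frob h.hyp.act_triv h.hyp.x_fix ⟨l₀, hl₀⟩ (by rw [ht1]; exact hord0)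
      (h.hyp.fix_all hl₀ ht2)
  have hK : ∀ t ∈ A2, Nat.card ((⁅J, J⁆ : Subgroup G) →* ℂˣ) =
      Nat.card {γ : (⁅J, J⁆ : Subgroup G) →* ℂˣ // cl t γ = γ} ^ m := by
    intro t ht
    obtain ⟨ht1, ht2⟩ := (hA2 t).1 ht
    exact h.hyp.frob hJJ hxJ ⟨γ₀, hγ₀⟩ (by rw [ht1]; exact hord0)
      (fun γ => mem_stab_iff.1 (h.TG_le (γ' := γ) hγ₀ ht2).2)
  -- elements of `A1`
  have hl_elt : ∀ l : J →* ℂˣ, l ≠ 1 →
      (A1.filter fun t => cl t l = l).card = Nat.card N1 := by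
    intro l hl
    obtain ⟨-, g, hg, n, hn, e⟩ := hgen (stab (lf l : J → ℂ))
    rw [hmall l hl] at e
    have hg' : (g : G ⧸ N) = (h0 : G ⧸ N) := by
      rw [e, QuotientGroup.mk_mul, (QuotientGroup.eq_one_iff n).2 hn, mul_one]
    rw [e1]
    symm
    refine Finset.card_bij (fun w _ => g * w) ?_ ?_ ?_
    · intro w hw
      rw [Finset.mem_filter] at hw
      have hw1 : w ∈ N ⊓ stab (lf l : J → ℂ) := h.hyp.TL_le hl₀ hl hw.2
      have hgw : g * w ∈ stab (lf l : J → ℂ) := (stab (lf l : J → ℂ)).mul_mem hg hw1.2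
      have hgwN : ((g * w : G) : G ⧸ N) = (h0 : G ⧸ N) := by
        rw [QuotientGroup.mk_mul, (QuotientGroup.eq_one_iff w).2 hw1.1, mul_one, hg']
      rw [Finset.mem_filter, hA1]
      refine ⟨⟨hgwN, ?_⟩, mem_stab_iff.1 hgw⟩
      refine h.hyp.TL_le hl hl₀ ⟨?_, (stab (lf l : J → ℂ)).pow_mem hgw m⟩
      change (g * w) ^ m ∈ N
      rw [← QuotientGroup.eq_one_iff, QuotientGroup.mk_pow, hgwN, ← hord0]
      exact pow_orderOf_eq_one _
    · intro a _ b _ hab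
      exact mul_left_cancel hab
    · intro t ht
      rw [Finset.mem_filter, hA1] at ht
      refine ⟨g⁻¹ * t, ?_, by group⟩
      rw [Finset.mem_filter]
      refine ⟨Finset.mem_univ _, h.hyp.TL_le hl hl₀ ⟨?_, ?_⟩⟩
      · exact QuotientGroup.eq.1 (hg'.trans ht.1.1.symm)
      · exact (stab (lf l : J → ℂ)).mul_mem ((stab (lf l : J → ℂ)).inv_mem hg)
          (mem_stab_iff.2 ht.2)
  have hγ_elt : ∀ γ : (⁅J, J⁆ : Subgroup G) →* ℂˣ, γ ≠ 1 →
      (A2.filter fun t => cl t γ = γ).card ≤ Nat.card N2 := by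
    intro γ hγ
    by_cases hne : (A2.filter fun t => cl t γ = γ).Nonempty
    · obtain ⟨t₀, ht₀⟩ := hne
      rw [Finset.mem_filter, hA2] at ht₀
      rw [e2]
      refine Finset.card_le_card_of_injOn (fun t => t₀⁻¹ * t) ?_ (fun a _ b _ hab =>
        mul_left_cancel hab)
      intro t ht
      rw [Finset.mem_coe, Finset.mem_filter, hA2] at ht
      rw [Finset.mem_coe, Finset.mem_filter]
      refine ⟨Finset.mem_univ _, h.TG_le hγ ⟨?_, ?_⟩⟩
      · exact QuotientGroup.eq.1 (ht₀.1.1.trans ht.1.1.symm)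
      · exact (stab (lf γ : (⁅J, J⁆ : Subgroup G) → ℂ)).mul_mem
          ((stab (lf γ : (⁅J, J⁆ : Subgroup G) → ℂ)).inv_mem (mem_stab_iff.2 ht₀.2))
          (mem_stab_iff.2 ht.2)
    · rw [Finset.not_nonempty_iff_eq_empty] at hne
      rw [hne, Finset.card_empty]
      exact Nat.zero_le _
  -- an element of `A1`
  obtain ⟨t₀, ht₀⟩ : A1.Nonempty := by
    have h1 := hl_elt l₀ hl₀
    have h2 : 0 < Nat.card N1 := Nat.card_pos
    rw [← h1, Finset.card_pos] at h2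
    obtain ⟨t, ht⟩ := h2
    exact ⟨t, (Finset.mem_filter.1 ht).1⟩
  have ht₀2 : t₀ ∈ A2 := (hA2 t₀).2 ⟨((hA1 t₀).1 ht₀).1, hN12 ((hA1 t₀).1 ht₀).2⟩
  -- the numbers `L` and `K`
  let FL (t : G) : Subgroup (J →* ℂˣ) :=
    { carrier := {l | cl t l = l}
      one_mem' := cl_hone t
      mul_mem' := fun {a b} ha hb => by
        change cl t (a * b) = a * b
        rw [cl_hmul, ha, hb]
      inv_mem' := fun {a} ha => by
        change cl t a⁻¹ = a⁻¹
        rw [cl_hinv, ha] }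
  let FK (t : G) : Subgroup ((⁅J, J⁆ : Subgroup G) →* ℂˣ) :=
    { carrier := {l | cl t l = l}
      one_mem' := cl_hone t
      mul_mem' := fun {a b} ha hb => by
        change cl t (a * b) = a * b
        rw [cl_hmul, ha, hb]
      inv_mem' := fun {a} ha => by
        change cl t a⁻¹ = a⁻¹
        rw [cl_hinv, ha] }
  obtain ⟨b, hb⟩ := hsub (FL t₀)
  obtain ⟨b', hb'⟩ := hsub' (FK t₀)
  have hLt₀ := hL t₀ ht₀
  have hKt₀ := hK t₀ ht₀2
  have hb1 : Nat.card {l : J →* ℂˣ // cl t₀ l = l} = r ^ b := hb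
  have hb1' : Nat.card {γ : (⁅J, J⁆ : Subgroup G) →* ℂˣ // cl t₀ γ = γ} = r ^ b' := hb'
  have hLall : ∀ t ∈ A1, Nat.card {l : J →* ℂˣ // cl t l = l} = r ^ b := by
    intro t ht
    rw [← hb1]
    exact Nat.pow_left_injective hmpos.ne' (((hL t ht).symm.trans hLt₀))
  have hKall : ∀ t ∈ A2, Nat.card {γ : (⁅J, J⁆ : Subgroup G) →* ℂˣ // cl t γ = γ} = r ^ b' := by
    intro t ht
    rw [← hb1']
    exact Nat.pow_left_injective hmpos.ne' (((hK t ht).symm.trans hKt₀))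
  rw [hb1] at hLt₀
  rw [hb1'] at hKt₀
  -- first count
  have c1 : (Nat.card (J →* ℂˣ) - 1) * Nat.card N1 = A1.card * (r ^ b - 1) := by
    have h1 := dcount (Finset.univ.filter fun l : J →* ℂˣ => l ≠ 1) A1 (fun l t => cl t l = l)
    rw [Finset.sum_congr rfl (fun l hl => hl_elt l (Finset.mem_filter.1 hl).2), Finset.sum_const,
      card_ne_one, smul_eq_mul] at h1
    rw [h1, Finset.sum_congr rfl (fun t ht => by
      rw [card_fixed_ne_one, hLall t ht]), Finset.sum_const, smul_eq_mul]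
  -- second count
  have c2 : A2.card * (r ^ b' - 1) ≤
      (Nat.card ((⁅J, J⁆ : Subgroup G) →* ℂˣ) - 1) * Nat.card N2 := by
    have h1 := dcount (Finset.univ.filter fun l : (⁅J, J⁆ : Subgroup G) →* ℂˣ => l ≠ 1) A2
      (fun l t => cl t l = l)
    have h2 : ∑ t ∈ A2, ((Finset.univ.filter fun l : (⁅J, J⁆ : Subgroup G) →* ℂˣ =>
        l ≠ 1).filter fun l => cl t l = l).card = A2.card * (r ^ b' - 1) := by
      rw [Finset.sum_congr rfl (fun t ht => by
        rw [card_fixed_ne_one, hKall t ht]), Finset.sum_const, smul_eq_mul]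
    rw [← h2, ← h1, ← card_ne_one, ← smul_eq_mul, ← Finset.sum_const]
    exact Finset.sum_le_sum fun γ hγ => hγ_elt γ (Finset.mem_filter.1 hγ).2
  -- elements of `N2` are central modulo `J`
  have hcomw : ∀ w ∈ N2, ∀ t : G, Commute (t : G ⧸ J) (w : G ⧸ J) := by
    intro w hw t
    have h1 := h.centralG hγ₀ w hw t
    rw [← QuotientGroup.eq_one_iff] at h1
    simp only [QuotientGroup.mk_mul, QuotientGroup.mk_inv] at h1
    rw [mul_inv_eq_one, mul_inv_eq_iff_eq_mul] at h1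
    exact h1.symm
  have hpow : ∀ w ∈ N2, ∀ t : G, (t ^ m * w ^ m)⁻¹ * (t * w) ^ m ∈ J := by
    intro w hw t
    rw [← QuotientGroup.eq]
    have h1 := (hcomw w hw t).mul_pow m
    rw [← QuotientGroup.mk_mul, ← QuotientGroup.mk_pow, ← QuotientGroup.mk_pow,
      ← QuotientGroup.mk_pow, ← QuotientGroup.mk_mul] at h1
    exact h1.symm
  have hJN1 : J ≤ N1 := le_inf h.hyp.JN (le_stab' (isIrr_lf l₀))
  haveI hN1n : N1.Normal := h.hyp.N1_normal hl₀
  -- third count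
  have c3 : A1.card * Nat.card N2 ≤
      (Nat.gcd m (N1.relIndex N2) * Nat.card N1) * A2.card := by
    rw [e2, ← Finset.card_product]
    refine Finset.card_le_mul_card_image_of_maps_to (f := fun q : G × G => q.1 * q.2) ?_ _ ?_
    · rintro ⟨t, w⟩ hq
      rw [Finset.mem_product, hA1, Finset.mem_filter] at hq
      obtain ⟨⟨ht1, ht2⟩, -, hw⟩ := hq
      rw [hA2]
      have htw : ((t * w : G) : G ⧸ N) = (h0 : G ⧸ N) := by
        rw [QuotientGroup.mk_mul, (QuotientGroup.eq_one_iff w).2 hw.1, mul_one, ht1]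
      refine ⟨htw, ⟨?_, ?_⟩⟩
      · change (t * w) ^ m ∈ N
        rw [← QuotientGroup.eq_one_iff, QuotientGroup.mk_pow, htw, ← hord0]
        exact pow_orderOf_eq_one _
      · have h3 : (t * w) ^ m = (t ^ m * w ^ m) * ((t ^ m * w ^ m)⁻¹ * (t * w) ^ m) := by group
        change (t * w) ^ m ∈ stab _
        rw [h3]
        exact (stab _).mul_mem ((stab _).mul_mem (hN12 ht2).2 (N2.pow_mem hw m).2)
          (c2_J_le_stab h.central' γ₀ (hpow w hw t))
    · intro s _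
      by_cases hne : ((A1 ×ˢ (Finset.univ.filter fun w : G => w ∈ N2)).filter
          fun q : G × G => q.1 * q.2 = s).Nonempty
      · obtain ⟨⟨t₁, w₁⟩, hq₁⟩ := hne
        rw [Finset.mem_filter, Finset.mem_product, hA1, Finset.mem_filter] at hq₁
        obtain ⟨⟨⟨ht1, ht2⟩, -, hw1⟩, hs1⟩ := hq₁
        refine le_trans ?_ (h.hyp.count_le hl₀ (inf_le_left : N2 ≤ N) hN12 m)
        have e3 : Nat.card {w : G // w ∈ N2 ∧ w ^ m ∈ N ⊓ stab (lf l₀ : J → ℂ)} =
            (Finset.univ.filter fun w : G => w ∈ N2 ∧ w ^ m ∈ N1).card := by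
          rw [Nat.card_eq_fintype_card, Fintype.card_subtype]
        rw [e3]
        refine Finset.card_le_card_of_injOn (fun q => q.2 * w₁⁻¹) ?_ ?_
        · rintro ⟨t, w⟩ hq
          rw [Finset.mem_coe, Finset.mem_filter, Finset.mem_product, hA1, Finset.mem_filter] at hq
          obtain ⟨⟨⟨ht1', ht2'⟩, -, hw⟩, hs⟩ := hq
          rw [Finset.mem_coe, Finset.mem_filter]
          refine ⟨Finset.mem_univ _, N2.mul_mem hw (N2.inv_mem hw1), ?_⟩
          have k1 : ∀ u : G, ∀ v ∈ N2, u ^ m ∈ N1 →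
              (((u * v) ^ m : G) : G ⧸ N1) = ((v ^ m : G) : G ⧸ N1) := by
            intro u v hv hu
            have h4 := hJN1 (hpow v hv u)
            rw [← QuotientGroup.eq, QuotientGroup.mk_mul, (QuotientGroup.eq_one_iff _).2 hu,
              one_mul] at h4
            exact h4.symm
          have k2 : ((w ^ m : G) : G ⧸ N1) = ((w₁ ^ m : G) : G ⧸ N1) := by
            rw [← k1 t w hw ht2', ← k1 t₁ w₁ hw1 ht2]
            congr 2
            exact hs.trans hs1.symm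
          have k3 : (((w * w₁⁻¹) ^ m : G) : G ⧸ N1) = 1 := by
            have h5 : (((w * w₁⁻¹) ^ m : G) : G ⧸ N1) = (w ^ m * w₁⁻¹ ^ m : G) :=
              ((QuotientGroup.eq (s := N1)).2 (hJN1 (hpow w₁⁻¹ (N2.inv_mem hw1) w))).symm
            rw [h5, QuotientGroup.mk_mul, k2, inv_pow, QuotientGroup.mk_inv, mul_inv_cancel]
          exact (QuotientGroup.eq_one_iff _).1 k3
        · rintro ⟨t, w⟩ hq ⟨t', w'⟩ hq' hww
          rw [Finset.mem_coe, Finset.mem_filter] at hq hq'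
          have h1 : w = w' := mul_right_cancel hww
          have h2 : t * w = t' * w' := hq.2.trans hq'.2.symm
          rw [h1] at h2
          rw [mul_right_cancel h2, h1]
      · rw [Finset.not_nonempty_iff_eq_empty] at hne
        rw [hne, Finset.card_empty]
        exact Nat.zero_le _
  -- the greatest common divisor
  set g := Nat.gcd m (N1.relIndex N2) with hg
  have hgm : g ∣ m := Nat.gcd_dvd_left _ _
  have hglt : g < m := by
    rcases lt_or_eq_of_le (Nat.le_of_dvd hmpos hgm) with h1 | h1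
    · exact h1
    · exfalso
      have h2 : m ∣ N1.relIndex N2 := by rw [← h1]; exact Nat.gcd_dvd_right _ _
      have h3 : m ∣ N1.relIndex N := by
        have h4 : N1.relIndex N2 * N2.relIndex N = N1.relIndex N :=
          Subgroup.relIndex_mul_relIndex _ _ _ hN12 inf_le_left
        exact h2.trans ⟨_, h4.symm⟩
      have h5 := index_mul (N := N) (stab (lf l₀ : J → ℂ))
      rw [← hm, ← rel_inf, ← hN1] at h5
      obtain ⟨c, hc⟩ := h3
      have h6 : (stab (lf l₀ : J → ℂ)).index = N.index * c := by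
        rw [hc] at h5
        have h7 : (stab (lf l₀ : J → ℂ)).index * m = N.index * c * m := by rw [h5]; ring
        exact Nat.eq_of_mul_eq_mul_right hmpos h7
      obtain ⟨χ, hχ, hχd⟩ := h.hyp.fdeg
      obtain ⟨ψ, hψ, -, hψd⟩ := (h.hyp.GTL hl₀).1
      have hNi : N.index ≠ 1 := fun e => h.hyp.ne_top (Subgroup.index_eq_one.1 e)
      have h8 := h.hyp.anti χ ψ hχ hψ (by rw [hχd]; exact hNi)
        (by rw [hχd, hψd, h6]; exact Dvd.intro _ rfl)
      rw [hχd, hψd, h6] at h8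
      have hc1 : c = 1 := by
        have h9 : N.index * c = N.index * 1 := by rw [mul_one]; exact h8.symm
        exact Nat.eq_of_mul_eq_mul_left hfpos h9
      rw [hc1, mul_one] at hc
      apply h.hyp.pf
      refine dvd_trans ?_ hmf
      rw [← hc]
      -- `p ∣ |N : N1|`
      have hxN1 : x ∉ N1 := fun hx => h.hyp.x_not (isIrr_lf l₀) (lf_ne_one hl₀) hx.2
      haveI : (N1.subgroupOf N).Normal := hN1n.subgroupOf N
      have h10 : orderOf (((⟨x, h.hyp.xN⟩ : N) : N) : N ⧸ N1.subgroupOf N) = p := by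
        haveI := Fact.mk h.hyp.pr
        refine orderOf_eq_prime ?_ ?_
        · rw [← QuotientGroup.mk_pow]
          have : (⟨x, h.hyp.xN⟩ : N) ^ p = 1 := Subtype.ext h.hyp.xp
          rw [this, QuotientGroup.mk_one]
        · intro h11
          exact hxN1 ((QuotientGroup.eq_one_iff (N := N1.subgroupOf N)
            (⟨x, h.hyp.xN⟩ : N)).1 h11)
      rw [← h10]
      exact orderOf_dvd_natCard _
  -- `b' ≠ 0`
  have hb'0 : b' ≠ 0 := by
    rintro rfl
    rw [pow_zero, one_pow] at hKt₀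
    haveI : Nontrivial ((⁅J, J⁆ : Subgroup G) →* ℂˣ) := ⟨⟨γ₀, 1, hγ₀⟩⟩
    have : 1 < Nat.card ((⁅J, J⁆ : Subgroup G) →* ℂˣ) := Finite.one_lt_card
    omega
  have hbb : b' < b := by
    have h1 := h.card_lt
    rw [hLt₀, hKt₀] at h1
    by_contra hcon
    push Not at hcon
    have h2 : (r ^ b) ^ m ≤ (r ^ b') ^ m :=
      Nat.pow_le_pow_left (Nat.pow_le_pow_right hr.pos hcon) m
    omega
  refine arith hr hb'0 hbb hgm hglt (b := b') (a := b) (m := m) ?_
  rw [hLt₀] at c1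
  rw [hKt₀] at c2
  have hN1pos : 0 < Nat.card N1 := Nat.card_pos
  have hN2pos : 0 < Nat.card N2 := Nat.card_pos
  have hpos : 0 < Nat.card N1 * Nat.card N2 := Nat.mul_pos hN1pos hN2pos
  refine Nat.le_of_mul_le_mul_right ?_ hpos
  calc ((r ^ b) ^ m - 1) * (r ^ b' - 1) * (Nat.card N1 * Nat.card N2)
      = (((r ^ b) ^ m - 1) * Nat.card N1) * ((r ^ b' - 1) * Nat.card N2) := by ring
    _ = (A1.card * (r ^ b - 1)) * ((r ^ b' - 1) * Nat.card N2) := by rw [c1]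
    _ = (A1.card * Nat.card N2) * ((r ^ b - 1) * (r ^ b' - 1)) := by ring
    _ ≤ ((g * Nat.card N1) * A2.card) * ((r ^ b - 1) * (r ^ b' - 1)) :=
        Nat.mul_le_mul_right _ c3
    _ = (A2.card * (r ^ b' - 1)) * (g * Nat.card N1 * (r ^ b - 1)) := by ring
    _ ≤ (((r ^ b') ^ m - 1) * Nat.card N2) * (g * Nat.card N1 * (r ^ b - 1)) :=
        Nat.mul_le_mul_right _ c2
    _ = g * (r ^ b - 1) * ((r ^ b') ^ m - 1) * (Nat.card N1 * Nat.card N2) := by ring

end Cfsg.Agent.H675.Nd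
end

-- part: H675/Nd/HB5
section
/-!
# `J` is abelian: conclusion
-/

set_option autoImplicit false
set_option linter.style.haveILetI false
set_option linter.unusedSectionVars false
open Cfsg

namespace Cfsg.Agent.H675.Nd

open Cfsg.Agent.Characters.Core Cfsg.Agent.Characters.Clifford Cfsg.Agent.H672 Cfsg.Agent.H672.RM
open Cfsg.Agent.H597.FrobA
open scoped commutatorElement

universe u v w

theorem Anti.quot {G : Type u} [Group G] [Finite G] (h : Anti G) (M : Subgroup G) [M.Normal] :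
    Anti (G ⧸ M) := by
  intro χ χ' hχ hχ' h1 hd
  have hπ := QuotientGroup.mk'_surjective M
  have hdeg : ∀ ψ : (G ⧸ M) → ℂ, charDegree (ψ ∘ QuotientGroup.mk' M) = charDegree ψ := fun ψ =>
    charDegree_comp_one _ ψ
  have h2 := h _ _ (isIrr_comp _ hπ hχ) (isIrr_comp _ hπ hχ') (by rwa [hdeg]) (by rwa [hdeg, hdeg])
  rwa [hdeg, hdeg] at h2

variable {G : Type u} [Group G] [Finite G] {N J : Subgroup G} {x : G} {p : ℕ} [hN : N.Normal]
  [hJn : J.Normal]

theorem HB.quot (h : HB N J x p) (M : Subgroup G) [hM : M.Normal] (hMN : M ≤ N)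
    (hnc : ∃ g : G, x * g * x⁻¹ * g⁻¹ ∉ J ⊔ M) [hN' : (N.map (QuotientGroup.mk' M)).Normal]
    [hJ' : (J.map (QuotientGroup.mk' M)).Normal] :
    HB (N.map (QuotientGroup.mk' M)) (J.map (QuotientGroup.mk' M)) (QuotientGroup.mk' M x) p := by
  have hπ := QuotientGroup.mk'_surjective M
  have hidx : (N.map (QuotientGroup.mk' M)).index = N.index := by
    rw [Subgroup.index_map, QuotientGroup.ker_mk', sup_of_le_left hMN,
      MonoidHom.range_eq_top.2 hπ, Subgroup.index_top, mul_one]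
  have hmem : ∀ g : G, QuotientGroup.mk' M g ∈ N.map (QuotientGroup.mk' M) → g ∈ N := by
    rintro g ⟨n, hn, e⟩
    have h1 := QuotientGroup.eq.1 e
    have h2 := N.mul_mem hn (hMN h1)
    rwa [mul_inv_cancel_left] at h2
  refine ⟨?_, ?_, h.pr, ⟨x, h.xN, rfl⟩, ?_, ?_, ?_, ?_, h.anti.quot M, ?_, ?_, ?_⟩
  · rw [← Subgroup.map_commutator, ← h.eJ]
  · have e := QuotientGroup.quotientQuotientEquivQuotient M N hMN
    haveI := h.cyc
    exact isCyclic_of_surjective e.symm e.symm.surjective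
  · rw [← map_pow, h.xp, map_one]
  · intro hd
    exact h.pJ (hd.trans (Subgroup.card_dvd_of_surjective _
      ((QuotientGroup.mk' M).subgroupMap_surjective J)))
  · rw [hidx]
    exact h.pf
  · intro μ hμ hx
    have h1 := h.hx _ (isIrr_map (QuotientGroup.mk' M) J hμ) (by
      refine ⟨mem_nrm J x, ?_⟩
      rw [tw_map _ _ _ (mem_nrm J x) (mem_nrm _ _), hx.2])
    exact ((QuotientGroup.mk' M).subgroupMap_surjective J).injective_comp_right (h1.trans rfl)
  · intro l q hq hl q'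
    obtain ⟨g, rfl⟩ := hπ q
    obtain ⟨g', rfl⟩ := hπ q'
    have hg : g ∉ N := fun hg => hq ⟨g, hg, rfl⟩
    have hsur := (QuotientGroup.mk' M).subgroupMap_surjective N
    have key : ∀ a : G, cl a (l.comp ((QuotientGroup.mk' M).subgroupMap N)) =
        (cl (QuotientGroup.mk' M a) l).comp ((QuotientGroup.mk' M).subgroupMap N) := by
      intro a
      apply MonoidHom.ext
      intro n
      rw [MonoidHom.comp_apply, cl_apply, cl_apply, MonoidHom.comp_apply]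
      congr 1
    have h1 := h.hfix (l.comp ((QuotientGroup.mk' M).subgroupMap N)) g hg (by rw [key, hl]) g'
    rw [key] at h1
    apply MonoidHom.ext
    intro n
    obtain ⟨m, rfl⟩ := hsur n
    exact DFunLike.congr_fun h1 m
  · obtain ⟨g, hg⟩ := hnc
    refine ⟨QuotientGroup.mk' M g, ?_⟩
    rintro ⟨j, hj, e⟩
    apply hg
    rw [← map_inv, ← map_inv, ← map_mul, ← map_mul, ← map_mul] at e
    have h1 := QuotientGroup.eq.1 e
    have h2 := (J ⊔ M).mul_mem (Subgroup.mem_sup_left hj) (Subgroup.mem_sup_right h1)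
    rwa [mul_inv_cancel_left] at h2
  · intro q
    obtain ⟨g, rfl⟩ := hπ q
    obtain ⟨k, j, hj, e⟩ := h.xn g
    refine ⟨k, QuotientGroup.mk' M j, ⟨j, hj, rfl⟩, ?_⟩
    rw [← map_inv, ← map_mul, ← map_mul, e, map_mul, map_pow]

/-- **`J` is abelian.** -/
theorem thmB (n : ℕ) : ∀ (G : Type u) [Group G] [Finite G] (N J : Subgroup G) (x : G) (p : ℕ)
    [N.Normal] [J.Normal], Nat.card G = n → HB N J x p → ⁅J, J⁆ = ⊥ := by
  induction n using Nat.strong_induction_on with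
  | _ n ih =>
  intro G _ _ N J x p hN hJ hn h
  by_contra hne
  have hq : ∀ M : Subgroup G, M.Normal → M ≠ ⊥ → M ≤ N →
      (∃ g : G, x * g * x⁻¹ * g⁻¹ ∉ J ⊔ M) → ⁅J, J⁆ ≤ M := by
    intro M hM hM1 hMN hnc
    have hπ := QuotientGroup.mk'_surjective M
    haveI hNn : (N.map (QuotientGroup.mk' M)).Normal := Subgroup.Normal.map inferInstance _ hπ
    haveI hJn : (J.map (QuotientGroup.mk' M)).Normal := Subgroup.Normal.map inferInstance _ hπ
    have h1 := h.quot M hMN hnc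
    have hlt : Nat.card (G ⧸ M) < n := by
      rw [← hn, ← Subgroup.index_eq_card, ← M.index_mul_card]
      refine lt_mul_of_one_lt_right (Nat.pos_of_ne_zero Subgroup.index_ne_zero_of_finite) ?_
      rw [Subgroup.one_lt_card_iff_ne_bot]
      exact hM1
    have h2 := ih _ hlt (G ⧸ M) _ _ _ p rfl h1
    rw [← Subgroup.map_commutator, Subgroup.map_eq_bot_iff, QuotientGroup.ker_mk'] at h2
    exact h2
  refine MB.false (N := N) (J := J) (x := x) (p := p) ⟨h, hne, ?_, ?_⟩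
  · intro M hM hM1 hMJ
    obtain ⟨g, hg⟩ := h.nc
    exact hq M hM hM1 (hMJ.trans h.JN) ⟨g, by rwa [sup_of_le_left hMJ]⟩
  · intro u hu huc r hr hrp hur
    by_contra hu1
    have hun : (Subgroup.zpowers u).Normal := by
      constructor
      rintro _ ⟨i, rfl⟩ g
      have h1 : g * u ^ i = u ^ i * g :=
        Subgroup.mem_center_iff.1 ((Subgroup.center G).zpow_mem huc i) g
      change g * u ^ i * g⁻¹ ∈ _
      rw [h1, mul_inv_cancel_right]
      exact Subgroup.zpow_mem_zpowers u i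
    have hnc : ∃ g : G, x * g * x⁻¹ * g⁻¹ ∉ J ⊔ Subgroup.zpowers u := by
      obtain ⟨g, hg⟩ := h.nc
      refine ⟨g, fun hmem => hg ?_⟩
      obtain ⟨j, hj, w, ⟨i, hw⟩, e⟩ := Subgroup.mem_sup_of_normal_left.1 hmem
      have hw' : u ^ i = w := hw
      have h1 : (w : G ⧸ J) ^ r = 1 := by
        rw [← QuotientGroup.mk_pow, ← hw', ← zpow_natCast, ← zpow_mul, mul_comm, zpow_mul,
          zpow_natCast, hur, one_zpow]
        rfl
      have h2 : ((x * g * x⁻¹ * g⁻¹ : G) : G ⧸ J) = w := by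
        rw [← e, QuotientGroup.mk_mul, (QuotientGroup.eq_one_iff j).2 hj, one_mul]
      have h3 : (w : G ⧸ J) ^ p = 1 := by
        have hy : g * x⁻¹ * g⁻¹ ∈ N := hN.conj_mem _ (N.inv_mem h.xN) g
        have h4 : Commute (x : G ⧸ J) ((g * x⁻¹ * g⁻¹ : G) : G ⧸ J) := by
          have h5 := h.ab (Subgroup.commutator_mem_commutator h.xN hy)
          rw [← QuotientGroup.eq_one_iff] at h5
          change QuotientGroup.mk' J ⁅x, g * x⁻¹ * g⁻¹⁆ = 1 at h5
          rw [map_commutatorElement, commutatorElement_eq_one_iff_mul_comm] at h5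
          exact h5
        have h5 : (w : G ⧸ J) = (x : G ⧸ J) * ((g * x⁻¹ * g⁻¹ : G) : G ⧸ J) := by
          rw [← h2, ← QuotientGroup.mk_mul]
          congr 1
          group
        rw [h5, h4.mul_pow, ← QuotientGroup.mk_pow, ← QuotientGroup.mk_pow, h.xp, conj_pow,
          inv_pow, h.xp, inv_one, mul_one, mul_inv_cancel]
        simp
      have h4 : (w : G ⧸ J) = 1 := by
        have h5 := pow_gcd_eq_one.2 ⟨h1, h3⟩
        rwa [((Nat.coprime_primes hr h.pr).2 hrp).gcd_eq_one, pow_one] at h5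
      rw [← QuotientGroup.eq_one_iff, h2, h4]
    have h1 := hq (Subgroup.zpowers u) hun (by rwa [Ne, Subgroup.zpowers_eq_bot])
      (Subgroup.zpowers_le.2 hu) hnc
    apply hne
    rw [eq_bot_iff]
    intro z hz
    rw [Subgroup.mem_bot]
    refine h.fix (comm_le J hz) ?_
    obtain ⟨i, hi⟩ := h1 hz
    have hi' : u ^ i = z := hi
    rw [← hi']
    exact Subgroup.mem_center_iff.1 ((Subgroup.center G).zpow_mem huc i) x

theorem over_one_top {χ : G → ℂ} (hχ : IsIrrCharacter G χ) :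
    Over J.subtype χ (1 : J → ℂ) ↔ ∀ j : J, χ j = χ 1 := by
  have e : (χ ∘ (Subgroup.topEquiv (G := G))) ∘ (Subgroup.topEquiv (G := G)).symm = χ := by
    funext x; simp
  have h1 := over_top_iff (χ ∘ (Subgroup.topEquiv (G := G))) (1 : J → ℂ)
  have h2 : Over J.subtype χ (1 : J → ℂ) ↔
      Over (Subgroup.inclusion (le_top : J ≤ ⊤)) (χ ∘ (Subgroup.topEquiv (G := G))) 1 := by
    rw [← h1]
    rw [e]
  rw [h2, over_one_iff le_top (le_nrm J ⊤) (isIrr_top' hχ)]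
  rfl

theorem HB.comm (h : HB N J x p) : ⁅J, J⁆ = ⊥ := thmB _ G N J x p rfl h

/-- All characters nontrivial on `J` have the same degree. -/
theorem HB.one_deg (h : HB N J x p) : ∃ a, ∀ χ : G → ℂ, IsIrrCharacter G χ →
    (∃ j ∈ J, χ j ≠ χ 1) → charDegree χ = a := by
  classical
  have key : ∀ χ : G → ℂ, IsIrrCharacter G χ → (∃ j ∈ J, χ j ≠ χ 1) →
      ∃ l : J →* ℂˣ, l ≠ 1 ∧ charDegree χ = (stab (lf l : J → ℂ)).index := by
    rintro χ hχ ⟨j, hj, hne⟩
    obtain ⟨μ, hμ, ho⟩ := exists_under (f := J.subtype) hχ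
    have hd : charDegree μ = 1 := by
      refine lin_of_comm (H := (⊥ : Subgroup G)) (T := J) bot_le h.comm.le hμ ?_
      rintro ⟨k, hk⟩
      rw [Subgroup.mem_bot] at hk
      subst hk
      rfl
    obtain ⟨l, rfl⟩ := exists_hom_of_degree_one hμ hd
    have hl : l ≠ 1 := by
      rintro rfl
      exact hne ((over_one_top hχ).1 ho ⟨j, hj⟩)
    exact ⟨l, hl, (h.GTL hl).2.1 χ hχ ho⟩
  by_cases hex : ∃ l : J →* ℂˣ, l ≠ 1
  · obtain ⟨l₀, hl₀⟩ := hex
    refine ⟨(stab (lf l₀ : J → ℂ)).index, fun χ hχ hj => ?_⟩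
    obtain ⟨l, hl, e⟩ := key χ hχ hj
    rw [e, h.index_eq hl hl₀]
  · refine ⟨0, fun χ hχ hj => ?_⟩
    obtain ⟨l, hl, -⟩ := key χ hχ hj
    exact absurd ⟨l, hl⟩ hex

end Cfsg.Agent.H675.Nd
end

-- part: H675/Nd/Cop
section
/-!
# Coprime action of a cyclic quotient on an abelian section
-/

set_option autoImplicit false
set_option linter.style.haveILetI false
set_option linter.unusedSectionVars false
open Cfsg

namespace Cfsg.Agent.H675.Nd

open Cfsg.Agent.Characters.Core Cfsg.Agent.Characters.Clifford Cfsg.Agent.H672 Cfsg.Agent.H672.RM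
open Cfsg.Agent.H597.FrobA
open scoped commutatorElement

universe u v w

section abs

variable {Q : Type u} [Group Q] {A : Subgroup Q} [hA : A.Normal]

/-- The commutators with `y`. -/
def CR (hab : ∀ a ∈ A, ∀ b ∈ A, a * b = b * a) (y : Q) : Subgroup Q where
  carrier := {e | ∃ a ∈ A, e = ⁅a, y⁆}
  one_mem' := ⟨1, A.one_mem, by rw [commutatorElement_one_left]⟩
  mul_mem' := by
    rintro _ _ ⟨a, ha, rfl⟩ ⟨b, hb, rfl⟩
    refine ⟨b * a, A.mul_mem hb ha, ?_⟩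
    have h1 : y * b⁻¹ * y⁻¹ ∈ A := hA.conj_mem _ (A.inv_mem hb) y
    have h2 : a * (y * a⁻¹ * y⁻¹) ∈ A := A.mul_mem ha (hA.conj_mem _ (A.inv_mem ha) y)
    calc ⁅a, y⁆ * ⁅b, y⁆ = (a * (y * a⁻¹ * y⁻¹) * b) * (y * b⁻¹ * y⁻¹) := by
          rw [commutatorElement_def, commutatorElement_def]; group
      _ = (b * (a * (y * a⁻¹ * y⁻¹))) * (y * b⁻¹ * y⁻¹) := by rw [hab _ h2 _ hb]
      _ = ⁅b * a, y⁆ := by rw [commutatorElement_def]; group
  inv_mem' := by
    rintro _ ⟨a, ha, rfl⟩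
    refine ⟨a⁻¹, A.inv_mem ha, ?_⟩
    have h1 : y * a * y⁻¹ ∈ A := hA.conj_mem _ ha y
    calc ⁅a, y⁆⁻¹ = (y * a * y⁻¹) * a⁻¹ := by rw [commutatorElement_def]; group
      _ = a⁻¹ * (y * a * y⁻¹) := hab _ h1 _ (A.inv_mem ha)
      _ = ⁅a⁻¹, y⁆ := by rw [commutatorElement_def]; group

theorem mem_CR (hab : ∀ a ∈ A, ∀ b ∈ A, a * b = b * a) {y e : Q} :
    e ∈ CR hab y ↔ ∃ a ∈ A, e = ⁅a, y⁆ := Iff.rfl

theorem comm_mem_left {a g : Q} (ha : a ∈ A) : ⁅a, g⁆ ∈ A := by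
  rw [commutatorElement_def]
  have h1 := hA.conj_mem _ (A.inv_mem ha) g
  have e : a * g * a⁻¹ * g⁻¹ = a * (g * a⁻¹ * g⁻¹) := by group
  rw [e]
  exact A.mul_mem ha h1

theorem comm_gen (hab : ∀ a ∈ A, ∀ b ∈ A, a * b = b * a) (hQ : ∀ a b : Q, ⁅a, b⁆ ∈ A) {y : Q}
    (hy : ∀ g : Q, ∃ (k : ℤ) (n : Q), n ∈ A ∧ g = y ^ k * n) {e : Q}
    (he : e ∈ ⁅A, (⊤ : Subgroup Q)⁆) : ∃ a ∈ A, e = ⁅a, y⁆ := by
  have hRn : ∀ e ∈ CR hab y, ∀ g : Q, g * e * g⁻¹ ∈ CR hab y := by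
    rintro _ ⟨a, ha, rfl⟩ g
    have ha' := hA.conj_mem a ha g
    refine ⟨g * a * g⁻¹, ha', ?_⟩
    have hc := hQ g y
    have h1 := hab _ ha' _ hc
    have h2 : ⁅g * a * g⁻¹, y⁆ ∈ A := comm_mem_left ha'
    calc g * ⁅a, y⁆ * g⁻¹ = (g * a * g⁻¹) * ⁅g, y⁆ * y * (g * a * g⁻¹)⁻¹ * y⁻¹ * ⁅g, y⁆⁻¹ := by
          simp only [commutatorElement_def]; group
      _ = ⁅g, y⁆ * (g * a * g⁻¹) * y * (g * a * g⁻¹)⁻¹ * y⁻¹ * ⁅g, y⁆⁻¹ := by rw [h1]
      _ = ⁅g, y⁆ * ⁅g * a * g⁻¹, y⁆ * ⁅g, y⁆⁻¹ := by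
          rw [commutatorElement_def (g * a * g⁻¹) y]; group
      _ = ⁅g * a * g⁻¹, y⁆ * ⁅g, y⁆ * ⁅g, y⁆⁻¹ := by rw [hab _ hc _ h2]
      _ = ⁅g * a * g⁻¹, y⁆ := mul_inv_cancel_right _ _
  let S : Subgroup Q :=
    { carrier := {g | ∀ a ∈ A, ⁅a, g⁆ ∈ CR hab y}
      one_mem' := fun a _ => by rw [commutatorElement_one_right]; exact Subgroup.one_mem _
      mul_mem' := fun {g h} hg hh a ha => by
        have e : ⁅a, g * h⁆ = ⁅a, g⁆ * (g * ⁅a, h⁆ * g⁻¹) := by
          simp only [commutatorElement_def]; group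
        rw [e]
        exact Subgroup.mul_mem _ (hg a ha) (hRn _ (hh a ha) g)
      inv_mem' := fun {g} hg a ha => by
        have e : ⁅a, g⁻¹⁆ = g⁻¹ * ⁅a, g⁆⁻¹ * g⁻¹⁻¹ := by
          simp only [commutatorElement_def]; group
        rw [e]
        exact hRn _ (Subgroup.inv_mem _ (hg a ha)) g⁻¹ }
  have hS : ∀ g : Q, g ∈ S := by
    intro g
    obtain ⟨k, n, hn, rfl⟩ := hy g
    refine S.mul_mem (S.zpow_mem (fun a ha => ⟨a, ha, rfl⟩) k) ?_
    intro a ha
    rw [commutatorElement_eq_one_iff_mul_comm.2 (hab a ha n hn)]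
    exact Subgroup.one_mem _
  have hle : ⁅A, (⊤ : Subgroup Q)⁆ ≤ CR hab y := by
    rw [Subgroup.commutator_le]
    intro a ha g _
    exact hS g a ha
  exact hle he

theorem eq_one_of_comm (hab : ∀ a ∈ A, ∀ b ∈ A, a * b = b * a) {y a : Q} (ha : a ∈ A)
    {f m : ℕ} (hf : y ^ f ∈ A) (hm : ⁅a, y⁆ ^ m = 1) (hcop : m.Coprime f)
    (hc : ⁅a, y⁆ * y = y * ⁅a, y⁆) : ⁅a, y⁆ = 1 := by
  have e1 : a * y * a⁻¹ = ⁅a, y⁆ * y := by rw [commutatorElement_def]; group
  have e2 := comm_pow_right e1 hc f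
  have h1 : a * y ^ f * a⁻¹ = y ^ f := by
    rw [hab a ha _ hf, mul_inv_cancel_right]
  rw [h1] at e2
  have h2 : ⁅a, y⁆ ^ f = 1 := by
    have := e2.symm
    rwa [mul_eq_right] at this
  have h3 := pow_gcd_eq_one.2 ⟨hm, h2⟩
  rwa [hcop.gcd_eq_one, pow_one] at h3

/-- `A = [A, Q] C_A(Q)`. -/
theorem exists_decomp [Finite Q] (hab : ∀ a ∈ A, ∀ b ∈ A, a * b = b * a) {y : Q}
    (hy : ∀ g : Q, ∃ (k : ℤ) (n : Q), n ∈ A ∧ g = y ^ k * n) {f : ℕ} (hf : y ^ f ∈ A)
    (hcop : (Nat.card A).Coprime f) {a : Q} (ha : a ∈ A) :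
    ∃ r ∈ ⁅A, (⊤ : Subgroup Q)⁆, ∃ z ∈ A, (∀ g : Q, z * g = g * z) ∧ a = r * z := by
  have hRle : CR hab y ≤ A := by
    rintro _ ⟨a, ha, rfl⟩
    exact comm_mem_left ha
  have hpow : ∀ e ∈ A, e ^ Nat.card A = 1 := by
    intro e he
    have := pow_card_eq_one' (x := (⟨e, he⟩ : A))
    exact congrArg Subtype.val this
  let δ : CR hab y → CR hab y := fun e => ⟨⁅(e : Q), y⁆, ⟨e, hRle e.2, rfl⟩⟩
  have hmul : ∀ b ∈ A, ∀ c ∈ A, ⁅b * c, y⁆ = ⁅b, y⁆ * ⁅c, y⁆ := by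
    intro b hb c hc
    have h1 : ⁅c, y⁆ ∈ A := comm_mem_left hc
    calc ⁅b * c, y⁆ = b * ⁅c, y⁆ * (y * b⁻¹ * y⁻¹) := by
          simp only [commutatorElement_def]; group
      _ = ⁅c, y⁆ * b * (y * b⁻¹ * y⁻¹) := by rw [hab _ hb _ h1]
      _ = ⁅c, y⁆ * ⁅b, y⁆ := by rw [commutatorElement_def b y]; group
      _ = ⁅b, y⁆ * ⁅c, y⁆ := hab _ h1 _ (comm_mem_left hb)
  have hinv : ∀ b ∈ A, ⁅b⁻¹, y⁆ = ⁅b, y⁆⁻¹ := by
    intro b hb
    have := hmul b⁻¹ (A.inv_mem hb) b hb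
    rw [inv_mul_cancel, commutatorElement_one_left] at this
    exact eq_inv_of_mul_eq_one_left this.symm
  have hinj : Function.Injective δ := by
    intro b c hbc
    have h1 : ⁅(b : Q), y⁆ = ⁅(c : Q), y⁆ := congrArg Subtype.val hbc
    have h2 : ⁅(b : Q) * (c : Q)⁻¹, y⁆ = 1 := by
      rw [hmul _ (hRle b.2) _ (A.inv_mem (hRle c.2)), hinv _ (hRle c.2), h1, mul_inv_cancel]
    have h3 : (b : Q) * (c : Q)⁻¹ ∈ CR hab y := Subgroup.mul_mem _ b.2 (Subgroup.inv_mem _ c.2)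
    obtain ⟨d, hd, e⟩ := h3
    have h4 : ⁅d, y⁆ = 1 := by
      refine eq_one_of_comm hab hd hf (hpow _ (comm_mem_left hd)) hcop ?_
      rw [← e]
      exact commutatorElement_eq_one_iff_mul_comm.1 h2
    rw [h4] at e
    exact Subtype.ext (mul_inv_eq_one.1 e)
  obtain ⟨r, hr⟩ := (Finite.surjective_of_injective hinj) ⟨⁅a, y⁆, ⟨a, ha, rfl⟩⟩
  have hr' : ⁅(r : Q), y⁆ = ⁅a, y⁆ := congrArg Subtype.val hr
  have hrA : (r : Q) ∈ A := hRle r.2
  have hz : (r : Q)⁻¹ * a ∈ A := A.mul_mem (A.inv_mem hrA) ha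
  have hzy : ⁅(r : Q)⁻¹ * a, y⁆ = 1 := by
    rw [hmul _ (A.inv_mem hrA) _ ha, hinv _ hrA, hr', inv_mul_cancel]
  refine ⟨r, ?_, (r : Q)⁻¹ * a, hz, ?_, by group⟩
  · obtain ⟨b, hb, e⟩ := r.2
    rw [e]
    exact Subgroup.commutator_mem_commutator hb (Subgroup.mem_top y)
  · intro g
    let C : Subgroup Q := Subgroup.centralizer {(r : Q)⁻¹ * a}
    have hC : ∀ h : Q, h ∈ C ↔ ((r : Q)⁻¹ * a) * h = h * ((r : Q)⁻¹ * a) := by
      intro h
      rw [Subgroup.mem_centralizer_singleton_iff]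
      exact eq_comm
    rw [← hC]
    obtain ⟨k, n, hn, rfl⟩ := hy g
    refine C.mul_mem (C.zpow_mem ((hC y).2 ?_) k) ((hC n).2 (hab _ hz _ hn))
    exact commutatorElement_eq_one_iff_mul_comm.1 hzy

end abs

section rel

variable {G : Type u} [Group G] [Finite G] {N K : Subgroup G} [hN : N.Normal] [hK : K.Normal]

theorem comm_iff (a g : G) : a * g * a⁻¹ * g⁻¹ ∈ K ↔ (a : G ⧸ K) * (g : G ⧸ K) = g * a := by
  rw [← QuotientGroup.eq_one_iff]
  simp only [QuotientGroup.mk_mul, QuotientGroup.mk_inv]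
  rw [mul_inv_eq_one, mul_inv_eq_iff_eq_mul]

theorem map_ab (hab : ⁅N, N⁆ ≤ K) : ∀ a ∈ N.map (QuotientGroup.mk' K),
    ∀ b ∈ N.map (QuotientGroup.mk' K), a * b = b * a := by
  rintro _ ⟨a, ha, rfl⟩ _ ⟨b, hb, rfl⟩
  have h1 := hab (Subgroup.commutator_mem_commutator ha hb)
  rw [← QuotientGroup.eq_one_iff] at h1
  change QuotientGroup.mk' K ⁅a, b⁆ = 1 at h1
  rw [map_commutatorElement, commutatorElement_eq_one_iff_mul_comm] at h1
  exact h1

theorem map_gen {y : G} (hy : ∀ g : G, ∃ (k : ℤ) (n : G), n ∈ N ∧ g = y ^ k * n) :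
    ∀ g : G ⧸ K, ∃ (k : ℤ) (n : G ⧸ K), n ∈ N.map (QuotientGroup.mk' K) ∧
      g = (y : G ⧸ K) ^ k * n := by
  intro q
  obtain ⟨g, rfl⟩ := QuotientGroup.mk_surjective q
  obtain ⟨k, n, hn, e⟩ := hy g
  refine ⟨k, n, ⟨n, hn, rfl⟩, ?_⟩
  rw [← QuotientGroup.mk_zpow, ← QuotientGroup.mk_mul, ← e]

theorem map_comm_mem (hc : IsCyclic (G ⧸ N)) (a b : G ⧸ K) :
    ⁅a, b⁆ ∈ N.map (QuotientGroup.mk' K) := by
  obtain ⟨a, rfl⟩ := QuotientGroup.mk'_surjective K a
  obtain ⟨b, rfl⟩ := QuotientGroup.mk'_surjective K b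
  rw [← map_commutatorElement]
  exact ⟨_, cyc_comm hc a b, rfl⟩

theorem map_E_mem {e : G} (he : e ∈ ⁅N, (⊤ : Subgroup G)⁆ ⊔ K) :
    (e : G ⧸ K) ∈ ⁅N.map (QuotientGroup.mk' K), (⊤ : Subgroup (G ⧸ K))⁆ := by
  have h1 : (⁅N, (⊤ : Subgroup G)⁆ ⊔ K).map (QuotientGroup.mk' K) =
      ⁅N.map (QuotientGroup.mk' K), (⊤ : Subgroup (G ⧸ K))⁆ := by
    have h2 : K.map (QuotientGroup.mk' K) = ⊥ := by
      rw [Subgroup.map_eq_bot_iff, QuotientGroup.ker_mk']
    rw [Subgroup.map_sup, Subgroup.map_commutator, h2, sup_bot_eq,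
      Subgroup.map_top_of_surjective _ (QuotientGroup.mk'_surjective K)]
  rw [← h1]
  exact ⟨e, he, rfl⟩

/-- `[N, G] K ∩ Z_G(N mod K) ≤ K`. -/
theorem inf_NZ_le (hab : ⁅N, N⁆ ≤ K) (hc : IsCyclic (G ⧸ N))
    (hcop : (K.relIndex N).Coprime N.index) {e : G} (he : e ∈ ⁅N, (⊤ : Subgroup G)⁆ ⊔ K)
    (hz : e ∈ NZ N K) : e ∈ K := by
  obtain ⟨y, hy⟩ := exists_gen hc
  have hπ := QuotientGroup.mk'_surjective K
  haveI : (N.map (QuotientGroup.mk' K)).Normal := Subgroup.Normal.map inferInstance _ hπ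
  obtain ⟨a, ha, hea⟩ := comm_gen (map_ab hab) (map_comm_mem hc) (map_gen hy) (map_E_mem he)
  rw [mem_NZ] at hz
  rw [← QuotientGroup.eq_one_iff, hea]
  refine eq_one_of_comm (f := N.index) (m := K.relIndex N) (map_ab hab) ha ?_ ?_ hcop ?_
  · exact ⟨y ^ N.index, Subgroup.pow_index_mem N y, rfl⟩
  · rw [← hea, ← QuotientGroup.mk_pow, QuotientGroup.eq_one_iff]
    have h7 := Subgroup.pow_index_mem (K.subgroupOf N) (⟨e, hz.1⟩ : N)
    rw [Subgroup.mem_subgroupOf] at h7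
    exact h7
  · rw [← hea]
    exact (comm_iff e y).1 (hz.2 y)

/-- `N = [N, G] K ⬝ Z_G(N mod K)`. -/
theorem exists_NZ_mul (hKN : K ≤ N) (hab : ⁅N, N⁆ ≤ K) (hc : IsCyclic (G ⧸ N))
    (hcop : (K.relIndex N).Coprime N.index) {n : G} (hn : n ∈ N) :
    ∃ e ∈ ⁅N, (⊤ : Subgroup G)⁆ ⊔ K, ∃ z ∈ NZ N K, n = e * z := by
  obtain ⟨y, hy⟩ := exists_gen hc
  have hπ := QuotientGroup.mk'_surjective K
  haveI : (N.map (QuotientGroup.mk' K)).Normal := Subgroup.Normal.map inferInstance _ hπ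
  have hcard : Nat.card (N.map (QuotientGroup.mk' K)) = K.relIndex N := by
    have : (QuotientGroup.mk' K).ker.relIndex N = Nat.card (N.map (QuotientGroup.mk' K)) := by
      rw [Subgroup.relIndex_ker]
    rw [QuotientGroup.ker_mk'] at this
    exact this.symm
  obtain ⟨r, hr, z, hz, hzc, e⟩ := exists_decomp (map_ab hab) (map_gen hy)
    (f := N.index) ⟨y ^ N.index, Subgroup.pow_index_mem N y, rfl⟩ (by rw [hcard]; exact hcop)
    (a := (n : G ⧸ K)) ⟨n, hn, rfl⟩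
  have h1 : (⁅N, (⊤ : Subgroup G)⁆).map (QuotientGroup.mk' K) =
      ⁅N.map (QuotientGroup.mk' K), (⊤ : Subgroup (G ⧸ K))⁆ := by
    rw [Subgroup.map_commutator, Subgroup.map_top_of_surjective _ hπ]
  rw [← h1] at hr
  obtain ⟨r, hr, rfl⟩ := hr
  obtain ⟨z, hz, rfl⟩ := hz
  have e' : ((r * z : G) : G ⧸ K) = n := e.symm
  rw [QuotientGroup.eq] at e'
  refine ⟨r, Subgroup.mem_sup_left hr, z * ((r * z)⁻¹ * n), ?_, by group⟩
  rw [mem_NZ]
  refine ⟨N.mul_mem hz (hKN e'), fun g => ?_⟩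
  rw [comm_iff]
  have h2 : ((z * ((r * z)⁻¹ * n) : G) : G ⧸ K) = (z : G ⧸ K) := by
    rw [QuotientGroup.mk_mul, (QuotientGroup.eq_one_iff _).2 e', mul_one]
  rw [h2]
  exact hzc g

end rel

end Cfsg.Agent.H675.Nd
end

-- part: H675/Nd/HB6
section
/-!
# The Frobenius type with an abelian Sylow subgroup
-/

set_option autoImplicit false
set_option linter.style.haveILetI false
set_option linter.unusedSectionVars false
open Cfsg

namespace Cfsg.Agent.H675.Nd

open Cfsg.Agent.Characters.Core Cfsg.Agent.Characters.Clifford Cfsg.Agent.H672 Cfsg.Agent.H672.RM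
open Cfsg.Agent.H597.FrobA
open scoped commutatorElement

universe u v w

variable {G : Type u} [Group G] [Finite G] {N H : Subgroup G} [hN : N.Normal] [hH : H.Normal]

/-- The inertia group of a character of `H`, not `N`-invariant. -/
theorem inertia_of_not (ha : Anti G) (hc : IsCyclic (G ⧸ N)) (hHN : H ≤ N)
    (hcop : (Nat.card H).Coprime (H.relIndex N))
    (hf : ∃ χ : G → ℂ, IsIrrCharacter G χ ∧ charDegree χ = N.index) (hNt : N ≠ ⊤) {θ : H → ℂ}
    (hθ : IsIrrCharacter H θ) (hne : ¬ N ≤ stab θ) :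
    (∃ s ∈ stab θ, s ∉ N) ∧ ⁅stab θ, stab θ⁆ ≤ H ∧
      (∃ ψ : G → ℂ, IsIrrCharacter G ψ ∧ Over H.subtype ψ θ ∧
        charDegree ψ = (stab θ).index * charDegree θ) ∧
      ∀ ψ : G → ℂ, IsIrrCharacter G ψ → Over H.subtype ψ θ →
        charDegree ψ = (stab θ).index * charDegree θ := by
  have h1 : (stab θ).index * charDegree θ ≠ 1 := by
    intro e
    apply hne
    have := Nat.eq_one_of_mul_eq_one_right e
    rw [Subgroup.index_eq_one.1 this]
    exact le_top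
  obtain ⟨χ, hχ, hext⟩ := exists_ext_cyc hc hHN (le_stab' hθ) hθ le_rfl
    (hcop.coprime_dvd_right (by
      exact Dvd.intro _ (Subgroup.relIndex_mul_relIndex H _ N (le_inf hHN (le_stab' hθ))
        inf_le_left)))
  obtain ⟨⟨ψ, hψ, ho, hd⟩, h2, h3⟩ := GT ha hθ hχ hext h1
  refine ⟨?_, h3, ⟨ψ, hψ, ho, hd⟩, h2⟩
  by_contra hcon
  push Not at hcon
  have hle : stab θ ≤ N := hcon
  obtain ⟨χ', hχ', hd'⟩ := hf
  have h4 := ha χ' ψ hχ' hψ (by rw [hd']; exact ne_top_index hNt)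
    (by rw [hd, hd']; exact (Subgroup.index_dvd_of_le hle).mul_right _)
  rw [hd', hd] at h4
  have h5 : (stab θ).index ∣ N.index := by rw [h4]; exact Dvd.intro _ rfl
  have h6 := eq_of_le_of_index_eq hle (Nat.dvd_antisymm h5 (Subgroup.index_dvd_of_le hle))
  exact hne h6.ge

theorem inv_of_fix (ha : Anti G) (hc : IsCyclic (G ⧸ N)) (hHN : H ≤ N) (hab : ⁅N, N⁆ ≤ H)
    (hcop : (Nat.card H).Coprime (H.relIndex N))
    (hf : ∃ χ : G → ℂ, IsIrrCharacter G χ ∧ charDegree χ = N.index) (hNt : N ≠ ⊤) {θ : H → ℂ}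
    (hθ : IsIrrCharacter H θ) {x : G} (hxN : x ∈ N) (hxc : ∃ g, x * g * x⁻¹ * g⁻¹ ∉ H)
    (hx : x ∈ stab θ) : N ≤ stab θ := by
  by_contra hne
  obtain ⟨⟨s, hs, hsN⟩, h1, -⟩ := inertia_of_not ha hc hHN hcop hf hNt hθ hne
  obtain ⟨g, hg⟩ := hxc
  apply hg
  refine zlem hHN hab hc (fun l _ g hg hl => hfix_of ha hc hf l hg hl) hxN hsN ?_ g
  have := h1 (Subgroup.commutator_mem_commutator hx hs)
  rwa [commutatorElement_def] at this

theorem lin_of_inv (hHN : H ≤ N) (hab : ⁅N, N⁆ ≤ H) {p : ℕ} (hp : p.Prime)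
    (hcop : (Nat.card H).Coprime p) (hidx : ∃ k, H.relIndex N = p ^ k)
    (hdvd : ∀ ψ : N → ℂ, IsIrrCharacter N ψ → charDegree ψ ≠ 1 → p ∣ charDegree ψ) {θ : H → ℂ}
    (hθ : IsIrrCharacter H θ) (hNst : N ≤ stab θ) :
    charDegree θ = 1 ∧ ∀ j (hj : j ∈ ⁅N, N⁆), θ ⟨j, hab hj⟩ = 1 := by
  obtain ⟨k, hk⟩ := hidx
  obtain ⟨χ, hχ, hχθ⟩ := exists_ext hHN hθ hNst (by rw [hk]; exact hcop.pow_right k)
  have hdeg : charDegree χ = charDegree θ := by
    apply charDegree_of_eq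
    rw [coe_charDegree hθ, ← hχθ 1, map_one]
  have h1 : charDegree χ = 1 := by
    by_contra hne
    have h2 := hdvd χ hχ hne
    rw [hdeg] at h2
    have h3 := Nat.Coprime.coprime_dvd_left (degree_dvd_card hθ) hcop
    have h4 := Nat.eq_one_of_dvd_coprimes h3 h2 dvd_rfl
    exact hp.one_lt.ne' h4
  refine ⟨by rw [← hdeg]; exact h1, fun j hj => ?_⟩
  obtain ⟨l, rfl⟩ := exists_hom_of_degree_one hχ h1
  rw [← hχθ]
  have h2 := hom_commutator l hj ((hab.trans hHN) hj)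
  change ((l ⟨j, (hab.trans hHN) hj⟩ : ℂˣ) : ℂ) = 1
  rw [h2, Units.val_one]

/-- From `H` to `J = ⁅N, N⁆`. -/
theorem hx_of (hab : ⁅N, N⁆ ≤ H) {p : ℕ} (hp : p.Prime)
    (hcop : (Nat.card H).Coprime p) {x : G} (hxp : x ^ p = 1) (hxH : x ∉ H)
    (hfix : ∀ θ : H → ℂ, IsIrrCharacter H θ → x ∈ stab θ →
      charDegree θ = 1 ∧ ∀ j (hj : j ∈ ⁅N, N⁆), θ ⟨j, hab hj⟩ = 1)
    {μ : (⁅N, N⁆ : Subgroup G) → ℂ} (hμ : IsIrrCharacter _ μ) (hxμ : x ∈ stab μ) : μ = 1 := by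
  classical
  haveI := Fact.mk hp
  have hJH : Nat.card (⁅N, N⁆ : Subgroup G) ∣ Nat.card H := Subgroup.card_dvd_of_le hab
  have hD : Nat.card (Subgroup.zpowers x) ∣ p := by
    rw [Nat.card_zpowers]; exact orderOf_dvd_of_pow_eq_one hxp
  -- extension to `S = J ⟨x⟩`
  set S : Subgroup G := ⁅N, N⁆ ⊔ Subgroup.zpowers x with hS
  have hJS : ⁅N, N⁆ ≤ S := le_sup_left
  have hSst : S ≤ stab μ :=
    sup_le (le_stab (isIrr_isClassFunction hμ)) (Subgroup.zpowers_le.2 hxμ)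
  have hSidx : (⁅N, N⁆ : Subgroup G).relIndex S ∣ p := by
    rw [hS, sup_comm, Subgroup.relIndex_sup_right]
    exact (Subgroup.relIndex_dvd_card _ _).trans hD
  obtain ⟨μ', hμ', hμ'μ⟩ := exists_ext hJS hμ hSst
    ((hcop.coprime_dvd_left hJH).coprime_dvd_right hSidx)
  -- the group `E = H ⟨x⟩`
  set E : Subgroup G := H ⊔ Subgroup.zpowers x with hE
  have hHE : H ≤ E := le_sup_left
  have hxE : x ∈ E := Subgroup.mem_sup_right (Subgroup.mem_zpowers x)
  have hxS : x ∈ S := Subgroup.mem_sup_right (Subgroup.mem_zpowers x)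
  have hSE : S ≤ E := sup_le_sup_right hab _
  have hEidx : H.relIndex E ∣ p := by
    rw [hE, sup_comm, Subgroup.relIndex_sup_right]
    exact (Subgroup.relIndex_dvd_card _ _).trans hD
  have hpS : p ∣ Nat.card S := by
    have h1 : orderOf x = p := orderOf_eq_prime hxp (fun e => hxH (e ▸ H.one_mem))
    rw [← h1]
    have h2 := orderOf_dvd_natCard (⟨x, hxS⟩ : S)
    rwa [Subgroup.orderOf_mk] at h2
  have hSEidx : ¬ p ∣ (S.subgroupOf E).index := by
    intro hd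
    have h1 : Nat.card S * S.relIndex E = Nat.card E := by
      have := Subgroup.relIndex_mul_relIndex (⊥ : Subgroup G) S E bot_le hSE
      rwa [Subgroup.relIndex_bot_left, Subgroup.relIndex_bot_left] at this
    have h2 : Nat.card H * H.relIndex E = Nat.card E := by
      have := Subgroup.relIndex_mul_relIndex (⊥ : Subgroup G) H E bot_le hHE
      rwa [Subgroup.relIndex_bot_left, Subgroup.relIndex_bot_left] at this
    have h3 : p * p ∣ Nat.card H * p := by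
      have h4 : p * p ∣ Nat.card E := by
        rw [← h1]
        exact Nat.mul_dvd_mul hpS hd
      rw [← h2] at h4
      exact h4.trans (Nat.mul_dvd_mul_left _ hEidx)
    have h4 : p ∣ Nat.card H := Nat.dvd_of_mul_dvd_mul_right hp.pos h3
    exact hp.one_lt.ne' (Nat.eq_one_of_dvd_coprimes hcop h4 dvd_rfl)
  have hμ'd : ¬ p ∣ charDegree μ' := by
    intro hd
    have h1 : charDegree μ' = charDegree μ := by
      apply charDegree_of_eq
      rw [coe_charDegree hμ, ← hμ'μ 1, map_one]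
    rw [h1] at hd
    have h2 : p ∣ Nat.card H := (hd.trans (degree_dvd_card hμ)).trans hJH
    exact hp.one_lt.ne' (Nat.eq_one_of_dvd_coprimes hcop h2 dvd_rfl)
  letI := Fintype.ofFinite E
  letI := Fintype.ofFinite (S.subgroupOf E)
  obtain ⟨χ, hχ, hχμ, hχd⟩ := H597.RelThompson.exists_over_not_dvd p (S.subgroupOf E) hSEidx
    (isIrr_sub hSE hμ') (by
      have e : charDegree (μ' ∘ Subgroup.subgroupOfEquivOfLe hSE) = charDegree μ' :=
        charDegree_comp_one (Subgroup.subgroupOfEquivOfLe hSE).toMonoidHom μ'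
      rw [e]; exact hμ'd)
  have hχo : Over (Subgroup.inclusion hSE) χ μ' :=
    (over_iff_sub hSE χ μ').2 ((over_subtype_iff _ _ _).2 hχμ)
  -- restriction to `H`
  obtain ⟨θ, hθ, hχθ⟩ := exists_under (f := Subgroup.inclusion hHE) hχ
  have hd := div_dvd_of_over hHE (le_nrm H E) hχ hθ hχθ
  have hdd : charDegree χ / charDegree θ = 1 := by
    rcases (Nat.dvd_prime hp).1 (hd.2.trans hEidx) with h1 | h1
    · exact h1
    · exfalso
      apply hχd
      have h2 : charDegree χ / charDegree θ ∣ charDegree χ := Nat.div_dvd_of_dvd hd.1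
      rwa [h1] at h2
  have hde : charDegree θ = charDegree χ := by
    have := Nat.div_mul_cancel hd.1
    rwa [hdd, one_mul] at this
  have hres : χ ∘ Subgroup.inclusion hHE = θ := eq_of_over_of_charDegree_eq hχ hθ hχθ hde
  have hxθ : x ∈ stab θ := mem_stab_of_res hHE hχ (fun k => congrFun hres k) hxE
  obtain ⟨hθ1, hθJ⟩ := hfix θ hθ hxθ
  -- so `χ` is trivial on `J`
  have hone : χ ∘ Subgroup.inclusion (hJS.trans hSE) = 1 := by
    funext j
    have h1 := congrFun hres ⟨j, hab j.2⟩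
    rw [hθJ j j.2] at h1
    exact h1
  have hov : Over (Subgroup.inclusion (hJS.trans hSE)) χ μ := by
    have e : Subgroup.inclusion (hJS.trans hSE) =
        (Subgroup.inclusion hSE).comp (Subgroup.inclusion hJS) := rfl
    rw [e]
    refine (over_comp_iff _ _ (isIrr_isCharacter hχ) hμ).2 ⟨μ', hμ', hχo, ?_⟩
    letI := Fintype.ofFinite (⁅N, N⁆ : Subgroup G)
    rw [over_iff]
    have e2 : μ' ∘ Subgroup.inclusion hJS = μ := funext hμ'μ
    rw [e2, classInner_irr_self hμ]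
    exact one_ne_zero
  by_contra hne
  letI := Fintype.ofFinite (⁅N, N⁆ : Subgroup G)
  rw [over_iff, hone] at hov
  exact hov (classInner_irr_ne isIrr_one hμ (Ne.symm hne))

/-- The `p`-part. -/
theorem exists_ppart {J : Subgroup G} [hJ : J.Normal] (hJH : J ≤ H) {p : ℕ} (hp : p.Prime)
    (hcop : (Nat.card H).Coprime p) {a : G} (hap : a ^ p ∈ J) :
    ∃ a' : G, a' ^ p = 1 ∧ a⁻¹ * a' ∈ J ∧ ∀ S : Subgroup G, a ∈ S → a' ∈ S := by
  obtain ⟨t, ht⟩ := Nat.exists_mul_mod_eq_one_of_coprime hcop hp.one_lt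
  refine ⟨a ^ (Nat.card H * t), ?_, ?_, fun S hS => S.pow_mem hS _⟩
  · have h1 : (a ^ p) ^ Nat.card H = 1 := by
      have := pow_card_eq_one' (x := (⟨a ^ p, hJH hap⟩ : H))
      exact congrArg Subtype.val this
    rw [← pow_mul, show Nat.card H * t * p = p * Nat.card H * t by ring, pow_mul, pow_mul, h1,
      one_pow]
  · rw [← QuotientGroup.eq, QuotientGroup.mk_pow]
    have h3 : (a : G ⧸ J) ^ p = 1 := by
      rw [← QuotientGroup.mk_pow]
      exact (QuotientGroup.eq_one_iff _).2 hap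
    have h4 : Nat.card H * t ≡ 1 [MOD p] := by
      rw [Nat.ModEq, ht.2, Nat.mod_eq_of_lt hp.one_lt]
    have h5 : Nat.card H * t ≡ 1 [MOD orderOf (a : G ⧸ J)] :=
      h4.of_dvd (orderOf_dvd_of_pow_eq_one h3)
    rw [pow_eq_pow_iff_modEq.2 h5, pow_one]

theorem not_mem_of_pow {p : ℕ} (hcop : (Nat.card H).Coprime p) {a : G} (hap : a ^ p = 1)
    (ha1 : a ≠ 1) : a ∉ H := by
  intro h
  apply ha1
  have h1 : a ^ Nat.card H = 1 := by
    have := pow_card_eq_one' (x := (⟨a, h⟩ : H))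
    exact congrArg Subtype.val this
  have h2 := pow_gcd_eq_one.2 ⟨h1, hap⟩
  rwa [hcop.gcd_eq_one, pow_one] at h2

/-- **Construction of `HB`.** -/
theorem exists_HB (ha : Anti G) (hc : IsCyclic (G ⧸ N)) (hHN : H ≤ N) (hab : ⁅N, N⁆ ≤ H) {p : ℕ}
    (hp : p.Prime) (hcop : (Nat.card H).Coprime p) (hidx : ∃ k, H.relIndex N = p ^ k)
    (hpf : ¬ p ∣ N.index) (hnc : ∃ n ∈ N, ∃ g : G, n * g * n⁻¹ * g⁻¹ ∉ H)
    (hdvd : ∀ ψ : N → ℂ, IsIrrCharacter N ψ → charDegree ψ ≠ 1 → p ∣ charDegree ψ)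
    (hf : ∃ χ : G → ℂ, IsIrrCharacter G χ ∧ charDegree χ = N.index) (hNt : N ≠ ⊤)
    (hJ : ∃ l : (⁅N, N⁆ : Subgroup G) →* ℂˣ, l ≠ 1) : ∃ x, HB N ⁅N, N⁆ x p := by
  classical
  haveI := Fact.mk hp
  obtain ⟨k, hk⟩ := hidx
  have hcopN : (Nat.card H).Coprime (H.relIndex N) := by rw [hk]; exact hcop.pow_right k
  have hcopf : (H.relIndex N).Coprime N.index := by
    rw [hk]; exact Nat.Coprime.pow_left k ((Nat.Prime.coprime_iff_not_dvd hp).2 hpf)
  set J : Subgroup G := ⁅N, N⁆ with hJd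
  have hJN : J ≤ N := hab.trans hHN
  set E : Subgroup G := ⁅N, (⊤ : Subgroup G)⁆ ⊔ H with hE
  haveI hEn : E.Normal := inferInstance
  have hENle : E ≤ N := by
    refine sup_le ?_ hHN
    exact Subgroup.commutator_le_left N ⊤
  -- elements of `E` of order `p` move everything
  have hkey : ∀ a ∈ E, a ^ p = 1 → a ≠ 1 → ∀ μ : J → ℂ, IsIrrCharacter J μ → a ∈ stab μ →
      μ = 1 := by
    intro a haE hap ha1 μ hμ haμ
    have haH : a ∉ H := not_mem_of_pow hcop hap ha1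
    have hanc : ∃ g, a * g * a⁻¹ * g⁻¹ ∉ H := by
      by_contra hcon
      push Not at hcon
      exact haH (inf_NZ_le hab hc hcopf haE (mem_NZ.2 ⟨hENle haE, hcon⟩))
    refine hx_of hab hp hcop hap haH (fun θ hθ haθ => ?_) hμ haμ
    exact lin_of_inv hHN hab hp hcop ⟨k, hk⟩ hdvd hθ
      (inv_of_fix ha hc hHN hab hcopN hf hNt hθ (hENle haE) hanc haθ)
  have hkey2 : ∀ a ∈ E, a ^ p ∈ J → a ∉ J → ∀ l : J →* ℂˣ, cl a l = l → l = 1 := by
    intro a haE hap haJ l hl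
    obtain ⟨a', ha'p, ha'J, ha'S⟩ := exists_ppart hab hp hcop hap
    have ha'1 : a' ≠ 1 := by
      rintro rfl
      rw [mul_one] at ha'J
      exact haJ (J.inv_mem_iff.1 ha'J)
    by_contra hl1
    refine lf_ne_one hl1 (hkey a' (ha'S E haE) ha'p ha'1 (lf l) (isIrr_lf l) ?_)
    rw [mem_stab_iff]
    have e : a' = a * (a⁻¹ * a') := by group
    rw [e, cl_mul, hl, cl_of_mem ha'J]
  -- commutation mod `J`
  have hcJ : ∀ a ∈ N, ∀ b ∈ N, Commute (a : G ⧸ J) (b : G ⧸ J) := by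
    intro a ha b hb
    have h1 : ⁅a, b⁆ ∈ J := Subgroup.commutator_mem_commutator ha hb
    rw [← QuotientGroup.eq_one_iff] at h1
    change QuotientGroup.mk' J ⁅a, b⁆ = 1 at h1
    rw [map_commutatorElement, commutatorElement_eq_one_iff_mul_comm] at h1
    exact h1
  -- the element `x`
  obtain ⟨x₀, hx₀N, hx₀p, g₀, hg₀⟩ := exists_elt hp hcop ⟨k, hk⟩ hab hpf hnc
  set e₀ : G := x₀ * g₀ * x₀⁻¹ * g₀⁻¹ with he₀
  have hyN : g₀ * x₀⁻¹ * g₀⁻¹ ∈ N := hN.conj_mem _ (N.inv_mem hx₀N) g₀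
  have he₀E : e₀ ∈ E := by
    refine Subgroup.mem_sup_left ?_
    have := Subgroup.commutator_mem_commutator hx₀N (Subgroup.mem_top g₀)
    rwa [commutatorElement_def] at this
  have he₀p : e₀ ^ p ∈ J := by
    have e1 : e₀ = x₀ * (g₀ * x₀⁻¹ * g₀⁻¹) := by rw [he₀]; group
    rw [← QuotientGroup.eq_one_iff, QuotientGroup.mk_pow, e1, QuotientGroup.mk_mul,
      (hcJ x₀ hx₀N _ hyN).mul_pow, ← QuotientGroup.mk_pow, ← QuotientGroup.mk_pow, hx₀p, conj_pow,
      inv_pow, hx₀p, inv_one, mul_one, mul_inv_cancel]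
    simp
  obtain ⟨x, hxp, hxJ, hxS⟩ := exists_ppart hab hp hcop he₀p
  have hxE : x ∈ E := hxS E he₀E
  have hxN : x ∈ N := hENle hxE
  have hx1 : x ≠ 1 := by
    rintro rfl
    rw [mul_one] at hxJ
    exact hg₀ (H.inv_mem_iff.1 (hab hxJ))
  have hxH : x ∉ H := not_mem_of_pow hcop hxp hx1
  have hxnJ : x ∉ J := fun h => hxH (hab h)
  obtain ⟨l₀, hl₀⟩ := hJ
  refine ⟨x, ⟨rfl, hc, hp, hxN, hxp, ?_, hpf, hkey x hxE hxp hx1, ha,
    fun l g hg hl g' => hfix_of ha hc hf l hg hl g', ?_, ?_⟩⟩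
  · intro hd
    exact hp.one_lt.ne' (Nat.eq_one_of_dvd_coprimes hcop
      (hd.trans (Subgroup.card_dvd_of_le hab)) dvd_rfl)
  · by_contra hcon
    push Not at hcon
    exact hxH (inf_NZ_le hab hc hcopf hxE (mem_NZ.2 ⟨hxN, fun g => hab (hcon g)⟩))
  · -- `⟨x⟩ J` is normal
    intro g
    haveI := finite_lin J
    letI := clDist J
    haveI : Nontrivial (J →* ℂˣ) := ⟨⟨l₀, 1, hl₀⟩⟩
    let ρ := MulDistribMulAction.toMulAut G (J →* ℂˣ)
    haveI : Finite (MulAut (J →* ℂˣ)) := inferInstance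
    have hρ : ∀ (g : G) (l : J →* ℂˣ), ρ g l = l ↔ cl g l = l := by
      intro g l
      change cl g⁻¹ l = l ↔ _
      exact fix_inv_iff
    have hρJ : ∀ j ∈ J, ρ j = 1 := by
      intro j hj
      apply MulEquiv.ext
      intro l
      exact (hρ j l).2 (cl_of_mem hj l)
    let B : Subgroup G :=
      { carrier := {a | a ∈ E ∧ a ^ p ∈ J}
        one_mem' := ⟨E.one_mem, by rw [one_pow]; exact J.one_mem⟩
        mul_mem' := fun {a b} ha hb => by
          refine ⟨E.mul_mem ha.1 hb.1, ?_⟩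
          rw [← QuotientGroup.eq_one_iff, QuotientGroup.mk_pow, QuotientGroup.mk_mul,
            (hcJ a (hENle ha.1) b (hENle hb.1)).mul_pow, ← QuotientGroup.mk_pow,
            ← QuotientGroup.mk_pow, (QuotientGroup.eq_one_iff _).2 ha.2,
            (QuotientGroup.eq_one_iff _).2 hb.2, mul_one]
        inv_mem' := fun {a} ha => by
          refine ⟨E.inv_mem ha.1, ?_⟩
          rw [inv_pow]
          exact J.inv_mem ha.2 }
    have hB : ∀ a, a ∈ B ↔ a ∈ E ∧ a ^ p ∈ J := fun _ => Iff.rfl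
    have hcomm : ∀ a b : B.map ρ, a * b = b * a := by
      rintro ⟨_, a, ha, rfl⟩ ⟨_, b, hb, rfl⟩
      apply Subtype.ext
      change ρ a * ρ b = ρ b * ρ a
      have h1 : ⁅a, b⁆ ∈ J := Subgroup.commutator_mem_commutator (hENle ha.1) (hENle hb.1)
      have h2 := hρJ _ h1
      rw [map_commutatorElement, commutatorElement_eq_one_iff_mul_comm] at h2
      exact h2
    have hne : ∀ a ∈ B, ρ a ≠ 1 → a ∉ J := fun a _ h1 h2 => h1 (hρJ a h2)
    have hR : H348.HasFPF (B.map ρ) := by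
      refine hasFPF_of (J →* ℂˣ) (B.map ρ).subtype ?_
      rintro ⟨_, a, ha, rfl⟩ hne' v hv
      refine hkey2 a ha.1 ha.2 (hne a ha ?_) v ((hρ a v).1 hv)
      intro e
      exact hne' (Subtype.ext e)
    have hcyc : IsCyclic (B.map ρ) := hR.isCyclic hcomm
    have hpow : ∀ a : B.map ρ, a ^ p = 1 := by
      rintro ⟨_, a, ha, rfl⟩
      apply Subtype.ext
      change (ρ a) ^ p = 1
      rw [← map_pow]
      exact hρJ _ ha.2
    have hxB : x ∈ B := ⟨hxE, by rw [hxp]; exact J.one_mem⟩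
    have hx'B : g * x * g⁻¹ ∈ B := ⟨hEn.conj_mem x hxE g, by
      rw [conj_pow, hxp, mul_one, mul_inv_cancel]; exact J.one_mem⟩
    have hρx : (⟨ρ x, x, hxB, rfl⟩ : B.map ρ) ≠ 1 := by
      intro e
      have e' : ρ x = 1 := congrArg Subtype.val e
      apply hl₀
      refine hkey2 x hxE (by rw [hxp]; exact J.one_mem) hxnJ l₀ ((hρ x l₀).1 ?_)
      rw [e']
      rfl
    have hcard : Nat.card (B.map ρ) ∣ p := by
      obtain ⟨q, hq⟩ := hcyc.exists_generator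
      rw [← orderOf_eq_card_of_forall_mem_zpowers hq]
      exact orderOf_dvd_of_pow_eq_one (hpow q)
    have hzp : (⟨ρ (g * x * g⁻¹), _, hx'B, rfl⟩ : B.map ρ) ∈
        Subgroup.zpowers (⟨ρ x, x, hxB, rfl⟩ : B.map ρ) := by
      have h1 : Subgroup.zpowers (⟨ρ x, x, hxB, rfl⟩ : B.map ρ) = ⊤ := by
        apply Subgroup.eq_top_of_card_eq
        rw [Nat.card_zpowers, orderOf_eq_prime (hpow _) hρx]
        rcases (Nat.dvd_prime hp).1 hcard with h2 | h2
        · exfalso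
          rw [Nat.card_eq_one_iff_unique] at h2
          exact hρx (h2.1.elim _ _)
        · exact h2.symm
      rw [h1]
      exact Subgroup.mem_top _
    obtain ⟨i, hi⟩ := mem_powers_iff_mem_zpowers.2 hzp
    have hi' : (ρ x) ^ i = ρ (g * x * g⁻¹) := congrArg Subtype.val hi
    refine ⟨i, (x ^ i)⁻¹ * (g * x * g⁻¹), ?_, by group⟩
    by_contra hb
    have hbB : (x ^ i)⁻¹ * (g * x * g⁻¹) ∈ B := B.mul_mem (B.inv_mem (B.pow_mem hxB i)) hx'B
    apply hl₀
    refine hkey2 _ hbB.1 hbB.2 hb l₀ ((hρ _ l₀).1 ?_)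
    rw [map_mul, map_inv, map_pow, hi', inv_mul_cancel]
    rfl

/-- A nontrivial solvable normal subgroup has a nontrivial linear character. -/
theorem exists_lin_of_solv [Group.IsSolvable G] {J : Subgroup G} [hJ : J.Normal] (hJ1 : J ≠ ⊥) :
    ∃ l : J →* ℂˣ, l ≠ 1 := by
  have h1 : ¬ J ≤ ⁅J, J⁆ := by
    intro hle
    apply hJ1
    have h2 : ∀ n, J ≤ derivedSeries G n := by
      intro n
      induction n with
      | zero => exact le_top
      | succ n ih =>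
        rw [derivedSeries_succ]
        exact hle.trans (Subgroup.commutator_mono ih ih)
    obtain ⟨n, hn⟩ := (Group.isSolvable_def G).1 inferInstance
    exact le_bot_iff.1 (hn ▸ h2 n)
  obtain ⟨j, hj, hj'⟩ := SetLike.not_le_iff_exists.1 h1
  obtain ⟨l, -, hl⟩ := exists_lin_ne (x := (⟨j, hj⟩ : J)) (comm_le J) le_rfl hj'
  exact ⟨l, fun e => hl (by rw [e]; rfl)⟩

variable {K : Subgroup G} [hK : K.Normal] {p : ℕ}

/-- characters of degree divisible by `p` are nontrivial on `N'`. -/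
theorem nontriv_of_dvd (hF : FrobQ K N p) {χ : G → ℂ} (hχ : IsIrrCharacter G χ)
    (hd : p ∣ charDegree χ) : ∃ j ∈ ⁅N, N⁆, χ j ≠ χ 1 := by
  by_contra hcon
  push Not at hcon
  obtain ⟨ψ, hψ, ⟨c, hc, hc'⟩, hker⟩ := H597.ThreeDegB.exists_under N hχ
  have hψ1 : charDegree ψ = 1 := by
    refine lin_of_comm (H := ⁅N, N⁆) (T := N) (comm_le N) le_rfl hψ ?_
    intro k
    exact hker _ (hcon k k.2)
  rw [hψ1, one_mul] at hc
  rw [hc] at hd
  exact hF.idx (hd.trans hc')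

/-- **The Frobenius type with an abelian Sylow subgroup**: one degree divisible by `p`. -/
theorem case_b2 [Group.IsSolvable G] (ha : Anti G) (hp : p.Prime) (hF : FrobQ K N p)
    (hab : ⁅N, N⁆ ≤ H597.RelThompson.Op p N) :
    ∃ m, ∀ χ : G → ℂ, IsIrrCharacter G χ → p ∣ charDegree χ → charDegree χ = m := by
  haveI := Fact.mk hp
  by_cases hJ : ⁅N, N⁆ = ⊥
  · refine ⟨0, fun χ hχ hd => ?_⟩
    obtain ⟨j, hj, hne⟩ := nontriv_of_dvd hF hχ hd
    rw [hJ, Subgroup.mem_bot] at hj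
    exact absurd (by rw [hj]) hne
  · obtain ⟨x, hx⟩ := exists_HB ha (cyc_of_frobQ hF) (H597.RelThompson.Op_le p N) hab hp
      (Op_coprime ha hp hF) (H597.RelThompson.relIndex_Op p N) hF.idx (Op_nc hF)
      (fun ψ hψ hψ1 => dvd_of_nonlin ha hp hF hψ hψ1) (exists_index_degree hF) hF.ne_top
      (exists_lin_of_solv hJ)
    obtain ⟨m, hm⟩ := hx.one_deg
    exact ⟨m, fun χ hχ hd => hm χ hχ (nontriv_of_dvd hF hχ hd)⟩

end Cfsg.Agent.H675.Nd
end

-- part: H675/Nd/LA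
section
/-!
# Spaces of alternating forms all of whose nonzero elements are nondegenerate
-/

set_option autoImplicit false
set_option linter.style.haveILetI false
set_option linter.unusedSectionVars false

namespace Cfsg.Agent.H675.Nd

universe u v w

open Matrix

/-- The determinant of an alternating matrix over a field is a square. -/
theorem isSquare_det_alt {K : Type u} [Field K] (n : ℕ) : ∀ (ι : Type v) [Fintype ι] [DecidableEq ι]
    (M : Matrix ι ι K), Fintype.card ι = n → (∀ i j, M i j = - M j i) → (∀ i, M i i = 0) →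
    IsSquare M.det := by
  classical
  induction n using Nat.strong_induction_on with
  | _ n ih =>
  intro ι _ _ M hn hs h0
  by_cases hM : ∃ i j, M i j ≠ 0
  · obtain ⟨i, j, hij⟩ := hM
    have hne : i ≠ j := by
      rintro rfl
      exact hij (h0 i)
    let κ := {x : ι // x ≠ i ∧ x ≠ j}
    let f : Fin 2 ⊕ κ → ι := Sum.elim ![i, j] Subtype.val
    have hf : Function.Bijective f := by
      constructor
      · rintro (a | a) (b | b) hab
        · fin_cases a <;> fin_cases b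
          · rfl
          · exact absurd hab hne
          · exact absurd hab.symm hne
          · rfl
        · exfalso
          fin_cases a
          · exact b.2.1 hab.symm
          · exact b.2.2 hab.symm
        · exfalso
          fin_cases b
          · exact a.2.1 hab
          · exact a.2.2 hab
        · congr 1
          exact Subtype.ext hab
      · intro x
        by_cases hx : x = i
        · exact ⟨Sum.inl 0, hx.symm⟩
        · by_cases hx' : x = j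
          · exact ⟨Sum.inl 1, hx'.symm⟩
          · exact ⟨Sum.inr ⟨x, hx, hx'⟩, rfl⟩
    let e : Fin 2 ⊕ κ ≃ ι := Equiv.ofBijective f hf
    have hdet : M.det = (M.submatrix e e).det := (Matrix.det_submatrix_equiv_self e M).symm
    set a : K := M i j with ha
    let A : Matrix (Fin 2) (Fin 2) K := !![0, a; -a, 0]
    let A' : Matrix (Fin 2) (Fin 2) K := !![0, -a⁻¹; a⁻¹, 0]
    let B : Matrix (Fin 2) κ K := Matrix.of fun s k => M (![i, j] s) k
    let C : Matrix κ (Fin 2) K := Matrix.of fun k s => M k (![i, j] s)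
    let D : Matrix κ κ K := Matrix.of fun k l => M k l
    have hsub : M.submatrix e e = Matrix.fromBlocks A B C D := by
      ext x y
      rcases x with x | x <;> rcases y with y | y
      · fin_cases x <;> fin_cases y
        · exact h0 i
        · rfl
        · exact hs j i
        · exact h0 j
      · rfl
      · rfl
      · rfl
    have h1 : A * A' = 1 := by
      ext x y
      fin_cases x <;> fin_cases y <;> simp [A, A', Matrix.mul_apply, Fin.sum_univ_two, hij]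
    have h2 : A' * A = 1 := by
      ext x y
      fin_cases x <;> fin_cases y <;> simp [A, A', Matrix.mul_apply, Fin.sum_univ_two, hij]
    letI : Invertible A := ⟨A', h2, h1⟩
    rw [hdet, hsub, Matrix.det_fromBlocks₁₁]
    have hA : A.det = a * a := by
      rw [Matrix.det_fin_two]
      simp [A]
    have hent : ∀ k l, (D - C * ⅟A * B) k l = M k l - a⁻¹ * (M i k * M j l - M j k * M i l) := by
      intro k l
      have e1 : (C * ⅟A * B) k l = (C * A' * B) k l := rfl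
      rw [Matrix.sub_apply, e1]
      have e2 : (C * A' * B) k l = M k j * a⁻¹ * M i l - M k i * a⁻¹ * M j l := by
        simp only [Matrix.mul_apply, Fin.sum_univ_two]
        simp [A', B, C]
        ring
      rw [e2, hs k j, hs k i]
      change M k l - _ = _
      ring
    have hcard : Fintype.card κ < n := by
      rw [← hn]
      exact Fintype.card_subtype_lt (x := i) (by simp)
    obtain ⟨r, hr⟩ := ih _ hcard κ (D - C * ⅟A * B) rfl (by
      intro k l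
      rw [hent, hent, hs k l]
      ring) (by
      intro k
      rw [hent, h0]
      ring)
    refine ⟨a * r, ?_⟩
    rw [hA, hr]
    ring
  · push Not at hM
    have hM' : M = 0 := by
      ext i j
      exact hM i j
    by_cases hι : IsEmpty ι
    · rw [Matrix.det_isEmpty]
      exact IsSquare.one
    · rw [not_isEmpty_iff] at hι
      haveI := hι
      rw [hM', Matrix.det_zero]
      exact IsSquare.zero

theorem alt_bound {p d n : ℕ} [hp : Fact p.Prime] (A : Fin d → Matrix (Fin n) (Fin n) (ZMod p))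
    (hs : ∀ k i j, A k i j = - A k j i) (h0 : ∀ k i, A k i i = 0) (hn : 0 < n)
    (hnd : ∀ c : Fin d → ZMod p, c ≠ 0 → (∑ k, c k • A k).det ≠ 0) : 2 * d ≤ n := by
  classical
  by_contra hcon
  push Not at hcon
  let R := MvPolynomial (Fin d) (ZMod p)
  let M : Matrix (Fin n) (Fin n) R := Matrix.of fun i j =>
    ∑ k, MvPolynomial.X k * MvPolynomial.C (A k i j)
  have hMe : ∀ i j, M i j = ∑ k, MvPolynomial.X k * MvPolynomial.C (A k i j) := fun _ _ => rfl
  have hMs : ∀ i j, M i j = - M j i := by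
    intro i j
    rw [hMe, hMe, ← Finset.sum_neg_distrib]
    refine Finset.sum_congr rfl fun k _ => ?_
    rw [hs k i j, map_neg, mul_neg]
  have hM0 : ∀ i, M i i = 0 := by
    intro i
    rw [hMe]
    refine Finset.sum_eq_zero fun k _ => ?_
    rw [h0, map_zero, mul_zero]
  have hdeg1 : ∀ i j, (M i j).totalDegree ≤ 1 := by
    intro i j
    rw [hMe]
    refine MvPolynomial.totalDegree_finsetSum_le fun k _ => ?_
    refine (MvPolynomial.totalDegree_mul _ _).trans ?_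
    rw [MvPolynomial.totalDegree_C, MvPolynomial.totalDegree_X]
  have hdeg : M.det.totalDegree ≤ n := by
    rw [Matrix.det_apply]
    refine MvPolynomial.totalDegree_finsetSum_le fun σ _ => ?_
    refine (MvPolynomial.totalDegree_smul_le _ _).trans ?_
    refine (MvPolynomial.totalDegree_finsetProd _ _).trans ?_
    refine (Finset.sum_le_sum fun i _ => hdeg1 (σ i) i).trans ?_
    simp
  have heval : ∀ c : Fin d → ZMod p, MvPolynomial.eval c M.det = (∑ k, c k • A k).det := by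
    intro c
    rw [RingHom.map_det]
    congr 1
    ext i j
    rw [RingHom.mapMatrix_apply, Matrix.map_apply, hMe, map_sum, Matrix.sum_apply]
    refine Finset.sum_congr rfl fun k _ => ?_
    rw [map_mul, MvPolynomial.eval_X, MvPolynomial.eval_C, Matrix.smul_apply, smul_eq_mul]
  -- the Pfaffian
  obtain ⟨f, hf⟩ : ∃ f : R, M.det = f * f := by
    let F := FractionRing R
    have h1 : IsSquare ((M.map (algebraMap R F)).det) := by
      refine isSquare_det_alt (K := F) _ (Fin n) _ rfl ?_ ?_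
      · intro i j
        rw [Matrix.map_apply, Matrix.map_apply, hMs i j, map_neg]
      · intro i
        rw [Matrix.map_apply, hM0, map_zero]
    obtain ⟨r, hr⟩ := h1
    have h2 : (M.map (algebraMap R F)).det = algebraMap R F M.det := by
      rw [RingHom.map_det]
      rfl
    rw [h2] at hr
    have h3 : IsIntegral R r := by
      refine IsIntegral.of_pow (n := 2) (by norm_num) ?_
      rw [pow_two, ← hr]
      exact isIntegral_algebraMap
    obtain ⟨f, rfl⟩ := IsIntegrallyClosed.isIntegral_iff.1 h3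
    refine ⟨f, ?_⟩
    rw [← map_mul] at hr
    exact (IsFractionRing.injective R F) hr
  have hfdeg : 2 * f.totalDegree ≤ n := by
    by_cases hf0 : f = 0
    · rw [hf0, MvPolynomial.totalDegree_zero]; omega
    · rw [hf, MvPolynomial.totalDegree_mul_of_isDomain hf0 hf0] at hdeg
      omega
  have hsum : ∑ c : Fin d → ZMod p, MvPolynomial.eval c (f ^ (p - 1)) = 0 := by
    apply MvPolynomial.sum_eval_eq_zero
    have h1 := MvPolynomial.totalDegree_pow f (p - 1)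
    rw [ZMod.card, Fintype.card_fin]
    have hp1 : 0 < p - 1 := Nat.sub_pos_of_lt hp.out.one_lt
    calc (f ^ (p - 1)).totalDegree ≤ (p - 1) * f.totalDegree := h1
      _ < (p - 1) * d := Nat.mul_lt_mul_of_pos_left (by omega) hp1
  have hval : ∀ c : Fin d → ZMod p, c ≠ 0 → MvPolynomial.eval c (f ^ (p - 1)) = 1 := by
    intro c hc
    rw [map_pow]
    refine ZMod.pow_card_sub_one_eq_one ?_
    intro h1
    apply hnd c hc
    rw [← heval, hf, map_mul, h1, mul_zero]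
  have hval0 : MvPolynomial.eval (0 : Fin d → ZMod p) (f ^ (p - 1)) = 0 := by
    have h1 : MvPolynomial.eval (0 : Fin d → ZMod p) f = 0 := by
      have h2 := heval 0
      rw [hf, map_mul] at h2
      have h3 : (∑ k, (0 : Fin d → ZMod p) k • A k) = 0 := by simp
      haveI : Nonempty (Fin n) := ⟨⟨0, hn⟩⟩
      rw [h3, Matrix.det_zero] at h2
      exact mul_self_eq_zero.1 h2
    rw [map_pow, h1, zero_pow]
    exact (Nat.sub_pos_of_lt hp.out.one_lt).ne'
  have hd : 0 < d := by omega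
  have h5 : ∑ c : Fin d → ZMod p, MvPolynomial.eval c (f ^ (p - 1)) = -1 := by
    rw [← Finset.sum_erase_add _ _ (Finset.mem_univ (0 : Fin d → ZMod p)), hval0, add_zero,
      Finset.sum_congr rfl (fun c hc => hval c (Finset.ne_of_mem_erase hc)), Finset.sum_const,
      Finset.card_erase_of_mem (Finset.mem_univ _), Finset.card_univ, Fintype.card_fun, ZMod.card,
      Fintype.card_fin, nsmul_eq_mul, mul_one, Nat.cast_sub (Nat.one_le_pow _ _ hp.out.pos)]
    simp [hd.ne']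
  rw [hsum] at h5
  have h6 : (1 : ZMod p) = 0 := by
    have := congrArg Neg.neg h5
    simpa using this.symm
  exact one_ne_zero h6

section add

variable {p : ℕ} [hp : Fact p.Prime] {A : Type u} {S : Type v} [AddCommGroup A] [AddCommGroup S]

theorem alt_bound_basis {d m : ℕ} [Module (ZMod p) A] [Module (ZMod p) S]
    (bA : Module.Basis (Fin d) (ZMod p) A) (bS : Module.Basis (Fin m) (ZMod p) S) (hm : 0 < m)
    (β : A →+ S →+ S →+ ZMod p) (alt : ∀ a s, β a s s = 0)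
    (rad : ∀ a, a ≠ 0 → ∀ s, (∀ t, β a t s = 0) → s = 0) : 2 * d ≤ m := by
  classical
  have h1 : ∀ (c : ZMod p) (a : A) (s t : S), β (c • a) s t = c * β a s t := by
    intro c a s t
    exact ZMod.map_smul ((AddMonoidHom.eval t).comp ((AddMonoidHom.eval s).comp β)) c a
  have h2 : ∀ (c : ZMod p) (a : A) (s t : S), β a (c • s) t = c * β a s t := by
    intro c a s t
    exact ZMod.map_smul ((AddMonoidHom.eval t).comp (β a)) c s
  have h3 : ∀ (c : ZMod p) (a : A) (s t : S), β a s (c • t) = c * β a s t := by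
    intro c a s t
    exact ZMod.map_smul (β a s) c t
  have hs : ∀ a s t, β a s t = - β a t s := by
    intro a s t
    have h4 := alt a (s + t)
    rw [map_add, map_add, AddMonoidHom.add_apply, AddMonoidHom.add_apply, alt, alt,
      zero_add, add_zero] at h4
    rw [add_comm] at h4
    exact eq_neg_of_add_eq_zero_left h4
  refine alt_bound (fun k => Matrix.of fun i j => β (bA k) (bS i) (bS j)) (fun k i j => hs _ _ _)
    (fun k i => alt _ _) hm ?_
  intro c hc hdet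
  set a : A := ∑ k, c k • bA k with ha
  have ha' : a ≠ 0 := by
    intro h0
    apply hc
    funext k
    exact (Fintype.linearIndependent_iff.1 bA.linearIndependent) c h0 k
  have hent : ∀ i j, (∑ k, c k • (Matrix.of fun i j => β (bA k) (bS i) (bS j) :
      Matrix (Fin m) (Fin m) (ZMod p))) i j = β a (bS i) (bS j) := by
    intro i j
    rw [Matrix.sum_apply, ha, map_sum, AddMonoidHom.finsetSum_apply, AddMonoidHom.finsetSum_apply]
    refine Finset.sum_congr rfl fun k _ => ?_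
    rw [h1]
    rfl
  obtain ⟨v, hv, hv2⟩ := Matrix.exists_mulVec_eq_zero_iff.2 hdet
  apply hv
  have h4 : ∑ j, v j • bS j = 0 := by
    apply rad _ ha'
    have h5 : ∀ i, β a (bS i) (∑ j, v j • bS j) = 0 := by
      intro i
      have h6 := congrFun hv2 i
      rw [Pi.zero_apply, Matrix.mulVec, dotProduct] at h6
      rw [map_sum, ← h6]
      refine Finset.sum_congr rfl fun j _ => ?_
      rw [hent, h3, mul_comm]
    generalize (∑ j, v j • bS j) = u at h5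
    intro t
    rw [← bS.sum_repr t, map_sum, AddMonoidHom.finsetSum_apply]
    refine Finset.sum_eq_zero fun i _ => ?_
    rw [h2, h5, mul_zero]
  funext j
  exact (Fintype.linearIndependent_iff.1 bS.linearIndependent) v h4 j

theorem alt_bound_card [Finite A] [Finite S] (hA : ∀ a : A, p • a = 0) (hS : ∀ s : S, p • s = 0)
    (β : A →+ S →+ S →+ ZMod p) (alt : ∀ a s, β a s s = 0)
    (rad : ∀ a, a ≠ 0 → ∀ s, (∀ t, β a t s = 0) → s = 0) (h1 : Nontrivial S) :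
    Nat.card A ^ 2 ≤ Nat.card S := by
  let i1 : Module (ZMod p) A := AddCommGroup.zmodModule (n := p) hA
  let i2 : Module (ZMod p) S := AddCommGroup.zmodModule (n := p) hS
  have i3 : Module.Finite (ZMod p) A := Module.Finite.of_finite
  have i4 : Module.Finite (ZMod p) S := Module.Finite.of_finite
  have hcA : Nat.card A = p ^ Module.finrank (ZMod p) A := by
    rw [Module.natCard_eq_pow_finrank (K := ZMod p), Nat.card_zmod]
  have hcS : Nat.card S = p ^ Module.finrank (ZMod p) S := by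
    rw [Module.natCard_eq_pow_finrank (K := ZMod p), Nat.card_zmod]
  have h2 := alt_bound_basis (Module.finBasis (ZMod p) A) (Module.finBasis (ZMod p) S)
    Module.finrank_pos β alt rad
  rw [hcA, hcS, ← pow_mul]
  exact Nat.pow_le_pow_right hp.out.pos (by omega)

end add

section mul

variable {p : ℕ} [hp : Fact p.Prime] {Λ : Type u} {V : Type v} [CommGroup Λ] [Group V] [Finite Λ]
  [Finite V]

/-- **Lemma A.** -/
theorem lemA (β : Λ →* (V →* (V →* ℂˣ))) (hΛ : ∃ ν₀ : Λ, ν₀ ≠ 1 ∧ ν₀ ^ p = 1)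
    (alt : ∀ ν x, β ν x x = 1) (R : Subgroup V)
    (hR : ∀ ν, ν ≠ 1 → ∀ x, (∀ y, β ν x y = 1) ↔ x ∈ R) (hRt : R ≠ ⊤) :
    Nat.card Λ ^ 2 ≤ R.index := by
  classical
  obtain ⟨ν₀, hν₀, hν₀p⟩ := hΛ
  -- exponents
  have hx : ∀ x : V, x ^ p ∈ R := by
    intro x
    rw [← hR ν₀ hν₀]
    intro y
    have : β ν₀ (x ^ p) y = β (ν₀ ^ p) x y := by
      rw [map_pow, map_pow]
      rfl
    rw [this, hν₀p, map_one]
    rfl
  have hval : ∀ ν x y, (β ν x y) ^ p = 1 := by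
    intro ν x y
    by_cases hν : ν = 1
    · rw [hν, map_one]
      change (1 : ℂˣ) ^ p = 1
      rw [one_pow]
    · have h1 := (hR ν hν (x ^ p)).2 (hx x) y
      rw [map_pow] at h1
      exact h1
  have hpow : ∀ ν : Λ, ν ^ p = 1 := by
    intro ν
    by_contra hν
    apply hRt
    rw [eq_top_iff]
    intro x _
    rw [← hR _ hν]
    intro y
    have := hval ν x y
    rw [map_pow]
    exact this
  have hRn : R.Normal := by
    constructor
    intro x hx' g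
    rw [← hR ν₀ hν₀] at hx' ⊢
    intro y
    rw [map_mul, map_mul, map_inv, mul_comm (β ν₀ g), mul_assoc, mul_inv_cancel, mul_one]
    exact hx' y
  have hcomm : ∀ a b : V ⧸ R, a * b = b * a := by
    intro a b
    obtain ⟨a, rfl⟩ := QuotientGroup.mk_surjective a
    obtain ⟨b, rfl⟩ := QuotientGroup.mk_surjective b
    rw [← QuotientGroup.mk_mul, ← QuotientGroup.mk_mul, QuotientGroup.eq, ← hR ν₀ hν₀]
    intro y
    rw [map_mul, map_inv, map_mul, map_mul, mul_comm (β ν₀ a), inv_mul_cancel]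
    rfl
  letI : CommGroup (V ⧸ R) := { (inferInstance : Group (V ⧸ R)) with mul_comm := hcomm }
  -- roots of unity
  have hcard : Nat.card (rootsOfUnity p ℂ) = p := by
    haveI : NeZero p := ⟨hp.out.ne_zero⟩
    exact Complex.card_rootsOfUnity p
  obtain ⟨e⟩ : Nonempty (rootsOfUnity p ℂ ≃* Multiplicative (ZMod p)) := by
    refine ⟨mulEquivOfPrimeCardEq (p := p) hcard ?_⟩
    rw [Nat.card_congr Multiplicative.toAdd, Nat.card_zmod]
  have hswap : ∀ ν x y, β ν x y = (β ν y x)⁻¹ := by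
    intro ν x y
    have h1 := alt ν (x * y)
    have h2 : β ν (x * y) (x * y) = β ν x x * β ν x y * (β ν y x * β ν y y) := by
      rw [map_mul (β ν) x y, MonoidHom.mul_apply, map_mul, map_mul]
    rw [h2, alt, alt, one_mul, mul_one] at h1
    exact eq_inv_of_mul_eq_one_left h1
  have hRr : ∀ ν, ∀ y ∈ R, ∀ x, β ν x y = 1 := by
    intro ν y hy x
    rw [hswap]
    by_cases hν : ν = 1
    · rw [hν, map_one]
      change (1 : ℂˣ)⁻¹ = 1
      rw [inv_one]
    · rw [(hR ν hν y).2 hy x, inv_one]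
  have hRl : ∀ ν, ∀ x ∈ R, ∀ y, β ν x y = 1 := by
    intro ν x hx' y
    rw [hswap, hRr ν x hx' y, inv_one]
  let φ : Λ → V → V → ZMod p := fun ν x y =>
    Multiplicative.toAdd (e ⟨β ν x y, by rw [mem_rootsOfUnity]; exact hval ν x y⟩)
  have hφ0 : ∀ ν x y, φ ν x y = 0 ↔ β ν x y = 1 := by
    intro ν x y
    change Multiplicative.toAdd _ = Multiplicative.toAdd 1 ↔ _
    rw [Multiplicative.toAdd.injective.eq_iff, map_eq_one_iff e e.injective]
    exact ⟨fun h => congrArg Subtype.val h, fun h => Subtype.ext h⟩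
  have hφ1 : ∀ ν ν' x y, φ (ν * ν') x y = φ ν x y + φ ν' x y := by
    intro ν ν' x y
    change Multiplicative.toAdd _ = Multiplicative.toAdd _ + Multiplicative.toAdd _
    rw [← toAdd_mul, ← map_mul]
    congr 2
    apply Subtype.ext
    change β (ν * ν') x y = β ν x y * β ν' x y
    rw [map_mul]
    rfl
  have hφ2 : ∀ ν x x' y, φ ν (x * x') y = φ ν x y + φ ν x' y := by
    intro ν x x' y
    change Multiplicative.toAdd _ = Multiplicative.toAdd _ + Multiplicative.toAdd _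
    rw [← toAdd_mul, ← map_mul]
    congr 2
    apply Subtype.ext
    change β ν (x * x') y = β ν x y * β ν x' y
    rw [map_mul]
    rfl
  have hφ3 : ∀ ν x y y', φ ν x (y * y') = φ ν x y + φ ν x y' := by
    intro ν x y y'
    change Multiplicative.toAdd _ = Multiplicative.toAdd _ + Multiplicative.toAdd _
    rw [← toAdd_mul, ← map_mul]
    congr 2
    apply Subtype.ext
    change β ν x (y * y') = β ν x y * β ν x y'
    rw [map_mul]
  have hφr : ∀ ν x y y', y⁻¹ * y' ∈ R → φ ν x y = φ ν x y' := by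
    intro ν x y y' h
    have e1 : y' = y * (y⁻¹ * y') := by group
    rw [e1, hφ3, (hφ0 _ _ _).2 (hRr ν _ h x), add_zero]
  have hφl : ∀ ν x x' y, x⁻¹ * x' ∈ R → φ ν x y = φ ν x' y := by
    intro ν x x' y h
    have e1 : x' = x * (x⁻¹ * x') := by group
    rw [e1, hφ2, (hφ0 _ _ _).2 (hRl ν _ h y), add_zero]
  let ψ : Λ → (V ⧸ R) → (V ⧸ R) → ZMod p := fun ν a b => φ ν a.out b.out
  have hψ : ∀ ν (x y : V), ψ ν x y = φ ν x y := by
    intro ν x y
    have h1 : ((x : V ⧸ R).out)⁻¹ * x ∈ R := by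
      rw [← QuotientGroup.eq, QuotientGroup.out_eq']
    have h2 : ((y : V ⧸ R).out)⁻¹ * y ∈ R := by
      rw [← QuotientGroup.eq, QuotientGroup.out_eq']
    change φ ν _ _ = _
    rw [hφl ν _ x _ h1, hφr ν _ _ y h2]
  let Ψ : Additive Λ →+ Additive (V ⧸ R) →+ Additive (V ⧸ R) →+ ZMod p :=
    AddMonoidHom.mk' (fun ν => AddMonoidHom.mk' (fun a => AddMonoidHom.mk' (fun b =>
      ψ (Additive.toMul ν) (Additive.toMul a) (Additive.toMul b)) (by
        intro b b'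
        induction b using Additive.rec with | _ b
        induction b' using Additive.rec with | _ b'
        induction a using Additive.rec with | _ a
        obtain ⟨a, rfl⟩ := QuotientGroup.mk_surjective a
        obtain ⟨b, rfl⟩ := QuotientGroup.mk_surjective b
        obtain ⟨b', rfl⟩ := QuotientGroup.mk_surjective b'
        change ψ _ (a : V ⧸ R) ((b * b' : V) : V ⧸ R) = ψ _ (a : V ⧸ R) (b : V ⧸ R) +
          ψ _ (a : V ⧸ R) (b' : V ⧸ R)
        rw [hψ, hψ, hψ, hφ3])) (by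
        intro a a'
        apply AddMonoidHom.ext
        intro b
        induction a using Additive.rec with | _ a
        induction a' using Additive.rec with | _ a'
        induction b using Additive.rec with | _ b
        obtain ⟨a, rfl⟩ := QuotientGroup.mk_surjective a
        obtain ⟨b, rfl⟩ := QuotientGroup.mk_surjective b
        obtain ⟨a', rfl⟩ := QuotientGroup.mk_surjective a'
        change ψ _ ((a * a' : V) : V ⧸ R) (b : V ⧸ R) = ψ _ (a : V ⧸ R) (b : V ⧸ R) +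
          ψ _ (a' : V ⧸ R) (b : V ⧸ R)
        rw [hψ, hψ, hψ, hφ2])) (by
        intro ν ν'
        apply AddMonoidHom.ext
        intro a
        apply AddMonoidHom.ext
        intro b
        exact hφ1 _ _ _ _)
  have hΨ : ∀ (ν : Λ) (x y : V), Ψ (Additive.ofMul ν) (Additive.ofMul (x : V ⧸ R))
      (Additive.ofMul (y : V ⧸ R)) = φ ν x y := fun ν x y => hψ ν x y
  haveI : Nontrivial (V ⧸ R) := by
    obtain ⟨x, hxR⟩ : ∃ x, x ∉ R := by
      by_contra hcon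
      push Not at hcon
      exact hRt (eq_top_iff.2 fun x _ => hcon x)
    exact ⟨⟨x, 1, fun h => hxR ((QuotientGroup.eq_one_iff x).1 h)⟩⟩
  have key := alt_bound_card (p := p) (A := Additive Λ) (S := Additive (V ⧸ R)) (by
      intro a
      exact congrArg Additive.ofMul (hpow (Additive.toMul a))) (by
      intro s
      induction s using Additive.rec with | _ s
      obtain ⟨x, rfl⟩ := QuotientGroup.mk_surjective s
      change Additive.ofMul ((x : V ⧸ R) ^ p) = Additive.ofMul 1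
      congr 1
      rw [← QuotientGroup.mk_pow, QuotientGroup.eq_one_iff]
      exact hx x) Ψ (by
      intro ν s
      induction ν using Additive.rec with | _ ν
      induction s using Additive.rec with | _ s
      obtain ⟨x, rfl⟩ := QuotientGroup.mk_surjective s
      exact (hΨ ν x x).trans ((hφ0 _ _ _).2 (alt ν x))) (by
      intro ν hν s hs
      induction ν using Additive.rec with | _ ν
      induction s using Additive.rec with | _ s
      obtain ⟨x, rfl⟩ := QuotientGroup.mk_surjective s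
      have hν' : ν ≠ 1 := fun h => hν (congrArg Additive.ofMul h)
      have h1 : x ∈ R := by
        rw [← hR ν hν']
        intro y
        rw [hswap, (hφ0 ν y x).1 ((hΨ ν y x).symm.trans (hs (Additive.ofMul (y : V ⧸ R)))),
          inv_one]
      exact congrArg Additive.ofMul ((QuotientGroup.eq_one_iff x).2 h1)) inferInstance
  exact key

end mul

end Cfsg.Agent.H675.Nd
end

-- part: H675/Nd/LL
section
/-!
# Commutator forms of level four
-/

set_option autoImplicit false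
set_option linter.style.haveILetI false
set_option linter.unusedSectionVars false

namespace Cfsg.Agent.H675.Nd

universe u v w u' v'

/-- The data of Lemma L. -/
structure LD {V : Type u} {W : Type v} {Λ : Type w} {Ξ : Type u'} [Group V] [Group W] [CommGroup Λ]
    [CommGroup Ξ] (β : Λ →* (V →* (V →* ℂˣ))) (T : Ξ →* (W →* (V →* ℂˣ))) (k : V →* Ξ)
    (ψ : W →* Λ) (V₀ : Subgroup V) (W₀ : Subgroup W) (q : ℕ) : Prop where
  alt : ∀ ν x, β ν x x = 1
  hV : ∀ ν, ν ≠ 1 → ∀ x, (∀ y, β ν x y = 1) ↔ x ∈ V₀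
  hW : ∀ κ, κ ≠ 1 → ∀ w, (∀ v, T κ w v = 1) ↔ w ∈ W₀
  hTV : ∀ κ w, ∀ v ∈ V₀, T κ w v = 1
  cΛ : Nat.card Λ = q
  cW : W₀.index = q
  cV : V₀.index = q * q
  iso : ∀ κ, κ ≠ 1 → ∀ x y, (∀ w, T κ w x = 1) → (∀ w, T κ w y = 1) → ∀ ν, β ν x y = 1
  hN : ∀ v, v ∉ V₀ → Nat.card {κ // ∀ w, T κ w v = 1} < q
  ksurj : Function.Surjective k
  kV : ∀ v ∈ V₀, k v = 1
  jac : ∀ w v y, β (ψ w) v y = T (k y) w v * (T (k v) w y)⁻¹
  hΞ : ∃ κ : Ξ, κ ≠ 1

section LD

variable {V : Type u} {W : Type v} {Λ : Type w} {Ξ : Type u'} [Group V] [Group W] [CommGroup Λ]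
  [CommGroup Ξ] [Finite V] [Finite W] [Finite Λ] [Finite Ξ] {β : Λ →* (V →* (V →* ℂˣ))}
  {T : Ξ →* (W →* (V →* ℂˣ))} {k : V →* Ξ} {ψ : W →* Λ} {V₀ : Subgroup V} {W₀ : Subgroup W} {q : ℕ}

/-- `v^⊥`. -/
def pp (β : Λ →* (V →* (V →* ℂˣ))) (v : V) : Subgroup V := (β.flip v).flip.ker

theorem mem_pp {v y : V} : y ∈ pp β v ↔ ∀ ν, β ν v y = 1 := by
  rw [pp, MonoidHom.mem_ker]
  exact ⟨fun h ν => DFunLike.congr_fun h ν, fun h => MonoidHom.ext h⟩

/-- `V_κ`. -/
def VK (T : Ξ →* (W →* (V →* ℂˣ))) (κ : Ξ) : Subgroup V := (T κ).flip.ker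

theorem mem_VK {κ : Ξ} {y : V} : y ∈ VK T κ ↔ ∀ w, T κ w y = 1 := by
  rw [VK, MonoidHom.mem_ker]
  exact ⟨fun h ν => DFunLike.congr_fun h ν, fun h => MonoidHom.ext h⟩

/-- The pairing `Ξ × W` given by `v`. -/
def TV (T : Ξ →* (W →* (V →* ℂˣ))) (v : V) : Ξ →* (W →* ℂˣ) where
  toFun κ :=
    { toFun := fun w => T κ w v
      map_one' := by rw [map_one]; rfl
      map_mul' := fun a b => by rw [map_mul]; rfl }
  map_one' := by
    apply MonoidHom.ext
    intro w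
    change T 1 w v = 1
    rw [map_one]
    rfl
  map_mul' := fun a b => by
    apply MonoidHom.ext
    intro w
    change T (a * b) w v = T a w v * T b w v
    rw [map_mul]
    rfl

theorem TV_apply (κ : Ξ) (w : W) (v : V) : TV T v κ w = T κ w v := rfl

theorem mem_NN {v : V} {κ : Ξ} : κ ∈ (TV T v).ker ↔ ∀ w, T κ w v = 1 := by
  rw [MonoidHom.mem_ker]
  exact ⟨fun h ν => DFunLike.congr_fun h ν, fun h => MonoidHom.ext h⟩

theorem mem_WW {v : V} {w : W} : w ∈ (TV T v).flip.ker ↔ ∀ κ, T κ w v = 1 := by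
  rw [MonoidHom.mem_ker]
  exact ⟨fun h ν => DFunLike.congr_fun h ν, fun h => MonoidHom.ext h⟩

theorem mem_VK_iff_NN {v : V} {κ : Ξ} : v ∈ VK T κ ↔ κ ∈ (TV T v).ker := by
  rw [mem_VK, mem_NN]

theorem LD.swap (h : LD β T k ψ V₀ W₀ q) (ν : Λ) (x y : V) : β ν x y = (β ν y x)⁻¹ := by
  have h1 := h.alt ν (x * y)
  have h2 : β ν (x * y) (x * y) = β ν x x * β ν x y * (β ν y x * β ν y y) := by
    rw [map_mul (β ν) x y, MonoidHom.mul_apply, map_mul, map_mul]
  rw [h2, h.alt, h.alt, one_mul, mul_one] at h1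
  exact eq_inv_of_mul_eq_one_left h1

theorem LD.pp_symm (h : LD β T k ψ V₀ W₀ q) {x y : V} (hx : x ∈ pp β y) : y ∈ pp β x := by
  rw [mem_pp] at hx ⊢
  intro ν
  rw [h.swap, hx ν, inv_one]

theorem LD.one_lt (h : LD β T k ψ V₀ W₀ q) : 1 < q := by
  rw [← h.cW]
  obtain ⟨κ, hκ⟩ := h.hΞ
  have h1 : W₀.index ≠ 0 := Subgroup.index_ne_zero_of_finite
  have h2 : W₀.index ≠ 1 := by
    intro e
    have h3 := h.cV
    rw [← h.cW, e, one_mul] at h3
    rw [Subgroup.index_eq_one] at h3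
    obtain ⟨v, hv⟩ := h.ksurj κ
    apply hκ
    rw [← hv]
    exact h.kV v (h3 ▸ Subgroup.mem_top v)
  omega

theorem LD.idx_pp (h : LD β T k ψ V₀ W₀ q) {v : V} (hv : v ∉ V₀) : (pp β v).index = q := by
  have h1 := card_pair (β.flip v)
  have h2 : (β.flip v).ker = ⊥ := by
    rw [eq_bot_iff]
    intro ν hν
    rw [Subgroup.mem_bot]
    by_contra hne
    apply hv
    rw [← h.hV ν hne]
    intro y
    exact DFunLike.congr_fun hν y
  rw [h2, Subgroup.index_bot, h.cΛ] at h1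
  exact h1.symm

theorem LD.idx_VK (h : LD β T k ψ V₀ W₀ q) {κ : Ξ} (hκ : κ ≠ 1) : (VK T κ).index = q := by
  have h1 := card_pair (T κ)
  have h2 : (T κ).ker = W₀ := by
    ext w
    rw [← h.hW κ hκ, MonoidHom.mem_ker]
    exact ⟨fun h ν => DFunLike.congr_fun h ν, fun h => MonoidHom.ext h⟩
  rw [h2, h.cW] at h1
  exact h1.symm

theorem LD.VK_eq (h : LD β T k ψ V₀ W₀ q) {κ : Ξ} (hκ : κ ≠ 1) {v : V} (hv : v ∉ V₀)
    (hvκ : v ∈ VK T κ) : VK T κ = pp β v := by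
  have hle : VK T κ ≤ pp β v := by
    intro y hy
    rw [mem_pp]
    exact h.iso κ hκ v y (mem_VK.1 hvκ) (mem_VK.1 hy)
  exact eq_of_le_of_index_eq hle (by rw [h.idx_VK hκ, h.idx_pp hv])

theorem LD.NN_le (h : LD β T k ψ V₀ W₀ q) {κ : Ξ} (hκ : κ ≠ 1) {v v' : V} (hv : v ∉ V₀)
    (hv' : v' ∉ V₀) (hvκ : v ∈ VK T κ) (hvκ' : v' ∈ VK T κ) : (TV T v).ker ≤ (TV T v').ker := by
  intro κ' hκ'
  by_cases h1 : κ' = 1
  · rw [h1]; exact Subgroup.one_mem _
  · rw [← mem_VK_iff_NN] at hκ' ⊢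
    rw [h.VK_eq h1 hv hκ', ← h.VK_eq hκ hv hvκ]
    exact hvκ'

theorem LD.NN_eq (h : LD β T k ψ V₀ W₀ q) {κ : Ξ} (hκ : κ ≠ 1) {v v' : V} (hv : v ∉ V₀)
    (hv' : v' ∉ V₀) (hvκ : v ∈ VK T κ) (hvκ' : v' ∈ VK T κ) : (TV T v).ker = (TV T v').ker :=
  le_antisymm (h.NN_le hκ hv hv' hvκ hvκ') (h.NN_le hκ hv' hv hvκ' hvκ)

theorem LD.card_NN (h : LD β T k ψ V₀ W₀ q) {v : V} (hv : v ∉ V₀) :
    Nat.card (TV T v).ker < q := by
  refine lt_of_eq_of_lt ?_ (h.hN v hv)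
  exact Nat.card_congr (Equiv.subtypeEquivRight fun κ => mem_NN)

theorem LD.W₀_le (h : LD β T k ψ V₀ W₀ q) (v : V) : W₀ ≤ (TV T v).flip.ker := by
  intro w hw
  rw [mem_WW]
  intro κ
  by_cases hκ : κ = 1
  · rw [hκ, map_one]; rfl
  · exact (h.hW κ hκ w).2 hw v

theorem LD.idx_NN (_h : LD β T k ψ V₀ W₀ q) (v : V) :
    (TV T v).ker.index = (TV T v).flip.ker.index := card_pair (TV T v)

theorem LD.exists_not_mem (h : LD β T k ψ V₀ W₀ q) : ∃ v, v ∉ V₀ := by
  by_contra hcon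
  push Not at hcon
  have h1 := h.cV
  rw [Subgroup.index_eq_one.2 (eq_top_iff.2 fun v _ => hcon v)] at h1
  have := h.one_lt
  nlinarith

theorem LD.V₀_le (h : LD β T k ψ V₀ W₀ q) : V₀ ≤ k.ker := fun v hv => h.kV v hv

/-- (L0) -/
theorem LD.ker_ne (h : LD β T k ψ V₀ W₀ q) : ∃ u ∈ k.ker, u ∉ V₀ := by
  by_contra hcon
  push Not at hcon
  have he : k.ker = V₀ := le_antisymm (fun u hu => hcon u hu) h.V₀_le
  obtain ⟨v, hv⟩ := h.exists_not_mem
  have h1 : Nat.card Ξ = q * q := by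
    have h2 := Subgroup.index_ker k
    rw [he, h.cV, MonoidHom.range_eq_top.2 h.ksurj] at h2
    rw [h2]
    exact (Nat.card_congr Subgroup.topEquiv.toEquiv).symm
  have h3 := Subgroup.index_mul_card (TV T v).ker
  rw [h1, h.idx_NN v] at h3
  have h4 : (TV T v).flip.ker.index ≤ q := by
    rw [← h.cW]
    exact Nat.le_of_dvd (Nat.pos_of_ne_zero Subgroup.index_ne_zero_of_finite)
      (Subgroup.index_dvd_of_le (h.W₀_le v))
  have h5 := h.card_NN hv
  have h6 := h.one_lt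
  have h7 : (TV T v).flip.ker.index * Nat.card (TV T v).ker ≤ q * Nat.card (TV T v).ker :=
    Nat.mul_le_mul_right _ h4
  have h8 : q * Nat.card (TV T v).ker < q * q := Nat.mul_lt_mul_of_pos_left h5 (by omega)
  omega

theorem sup_eq_top_of_index {A B C : Subgroup V} [A.Normal] (hC : C ≤ A ⊓ B) (hC' : A ⊓ B ≤ C)
    {q : ℕ} (hA : A.index = q) (hB : B.index = q) (hCi : C.index = q * q) : B ⊔ A = ⊤ := by
  have he : A ⊓ B = C := le_antisymm hC' hC
  have h1 := Subgroup.relIndex_mul_index (inf_le_right : A ⊓ B ≤ B)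
  rw [he, hB, hCi] at h1
  have hq : 0 < q := by
    rw [← hA]; exact Nat.pos_of_ne_zero Subgroup.index_ne_zero_of_finite
  have h2 : C.relIndex B = q := Nat.eq_of_mul_eq_mul_right hq h1
  have h3 : A.relIndex B = q := by
    rw [← h2, ← he, Subgroup.inf_relIndex_right]
  have h4 : A.relIndex (B ⊔ A) = q := by
    rw [Subgroup.relIndex_sup_right, h3]
  have h5 := Subgroup.relIndex_mul_index (le_sup_right : A ≤ B ⊔ A)
  rw [h4, hA] at h5
  rw [← Subgroup.index_eq_one]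
  exact Nat.eq_of_mul_eq_mul_left hq (by rw [h5, mul_one])

/-- (L1) -/
theorem LD.self_mem (h : LD β T k ψ V₀ W₀ q) {v : V} (hv : v ∉ k.ker) {w : W}
    (hw : w ∈ (TV T v).flip.ker) (hw₀ : w ∉ W₀) : v ∈ VK T (k v) := by
  have hκ : k v ≠ 1 := hv
  have hv₀ : v ∉ V₀ := fun hv' => hv (h.V₀_le hv')
  rw [mem_WW] at hw
  have h1 : ∀ y ∈ pp β v, T (k v) w y = 1 := by
    intro y hy
    have h2 := h.jac w v y
    rw [mem_pp.1 hy, hw, one_mul] at h2
    exact inv_eq_one.1 h2.symm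
  haveI : (pp β v).Normal := by rw [pp]; infer_instance
  obtain ⟨x, ⟨hx1, hx2⟩, hx⟩ : ∃ x ∈ pp β v ⊓ VK T (k v), x ∉ V₀ := by
    by_contra hcon
    push Not at hcon
    apply hw₀
    rw [← h.hW (k v) hκ]
    have h2 : VK T (k v) ⊔ pp β v = ⊤ := by
      refine sup_eq_top_of_index (C := V₀) ?_ (fun x hx => hcon x hx) (h.idx_pp hv₀)
        (h.idx_VK hκ) h.cV
      intro x hx
      refine ⟨?_, mem_VK.2 fun w => h.hTV _ _ x hx⟩
      refine h.pp_symm ?_
      rw [mem_pp]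
      intro ν
      by_cases hν : ν = 1
      · rw [hν, map_one]; rfl
      · exact (h.hV ν hν x).2 hx v
    intro y
    have hy : y ∈ VK T (k v) ⊔ pp β v := by rw [h2]; exact Subgroup.mem_top y
    obtain ⟨a, ha, b, hb, rfl⟩ := Subgroup.mem_sup_of_normal_right.1 hy
    rw [map_mul, mem_VK.1 ha, h1 b hb, mul_one]
  rw [h.VK_eq hκ hx hx2]
  exact h.pp_symm hx1

theorem LD.index_ker (h : LD β T k ψ V₀ W₀ q) : k.ker.index = Nat.card Ξ := by
  rw [Subgroup.index_ker, MonoidHom.range_eq_top.2 h.ksurj]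
  exact Nat.card_congr Subgroup.topEquiv.toEquiv

/-- (a) -/
theorem LD.exists_psi_ne (h : LD β T k ψ V₀ W₀ q) : ∃ w, ψ w ≠ 1 := by
  by_contra hcon
  push Not at hcon
  have hN : ∀ u ∈ k.ker, (TV T u).ker = ⊤ := by
    intro u hu
    rw [eq_top_iff]
    intro κ _
    rw [mem_NN]
    intro w
    obtain ⟨y, rfl⟩ := h.ksurj κ
    have h1 := h.jac w u y
    rw [hcon w, map_one, MonoidHom.mem_ker.1 hu, map_one] at h1
    change (1 : ℂˣ) = T (k y) w u * (1 : ℂˣ)⁻¹ at h1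
    rw [inv_one, mul_one] at h1
    exact h1.symm
  obtain ⟨κ, hκ⟩ := h.hΞ
  obtain ⟨u, hu, hu₀⟩ := h.ker_ne
  have h1 : k.ker ≤ VK T κ := by
    intro u hu
    rw [mem_VK_iff_NN, hN u hu]
    exact Subgroup.mem_top κ
  have h2 := h.card_NN hu₀
  rw [hN u hu, Nat.card_congr Subgroup.topEquiv.toEquiv, ← h.index_ker] at h2
  have h3 := Nat.le_of_dvd (Nat.pos_of_ne_zero Subgroup.index_ne_zero_of_finite)
    (Subgroup.index_dvd_of_le h1)
  rw [h.idx_VK hκ] at h3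
  omega

/-- (c) -/
theorem LD.le_card (h : LD β T k ψ V₀ W₀ q) : q ≤ Nat.card Ξ := by
  by_cases hex : ∃ v, (TV T v).flip.ker = W₀
  · obtain ⟨v, hv⟩ := hex
    have h1 := h.idx_NN v
    rw [hv, h.cW] at h1
    rw [← h1]
    exact Nat.le_of_dvd Nat.card_pos (Subgroup.index_dvd_card _)
  · exfalso
    push Not at hex
    have hself : ∀ v, v ∉ k.ker → v ∈ VK T (k v) := by
      intro v hv
      obtain ⟨w, hw, hw₀⟩ : ∃ w ∈ (TV T v).flip.ker, w ∉ W₀ := by
        by_contra hcon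
        push Not at hcon
        exact hex v (le_antisymm (fun w hw => hcon w hw) (h.W₀_le v))
      exact h.self_mem hv hw hw₀
    have hU : ∀ v, v ∉ k.ker → k.ker ≤ VK T (k v) := by
      intro v hv u hu
      have hv₀ : v ∉ V₀ := fun hv' => hv (h.V₀_le hv')
      have hku : k (u * v) = k v := by rw [map_mul, MonoidHom.mem_ker.1 hu, one_mul]
      have huv : u * v ∉ k.ker := by
        rw [MonoidHom.mem_ker, hku]
        exact hv
      have h1 := hself _ huv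
      rw [hku] at h1
      have h2 := (VK T (k v)).mul_mem h1 ((VK T (k v)).inv_mem (hself v hv))
      rwa [mul_inv_cancel_right] at h2
    obtain ⟨u, hu, hu₀⟩ := h.ker_ne
    obtain ⟨κ, hκ⟩ := h.hΞ
    obtain ⟨v₁, rfl⟩ := h.ksurj κ
    have h1 : VK T (k v₁) = pp β u := h.VK_eq hκ hu₀ (hU v₁ hκ hu)
    have h2 : pp β u = ⊤ := by
      rw [eq_top_iff]
      intro v _
      by_cases hv : v ∈ k.ker
      · rw [← h1]; exact hU v₁ hκ hv
      · rw [← h.VK_eq (κ := k v) hv hu₀ (hU v hv hu)]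
        exact hself v hv
    have h3 := h.idx_pp hu₀
    rw [h2, Subgroup.index_top] at h3
    have := h.one_lt
    omega

/-- (b) -/
theorem LD.exists_psi_eq (h : LD β T k ψ V₀ W₀ q) : ∃ w, ψ w = 1 ∧ w ∉ W₀ := by
  by_contra hcon
  push Not at hcon
  obtain ⟨u, hu, hu₀⟩ := h.ker_ne
  -- (i)
  have h1 : ∀ u ∈ k.ker, u ∉ V₀ → ∀ w ∈ (TV T u).flip.ker, w ∈ W₀ := by
    intro u hu hu₀ w hw
    apply hcon
    by_contra hne
    apply hu₀
    rw [← h.hV _ hne]
    intro y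
    rw [h.jac, mem_WW.1 hw, MonoidHom.mem_ker.1 hu, map_one]
    change 1 * (1 : ℂˣ)⁻¹ = 1
    rw [inv_one, mul_one]
  -- (ii)
  have h2 : ∀ v, v ∉ V₀ → ∀ w ∈ (TV T v).flip.ker, w ∈ W₀ := by
    intro v hv₀ w hw
    by_contra hw₀
    have hv : v ∉ k.ker := fun hv => hw₀ (h1 v hv hv₀ w hw)
    have hκ : k v ≠ 1 := hv
    have hself := h.self_mem hv hw hw₀
    have hne : ∀ v' ∈ VK T (k v), v' ∉ V₀ → ∃ w' ∈ (TV T v').flip.ker, w' ∉ W₀ := by
      intro v' hv' hv'₀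
      by_contra hc
      push Not at hc
      have e1 : (TV T v').flip.ker = W₀ := le_antisymm (fun w hw => hc w hw) (h.W₀_le v')
      have e2 := h.idx_NN v'
      rw [← h.NN_eq hκ hv₀ hv'₀ hself hv', e1, h.idx_NN v] at e2
      exact hw₀ ((eq_of_le_of_index_eq (h.W₀_le v) e2.symm).ge hw)
    have hk : (VK T (k v)).map k ≤ (TV T v).ker := by
      rintro _ ⟨v', hv', rfl⟩
      by_cases hv'₀ : v' ∈ V₀
      · rw [h.kV v' hv'₀]; exact Subgroup.one_mem _
      · obtain ⟨w', hw', hw'₀⟩ := hne v' hv' hv'₀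
        have hv'k : v' ∉ k.ker := fun hk' => hw'₀ (h1 v' hk' hv'₀ w' hw')
        rw [h.NN_eq hκ hv₀ hv'₀ hself hv', ← mem_VK_iff_NN]
        exact h.self_mem hv'k hw' hw'₀
    have hinf : k.ker ⊓ VK T (k v) = V₀ := by
      refine le_antisymm ?_ ?_
      · rintro v' ⟨hv'k, hv'⟩
        by_contra hv'₀
        obtain ⟨w', hw', hw'₀⟩ := hne v' hv' hv'₀
        exact hw'₀ (h1 v' hv'k hv'₀ w' hw')
      · intro x hx
        exact ⟨h.V₀_le hx, mem_VK.2 fun w => h.hTV _ _ x hx⟩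
    have hcard : Nat.card ((VK T (k v)).map k) = q := by
      rw [← Subgroup.relIndex_ker, ← Subgroup.inf_relIndex_right, hinf]
      have h3 := Subgroup.relIndex_mul_index (hinf ▸ inf_le_right : V₀ ≤ VK T (k v))
      rw [h.idx_VK hκ, h.cV] at h3
      exact Nat.eq_of_mul_eq_mul_right (by have := h.one_lt; omega) h3
    have h4 := Subgroup.card_le_of_le hk
    have h5 := h.card_NN hv₀
    omega
  -- (iii)
  obtain ⟨w, hw₀⟩ : ∃ w, w ∉ W₀ := by
    by_contra hc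
    push Not at hc
    have h3 := h.cW
    rw [Subgroup.index_eq_one.2 (eq_top_iff.2 fun v _ => hc v)] at h3
    have := h.one_lt
    omega
  let F : V →* (V →* ℂˣ) :=
    { toFun := fun y => T (k y) w
      map_one' := by rw [map_one, map_one]; rfl
      map_mul' := fun a b => by rw [map_mul, map_mul]; rfl }
  have hF : ∀ y v, F y v = T (k y) w v := fun _ _ => rfl
  have h3 := card_pair F
  have h4 : F.ker = k.ker := by
    ext y
    rw [MonoidHom.mem_ker, MonoidHom.mem_ker]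
    constructor
    · intro h5
      by_contra hne
      apply hw₀
      rw [← h.hW _ hne]
      exact fun v => DFunLike.congr_fun h5 v
    · intro h5
      apply MonoidHom.ext
      intro v
      rw [hF, h5, map_one]
      rfl
  have h5 : F.flip.ker = V₀ := by
    ext v
    constructor
    · intro h6
      by_contra hv
      refine hw₀ (h2 v hv w ?_)
      rw [mem_WW]
      intro κ
      obtain ⟨y, rfl⟩ := h.ksurj κ
      exact DFunLike.congr_fun h6 y
    · intro h6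
      apply MonoidHom.ext
      intro y
      exact h.hTV _ _ v h6
  rw [h4, h5] at h3
  exact hu₀ ((eq_of_le_of_index_eq h.V₀_le h3.symm).ge hu)

end LD

end Cfsg.Agent.H675.Nd
end

-- part: H675/Nd/PG1
section
/-!
# Values of linear characters, commutator pairings, characters fully ramified over a subgroup
-/

set_option autoImplicit false
set_option linter.style.haveILetI false
set_option linter.unusedSectionVars false
open Cfsg

namespace Cfsg.Agent.H675.Nd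

open Cfsg.Agent.Characters.Core Cfsg.Agent.Characters.Clifford Cfsg.Agent.H672 Cfsg.Agent.H672.RM
open Cfsg.Agent.H597.FrobA
open scoped commutatorElement

universe u v w

section ev

variable {G : Type u} [Group G] {D : Subgroup G}

open Classical in
/-- The value of a linear character of `D`; `1` off `D`. -/
noncomputable def ev (δ : D →* ℂˣ) (g : G) : ℂˣ := if h : g ∈ D then δ ⟨g, h⟩ else 1

theorem ev_of_mem (δ : D →* ℂˣ) {g : G} (h : g ∈ D) : ev δ g = δ ⟨g, h⟩ := dif_pos h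

theorem ev_not_mem (δ : D →* ℂˣ) {g : G} (h : g ∉ D) : ev δ g = 1 := dif_neg h

theorem ev_mul (δ : D →* ℂˣ) {a b : G} (ha : a ∈ D) (hb : b ∈ D) :
    ev δ (a * b) = ev δ a * ev δ b := by
  rw [ev_of_mem δ ha, ev_of_mem δ hb, ev_of_mem δ (D.mul_mem ha hb), ← map_mul]
  rfl

theorem ev_one (δ : D →* ℂˣ) : ev δ 1 = 1 := by
  rw [ev_of_mem δ D.one_mem]
  exact map_one δ

theorem ev_inv (δ : D →* ℂˣ) {a : G} (ha : a ∈ D) : ev δ a⁻¹ = (ev δ a)⁻¹ := by
  rw [ev_of_mem δ ha, ev_of_mem δ (D.inv_mem ha), ← map_inv]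
  rfl

theorem ev_pow (δ : D →* ℂˣ) {a : G} (ha : a ∈ D) (n : ℕ) : ev δ (a ^ n) = (ev δ a) ^ n := by
  rw [ev_of_mem δ ha, ev_of_mem δ (D.pow_mem ha n), ← map_pow]
  rfl

theorem ev_hmul (δ δ' : D →* ℂˣ) (g : G) : ev (δ * δ') g = ev δ g * ev δ' g := by
  by_cases h : g ∈ D
  · rw [ev_of_mem _ h, ev_of_mem _ h, ev_of_mem _ h, MonoidHom.mul_apply]
  · rw [ev_not_mem _ h, ev_not_mem _ h, ev_not_mem _ h, one_mul]

theorem ev_hone (g : G) : ev (1 : D →* ℂˣ) g = 1 := by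
  by_cases h : g ∈ D
  · rw [ev_of_mem _ h]; rfl
  · exact ev_not_mem _ h

theorem ev_hinv (δ : D →* ℂˣ) (g : G) : ev δ⁻¹ g = (ev δ g)⁻¹ := by
  by_cases h : g ∈ D
  · rw [ev_of_mem _ h, ev_of_mem _ h]; rfl
  · rw [ev_not_mem _ h, ev_not_mem _ h, inv_one]

theorem ev_ext {δ δ' : D →* ℂˣ} (h : ∀ d ∈ D, ev δ d = ev δ' d) : δ = δ' := by
  apply MonoidHom.ext
  rintro ⟨d, hd⟩
  have := h d hd
  rwa [ev_of_mem δ hd, ev_of_mem δ' hd] at this

theorem ev_ne_one {δ : D →* ℂˣ} (h : δ ≠ 1) : ∃ d ∈ D, ev δ d ≠ 1 := by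
  by_contra hcon
  push Not at hcon
  exact h (ev_ext fun d hd => (hcon d hd).trans (ev_hone d).symm)

theorem ev_coe (δ : D →* ℂˣ) (d : D) : ((ev δ (d : G) : ℂˣ) : ℂ) = lf δ d := by
  rw [ev_of_mem δ d.2]
  rfl

/-- stabilizers in terms of `ev` -/
theorem mem_stab_ev [Finite G] {δ : D →* ℂˣ} {g : G} : g ∈ stab (lf δ : D → ℂ) ↔
    g ∈ Subgroup.normalizer (D : Set G) ∧ ∀ d ∈ D, ev δ (g * d * g⁻¹) = ev δ d := by
  rw [mem_stab]
  refine and_congr_right fun hg => ?_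
  constructor
  · intro h d hd
    have h1 := congrFun h ⟨d, hd⟩
    rw [tw_apply hg, lf_apply, lf_apply] at h1
    have h2 : g * d * g⁻¹ ∈ D := conj_mem_of_mem hg ⟨d, hd⟩
    rw [ev_of_mem δ h2, ev_of_mem δ hd]
    exact Units.ext h1
  · intro h
    funext d
    rw [tw_apply hg, lf_apply, lf_apply]
    have h2 : g * d * g⁻¹ ∈ D := conj_mem_of_mem hg d
    have h1 := h d d.2
    rw [ev_of_mem δ h2, ev_of_mem δ d.2] at h1
    exact congrArg Units.val h1

variable [hD : D.Normal]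

theorem ev_cl (g : G) (δ : D →* ℂˣ) {d : G} (hd : d ∈ D) :
    ev (cl g δ) d = ev δ (g * d * g⁻¹) := by
  rw [ev_of_mem _ hd, ev_of_mem _ (hD.conj_mem d hd g), cl_apply]

theorem cl_eq_iff {g : G} {δ : D →* ℂˣ} :
    cl g δ = δ ↔ ∀ d ∈ D, ev δ (g * d * g⁻¹) = ev δ d := by
  constructor
  · intro h d hd
    rw [← ev_cl g δ hd, h]
  · intro h
    apply ev_ext
    intro d hd
    rw [ev_cl g δ hd, h d hd]

theorem ev_conj {g : G} {δ : D →* ℂˣ} (h : cl g δ = δ) {d : G} (hd : d ∈ D) :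
    ev δ (g * d * g⁻¹) = ev δ d := cl_eq_iff.1 h d hd

theorem ev_comm_mul_left {δ : D →* ℂˣ} {a a' b : G} (ha : cl a δ = δ) (h1 : ⁅a, b⁆ ∈ D)
    (h2 : ⁅a', b⁆ ∈ D) : ev δ ⁅a * a', b⁆ = ev δ ⁅a, b⁆ * ev δ ⁅a', b⁆ := by
  have e : ⁅a * a', b⁆ = (a * ⁅a', b⁆ * a⁻¹) * ⁅a, b⁆ := by
    simp only [commutatorElement_def]; group
  rw [e, ev_mul δ (hD.conj_mem _ h2 a) h1, ev_conj ha h2, mul_comm]

theorem ev_comm_mul_right {δ : D →* ℂˣ} {a b b' : G} (hb : cl b δ = δ) (h1 : ⁅a, b⁆ ∈ D)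
    (h2 : ⁅a, b'⁆ ∈ D) : ev δ ⁅a, b * b'⁆ = ev δ ⁅a, b⁆ * ev δ ⁅a, b'⁆ := by
  have e : ⁅a, b * b'⁆ = ⁅a, b⁆ * (b * ⁅a, b'⁆ * b⁻¹) := by
    simp only [commutatorElement_def]; group
  rw [e, ev_mul δ h1 (hD.conj_mem _ h2 b), ev_conj hb h2]

theorem ev_comm_conj {δ : D →* ℂˣ} {g a b : G} (hg : cl g δ = δ) (h : ⁅a, b⁆ ∈ D) :
    ev δ ⁅g * a * g⁻¹, g * b * g⁻¹⁆ = ev δ ⁅a, b⁆ := by
  have e : ⁅g * a * g⁻¹, g * b * g⁻¹⁆ = g * ⁅a, b⁆ * g⁻¹ := by
    simp only [commutatorElement_def]; group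
  rw [e, ev_conj hg h]

theorem ev_comm_swap (δ : D →* ℂˣ) {a b : G} (h : ⁅a, b⁆ ∈ D) :
    ev δ ⁅b, a⁆ = (ev δ ⁅a, b⁆)⁻¹ := by
  rw [← commutatorElement_inv a b, ev_inv δ h]

theorem comm_swap_mem {a b : G} (h : ⁅a, b⁆ ∈ D) : ⁅b, a⁆ ∈ D := by
  rw [← commutatorElement_inv a b]; exact D.inv_mem h

/-- The pairing `(a, b) ↦ δ ⁅a, b⁆`. -/
noncomputable def cpair (A B : Subgroup G) (δ : D →* ℂˣ) (hAB : ∀ a ∈ A, ∀ b ∈ B, ⁅a, b⁆ ∈ D)
    (hA : ∀ a ∈ A, cl a δ = δ) (hB : ∀ b ∈ B, cl b δ = δ) : A →* (B →* ℂˣ) :=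
  MonoidHom.mk' (fun a => MonoidHom.mk' (fun b => ev δ ⁅(a : G), (b : G)⁆) (fun b b' =>
    ev_comm_mul_right (hB b b.2) (hAB a a.2 b b.2) (hAB a a.2 b' b'.2))) (fun a a' => by
      apply MonoidHom.ext
      intro b
      exact ev_comm_mul_left (hA a a.2) (hAB a a.2 b b.2) (hAB a' a'.2 b b.2))

theorem cpair_apply {A B : Subgroup G} {δ : D →* ℂˣ} {hAB : ∀ a ∈ A, ∀ b ∈ B, ⁅a, b⁆ ∈ D}
    {hA : ∀ a ∈ A, cl a δ = δ} {hB : ∀ b ∈ B, cl b δ = δ} (a : A) (b : B) :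
    cpair A B δ hAB hA hB a b = ev δ ⁅(a : G), (b : G)⁆ := rfl

theorem coprime_eq_one {c : ℂˣ} {m n : ℕ} (hm : c ^ m = 1) (hn : c ^ n = 1) (h : m.Coprime n) :
    c = 1 := by
  have := pow_gcd_eq_one.2 ⟨hm, hn⟩
  rwa [h.gcd_eq_one, pow_one] at this

end ev

section onto

variable {G : Type u} [Group G] [Finite G] {B M : Subgroup G} [hB : B.Normal]

/-- Every element of `M` is `⁅g, m⁆` modulo `B`, if `g` acts without fixed points on the abelian
section `M / B`. -/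
theorem exists_comm_mul (hMM : ⁅M, M⁆ ≤ B) {g : G}
    (hg : ∀ m ∈ M, g * m * g⁻¹ ∈ M) (hfp : ∀ m ∈ M, g * m * g⁻¹ * m⁻¹ ∈ B → m ∈ B) {m : G}
    (hm : m ∈ M) : ∃ m' ∈ M, (g * m' * g⁻¹ * m'⁻¹)⁻¹ * m ∈ B := by
  have hcomm : ∀ a ∈ M, ∀ b ∈ M, (a : G ⧸ B) * (b : G ⧸ B) = b * a := by
    intro a ha b hb
    have h1 := hMM (Subgroup.commutator_mem_commutator ha hb)
    rw [← QuotientGroup.eq_one_iff] at h1
    change QuotientGroup.mk' B ⁅a, b⁆ = 1 at h1
    rw [map_commutatorElement, commutatorElement_eq_one_iff_mul_comm] at h1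
    exact h1
  let φ : M →* G ⧸ B := MonoidHom.mk' (fun m => ((g * m * g⁻¹ * (m : G)⁻¹ : G) : G ⧸ B)) (by
    intro a b
    have h1 : (g * ((a * b : M) : G) * g⁻¹ * ((a * b : M) : G)⁻¹ : G) =
        (g * a * g⁻¹) * ((g * b * g⁻¹ * (b : G)⁻¹) * (a : G)⁻¹) := by
      push_cast; group
    have h2 : ((g * b * g⁻¹ * (b : G)⁻¹ : G) : G ⧸ B) * (((a : G)⁻¹ : G) : G ⧸ B) =
        (((a : G)⁻¹ : G) : G ⧸ B) * ((g * b * g⁻¹ * (b : G)⁻¹ : G) : G ⧸ B) :=
      hcomm _ (M.mul_mem (hg b b.2) (M.inv_mem b.2)) _ (M.inv_mem a.2)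
    have h3 : ((g * a * g⁻¹ * (a : G)⁻¹ : G) : G ⧸ B) =
        ((g * a * g⁻¹ : G) : G ⧸ B) * (((a : G)⁻¹ : G) : G ⧸ B) := rfl
    have h4 : (((g * a * g⁻¹) * ((g * b * g⁻¹ * (b : G)⁻¹) * (a : G)⁻¹) : G) : G ⧸ B) =
        ((g * a * g⁻¹ : G) : G ⧸ B) * (((g * b * g⁻¹ * (b : G)⁻¹ : G) : G ⧸ B) *
          (((a : G)⁻¹ : G) : G ⧸ B)) := rfl
    rw [h1, h4, h2, h3]
    exact (mul_assoc _ _ _).symm)
  have hφ : ∀ m : M, φ m = ((g * m * g⁻¹ * (m : G)⁻¹ : G) : G ⧸ B) := fun _ => rfl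
  have hker : φ.ker = B.subgroupOf M := by
    ext m
    rw [MonoidHom.mem_ker, hφ, QuotientGroup.eq_one_iff, Subgroup.mem_subgroupOf]
    constructor
    · exact hfp m m.2
    · intro h
      exact B.mul_mem (hB.conj_mem _ h g) (B.inv_mem h)
  have hle : φ.range ≤ M.map (QuotientGroup.mk' B) := by
    rintro _ ⟨m, rfl⟩
    exact ⟨g * m * g⁻¹ * (m : G)⁻¹, M.mul_mem (hg m m.2) (M.inv_mem m.2), rfl⟩
  have hcard : Nat.card φ.range = Nat.card (M.map (QuotientGroup.mk' B)) := by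
    rw [← Subgroup.index_ker, hker]
    have : (QuotientGroup.mk' B).ker.relIndex M = Nat.card (M.map (QuotientGroup.mk' B)) := by
      rw [Subgroup.relIndex_ker]
    rw [QuotientGroup.ker_mk'] at this
    exact this
  have heq := Subgroup.eq_of_le_of_card_ge hle hcard.ge
  have hm' : (m : G ⧸ B) ∈ φ.range := by
    rw [heq]
    exact ⟨m, hm, rfl⟩
  obtain ⟨m', hm'⟩ := hm'
  rw [hφ, QuotientGroup.eq] at hm'
  exact ⟨m', m'.2, hm'⟩

end onto

section FR

variable {G : Type u} [Group G] [Finite G] {Z T : Subgroup G} {l : Z →* ℂˣ}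

/-- `l` is `T`-invariant, with nondegenerate commutator form on `T / Z`. -/
structure FR (Z T : Subgroup G) (l : Z →* ℂˣ) : Prop where
  le : Z ≤ T
  st : T ≤ stab (lf l : Z → ℂ)
  nd : ∀ x ∈ T, x ∉ Z → ∃ y ∈ T, ⁅y, x⁆ ∈ Z ∧ ev l ⁅y, x⁆ ≠ 1

theorem res_lin (hle : Z ≤ T) (hst : T ≤ stab (lf l : Z → ℂ)) {ξ : T → ℂ}
    (hξ : IsIrrCharacter T ξ) (ho : Over (Subgroup.inclusion hle) ξ (lf l)) (z : Z) :
    ξ (Subgroup.inclusion hle z) = ξ 1 * lf l z := by
  obtain ⟨c, -, hc⟩ := res_of_inv hle (isIrr_lf l) hst hξ ho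
  have h1 := hc 1
  rw [map_one, lf_apply, map_one, Units.val_one, mul_one] at h1
  rw [hc, h1]

/-- elements of `Z` act as scalars -/
theorem lin_mul (hle : Z ≤ T) (hst : T ≤ stab (lf l : Z → ℂ)) {ξ : T → ℂ}
    (hξ : IsIrrCharacter T ξ) (ho : Over (Subgroup.inclusion hle) ξ (lf l)) {z : G} (hz : z ∈ Z)
    (x : T) : ξ (⟨z, hle hz⟩ * x) = (ev l z : ℂ) * ξ x := by
  obtain ⟨c, hc⟩ := OddOrderCharacters.PF9.GaloisClifford.exists_scalar hξ (⟨z, hle hz⟩ : T) (by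
    intro t
    obtain ⟨hn, h1⟩ := mem_stab_ev.1 (hst t.2)
    have h2 : (t : G) * z * (t : G)⁻¹ ∈ Z := conj_mem_of_mem hn ⟨z, hz⟩
    have h3 : (t : G) * z * (t : G)⁻¹ * z⁻¹ ∈ Z := Z.mul_mem h2 (Z.inv_mem hz)
    have h4 := res_lin hle hst hξ ho ⟨_, h3⟩
    have h5 : lf l ⟨_, h3⟩ = 1 := by
      rw [← ev_coe, ev_mul l h2 (Z.inv_mem hz), h1 z hz, ev_inv l hz, mul_inv_cancel,
        Units.val_one]
    rw [h5, mul_one] at h4
    exact h4)
  rw [hc]
  congr 1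
  have h1 := hc 1
  rw [mul_one] at h1
  have h2 := res_lin hle hst hξ ho ⟨z, hz⟩
  have h3 : ξ 1 ≠ 0 := isIrr_apply_one_ne_zero hξ
  have h4 : ξ (Subgroup.inclusion hle ⟨z, hz⟩) = ξ (⟨z, hle hz⟩ : T) := rfl
  rw [h4, h1, mul_comm] at h2
  have h5 := mul_left_cancel₀ h3 h2
  rw [h5, ← ev_coe]

theorem FR.vanish (h : FR Z T l) {ξ : T → ℂ} (hξ : IsIrrCharacter T ξ)
    (ho : Over (Subgroup.inclusion h.le) ξ (lf l)) {x : T} (hx : (x : G) ∉ Z) : ξ x = 0 := by
  obtain ⟨y, hy, hm, hne⟩ := h.nd x x.2 hx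
  have h1 : ξ (⟨y, hy⟩ * x * ⟨y, hy⟩⁻¹) = ξ x := isIrr_isClassFunction hξ x ⟨y, hy⟩
  have e : (⟨y, hy⟩ : T) * x * (⟨y, hy⟩ : T)⁻¹ = ⟨⁅y, (x : G)⁆, h.le hm⟩ * x := by
    apply Subtype.ext
    change y * x * y⁻¹ = ⁅y, (x : G)⁆ * x
    rw [commutatorElement_def]; group
  rw [e, lin_mul h.le h.st hξ ho hm] at h1
  by_contra hne'
  apply hne
  have h2 : ((ev l ⁅y, (x : G)⁆ : ℂˣ) : ℂ) = 1 := by
    have h3 : ((ev l ⁅y, (x : G)⁆ : ℂˣ) : ℂ) * ξ x = 1 * ξ x := by rw [h1, one_mul]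
    exact mul_right_cancel₀ hne' h3
  exact Units.ext h2

theorem FR.deg (h : FR Z T l) {ξ : T → ℂ} (hξ : IsIrrCharacter T ξ)
    (ho : Over (Subgroup.inclusion h.le) ξ (lf l)) : (charDegree ξ) ^ 2 = Z.relIndex T := by
  classical
  letI := Fintype.ofFinite T
  have h1 := H597.Norm.sum_normSq_irr hξ
  have h2 : ∀ t : T, Complex.normSq (ξ t) = if (t : G) ∈ Z then ((charDegree ξ : ℝ)) ^ 2 else 0 := by
    intro t
    by_cases ht : (t : G) ∈ Z
    · rw [if_pos ht]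
      have h3 := res_lin h.le h.st hξ ho ⟨t, ht⟩
      have h4 : ξ (Subgroup.inclusion h.le ⟨t, ht⟩) = ξ t := rfl
      rw [h4] at h3
      rw [h3, map_mul, ← coe_charDegree hξ, Complex.normSq_natCast]
      have h5 : Complex.normSq (lf l ⟨(t : G), ht⟩) = 1 := by
        have h6 : (l ⟨(t : G), ht⟩) ^ Nat.card Z = 1 := by
          rw [← map_pow, pow_card_eq_one', map_one]
        have h7 : ((l ⟨(t : G), ht⟩ : ℂˣ) : ℂ) ^ Nat.card Z = 1 := by
          rw [← Units.val_pow_eq_pow_val, h6, Units.val_one]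
        have h8 := Complex.norm_eq_one_of_pow_eq_one h7 Nat.card_pos.ne'
        rw [lf_apply, Complex.normSq_eq_norm_sq, h8, one_pow]
      rw [h5, mul_one, pow_two]
    · rw [if_neg ht, h.vanish hξ ho ht, map_zero]
  rw [Finset.sum_congr rfl (fun t _ => h2 t), Finset.sum_ite, Finset.sum_const_zero, add_zero,
    Finset.sum_const, nsmul_eq_mul] at h1
  have h3 : (Finset.univ.filter fun t : T => (t : G) ∈ Z).card = Nat.card Z := by
    rw [← Fintype.card_subtype, ← Nat.card_eq_fintype_card]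
    exact Nat.card_congr
      { toFun := fun t => ⟨t.1.1, t.2⟩
        invFun := fun z => ⟨⟨z.1, h.le z.2⟩, z.2⟩
        left_inv := fun _ => rfl
        right_inv := fun _ => rfl }
  rw [h3] at h1
  have h4 : Nat.card Z * charDegree ξ ^ 2 = Nat.card T := by exact_mod_cast h1
  have h5 : Nat.card Z * Z.relIndex T = Nat.card T := by
    have := Subgroup.relIndex_mul_relIndex (⊥ : Subgroup G) Z T bot_le h.le
    rwa [Subgroup.relIndex_bot_left, Subgroup.relIndex_bot_left] at this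
  exact Nat.eq_of_mul_eq_mul_left (Nat.card_pos (α := Z)) (h4.trans h5.symm)

theorem FR.unique (h : FR Z T l) {ξ ξ' : T → ℂ} (hξ : IsIrrCharacter T ξ)
    (ho : Over (Subgroup.inclusion h.le) ξ (lf l)) (hξ' : IsIrrCharacter T ξ')
    (ho' : Over (Subgroup.inclusion h.le) ξ' (lf l)) : ξ = ξ' := by
  funext t
  by_cases ht : (t : G) ∈ Z
  · have h3 := res_lin h.le h.st hξ ho ⟨t, ht⟩
    have h3' := res_lin h.le h.st hξ' ho' ⟨t, ht⟩
    have h4 : ξ (Subgroup.inclusion h.le ⟨t, ht⟩) = ξ t := rfl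
    have h4' : ξ' (Subgroup.inclusion h.le ⟨t, ht⟩) = ξ' t := rfl
    rw [h4] at h3
    rw [h4'] at h3'
    have h5 : charDegree ξ = charDegree ξ' := by
      have h6 := h.deg hξ ho
      rw [← h.deg hξ' ho'] at h6
      exact Nat.pow_left_injective two_ne_zero h6
    rw [h3, h3', ← coe_charDegree hξ, ← coe_charDegree hξ', h5]
  · rw [h.vanish hξ ho ht, h.vanish hξ' ho' ht]

theorem FR.stab (h : FR Z T l) {ξ : T → ℂ} (hξ : IsIrrCharacter T ξ)
    (ho : Over (Subgroup.inclusion h.le) ξ (lf l)) {g : G} (hg : g ∈ RM.stab (lf l : Z → ℂ))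
    (hgT : g ∈ Subgroup.normalizer (T : Set G)) : g ∈ RM.stab ξ := by
  refine ⟨hgT, ?_⟩
  refine h.unique (isIrr_tw hgT hξ) ?_ hξ ho
  have h1 := (over_tw_tw h.le hg.1 hgT ξ (lf l)).2 ho
  rwa [hg.2] at h1

end FR

section cliff2

variable {G : Type u} [Group G] [Finite G] {K T U : Subgroup G} {θ : K → ℂ}

theorem Inert.eq_of_over (h : Inert K T U θ) {ψ ψ' : U → ℂ} (hψ : IsIrrCharacter U ψ)
    (hψ' : IsIrrCharacter U ψ') {η : T → ℂ} (hη : IsIrrCharacter T η)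
    (ho : Over (Subgroup.inclusion h.KT) η θ) (h1 : Over (Subgroup.inclusion h.TU) ψ η)
    (h2 : Over (Subgroup.inclusion h.TU) ψ' η) : ψ = ψ' := by
  classical
  letI := Fintype.ofFinite U
  letI := Fintype.ofFinite (T.subgroupOf U)
  have e1 := eq_indFun_of_over _ (h.irr_ind hη ho) hψ ((h.over_sub_iff ψ η).2 h1)
  have e2 := eq_indFun_of_over _ (h.irr_ind hη ho) hψ' ((h.over_sub_iff ψ' η).2 h2)
  rw [e1, e2]

/-- Adjusting an element of `stab ψ` to an element of `stab μ`, `ψ` over `μ`. -/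
theorem exists_mul_stab' (hKU : K ≤ U) (hU : U ≤ Subgroup.normalizer (K : Set G))
    (hθ : IsIrrCharacter K θ) {ψ : U → ℂ} (hψ : IsIrrCharacter U ψ)
    (ho : Over (Subgroup.inclusion hKU) ψ θ) {g : G} (hg : g ∈ stab ψ)
    (hgK : g ∈ Subgroup.normalizer (K : Set G)) : ∃ n ∈ U, g * n ∈ stab θ := by
  have h1 : Over (Subgroup.inclusion hKU) ψ (tw K g θ) := by
    rw [← hg.2]
    exact (over_tw_tw hKU hgK hg.1 ψ θ).2 ho
  obtain ⟨n, hn, h2⟩ := exists_tw_of_over hKU hU hψ hθ (isIrr_tw hgK hθ) ho h1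
  refine ⟨n⁻¹, U.inv_mem hn, Subgroup.mul_mem _ hgK (Subgroup.inv_mem _ (hU hn)), ?_⟩
  rw [tw_mul hgK (Subgroup.inv_mem _ (hU hn)), h2, ← tw_mul (hU hn)
    (Subgroup.inv_mem _ (hU hn)), mul_inv_cancel, tw_one]

theorem stab_of_inv (hKU : K ≤ U) (hU : U ≤ stab θ)
    (hθ : IsIrrCharacter K θ) {ψ : U → ℂ} (hψ : IsIrrCharacter U ψ)
    (ho : Over (Subgroup.inclusion hKU) ψ θ) {g : G} (hg : g ∈ stab ψ)
    (hgK : g ∈ Subgroup.normalizer (K : Set G)) : g ∈ stab θ := by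
  obtain ⟨n, hn, h⟩ := exists_mul_stab' hKU (hU.trans (stab_le θ)) hθ hψ ho hg hgK
  have := (stab θ).mul_mem h ((stab θ).inv_mem (hU hn))
  rwa [mul_inv_cancel_right] at this

end cliff2

section omega

variable {G : Type u} [Group G] [Finite G] {P : Subgroup G} [hP : P.Normal]

/-- Degrees over a character of `P`, `G / P` cyclic. -/
theorem GTc (ha : Anti G) (hc : IsCyclic (G ⧸ P)) {ω : P → ℂ} (hω : IsIrrCharacter P ω)
    (h1 : (stab ω).index * charDegree ω ≠ 1) :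
    (∃ ψ : G → ℂ, IsIrrCharacter G ψ ∧ Over P.subtype ψ ω ∧
      charDegree ψ = (stab ω).index * charDegree ω) ∧
    (∀ ψ : G → ℂ, IsIrrCharacter G ψ → Over P.subtype ψ ω →
      charDegree ψ = (stab ω).index * charDegree ω) := by
  obtain ⟨χ, hχ, hext⟩ := ext_cyc (N := P) (M := P) (T := stab ω)
    (le_stab' hω) hc (fun t _ => Iff.rfl) hω le_rfl
  obtain ⟨h2, h3, -⟩ := GT ha hω hχ hext h1
  exact ⟨h2, h3⟩

theorem mul_ne_one {ω : P → ℂ} (h : charDegree ω ≠ 1) : (stab ω).index * charDegree ω ≠ 1 :=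
  fun e => h (Nat.eq_one_of_mul_eq_one_left e)

/-- The antichain condition for characters of `P`. -/
theorem anti_omega (ha : Anti G) (hc : IsCyclic (G ⧸ P)) {ω ω' : P → ℂ} (hω : IsIrrCharacter P ω)
    (hω' : IsIrrCharacter P ω') (h1 : charDegree ω ≠ 1) (h2 : charDegree ω ∣ charDegree ω')
    (h3 : stab ω' ≤ stab ω) : stab ω' = stab ω ∧ charDegree ω = charDegree ω' := by
  have hne : charDegree ω' ≠ 1 := fun e => h1 (Nat.dvd_one.1 (e ▸ h2))
  obtain ⟨⟨ψ, hψ, -, hd⟩, -⟩ := GTc ha hc hω (mul_ne_one h1)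
  obtain ⟨⟨ψ', hψ', -, hd'⟩, -⟩ := GTc ha hc hω' (mul_ne_one hne)
  have h4 := Subgroup.index_dvd_of_le h3
  have h5 := ha ψ ψ' hψ hψ' (by rw [hd]; exact mul_ne_one h1)
    (by rw [hd, hd']; exact Nat.mul_dvd_mul h4 h2)
  rw [hd, hd'] at h5
  obtain ⟨c, hc1⟩ := h4
  obtain ⟨d, hd1⟩ := h2
  have hp1 := index_pos (stab ω)
  have hp2 := charDegree_pos hω
  have h6 : (stab ω).index * charDegree ω * (c * d) = (stab ω).index * charDegree ω * 1 := by
    rw [mul_one]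
    conv_rhs => rw [h5, hc1, hd1]
    ring
  have h7 := Nat.eq_of_mul_eq_mul_left (Nat.mul_pos hp1 hp2) h6
  have h8 := Nat.eq_one_of_mul_eq_one_right h7
  have h9 := Nat.eq_one_of_mul_eq_one_left h7
  rw [h8, mul_one] at hc1
  rw [h9, mul_one] at hd1
  exact ⟨eq_of_le_of_index_eq h3 hc1, hd1.symm⟩

/-- The stabilizer of a nonlinear character of `P` is not contained in `P`. -/
theorem out_omega (ha : Anti G) (hc : IsCyclic (G ⧸ P))
    (hf : ∃ χ : G → ℂ, IsIrrCharacter G χ ∧ charDegree χ = P.index) (hPt : P ≠ ⊤) {ω : P → ℂ}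
    (hω : IsIrrCharacter P ω) (h1 : charDegree ω ≠ 1) : ∃ g ∈ stab ω, g ∉ P := by
  by_contra hcon
  push Not at hcon
  have hle : stab ω ≤ P := hcon
  have he : stab ω = P := le_antisymm hle (le_stab' hω)
  obtain ⟨χ, hχ, hd⟩ := hf
  obtain ⟨⟨ψ, hψ, -, hd'⟩, -⟩ := GTc ha hc hω (mul_ne_one h1)
  rw [he] at hd'
  have h2 := ha χ ψ hχ hψ (by rw [hd]; exact ne_top_index hPt)
    (by rw [hd, hd']; exact dvd_mul_right _ _)
  rw [hd, hd'] at h2
  apply h1
  exact Nat.eq_of_mul_eq_mul_left (index_pos P) (by rw [← h2, mul_one])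

end omega

end Cfsg.Agent.H675.Nd
end

-- part: H675/Nd/PG2
section
/-!
# The Sylow subgroup: basic facts
-/

set_option autoImplicit false
set_option linter.style.haveILetI false
set_option linter.unusedSectionVars false
open Cfsg

namespace Cfsg.Agent.H675.Nd

open Cfsg.Agent.Characters.Core Cfsg.Agent.Characters.Clifford Cfsg.Agent.H672 Cfsg.Agent.H672.RM
open Cfsg.Agent.H597.FrobA
open scoped commutatorElement

universe u v w

section L

variable {G : Type u} [Group G]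

/-- Three subgroups lemma modulo a normal subgroup. -/
theorem tsl {D A B C : Subgroup G} [hD : D.Normal] (h1 : ⁅⁅B, C⁆, A⁆ ≤ D) (h2 : ⁅⁅C, A⁆, B⁆ ≤ D) :
    ⁅⁅A, B⁆, C⁆ ≤ D := by
  have e : ∀ A B C : Subgroup G, ⁅⁅A, B⁆, C⁆ ≤ D ↔
      ⁅⁅A.map (QuotientGroup.mk' D), B.map (QuotientGroup.mk' D)⁆, C.map (QuotientGroup.mk' D)⁆ =
        ⊥ := by
    intro A B C
    rw [← Subgroup.map_commutator, ← Subgroup.map_commutator, Subgroup.map_eq_bot_iff,
      QuotientGroup.ker_mk']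
  rw [e] at h1 h2 ⊢
  exact Subgroup.commutator_commutator_eq_bot_of_rotate h1 h2

/-- The lower central series of `P`. -/
abbrev L (P : Subgroup G) (n : ℕ) : Subgroup G := P.lowerCentralSeries n

variable (P : Subgroup G) [hP : P.Normal]

theorem L_le (n : ℕ) : L P n ≤ P := P.lowerCentralSeries_le_self n

theorem L_anti {m n : ℕ} (h : m ≤ n) : L P n ≤ L P m := P.lowerCentralSeries_antitone h

theorem comm_L (m n : ℕ) : ⁅L P m, L P n⁆ ≤ L P (m + n + 1) := by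
  induction n generalizing m with
  | zero => exact le_rfl
  | succ n ih =>
    have h0 : L P (n + 1) = ⁅L P n, P⁆ := rfl
    rw [h0, Subgroup.commutator_comm]
    refine tsl ?_ ?_
    · rw [Subgroup.commutator_comm P]
      have h1 : ⁅L P m, P⁆ = L P (m + 1) := rfl
      rw [h1]
      refine (ih (m + 1)).trans (L_anti P ?_)
      omega
    · refine (Subgroup.commutator_mono (ih m) le_rfl).trans ?_
      have h1 : ⁅L P (m + n + 1), P⁆ = L P (m + n + 1 + 1) := rfl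
      rw [h1]
      exact L_anti P (by omega)

theorem mem_L_succ {n : ℕ} {a b : G} (ha : a ∈ L P n) (hb : b ∈ P) : ⁅a, b⁆ ∈ L P (n + 1) :=
  Subgroup.commutator_mem_commutator ha hb

theorem mem_L_succ' {n : ℕ} {a b : G} (ha : a ∈ P) (hb : b ∈ L P n) : ⁅a, b⁆ ∈ L P (n + 1) := by
  have h0 : L P (n + 1) = ⁅P, L P n⁆ := Subgroup.commutator_comm _ _
  rw [h0]
  exact Subgroup.commutator_mem_commutator ha hb

theorem mem_L_one {a b : G} (ha : a ∈ P) (hb : b ∈ P) : ⁅a, b⁆ ∈ L P 1 :=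
  Subgroup.commutator_mem_commutator ha hb

/-- `C`: the elements of `P` central modulo `P'`. -/
def CC (P : Subgroup G) [P.Normal] : Subgroup G := NZ P (L P 1)

/-- `E = [P, G]`. -/
def EE (P : Subgroup G) : Subgroup G := ⁅P, (⊤ : Subgroup G)⁆

variable {P}

theorem mem_CC {c : G} : c ∈ CC P ↔ c ∈ P ∧ ∀ g, ⁅c, g⁆ ∈ L P 1 := by
  rw [CC, mem_NZ]
  simp only [commutatorElement_def]

theorem CC_le : CC P ≤ P := fun _ hc => (mem_CC.1 hc).1

theorem CC_comm {c : G} (hc : c ∈ CC P) (g : G) : ⁅c, g⁆ ∈ L P 1 := (mem_CC.1 hc).2 g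

theorem CC_comm' {c : G} (hc : c ∈ CC P) (g : G) : ⁅g, c⁆ ∈ L P 1 := comm_swap_mem (CC_comm hc g)

theorem L1_le_CC : L P 1 ≤ CC P := by
  intro c hc
  rw [mem_CC]
  refine ⟨L_le P 1 hc, fun g => ?_⟩
  have h1 : (L P 1).Normal := inferInstance
  have e : ⁅c, g⁆ = c * (g * c⁻¹ * g⁻¹) := by rw [commutatorElement_def]; group
  rw [e]
  exact (L P 1).mul_mem hc (h1.conj_mem _ ((L P 1).inv_mem hc) g)

instance CC_normal [Finite G] : (CC P).Normal :=
  normal_of_central' L1_le_CC fun c hc g => by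
    have := CC_comm hc g
    rwa [commutatorElement_def] at this

instance EE_normal : (EE P).Normal := by
  unfold EE; infer_instance

theorem EE_le : EE P ≤ P := Subgroup.commutator_le_left P ⊤

theorem L1_le_EE : L P 1 ≤ EE P := Subgroup.commutator_mono le_rfl le_top

theorem mem_EE {a g : G} (ha : a ∈ P) : ⁅a, g⁆ ∈ EE P :=
  Subgroup.commutator_mem_commutator ha (Subgroup.mem_top g)

theorem mem_EE' {a g : G} (ha : a ∈ P) : ⁅g, a⁆ ∈ EE P := comm_swap_mem (mem_EE ha)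

/-- Conjugates of elements of `C`. -/
theorem CC_conj {c : G} (hc : c ∈ CC P) (g : G) : ∃ d ∈ L P 1, g * c * g⁻¹ = c * d := by
  refine ⟨c⁻¹ * (g * c * g⁻¹), ?_, by group⟩
  have := CC_comm ((CC P).inv_mem hc) g
  rw [commutatorElement_def, inv_inv] at this
  simpa [mul_assoc] using this

theorem mem_LK_ev [Finite G] {N K : Subgroup G} [N.Normal] [K.Normal] (hKN : K ≤ N) {l : N →* ℂˣ} :
    l ∈ LK N K ↔ ∀ k ∈ K, ev l k = 1 := by
  rw [mem_LK]
  constructor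
  · intro h k hk
    rw [ev_of_mem l (hKN hk)]
    exact h k _ hk
  · intro h k hN hk
    rw [← ev_of_mem l hN]
    exact h k hk

/-- `P` acts trivially on the linear characters of `γ_n / γ_{n+1}`. -/
theorem P_fix {n : ℕ} {ν : L P n →* ℂˣ} (hν : ∀ k ∈ L P (n + 1), ev ν k = 1) {x : G} (hx : x ∈ P) :
    cl x ν = ν := by
  rw [cl_eq_iff]
  intro d hd
  have e : x * d * x⁻¹ = ⁅x, d⁆ * d := by rw [commutatorElement_def]; group
  have h1 : ⁅x, d⁆ ∈ L P (n + 1) := mem_L_succ' P hx hd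
  rw [e, ev_mul ν (L_anti P (Nat.le_succ n) h1) hd, hν _ h1, one_mul]

end L

/-- The hypothesis on the Sylow subgroup. -/
structure PS {G : Type u} [Group G] [Finite G] (P K : Subgroup G) [P.Normal] [K.Normal] (p : ℕ) :
    Prop where
  anti : Anti G
  pr : p.Prime
  hF : FrobQ K P p
  pg : IsPGroup p P

section ps

variable {G : Type u} [Group G] [Finite G] {P K : Subgroup G} [hP : P.Normal] [hK : K.Normal]
  {p : ℕ}

theorem PS.cyc (h : PS P K p) : IsCyclic (G ⧸ P) := cyc_of_frobQ h.hF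

theorem PS.f (h : PS P K p) : ∃ χ : G → ℂ, IsIrrCharacter G χ ∧ charDegree χ = P.index :=
  exists_index_degree h.hF

theorem PS.cop (h : PS P K p) : (Nat.card P).Coprime P.index := by
  haveI := Fact.mk h.pr
  obtain ⟨n, hn⟩ := IsPGroup.iff_card.1 h.pg
  rw [hn]
  exact Nat.Coprime.pow_left n ((Nat.Prime.coprime_iff_not_dvd h.pr).2 h.hF.idx)

theorem PS.L1_le_K (h : PS P K p) : L P 1 ≤ K := h.hF.comm

theorem PS.zl (h : PS P K p) {M : Subgroup G} [M.Normal] (hM : L P 1 ≤ M) (hMP : M ≤ P) {n g : G}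
    (hn : n ∈ P) (hg : g ∉ P) (hc : ⁅n, g⁆ ∈ M) (g' : G) : ⁅n, g'⁆ ∈ M := by
  rw [commutatorElement_def] at hc ⊢
  exact zlem hMP hM h.cyc (fun l _ g hg hl => hfix_of h.anti h.cyc h.f l hg hl) hn hg hc g'

theorem PS.relcop (h : PS P K p) (M : Subgroup G) : (M.relIndex P).Coprime P.index :=
  h.cop.coprime_dvd_left (Subgroup.relIndex_dvd_card M P)

theorem PS.EC_inf (h : PS P K p) {e : G} (he : e ∈ EE P) (hc : e ∈ CC P) : e ∈ L P 1 :=
  inf_NZ_le (N := P) (K := L P 1) le_rfl h.cyc (h.relcop _) (Subgroup.mem_sup_left he) hc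

theorem PS.exists_EC (h : PS P K p) {x : G} (hx : x ∈ P) : ∃ e ∈ EE P, ∃ c ∈ CC P, x = e * c := by
  obtain ⟨e, he, c, hc, hx⟩ := exists_NZ_mul (L_le P 1) le_rfl h.cyc (h.relcop _) hx
  have : ⁅P, (⊤ : Subgroup G)⁆ ⊔ L P 1 = EE P := sup_of_le_left L1_le_EE
  rw [this] at he
  exact ⟨e, he, c, hc, hx⟩

theorem PS.fpE (h : PS P K p) {e g : G} (he : e ∈ EE P) (hg : g ∉ P) (hc : ⁅g, e⁆ ∈ L P 1) :
    e ∈ L P 1 := by
  refine h.EC_inf he (mem_CC.2 ⟨EE_le he, fun g' => ?_⟩)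
  exact h.zl le_rfl (L_le P 1) (EE_le he) hg (comm_swap_mem hc) g'

theorem PS.ontoE (h : PS P K p) {M : Subgroup G} (hME : M ≤ EE P) {g : G}
    (hg : g ∉ P) (hgM : ∀ m ∈ M, g * m * g⁻¹ ∈ M) {m : G} (hm : m ∈ M) :
    ∃ m' ∈ M, (g * m' * g⁻¹ * m'⁻¹)⁻¹ * m ∈ L P 1 := by
  have hMP : M ≤ P := hME.trans EE_le
  refine exists_comm_mul (Subgroup.commutator_mono hMP hMP) hgM ?_ hm
  intro m hm hc
  exact h.fpE (hME hm) hg (by rw [commutatorElement_def]; exact hc)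

theorem PS.E_ne (h : PS P K p) : ∃ e ∈ EE P, e ∉ L P 1 := by
  obtain ⟨x, hx, hxK⟩ := SetLike.exists_of_lt h.hF.lt
  obtain ⟨g, hg⟩ : ∃ g, g ∉ P := by
    by_contra hcon
    push Not at hcon
    exact h.hF.ne_top (eq_top_iff.2 fun g _ => hcon g)
  refine ⟨⁅g, x⁆, mem_EE' hx, fun hc => hxK (h.hF.fpf g hg x hx ?_)⟩
  rw [← commutatorElement_def]
  exact h.L1_le_K hc

theorem over_nonlin {n : ℕ} (hn : 1 ≤ n) {ν : L P n →* ℂˣ} (hν1 : ν ≠ 1) {ω : P → ℂ}
    (hω : IsIrrCharacter P ω) (ho : Over (Subgroup.inclusion (L_le P n)) ω (lf ν)) :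
    charDegree ω ≠ 1 :=
  nonlin_of_over (L_le P n) (L_anti P hn) hω (isIrr_lf ν) (lf_ne_one hν1) ho

theorem P_le_stab {n : ℕ} {ν : L P n →* ℂˣ} (hν : ∀ k ∈ L P (n + 1), ev ν k = 1) :
    P ≤ stab (lf ν : L P n → ℂ) := fun _ hx => mem_stab_iff.2 (P_fix hν hx)

/-- Elements of `stab ω` fix `ν`, for `ω` over `ν ∈ Lin(γ_n / γ_{n+1})`. -/
theorem stab_le_nu {n : ℕ} {ν : L P n →* ℂˣ} (hν : ∀ k ∈ L P (n + 1), ev ν k = 1) {ω : P → ℂ}
    (hω : IsIrrCharacter P ω) (ho : Over (Subgroup.inclusion (L_le P n)) ω (lf ν)) :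
    stab ω ≤ stab (lf ν : L P n → ℂ) := fun g hg =>
  stab_of_inv (L_le P n) (P_le_stab hν) (isIrr_lf ν) hω ho hg (mem_nrm _ g)

theorem PS.out (h : PS P K p) {n : ℕ} (hn : 1 ≤ n) {ν : L P n →* ℂˣ} (hν1 : ν ≠ 1) {ω : P → ℂ}
    (hω : IsIrrCharacter P ω) (ho : Over (Subgroup.inclusion (L_le P n)) ω (lf ν)) :
    ∃ g ∈ stab ω, g ∉ P :=
  out_omega h.anti h.cyc h.f h.hF.ne_top hω (over_nonlin hn hν1 hω ho)

theorem PS.exists_fix (h : PS P K p) {n : ℕ} (hn : 1 ≤ n) {ν : L P n →* ℂˣ} (hν1 : ν ≠ 1)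
    (hν : ∀ k ∈ L P (n + 1), ev ν k = 1) : ∃ g, g ∉ P ∧ cl g ν = ν := by
  obtain ⟨ω, hω, ho⟩ := exists_over_incl (L_le P n) (isIrr_lf ν)
  obtain ⟨g, hg, hgP⟩ := h.out hn hν1 hω ho
  exact ⟨g, hgP, mem_stab_iff.1 (stab_le_nu hν hω ho hg)⟩

/-- Extracting a linear character of `Z` below `ω`, above `δ`. -/
theorem exists_lin_under {B Z T : Subgroup G} (hBZ : B ≤ Z) (hZT : Z ≤ T) {δ : B →* ℂˣ}
    (hδ : T ≤ stab (lf δ : B → ℂ)) (hZZ : ⁅Z, Z⁆ ≤ B) (hδ1 : ∀ z ∈ ⁅Z, Z⁆, ev δ z = 1) {ω : T → ℂ}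
    (hω : IsIrrCharacter T ω) (ho : Over (Subgroup.inclusion (hBZ.trans hZT)) ω (lf δ)) :
    ∃ l : Z →* ℂˣ, Over (Subgroup.inclusion hZT) ω (lf l) ∧ ∀ b ∈ B, ev l b = ev δ b := by
  obtain ⟨θ, hθ, hθo⟩ := exists_under (f := Subgroup.inclusion hZT) hω
  obtain ⟨δ', hδ', hδo⟩ := exists_under (f := Subgroup.inclusion hBZ) hθ
  have h1 := over_trans hBZ hZT hω hθ hδ' hθo hδo
  obtain ⟨t, ht, h2⟩ := exists_tw_of_over (hBZ.trans hZT) (hδ.trans (stab_le _)) hω (isIrr_lf δ)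
    hδ' ho h1
  rw [(hδ ht).2] at h2
  subst h2
  have hZst : Z ≤ stab (lf δ : B → ℂ) := hZT.trans hδ
  have h3 := res_lin hBZ hZst hθ hδo
  have hd : charDegree θ = 1 := by
    refine lin_of_comm (H := ⁅Z, Z⁆) (hZZ.trans hBZ) le_rfl hθ ?_
    intro k
    have h4 := h3 ⟨k, hZZ k.2⟩
    rw [← ev_coe, hδ1 _ k.2, Units.val_one, mul_one] at h4
    exact h4
  obtain ⟨l, rfl⟩ := exists_hom_of_degree_one hθ hd
  refine ⟨l, hθo, fun b hb => ?_⟩
  have h4 := h3 ⟨b, hb⟩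
  have h5 : ((l ⟨b, hBZ hb⟩ : ℂˣ) : ℂ) = lf l 1 * (δ ⟨b, hb⟩ : ℂ) := h4
  rw [lf_apply, map_one, Units.val_one, one_mul] at h5
  rw [ev_of_mem l (hBZ hb), ev_of_mem δ hb]
  exact Units.ext h5

/-- Vanishing of a commutator pairing, from an element acting without fixed points on one side. -/
theorem pair_fix {D : Subgroup G} [hD : D.Normal] {δ : D →* ℂˣ} {A B0 : Subgroup G} {g c : G}
    (hg : cl g δ = δ) (hA : ∀ a ∈ A, cl a δ = δ) (hAc : ∀ a ∈ A, ⁅a, c⁆ ∈ D)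
    (hgA : ∀ a ∈ A, g * a * g⁻¹ ∈ A)
    (hc : ∀ a ∈ A, ev δ ⁅a, g * c * g⁻¹⁆ = ev δ ⁅a, c⁆) (hB0A : B0 ≤ A)
    (hB0 : ∀ b ∈ B0, ev δ ⁅b, c⁆ = 1)
    (honto : ∀ a ∈ A, ∃ a' ∈ A, (g * a' * g⁻¹ * a'⁻¹)⁻¹ * a ∈ B0) : ∀ a ∈ A, ev δ ⁅a, c⁆ = 1 := by
  intro a ha
  obtain ⟨a', ha', hb⟩ := honto a ha
  have h1 : g * a' * g⁻¹ ∈ A := hgA a' ha'
  have h2 : a'⁻¹ ∈ A := A.inv_mem ha'
  have e : a = (g * a' * g⁻¹) * (a'⁻¹ * ((g * a' * g⁻¹ * a'⁻¹)⁻¹ * a)) := by group
  have h3 : (g * a' * g⁻¹ * a'⁻¹)⁻¹ * a ∈ A := hB0A hb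
  have hm : a'⁻¹ * ((g * a' * g⁻¹ * a'⁻¹)⁻¹ * a) ∈ A := A.mul_mem h2 h3
  rw [e, ev_comm_mul_left (hA _ h1) (hAc _ h1) (hAc _ hm),
    ev_comm_mul_left (hA _ h2) (hAc _ h2) (hAc _ h3), hB0 _ hb, mul_one]
  have h4 := ev_comm_conj hg (hAc a' ha')
  rw [hc _ h1] at h4
  have h5 : ev δ ⁅a' * a'⁻¹, c⁆ = 1 := by
    rw [mul_inv_cancel, commutatorElement_one_left, ev_one]
  rw [ev_comm_mul_left (hA _ ha') (hAc _ ha') (hAc _ h2)] at h5
  rw [h4]
  exact h5

/-- Vanishing of a commutator pairing between a group containing elements outside `P` and a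
subgroup of `P`. -/
theorem PS.pair_coprime (h : PS P K p) {D : Subgroup G} [hD : D.Normal] {δ : D →* ℂˣ}
    {A B : Subgroup G} (hA : ∀ a ∈ A, cl a δ = δ) (hB : ∀ b ∈ B, cl b δ = δ) (hBP : B ≤ P)
    (hAB : ∀ a ∈ A, ∀ b ∈ B, ⁅a, b⁆ ∈ D)
    (hP1 : ∀ a ∈ A, a ∈ P → ∀ b ∈ B, ev δ ⁅a, b⁆ = 1) : ∀ a ∈ A, ∀ b ∈ B, ev δ ⁅a, b⁆ = 1 := by
  intro a ha b hb
  let φ := cpair A B δ hAB hA hB
  have hφ : ∀ (a : A) (b : B), φ a b = ev δ ⁅(a : G), (b : G)⁆ := fun _ _ => rfl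
  have e1 : (ev δ ⁅a, b⁆) ^ P.index = 1 := by
    have h1 : φ ((⟨a, ha⟩ : A) ^ P.index) ⟨b, hb⟩ = (ev δ ⁅a, b⁆) ^ P.index := by
      rw [map_pow]; rfl
    rw [← h1, hφ]
    exact hP1 _ (A.pow_mem ha _) (Subgroup.pow_index_mem P a) b hb
  have e2 : (ev δ ⁅a, b⁆) ^ Nat.card P = 1 := by
    have h1 : φ ⟨a, ha⟩ ((⟨b, hb⟩ : B) ^ Nat.card P) = (ev δ ⁅a, b⁆) ^ Nat.card P := by
      rw [map_pow]; rfl
    rw [← h1]
    have h2 : (⟨b, hb⟩ : B) ^ Nat.card P = 1 := by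
      apply Subtype.ext
      change b ^ Nat.card P = 1
      have := congrArg Subtype.val (pow_card_eq_one' (x := (⟨b, hBP hb⟩ : P)))
      exact this
    rw [h2, map_one]
  exact coprime_eq_one e2 e1 h.cop

end ps

end Cfsg.Agent.H675.Nd
end

-- part: H675/Nd/PG3
section
/-!
# The Sylow subgroup: the second term of the lower central series
-/

set_option autoImplicit false
set_option linter.style.haveILetI false
set_option linter.unusedSectionVars false
open Cfsg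

namespace Cfsg.Agent.H675.Nd

open Cfsg.Agent.Characters.Core Cfsg.Agent.Characters.Clifford Cfsg.Agent.H672 Cfsg.Agent.H672.RM
open Cfsg.Agent.H597.FrobA
open scoped commutatorElement

universe u v w

section rd

variable {G : Type u} [Group G] {D : Subgroup G} [hD : D.Normal]

/-- The annihilator in `A` of `B` for the pairing given by `δ`. -/
def rd (A B : Subgroup G) (δ : D →* ℂˣ) (hA : ∀ a ∈ A, cl a δ = δ)
    (hAB : ∀ a ∈ A, ∀ b ∈ B, ⁅a, b⁆ ∈ D) : Subgroup G where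
  carrier := {a | a ∈ A ∧ ∀ b ∈ B, ev δ ⁅a, b⁆ = 1}
  one_mem' := ⟨A.one_mem, fun b _ => by rw [commutatorElement_one_left, ev_one]⟩
  mul_mem' := fun {a a'} ha ha' => by
    refine ⟨A.mul_mem ha.1 ha'.1, fun b hb => ?_⟩
    rw [ev_comm_mul_left (hA a ha.1) (hAB a ha.1 b hb) (hAB a' ha'.1 b hb), ha.2 b hb, ha'.2 b hb,
      one_mul]
  inv_mem' := fun {a} ha => by
    refine ⟨A.inv_mem ha.1, fun b hb => ?_⟩
    have h1 : ev δ ⁅a * a⁻¹, b⁆ = 1 := by
      rw [mul_inv_cancel, commutatorElement_one_left, ev_one]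
    rw [ev_comm_mul_left (hA a ha.1) (hAB a ha.1 b hb) (hAB _ (A.inv_mem ha.1) b hb), ha.2 b hb,
      one_mul] at h1
    exact h1

variable {A B : Subgroup G} {δ : D →* ℂˣ} {hA : ∀ a ∈ A, cl a δ = δ}
  {hAB : ∀ a ∈ A, ∀ b ∈ B, ⁅a, b⁆ ∈ D}

theorem mem_rd {a : G} : a ∈ rd A B δ hA hAB ↔ a ∈ A ∧ ∀ b ∈ B, ev δ ⁅a, b⁆ = 1 := Iff.rfl

theorem rd_le : rd A B δ hA hAB ≤ A := fun _ h => h.1

theorem rd_relIndex (hB : ∀ b ∈ B, cl b δ = δ) :
    (rd A B δ hA hAB).relIndex A = (cpair A B δ hAB hA hB).ker.index := by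
  have e : (cpair A B δ hAB hA hB).ker = (rd A B δ hA hAB).subgroupOf A := by
    ext a
    rw [MonoidHom.mem_ker, Subgroup.mem_subgroupOf, mem_rd]
    constructor
    · intro h
      exact ⟨a.2, fun b hb => DFunLike.congr_fun h ⟨b, hb⟩⟩
    · intro h
      apply MonoidHom.ext
      intro b
      exact h.2 b b.2
  rw [e]
  rfl

theorem rd_dual [Finite G] (hB : ∀ b ∈ B, cl b δ = δ) (hBA : ∀ b ∈ B, ∀ a ∈ A, ⁅b, a⁆ ∈ D) :
    (rd A B δ hA hAB).relIndex A = (rd B A δ hB hBA).relIndex B := by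
  rw [rd_relIndex hB, rd_relIndex hA, card_pair]
  congr 1
  ext b
  rw [MonoidHom.mem_ker, MonoidHom.mem_ker]
  constructor
  · intro h
    apply MonoidHom.ext
    intro a
    have h1 : ev δ ⁅(a : G), (b : G)⁆ = 1 := DFunLike.congr_fun h a
    change ev δ ⁅(b : G), (a : G)⁆ = 1
    rw [ev_comm_swap δ (hAB a a.2 b b.2), h1, inv_one]
  · intro h
    apply MonoidHom.ext
    intro a
    have h1 : ev δ ⁅(b : G), (a : G)⁆ = 1 := DFunLike.congr_fun h a
    change ev δ ⁅(a : G), (b : G)⁆ = 1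
    rw [ev_comm_swap δ (hBA b b.2 a a.2), h1, inv_one]

theorem mem_nrm_of {S : Subgroup G} {g : G} (h1 : ∀ x ∈ S, g * x * g⁻¹ ∈ S)
    (h2 : ∀ x ∈ S, g⁻¹ * x * g ∈ S) : g ∈ Subgroup.normalizer (S : Set G) := by
  rw [Subgroup.mem_normalizer_iff]
  intro x
  refine ⟨h1 x, fun h => ?_⟩
  have := h2 _ h
  have e : g⁻¹ * (g * x * g⁻¹) * g = x := by group
  rwa [e] at this

theorem cl_inv_fix {g : G} (h : cl g δ = δ) : cl g⁻¹ δ = δ := fix_inv_iff.2 h

theorem rd_conj {g : G} (hgA : g ∈ Subgroup.normalizer (A : Set G))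
    (hgB : g ∈ Subgroup.normalizer (B : Set G)) (hg : cl g δ = δ) :
    ∀ x ∈ rd A B δ hA hAB, g * x * g⁻¹ ∈ rd A B δ hA hAB := by
  intro x hx
  refine ⟨conj_mem_of_mem hgA ⟨x, hx.1⟩, fun b hb => ?_⟩
  have h1 : g⁻¹ * b * g⁻¹⁻¹ ∈ B := conj_mem_of_mem (Subgroup.inv_mem _ hgB) ⟨b, hb⟩
  rw [inv_inv] at h1
  have e : b = g * (g⁻¹ * b * g) * g⁻¹ := by group
  rw [e, ev_comm_conj hg (hAB x hx.1 _ h1), hx.2 _ h1]

theorem rd_nrm {g : G} (hgA : g ∈ Subgroup.normalizer (A : Set G))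
    (hgB : g ∈ Subgroup.normalizer (B : Set G)) (hg : cl g δ = δ) :
    g ∈ Subgroup.normalizer ((rd A B δ hA hAB : Subgroup G) : Set G) := by
  refine mem_nrm_of (rd_conj hgA hgB hg) ?_
  have h1 := rd_conj (hA := hA) (hAB := hAB) (Subgroup.inv_mem _ hgA) (Subgroup.inv_mem _ hgB)
    (cl_inv_fix hg)
  intro x hx
  have := h1 x hx
  rwa [inv_inv] at this

theorem mem_nrm_inf {S T : Subgroup G} {g : G} (h1 : g ∈ Subgroup.normalizer (S : Set G))
    (h2 : g ∈ Subgroup.normalizer (T : Set G)) :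
    g ∈ Subgroup.normalizer ((S ⊓ T : Subgroup G) : Set G) := by
  rw [Subgroup.mem_normalizer_iff] at h1 h2 ⊢
  intro x
  rw [Subgroup.mem_inf, Subgroup.mem_inf, ← h1 x, ← h2 x]

theorem ev_comm_sub {S T D : Subgroup G} {δ : D →* ℂˣ} (hST : ⁅S, T⁆ ≤ D)
    (h : ∀ a ∈ S, ∀ b ∈ T, ev δ ⁅a, b⁆ = 1) : ∀ z ∈ ⁅S, T⁆, ev δ z = 1 := by
  have h2 : ⁅S, T⁆ ≤ (δ.ker).map D.subtype := by
    rw [Subgroup.commutator_le]
    intro a ha b hb
    have hm : ⁅a, b⁆ ∈ D := hST (Subgroup.commutator_mem_commutator ha hb)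
    refine ⟨⟨⁅a, b⁆, hm⟩, ?_, rfl⟩
    rw [SetLike.mem_coe, MonoidHom.mem_ker, ← ev_of_mem δ hm]
    exact h a ha b hb
  intro z hz
  obtain ⟨y, hy, rfl⟩ := h2 hz
  rw [SetLike.mem_coe, MonoidHom.mem_ker] at hy
  rw [← hy]
  exact ev_of_mem δ y.2

end rd

section lev2

variable {G : Type u} [Group G] [Finite G] {P K : Subgroup G} [hP : P.Normal] [hK : K.Normal]
  {p : ℕ} {ν : L P 1 →* ℂˣ}

/-- The radical of the form on `P` given by `ν ∈ Lin(γ₂/γ₃)`. -/
def Zn (ν : L P 1 →* ℂˣ) (hν : ∀ k ∈ L P 2, ev ν k = 1) : Subgroup G :=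
  rd P P ν (fun _ ha => P_fix hν ha) (fun _ ha _ hb => mem_L_one P ha hb)

theorem mem_Zn {hν : ∀ k ∈ L P 2, ev ν k = 1} {x : G} :
    x ∈ Zn ν hν ↔ x ∈ P ∧ ∀ y ∈ P, ev ν ⁅x, y⁆ = 1 := Iff.rfl

theorem Zn_le {hν : ∀ k ∈ L P 2, ev ν k = 1} : Zn ν hν ≤ P := fun _ h => h.1

theorem L1_le_Zn {hν : ∀ k ∈ L P 2, ev ν k = 1} : L P 1 ≤ Zn ν hν := fun _ hx =>
  ⟨L_le P 1 hx, fun _ hy => hν _ (mem_L_succ P hx hy)⟩

theorem Zn_nrm {hν : ∀ k ∈ L P 2, ev ν k = 1} :
    stab (lf ν : L P 1 → ℂ) ≤ Subgroup.normalizer (Zn ν hν : Set G) := fun g hg =>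
  rd_nrm (mem_nrm P g) (mem_nrm P g) (mem_stab_iff.1 hg)

theorem Zn_st {hν : ∀ k ∈ L P 2, ev ν k = 1} {l : Zn ν hν →* ℂˣ}
    (hl : ∀ b ∈ L P 1, ev l b = ev ν b) : P ≤ stab (lf l : Zn ν hν → ℂ) := by
  intro x hx
  rw [mem_stab_ev]
  refine ⟨Zn_nrm (P_le_stab hν hx), fun d hd => ?_⟩
  have e : x * d * x⁻¹ = ⁅x, d⁆ * d := by rw [commutatorElement_def]; group
  have hm : ⁅x, d⁆ ∈ L P 1 := mem_L_one P hx hd.1
  rw [e, ev_mul l (L1_le_Zn hm) hd, hl _ hm, ev_comm_swap ν (comm_swap_mem hm), hd.2 x hx, inv_one,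
    one_mul]

theorem Zn_FR {hν : ∀ k ∈ L P 2, ev ν k = 1} {l : Zn ν hν →* ℂˣ}
    (hl : ∀ b ∈ L P 1, ev l b = ev ν b) : FR (Zn ν hν) P l := by
  refine ⟨Zn_le, Zn_st hl, fun x hx hxZ => ?_⟩
  by_contra hcon
  push Not at hcon
  apply hxZ
  refine ⟨hx, fun y hy => ?_⟩
  have hm : ⁅y, x⁆ ∈ L P 1 := mem_L_one P hy hx
  rw [ev_comm_swap ν hm, ← hl _ hm, hcon y hy (L1_le_Zn hm), inv_one]

theorem Zn_ZZ {hν : ∀ k ∈ L P 2, ev ν k = 1} : ∀ z ∈ ⁅Zn ν hν, Zn ν hν⁆, ev ν z = 1 :=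
  ev_comm_sub (Subgroup.commutator_mono Zn_le Zn_le) fun _ ha _ hb => ha.2 _ hb.1

/-- A linear character of `Z_ν` below `ω`. -/
theorem exists_lam {hν : ∀ k ∈ L P 2, ev ν k = 1} {ω : P → ℂ} (hω : IsIrrCharacter P ω)
    (ho : Over (Subgroup.inclusion (L_le P 1)) ω (lf ν)) :
    ∃ l : Zn ν hν →* ℂˣ, Over (Subgroup.inclusion Zn_le) ω (lf l) ∧
      ∀ b ∈ L P 1, ev l b = ev ν b :=
  exists_lin_under L1_le_Zn Zn_le (P_le_stab hν) (Subgroup.commutator_mono Zn_le Zn_le)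
    Zn_ZZ hω ho

theorem deg_nu {hν : ∀ k ∈ L P 2, ev ν k = 1} {ω : P → ℂ} (hω : IsIrrCharacter P ω)
    (ho : Over (Subgroup.inclusion (L_le P 1)) ω (lf ν)) :
    (charDegree ω) ^ 2 = (Zn ν hν).relIndex P := by
  obtain ⟨l, hl, hl'⟩ := exists_lam (hν := hν) hω ho
  exact (Zn_FR hl').deg hω hl

theorem PS.Zn_inf (h : PS P K p) {hν : ∀ k ∈ L P 2, ev ν k = 1} (hν1 : ν ≠ 1) :
    Zn ν hν ⊓ EE P ≤ L P 1 := by
  have hZP : Zn ν hν ⊓ EE P ≤ P := inf_le_left.trans Zn_le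
  have hBZ : L P 1 ≤ Zn ν hν ⊓ EE P := le_inf L1_le_Zn L1_le_EE
  have hnrm : stab (lf ν : L P 1 → ℂ) ≤
      Subgroup.normalizer ((Zn ν hν ⊓ EE P : Subgroup G) : Set G) := fun g hg =>
    mem_nrm_inf (Zn_nrm hg) (mem_nrm _ g)
  have hst : ∀ l : (Zn ν hν ⊓ EE P : Subgroup G) →* ℂˣ,
      (∀ b : L P 1, l (Subgroup.inclusion hBZ b) = ν b) →
      P ≤ stab (lf l : (Zn ν hν ⊓ EE P : Subgroup G) → ℂ) := by
    intro l hl x hx
    rw [mem_stab_ev]
    refine ⟨hnrm (P_le_stab hν hx), fun d hd => ?_⟩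
    have e : x * d * x⁻¹ = ⁅x, d⁆ * d := by rw [commutatorElement_def]; group
    have hm : ⁅x, d⁆ ∈ L P 1 := mem_L_one P hx hd.1.1
    have h1 : ev l ⁅x, d⁆ = ev ν ⁅x, d⁆ := by
      rw [ev_of_mem l (hBZ hm), ev_of_mem ν hm]
      exact hl ⟨_, hm⟩
    rw [e, ev_mul l (hBZ hm) hd, h1, ev_comm_swap ν (comm_swap_mem hm), hd.1.2 x hx, inv_one,
      one_mul]
  refine rad_le (Q := P) (D := stab (lf ν : L P 1 → ℂ)) hBZ ν le_rfl hnrm
    (fun a _ b _ => cyc_comm h.cyc a b) (Subgroup.commutator_mono hZP hZP) ?_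
    (fun l hl g hg => hst l hl hg) ?_ ?_
  · intro z hz
    exact (ev_of_mem ν _).symm.trans
      (Zn_ZZ (hν := hν) z (Subgroup.commutator_mono inf_le_left inf_le_left hz))
  · intro l hl
    obtain ⟨ω, hω, ho⟩ := exists_over_incl hZP (isIrr_lf l)
    have ho' : Over (Subgroup.inclusion (L_le P 1)) ω (lf ν) :=
      over_trans hBZ hZP hω (isIrr_lf l) (isIrr_lf ν) ho (over_of_ext hBZ (isIrr_lf ν)
        fun k => congrArg Units.val (hl k))
    obtain ⟨g, hg, hgP⟩ := h.out le_rfl hν1 hω ho'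
    have hgν := stab_le_nu hν hω ho' hg
    exact ⟨g, hgν, hgP, stab_of_inv hZP (hst l hl) (isIrr_lf l) hω ho hg (hnrm hgν)⟩
  · intro g _ hgP z hz hc
    exact h.fpE hz.2 hgP (by rw [commutatorElement_def]; exact hc)

theorem PS.Zn_le_CC (h : PS P K p) {hν : ∀ k ∈ L P 2, ev ν k = 1} (hν1 : ν ≠ 1) :
    Zn ν hν ≤ CC P := by
  obtain ⟨g, hgP, hg⟩ := h.exists_fix le_rfl hν1 hν
  intro z hz
  have h1 : g * z⁻¹ * g⁻¹ ∈ Zn ν hν :=
    conj_mem_of_mem (Zn_nrm (mem_stab_iff.2 hg)) ⟨z⁻¹, Subgroup.inv_mem _ hz⟩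
  have h2 : ⁅z, g⁆ ∈ Zn ν hν := by
    have e : ⁅z, g⁆ = z * (g * z⁻¹ * g⁻¹) := by rw [commutatorElement_def]; group
    rw [e]
    exact Subgroup.mul_mem _ hz h1
  exact mem_CC.2 ⟨hz.1, h.zl le_rfl (L_le P 1) hz.1 hgP (h.Zn_inf hν1 ⟨h2, mem_EE hz.1⟩)⟩

/-- `ν([E, C]) = 1`. -/
theorem PS.ev_EC (h : PS P K p) (hν : ∀ k ∈ L P 2, ev ν k = 1) {e c : G} (he : e ∈ EE P)
    (hc : c ∈ CC P) : ev ν ⁅e, c⁆ = 1 := by
  by_cases hν1 : ν = 1
  · rw [hν1, ev_hone]
  obtain ⟨g, hgP, hg⟩ := h.exists_fix le_rfl hν1 hν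
  obtain ⟨d, hd, hgc⟩ := CC_conj hc g
  refine pair_fix (A := EE P) (B0 := L P 1) hg (fun a ha => P_fix hν (EE_le ha))
    (fun a ha => mem_L_one P (EE_le ha) (CC_le hc)) (fun a ha => (EE_normal).conj_mem a ha g) ?_
    L1_le_EE (fun b hb => hν _ (mem_L_succ P hb (CC_le hc)))
    (fun a ha => h.ontoE le_rfl hgP (fun m hm => (EE_normal).conj_mem m hm g) ha) e he
  intro a ha
  have h1 := mem_L_succ' P (EE_le ha) hd
  rw [hgc, ev_comm_mul_right (P_fix hν (CC_le hc)) (mem_L_one P (EE_le ha) (CC_le hc))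
    (L_anti P (Nat.le_succ 1) h1), hν _ h1, mul_one]

theorem PS.stab_nu (h : PS P K p) {hν : ∀ k ∈ L P 2, ev ν k = 1} (hν1 : ν ≠ 1) {ω : P → ℂ}
    (hω : IsIrrCharacter P ω) (ho : Over (Subgroup.inclusion (L_le P 1)) ω (lf ν)) :
    stab ω = stab (lf ν : L P 1 → ℂ) := by
  refine le_antisymm (stab_le_nu hν hω ho) ?_
  obtain ⟨l, hl, hl'⟩ := exists_lam (hν := hν) hω ho
  intro g hg
  refine (Zn_FR hl').stab hω hl ?_ (mem_nrm P g)
  have hm : ∀ a ∈ stab (lf ν : L P 1 → ℂ), ∀ b ∈ Zn ν hν, ⁅a, b⁆ ∈ L P 1 := fun a _ b hb =>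
    CC_comm' (h.Zn_le_CC hν1 hb) a
  have key := h.pair_coprime (δ := ν) (A := stab (lf ν : L P 1 → ℂ)) (B := Zn ν hν)
    (fun a ha => mem_stab_iff.1 ha) (fun b hb => P_fix hν hb.1) Zn_le hm (fun a _ haP b hb => by
      rw [ev_comm_swap ν (mem_L_one P hb.1 haP), hb.2 a haP, inv_one])
  rw [mem_stab_ev]
  refine ⟨Zn_nrm hg, fun d hd => ?_⟩
  have e : g * d * g⁻¹ = ⁅g, d⁆ * d := by rw [commutatorElement_def]; group
  rw [e, ev_mul l (L1_le_Zn (hm g hg d hd)) hd, hl' _ (hm g hg d hd), key g hg d hd, one_mul]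

end lev2

end Cfsg.Agent.H675.Nd
end

-- part: H675/Nd/PG4
section
/-!
# The Sylow subgroup: the dichotomy
-/

set_option autoImplicit false
set_option linter.style.haveILetI false
set_option linter.unusedSectionVars false
open Cfsg

namespace Cfsg.Agent.H675.Nd

open Cfsg.Agent.Characters.Core Cfsg.Agent.Characters.Clifford Cfsg.Agent.H672 Cfsg.Agent.H672.RM
open Cfsg.Agent.H597.FrobA
open scoped commutatorElement

universe u v w

section sep

variable {G : Type u} [Group G] [Finite G] {P K : Subgroup G} [hP : P.Normal] [hK : K.Normal]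
  {p : ℕ}

/-- Separation by linear characters. -/
theorem sep_L {n : ℕ} {x : G} (hx : x ∈ L P n)
    (h : ∀ ν : L P n →* ℂˣ, (∀ k ∈ L P (n + 1), ev ν k = 1) → ev ν x = 1) : x ∈ L P (n + 1) := by
  by_contra hcon
  obtain ⟨ν, hν, hν'⟩ := exists_LK_ne (N := L P n) (K := L P (n + 1)) (L_anti P (Nat.le_succ n))
    ((comm_L P n n).trans (L_anti P (by omega))) hx hcon
  apply hν'
  rw [← ev_of_mem ν hx]
  exact h ν ((mem_LK_ev (L_anti P (Nat.le_succ n))).1 hν)

theorem sep_le {M : Subgroup G} (hM : M ≤ L P 1) (hMM : L P 2 ≤ M)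
    (h : ∀ ν : L P 1 →* ℂˣ, (∀ k ∈ L P 2, ev ν k = 1) → (∀ k ∈ M, ev ν k = 1) → ν = 1) :
    L P 1 ≤ M := by
  intro x hx
  by_contra hcon
  have h1 : ⁅L P 1, L P 1⁆ ≤ M := ((comm_L P 1 1).trans (L_anti P (by omega))).trans hMM
  obtain ⟨β, hβ, hβ'⟩ := exists_lin_ne (x := (⟨x, hx⟩ : L P 1)) hM h1 hcon
  have h2 : ∀ k ∈ M, ev β k = 1 := by
    intro k hk
    rw [ev_of_mem β (hM hk)]
    exact hβ ⟨k, hk⟩
  apply hβ'
  rw [h β (fun k hk => h2 k (hMM hk)) h2]
  rfl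

/-- If there is no nontrivial character at level `n`, the series stops. -/
theorem PS.L_bot (h : PS P K p) {n : ℕ}
    (hn : ∀ ν : L P n →* ℂˣ, (∀ k ∈ L P (n + 1), ev ν k = 1) → ν = 1) : L P n = ⊥ := by
  haveI := Fact.mk h.pr
  have h1 : L P n = L P (n + 1) := by
    refine le_antisymm (fun x hx => sep_L hx fun ν hν => ?_) (L_anti P (Nat.le_succ n))
    rw [hn ν hν, ev_hone]
  have h2 : ∀ m, L P (n + m) = L P n := by
    intro m
    induction m with
    | zero => rfl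
    | succ m ih =>
      have : L P (n + (m + 1)) = ⁅L P (n + m), P⁆ := rfl
      rw [this, ih]
      exact h1.symm
  have h3 : Group.IsNilpotent P := h.pg.isNilpotent
  obtain ⟨m, hm⟩ := (Subgroup.isNilpotent_iff_lowerCentralSeries P).1 h3
  have h4 : L P (n + m) ≤ L P m := L_anti P (by omega)
  rw [h2] at h4
  rw [eq_bot_iff]
  exact h4.trans hm.le

/-- A nonlinear character of `P` lies over a nontrivial character of some level. -/
theorem PS.exists_level (h : PS P K p) {ω : P → ℂ} (hω : IsIrrCharacter P ω)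
    (h1 : charDegree ω ≠ 1) : ∃ n, 1 ≤ n ∧ ∃ ν : L P n →* ℂˣ, ν ≠ 1 ∧
      (∀ k ∈ L P (n + 1), ev ν k = 1) ∧ Over (Subgroup.inclusion (L_le P n)) ω (lf ν) := by
  classical
  haveI := Fact.mk h.pr
  have h3 : Group.IsNilpotent P := h.pg.isNilpotent
  obtain ⟨m, hm⟩ := (Subgroup.isNilpotent_iff_lowerCentralSeries P).1 h3
  let Q : ℕ → Prop := fun n => ∀ k : L P n, ω (Subgroup.inclusion (L_le P n) k) = ω 1
  have hQ : ∃ n, Q n := by
    refine ⟨m, ?_⟩
    rintro ⟨k, hk⟩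
    have hk' : k ∈ P.lowerCentralSeries m := hk
    rw [hm, Subgroup.mem_bot] at hk'
    subst hk'
    rfl
  have hn := Nat.find_spec hQ
  have hmin : ∀ j, j < Nat.find hQ → ¬ Q j := fun j hj => Nat.find_min hQ hj
  set N := Nat.find hQ with hN
  have hN0 : N ≠ 0 := by
    intro e
    rw [e] at hn
    apply h1
    refine lin_of_comm (H := L P 1) (L_le P 1) le_rfl hω ?_
    intro k
    exact hn ⟨k, L_le P 1 k.2⟩
  have hN1 : N ≠ 1 := by
    intro e
    rw [e] at hn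
    exact h1 (lin_of_comm (H := L P 1) (L_le P 1) le_rfl hω hn)
  obtain ⟨n, hnN⟩ : ∃ n, N = n + 1 := ⟨N - 1, by omega⟩
  rw [hnN] at hn
  have hn1 : 1 ≤ n := by omega
  obtain ⟨θ, hθ, ho⟩ := exists_under (f := Subgroup.inclusion (L_le P n)) hω
  have hθ1 : ∀ k : L P (n + 1), θ (Subgroup.inclusion (L_anti P (Nat.le_succ n)) k) = θ 1 := by
    have h4 : Over (Subgroup.inclusion (L_le P (n + 1))) ω 1 :=
      (over_one_iff (L_le P (n + 1)) (le_nrm _ _) hω).2 hn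
    obtain ⟨τ, hτ, hτo⟩ := exists_under
      (f := Subgroup.inclusion (L_anti P (Nat.le_succ n) : L P (n + 1) ≤ L P n)) hθ
    have h5 := over_trans (L_anti P (Nat.le_succ n)) (L_le P n) hω hθ hτ ho hτo
    obtain ⟨t, ht, h6⟩ := exists_tw_of_over (L_le P (n + 1)) (le_nrm _ _) hω isIrr_one hτ h4 h5
    have h7 : τ = 1 := by
      rw [h6]
      funext k
      rw [tw_apply (mem_nrm _ t)]
      rfl
    rw [h7] at hτo
    exact (over_one_iff (L_anti P (Nat.le_succ n)) (le_nrm _ _) hθ).1 hτo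
  have hθd : charDegree θ = 1 :=
    lin_of_comm (H := L P (n + 1)) (L_anti P (Nat.le_succ n))
      ((comm_L P n n).trans (L_anti P (by omega))) hθ hθ1
  obtain ⟨ν, rfl⟩ := exists_hom_of_degree_one hθ hθd
  refine ⟨n, hn1, ν, ?_, ?_, ho⟩
  · rintro rfl
    apply hmin n (by omega)
    exact (over_one_iff (L_le P n) (le_nrm _ _) hω).1 ho
  · intro k hk
    have h8 := hθ1 ⟨k, hk⟩
    have h9 : ((ν ⟨k, L_anti P (Nat.le_succ n) hk⟩ : ℂˣ) : ℂ) = ((ν 1 : ℂˣ) : ℂ) := h8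
    rw [map_one] at h9
    rw [ev_of_mem ν (L_anti P (Nat.le_succ n) hk)]
    exact Units.ext h9

/-- Without invariant characters at level `n`, every character is a quotient of conjugates. -/
theorem PS.surj (h : PS P K p) {n : ℕ}
    (hno : ∀ ν : L P n →* ℂˣ, (∀ k ∈ L P (n + 1), ev ν k = 1) → (∀ g, cl g ν = ν) → ν = 1)
    {ν : L P n →* ℂˣ} (hν : ∀ k ∈ L P (n + 1), ev ν k = 1) :
    ∃ (y : G) (ν' : L P n →* ℂˣ), (∀ k ∈ L P (n + 1), ev ν' k = 1) ∧ ν = cl y ν' * ν'⁻¹ := by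
  classical
  haveI := finite_lin (L P n)
  obtain ⟨y, hy⟩ := exists_gen h.cyc
  have hle : L P (n + 1) ≤ L P n := L_anti P (Nat.le_succ n)
  let Λ := LK (L P n) (L P (n + 1))
  have hΛ : ∀ l, l ∈ Λ ↔ ∀ k ∈ L P (n + 1), ev l k = 1 := fun l => mem_LK_ev hle
  let f : Λ → Λ := fun l => ⟨Df y l.1, Λ.mul_mem (cl_mem_LK y l.2) (Λ.inv_mem l.2)⟩
  have hf : Function.Injective f := by
    intro a b hab
    have h1 : Df y a.1 = Df y b.1 := congrArg Subtype.val hab
    have h3 : cl y (a.1 * b.1⁻¹) = a.1 * b.1⁻¹ := by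
      apply ev_ext
      intro d _
      have h6 := congrArg (fun l => ev l d) h1
      simp only [Df_apply, ev_hmul, ev_hinv] at h6
      rw [cl_hmul, cl_hinv, ev_hmul, ev_hmul, ev_hinv, ev_hinv, ← div_eq_mul_inv,
        ← div_eq_mul_inv, div_eq_div_iff_mul_eq_mul]
      rw [← div_eq_mul_inv, ← div_eq_mul_inv, div_eq_div_iff_mul_eq_mul] at h6
      rw [h6, mul_comm]
    have h4 : a.1 * b.1⁻¹ ∈ Λ := Λ.mul_mem a.2 (Λ.inv_mem b.2)
    have h5 : a.1 * b.1⁻¹ = 1 := by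
      refine hno _ ((hΛ _).1 h4) fun g => ?_
      rw [← mem_stab_iff]
      exact gen_top hy (P_le_stab ((hΛ _).1 h4)) (mem_stab_iff.2 h3) g
    exact Subtype.ext (lin_mul_inv_eq_one h5)
  obtain ⟨l, hl⟩ := Finite.surjective_of_injective hf ⟨ν, (hΛ ν).2 hν⟩
  refine ⟨y, l.1, (hΛ _).1 l.2, ?_⟩
  exact (congrArg Subtype.val hl).symm

theorem CC_conj_comm {c c' : G} (hc : c ∈ CC P) (hc' : c' ∈ CC P) (g : G) {ν : L P 1 →* ℂˣ}
    (hν : ∀ k ∈ L P 2, ev ν k = 1) : ev (cl g ν) ⁅c, c'⁆ = ev ν ⁅c, c'⁆ := by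
  have hm : ⁅c, c'⁆ ∈ L P 1 := CC_comm hc c'
  rw [ev_cl g ν hm]
  have e : g * ⁅c, c'⁆ * g⁻¹ = ⁅g * c * g⁻¹, g * c' * g⁻¹⁆ := by
    simp only [commutatorElement_def]; group
  obtain ⟨d, hd, hd'⟩ := CC_conj hc g
  obtain ⟨b, hb, hb'⟩ := CC_conj hc' g
  have h1 : ⁅c, b⁆ ∈ L P 2 := mem_L_succ' P (CC_le hc) hb
  have h2 : ⁅d, c' * b⁆ ∈ L P 2 := mem_L_succ P hd (P.mul_mem (CC_le hc') (L_le P 1 hb))
  have h12 : L P 2 ≤ L P 1 := L_anti P (by omega)
  have h3 : ⁅c, c' * b⁆ ∈ L P 1 := CC_comm hc _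
  rw [e, hd', hb', ev_comm_mul_left (P_fix hν (CC_le hc)) h3 (h12 h2), hν _ h2, mul_one,
    ev_comm_mul_right (P_fix hν (CC_le hc')) hm (h12 h1), hν _ h1, mul_one]

/-- elements of the radical, in terms of `C` -/
theorem PS.mem_Zn_CC (h : PS P K p) {ν : L P 1 →* ℂˣ} {hν : ∀ k ∈ L P 2, ev ν k = 1} {x : G}
    (hx : x ∈ CC P) : x ∈ Zn ν hν ↔ ∀ c ∈ CC P, ev ν ⁅x, c⁆ = 1 := by
  rw [mem_Zn]
  constructor
  · intro h1 c hc
    exact h1.2 c (CC_le hc)
  · intro h1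
    refine ⟨CC_le hx, fun y hy => ?_⟩
    obtain ⟨e, he, c, hc, rfl⟩ := h.exists_EC hy
    have h2 : ⁅e, x⁆ ∈ L P 1 := CC_comm' hx e
    rw [ev_comm_mul_right (P_fix hν (EE_le he)) (CC_comm hx e) (CC_comm hx c), h1 c hc, mul_one,
      ev_comm_swap ν h2, h.ev_EC hν he hx, inv_one]

/-- **Case I**: an invariant character at level `1` forces all of them to be invariant. -/
theorem PS.caseI_inv (h : PS P K p) {ν₁ : L P 1 →* ℂˣ} (hν₁ : ∀ k ∈ L P 2, ev ν₁ k = 1)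
    (hne : ν₁ ≠ 1) (hinv : ∀ g, cl g ν₁ = ν₁) {ν : L P 1 →* ℂˣ} (hν : ∀ k ∈ L P 2, ev ν k = 1)
    (g : G) : cl g ν = ν := by
  -- first, characters trivial on `[C, C]`
  have key : ∀ ν₀ : L P 1 →* ℂˣ, (∀ k ∈ L P 2, ev ν₀ k = 1) →
      (∀ c ∈ CC P, ∀ c' ∈ CC P, ev ν₀ ⁅c, c'⁆ = 1) → ∀ g, cl g ν₀ = ν₀ := by
    intro ν₀ hν₀ hC g
    by_cases h1 : ν₁ * ν₀ = 1
    · have e : ν₀ = ν₁⁻¹ := by
        apply ev_ext
        intro d _
        have h6 := congrArg (fun l => ev l d) h1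
        simp only [ev_hmul, ev_hone] at h6
        rw [ev_hinv]
        exact eq_inv_of_mul_eq_one_right h6
      rw [e, cl_hinv, hinv]
    · have hν' : ∀ k ∈ L P 2, ev (ν₁ * ν₀) k = 1 := by
        intro k hk
        rw [ev_hmul, hν₁ k hk, hν₀ k hk, one_mul]
      have hZ : Zn (ν₁ * ν₀) hν' = Zn ν₁ hν₁ := by
        ext x
        constructor
        · intro hx
          have hxC := h.Zn_le_CC h1 hx
          rw [h.mem_Zn_CC hxC] at hx ⊢
          intro c hc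
          have := hx c hc
          rwa [ev_hmul, hC x hxC c hc, mul_one] at this
        · intro hx
          have hxC := h.Zn_le_CC hne hx
          rw [h.mem_Zn_CC hxC] at hx ⊢
          intro c hc
          rw [ev_hmul, hx c hc, hC x hxC c hc, mul_one]
      obtain ⟨ω, hω, ho⟩ := exists_over_incl (L_le P 1) (isIrr_lf (ν₁ * ν₀))
      obtain ⟨ω₁, hω₁, ho₁⟩ := exists_over_incl (L_le P 1) (isIrr_lf ν₁)
      have hd : charDegree ω₁ = charDegree ω := by
        have h2 := deg_nu (hν := hν') hω ho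
        rw [hZ, ← deg_nu (hν := hν₁) hω₁ ho₁] at h2
        exact (Nat.pow_left_injective two_ne_zero h2).symm
      have hst : stab ω₁ = ⊤ := by
        rw [h.stab_nu (hν := hν₁) hne hω₁ ho₁, eq_top_iff]
        exact fun g _ => mem_stab_iff.2 (hinv g)
      obtain ⟨h3, -⟩ := anti_omega h.anti h.cyc hω₁ hω (over_nonlin le_rfl hne hω₁ ho₁)
        (by rw [hd]) (by rw [hst]; exact le_top)
      rw [hst, h.stab_nu (hν := hν') h1 hω ho] at h3
      have h4 : cl g (ν₁ * ν₀) = ν₁ * ν₀ := by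
        rw [← mem_stab_iff, h3]
        exact Subgroup.mem_top g
      rw [cl_hmul, hinv] at h4
      exact mul_left_cancel h4
  -- the quotients `ν^g / ν`
  have hδ : ∀ a b : G, cl b (cl a ν * ν⁻¹) = cl a ν * ν⁻¹ := by
    intro a
    refine key _ ?_ ?_
    · intro k hk
      rw [ev_hmul, ev_hinv, ev_cl a ν (L_anti P (by omega : 1 ≤ 2) hk), hν k hk, inv_one, mul_one]
      exact hν _ ((inferInstance : (L P 2).Normal).conj_mem k hk a)
    · intro c hc c' hc'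
      rw [ev_hmul, ev_hinv, CC_conj_comm hc hc' a hν, mul_inv_cancel]
  set δ := cl g ν * ν⁻¹ with hδ'
  have h4 : δ = 1 := by
    apply ev_ext
    intro d hd
    rw [ev_hone]
    have h1 : ∀ k : ℕ, ev (cl (g ^ k) ν) d = ev ν d * (ev δ d) ^ k := by
      intro k
      induction k with
      | zero => rw [pow_zero, cl_one, pow_zero, mul_one]
      | succ k ih =>
        have h2 : ev (cl (g ^ k) δ) d = ev δ d := by rw [hδ' , hδ g (g ^ k)]
        have h3 : ev (cl (g ^ k) δ) d = ev (cl (g * g ^ k) ν) d * (ev (cl (g ^ k) ν) d)⁻¹ := by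
          rw [hδ', cl_hmul, cl_hinv, ev_hmul, ev_hinv, cl_mul]
        rw [pow_succ' g, pow_succ, ← mul_assoc, ← ih, ← h2, h3, mul_comm, inv_mul_cancel_right]
    have h2 := h1 P.index
    rw [P_fix hν (Subgroup.pow_index_mem P g)] at h2
    have h5 : (ev δ d) ^ P.index = 1 := mul_eq_left.1 h2.symm
    have h6 : (ev δ d) ^ Nat.card P = 1 := by
      rw [← ev_pow δ hd]
      have h7 : d ^ Nat.card P = 1 :=
        congrArg Subtype.val (pow_card_eq_one' (x := (⟨d, L_le P 1 hd⟩ : P)))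
      rw [h7, ev_one]
    exact coprime_eq_one h6 h5 h.cop
  exact lin_mul_inv_eq_one (hδ' ▸ h4)

end sep

end Cfsg.Agent.H675.Nd
end

-- part: H675/Nd/PG5
section
/-!
# The Sylow subgroup: Case I
-/

set_option autoImplicit false
set_option linter.style.haveILetI false
set_option linter.unusedSectionVars false
open Cfsg

namespace Cfsg.Agent.H675.Nd

open Cfsg.Agent.Characters.Core Cfsg.Agent.Characters.Clifford Cfsg.Agent.H672 Cfsg.Agent.H672.RM
open Cfsg.Agent.H597.FrobA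
open scoped commutatorElement

universe u v w

section caseI

variable {G : Type u} [Group G] [Finite G] {P K : Subgroup G} [hP : P.Normal] [hK : K.Normal]
  {p : ℕ}

theorem PS.EC_comm (h : PS P K p) {e c : G} (he : e ∈ EE P) (hc : c ∈ CC P) : ⁅e, c⁆ ∈ L P 2 :=
  sep_L (mem_L_one P (EE_le he) (CC_le hc)) fun _ hν => h.ev_EC hν he hc

theorem PS.L1_le (h : PS P K p) : L P 1 ≤ ⁅EE P, EE P⁆ ⊔ L P 2 := by
  refine sep_le (sup_le (Subgroup.commutator_mono EE_le EE_le) (L_anti P (by omega)))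
    le_sup_right fun ν hν hM => ?_
  by_contra hν1
  obtain ⟨e, he, he'⟩ := h.E_ne
  apply he'
  refine h.Zn_inf (hν := hν) hν1 ⟨⟨EE_le he, fun y hy => ?_⟩, he⟩
  obtain ⟨e', he', c, hc, rfl⟩ := h.exists_EC hy
  rw [ev_comm_mul_right (P_fix hν (EE_le he')) (mem_L_one P (EE_le he) (EE_le he'))
    (mem_L_one P (EE_le he) (CC_le hc)), h.ev_EC hν he hc, mul_one]
  exact hM _ (Subgroup.mem_sup_left (Subgroup.commutator_mem_commutator he he'))

theorem PS.L1_CC (h : PS P K p) {z c : G} (hz : z ∈ L P 1) (hc : c ∈ CC P) : ⁅z, c⁆ ∈ L P 3 := by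
  have hEC : ⁅EE P, CC P⁆ ≤ L P 2 := by
    rw [Subgroup.commutator_le]
    intro e he c hc
    exact h.EC_comm he hc
  have h1 : ⁅⁅EE P, EE P⁆, CC P⁆ ≤ L P 3 := by
    refine tsl ((Subgroup.commutator_mono hEC EE_le).trans (comm_L P 2 0)) ?_
    rw [Subgroup.commutator_comm (CC P)]
    exact (Subgroup.commutator_mono hEC EE_le).trans (comm_L P 2 0)
  obtain ⟨x, hx, y, hy, rfl⟩ := Subgroup.mem_sup_of_normal_right.1 (h.L1_le hz)
  have e : ⁅x * y, c⁆ = (x * ⁅y, c⁆ * x⁻¹) * ⁅x, c⁆ := by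
    simp only [commutatorElement_def]; group
  rw [e]
  exact (L P 3).mul_mem ((inferInstance : (L P 3).Normal).conj_mem _
    (mem_L_succ P hy (CC_le hc)) x) (h1 (Subgroup.commutator_mem_commutator hx hc))

/-- In Case I the class of `P` is two. -/
theorem PS.caseI_L2 (h : PS P K p)
    (hI : ∀ ν : L P 1 →* ℂˣ, (∀ k ∈ L P 2, ev ν k = 1) → ∀ g, cl g ν = ν) : L P 2 = ⊥ := by
  apply h.L_bot
  intro μ hμ
  by_contra hμ1
  obtain ⟨g, hgP, hg⟩ := h.exists_fix (by omega) hμ1 hμ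
  have h12 : L P 2 ≤ L P 1 := L_anti P (by omega)
  have h0 : ∀ z ∈ L P 1, z⁻¹ * (g * z * g⁻¹) ∈ L P 2 := by
    intro z hz
    have hz' : g * z * g⁻¹ ∈ L P 1 := (inferInstance : (L P 1).Normal).conj_mem z hz g
    refine sep_L ((L P 1).mul_mem ((L P 1).inv_mem hz) hz') fun ν hν => ?_
    rw [ev_mul ν ((L P 1).inv_mem hz) hz', ev_inv ν hz, ev_conj (hI ν hν g) hz, inv_mul_cancel]
  have h1 : ∀ e ∈ EE P, ∀ z ∈ L P 1, ev μ ⁅e, z⁆ = 1 := by
    intro e he z hz
    refine pair_fix (A := EE P) (B0 := L P 1) hg (fun a ha => P_fix hμ (EE_le ha))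
      (fun a ha => mem_L_succ' P (EE_le ha) hz) (fun a ha => (EE_normal).conj_mem a ha g) ?_
      L1_le_EE (fun b hb => hμ _ (comm_L P 1 1 (Subgroup.commutator_mem_commutator hb hz)))
      (fun a ha => h.ontoE le_rfl hgP (fun m hm => (EE_normal).conj_mem m hm g) ha) e he
    intro a ha
    have h2 := h0 z hz
    have h3 := mem_L_succ' P (EE_le ha) h2
    have e : g * z * g⁻¹ = z * (z⁻¹ * (g * z * g⁻¹)) := by group
    rw [e, ev_comm_mul_right (P_fix hμ (L_le P 1 hz)) (mem_L_succ' P (EE_le ha) hz)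
      (L_anti P (Nat.le_succ 2) h3), hμ _ h3, mul_one]
  apply hμ1
  apply ev_ext
  intro d hd
  rw [ev_hone]
  have hle : ⁅L P 1, P⁆ ≤ L P 2 := le_rfl
  refine ev_comm_sub (S := L P 1) (T := P) (D := L P 2) (δ := μ) hle ?_ d hd
  intro z hz x hx
  obtain ⟨e, he, c, hc, rfl⟩ := h.exists_EC hx
  rw [ev_comm_mul_right (P_fix hμ (EE_le he)) (mem_L_succ P hz (EE_le he))
    (mem_L_succ P hz (CC_le hc)), hμ _ (h.L1_CC hz hc), mul_one,
    ev_comm_swap μ (mem_L_succ' P (EE_le he) hz), h1 e he z hz, inv_one]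

theorem PS.deg_pow (h : PS P K p) {ω : P → ℂ} (hω : IsIrrCharacter P ω) :
    ∃ n, charDegree ω = p ^ n := by
  haveI := Fact.mk h.pr
  obtain ⟨n, hn⟩ := IsPGroup.iff_card.1 h.pg
  have h1 := degree_dvd_card hω
  rw [hn] at h1
  obtain ⟨k, -, hk⟩ := (Nat.dvd_prime_pow h.pr).1 h1
  exact ⟨k, hk⟩

theorem pow_dvd_or {p a b : ℕ} (ha : ∃ n, a = p ^ n) (hb : ∃ n, b = p ^ n) : a ∣ b ∨ b ∣ a := by
  obtain ⟨n, rfl⟩ := ha
  obtain ⟨m, rfl⟩ := hb
  rcases le_total n m with h | h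
  · exact Or.inl (pow_dvd_pow p h)
  · exact Or.inr (pow_dvd_pow p h)

/-- **Case I**: nonlinear characters of `P` are invariant, of one degree. -/
theorem PS.caseI (h : PS P K p) {ν₁ : L P 1 →* ℂˣ} (hν₁ : ∀ k ∈ L P 2, ev ν₁ k = 1)
    (hne : ν₁ ≠ 1) (hinv : ∀ g, cl g ν₁ = ν₁) :
    (∀ ω : P → ℂ, IsIrrCharacter P ω → charDegree ω ≠ 1 → stab ω = ⊤) ∧
    (∀ ω ω' : P → ℂ, IsIrrCharacter P ω → IsIrrCharacter P ω' → charDegree ω ≠ 1 →
      charDegree ω' ≠ 1 → charDegree ω = charDegree ω') := by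
  have hI := fun (ν : L P 1 →* ℂˣ) hν g => h.caseI_inv hν₁ hne hinv (ν := ν) hν g
  have hL2 := h.caseI_L2 hI
  have key : ∀ ω : P → ℂ, IsIrrCharacter P ω → charDegree ω ≠ 1 → stab ω = ⊤ := by
    intro ω hω h1
    obtain ⟨n, hn, ν, hν1, hν, ho⟩ := h.exists_level hω h1
    have hn1 : n = 1 := by
      by_contra hcon
      apply hν1
      apply ev_ext
      intro d hd
      have h2 : d ∈ L P 2 := L_anti P (by omega : 2 ≤ n) hd
      rw [hL2, Subgroup.mem_bot] at h2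
      rw [h2, ev_one, ev_one]
    subst hn1
    rw [h.stab_nu (hν := hν) hν1 hω ho, eq_top_iff]
    exact fun g _ => mem_stab_iff.2 (hI ν hν g)
  refine ⟨key, fun ω ω' hω hω' h1 h1' => ?_⟩
  rcases pow_dvd_or (h.deg_pow hω) (h.deg_pow hω') with h2 | h2
  · exact (anti_omega h.anti h.cyc hω hω' h1 h2 (by rw [key ω hω h1]; exact le_top)).2
  · exact (anti_omega h.anti h.cyc hω' hω h1' h2 (by rw [key ω' hω' h1']; exact le_top)).2.symm

end caseI

end Cfsg.Agent.H675.Nd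
end
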